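import Mathlib
import Cfsg.Agent.Helper3.AicDefs
import Cfsg.Agent.Helper3.AicBasic
import Cfsg.Agent.Helper33.AicSub

set_option autoImplicit false

/-!
PIECE P11 of CALL S2202 (helper3): the case `normalClosure P ≠ ⊤` of the induction for groups
in which every involution has an abelian centralizer.
-/

namespace Cfsg.Agent.Helper4

open Cfsg.Agent.Helper3 Cfsg.Agent.Helper33

open Subgroup

open scoped Pointwise

universe u

/-- the kernel of the conjugation action on the Sylow 2-subgroups -/
def aicP11Ker (G : Type*) [Group G] : Subgroup G :=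
  (MulAction.toPermHom G (Sylow 2 G)).ker

theorem mem_aicP11Ker {G : Type*} [Group G] {k : G} :
    k ∈ aicP11Ker G ↔ ∀ R : Sylow 2 G, k • R = R := by
  unfold aicP11Ker
  rw [MonoidHom.mem_ker]
  constructor
  · intro hk R
    have := congrArg (fun σ : Equiv.Perm (Sylow 2 G) => σ R) hk
    simpa using this
  · intro hk
    apply Equiv.ext
    intro R
    exact hk R

instance aicP11Ker_normal {G : Type*} [Group G] : (aicP11Ker G).Normal := by
  unfold aicP11Ker; infer_instance

/-- every involution lies in a Sylow 2-subgroup -/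
theorem aicP11_inv_mem_sylow {G : Type*} [Group G] [Finite G] {t : G} (ht : orderOf t = 2) :
    ∃ R : Sylow 2 G, t ∈ R := by
  obtain ⟨R, hR⟩ := (aic_isPGroup_zpowers_of_two ht).exists_le_sylow
  exact ⟨R, hR (mem_zpowers t)⟩

theorem aicP11_sq_odd_eq_one {G : Type*} [Group G] {z : G} (h2 : z ^ 2 = 1)
    (ho : Odd (orderOf z)) : z = 1 := by
  have hd : orderOf z ∣ 2 := orderOf_dvd_of_pow_eq_one h2
  have h1 : orderOf z = 1 := by
    rcases (Nat.dvd_prime Nat.prime_two).mp hd with h | h
    · exact h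
    · rw [h] at ho; exact absurd ho (by decide)
  exact orderOf_eq_one_iff.mp h1

theorem aic_concl_of_normalClosure_ne_top {G : Type u} [Group G] [Finite G] (h : AbInvCent G)
    (P : Sylow 2 G) (hnc : ¬ IsCyclic (P : Subgroup G)) (hnn : ¬ (P : Subgroup G).Normal)
    (hgen : Subgroup.normalClosure ((P : Subgroup G) : Set G) ≠ ⊤)
    (IH : ∀ (X : Type u) [Group X] [Finite X], Nat.card X < Nat.card G → AbInvCent X →
      ∀ Q : Sylow 2 X, ¬ IsCyclic (Q : Subgroup X) → ¬ (Q : Subgroup X).Normal → AicConcl X) :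
    AicConcl G := by
  classical
  have : Fact (Nat.Prime 2) := ⟨Nat.prime_two⟩
  -- a second Sylow subgroup
  obtain ⟨Q, hPQ⟩ : ∃ Q : Sylow 2 G, P ≠ Q := by
    by_contra hcon
    push_neg at hcon
    haveI : Subsingleton (Sylow 2 G) := ⟨fun a b => (hcon a).symm.trans (hcon b)⟩
    exact hnn (Sylow.normal_of_subsingleton P)
  set L : Subgroup G := Subgroup.normalClosure ((P : Subgroup G) : Set G) with hL
  have hPL : (P : Subgroup G) ≤ L := Subgroup.le_normalClosure
  have hRL : ∀ R : Sylow 2 G, (R : Subgroup G) ≤ L := by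
    intro R x hx
    obtain ⟨g, rfl⟩ := MulAction.exists_smul_eq G P R
    have hx' : g⁻¹ * x * g ∈ P := aic_mem_smul.mp hx
    have h1 : g * (g⁻¹ * x * g) * g⁻¹ ∈ L :=
      (inferInstance : L.Normal).conj_mem _ (hPL hx') g
    have h2 : g * (g⁻¹ * x * g) * g⁻¹ = x := by group
    rw [h2] at h1; exact h1
  obtain ⟨ha, -, hc, hd⟩ := aicConcl_of_subgroup h L hgen P Q hPQ hnc hPL (hRL Q) IH
  have hPne : (P : Subgroup G) ≠ ⊥ := aic_ne_bot_of_ne hPQ
  -- the number of Sylow subgroups
  have hcard : Nat.card (Sylow 2 G) = Nat.card P + 1 := by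
    rw [← hd]
    exact Nat.card_congr
      { toFun := fun R => ⟨R, hRL R⟩
        invFun := fun R => R.1
        left_inv := fun _ => rfl
        right_inv := fun _ => rfl }
  -- `P` acts freely on the other Sylow subgroups
  have hfree : ∀ x ∈ P, ∀ R : Sylow 2 G, R ≠ P → x • R = R → x = 1 := by
    intro x hx R hR hfix
    by_contra hx1
    have hxp : IsPGroup 2 (zpowers x) := P.2.to_le (zpowers_le.mpr hx)
    have hxR : x ∈ R := aic_mem_of_normalizes hxp hfix
    exact hR (aic_sylow_eq_of_mem h hx1 hxR hx)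
  have hPfix : ∀ x ∈ P, x • P = P := fun x hx =>
    Sylow.smul_eq_iff_mem_normalizer.mpr (Subgroup.le_normalizer hx)
  -- hence transitively
  have htrans : ∀ R : Sylow 2 G, R ≠ P → ∃ x ∈ P, x • Q = R := by
    let f : P → Sylow 2 G := fun x => (x : G) • Q
    have hf : Function.Injective f := by
      intro x y hxy
      have h1 : ((y : G)⁻¹ * (x : G)) • Q = Q := by
        rw [mul_smul]
        have : (x : G) • Q = (y : G) • Q := hxy
        rw [this, inv_smul_smul]
      have h2 := hfree _ (P.1.mul_mem (P.1.inv_mem y.2) x.2) Q (Ne.symm hPQ) h1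
      apply Subtype.ext
      have h3 : (x : G) = (y : G) * ((y : G)⁻¹ * (x : G)) := by group
      rw [h3, h2, mul_one]
    have hsub : Set.range f ⊆ ({P}ᶜ : Set (Sylow 2 G)) := by
      rintro _ ⟨x, rfl⟩
      intro hxP
      have hxP' : (x : G) • Q = P := hxP
      have h1 : (x : G) • Q = (x : G) • P := by rw [hxP', hPfix x x.2]
      exact hPQ (smul_left_cancel _ h1).symm
    have hc1 : ({P}ᶜ : Set (Sylow 2 G)).ncard = Nat.card P := by
      rw [Set.ncard_compl, Set.ncard_singleton, hcard]; rfl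
    have hc2 : (Set.range f).ncard = Nat.card P := by
      rw [← Set.image_univ, Set.ncard_image_of_injective _ hf, Set.ncard_univ]
      rfl
    have heq : Set.range f = ({P}ᶜ : Set (Sylow 2 G)) :=
      Set.eq_of_subset_of_ncard_le hsub (by rw [hc1, hc2]) (Set.toFinite _)
    intro R hR
    have hmem : R ∈ Set.range f := by rw [heq]; exact hR
    obtain ⟨x, rfl⟩ := hmem
    exact ⟨x, x.2, rfl⟩
  -- centralizer of `P` is `P` times the kernel
  have key1 : ∀ c ∈ centralizer ((P : Subgroup G) : Set G), ∃ x ∈ P, x⁻¹ * c ∈ aicP11Ker G := by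
    intro c hcc
    have hcP : c • P = P := aic_smul_eq_of_centralizes hcc
    have hcQ : c • Q ≠ P := by
      intro hcon
      have h1 : c • Q = c • P := by rw [hcon, hcP]
      exact hPQ (smul_left_cancel _ h1).symm
    obtain ⟨x, hx, hxQ⟩ := htrans (c • Q) hcQ
    refine ⟨x, hx, ?_⟩
    rw [mem_aicP11Ker]
    intro R
    by_cases hR : R = P
    · rw [hR, mul_smul, hcP]
      have := hPfix x hx
      rw [inv_smul_eq_iff]; exact this.symm
    · obtain ⟨y, hy, rfl⟩ := htrans R hR
      rw [mem_centralizer_iff] at hcc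
      have h1 : c * y = y * c := (hcc y hy).symm
      have h2 : x⁻¹ * y * x = y := by
        rw [mul_assoc, aic_sylow_comm h P hy hx, ← mul_assoc, inv_mul_cancel, one_mul]
      calc (x⁻¹ * c) • y • Q = (x⁻¹ * (c * y)) • Q := by rw [← mul_smul, mul_assoc]
        _ = (x⁻¹ * y) • c • Q := by rw [h1, ← mul_assoc, mul_smul]
        _ = (x⁻¹ * y) • x • Q := by rw [hxQ]
        _ = (x⁻¹ * y * x) • Q := by rw [← mul_smul]
        _ = y • Q := by rw [h2]
  -- elements of the kernel have odd order
  have hKodd : ∀ k ∈ aicP11Ker G, Odd (orderOf k) := by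
    intro k hk
    rw [mem_aicP11Ker] at hk
    exact aic_odd_of_fix_two h hPQ (hk P) (hk Q)
  -- the kernel centralizes every Sylow subgroup
  have hKcent : ∀ k ∈ aicP11Ker G, ∀ R : Sylow 2 G, ∀ r ∈ R, k * r = r * k := by
    intro k hk R r hr
    have hkR : k • R = R := (mem_aicP11Ker.mp hk) R
    have h1 : k * r * k⁻¹ ∈ R := by
      have := aic_conj_mem_smul (g := k) hr
      rw [hkR] at this; exact this
    have hz1 : k * r * k⁻¹ * r⁻¹ ∈ R := R.1.mul_mem h1 (R.1.inv_mem hr)
    have hz2 : k * r * k⁻¹ * r⁻¹ ∈ aicP11Ker G := by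
      have h3 : r * k⁻¹ * r⁻¹ ∈ aicP11Ker G :=
        (inferInstance : (aicP11Ker G).Normal).conj_mem _ ((aicP11Ker G).inv_mem hk) r
      have h4 : k * r * k⁻¹ * r⁻¹ = k * (r * k⁻¹ * r⁻¹) := by group
      rw [h4]; exact (aicP11Ker G).mul_mem hk h3
    have hz : k * r * k⁻¹ * r⁻¹ = 1 :=
      aicP11_sq_odd_eq_one (ha R _ hz1) (hKodd _ hz2)
    have h5 : k * r = (k * r * k⁻¹ * r⁻¹) * (r * k) := by group
    rw [h5, hz, one_mul]
  have hKP : aicP11Ker G ≤ centralizer ((P : Subgroup G) : Set G) := by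
    intro k hk
    rw [mem_centralizer_iff]
    intro r hr
    exact (hKcent k hk P r hr).symm
  -- the kernel commutes with the subgroup generated by the involutions
  have hKinv : ∀ k ∈ aicP11Ker G, ∀ l ∈ invClosure G, k * l = l * k := by
    intro k hk l hl
    have hle : invClosure G ≤ centralizer ({k} : Set G) := by
      unfold invClosure
      rw [closure_le]
      intro t ht
      obtain ⟨R, hR⟩ := aicP11_inv_mem_sylow (show orderOf t = 2 from ht)
      rw [SetLike.mem_coe, mem_centralizer_singleton_iff]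
      exact (hKcent k hk R t hR).symm
    have := hle hl
    rw [mem_centralizer_singleton_iff] at this
    exact this.symm
  -- elements of `P` lie in the involution closure
  have hPinv : ∀ x ∈ P, x ∈ invClosure G := by
    intro x hx
    by_cases hx1 : x = 1
    · rw [hx1]; exact one_mem _
    · have h2 : x * x = 1 := by rw [← pow_two]; exact ha P x hx
      exact subset_closure (aic_orderOf_two h2 hx1)
  -- factorization of `G`
  have hfac : ∀ g : G, ∃ l ∈ invClosure G, ∃ a ∈ aicP11Ker G, g = l * a := by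
    intro g
    obtain ⟨u, hu, huP⟩ : ∃ u ∈ invClosure G, u • P = g • P := by
      by_cases hR : g • P = P
      · exact ⟨1, one_mem _, by rw [one_smul, hR]⟩
      · have hR' : P ≠ g • P := fun hh => hR hh.symm
        obtain ⟨t, htP, ht⟩ := aic_exists_inv_mem hPne
        obtain ⟨s, hsR, hs⟩ := aic_exists_inv_mem (aic_ne_bot_of_ne (Ne.symm hR'))
        obtain ⟨w, hw, hwc, -⟩ := aic_exists_swap h hR' ht hs htP hsR
        have := aic_swap_smul h ht htP hw (by rw [hwc]; exact hsR)
        exact ⟨w, subset_closure hw, this.1⟩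
    have hn : (u⁻¹ * g) • P = P := by
      rw [mul_smul, ← huP, inv_smul_smul]
    obtain ⟨d, -, -, hdI, hdc⟩ := aic_normalizer_factor h hPQ hn
    obtain ⟨x, hx, hxa⟩ := key1 _ hdc
    refine ⟨u * d * x, (invClosure G).mul_mem ((invClosure G).mul_mem hu hdI) (hPinv x hx),
      x⁻¹ * (d⁻¹ * (u⁻¹ * g)), hxa, ?_⟩
    group
  -- the kernel is central
  have hKcen : aicP11Ker G ≤ center G := by
    intro k hk
    rw [mem_center_iff]
    intro g
    obtain ⟨l, hl, a, ha', rfl⟩ := hfac g
    have h1 : k * l = l * k := hKinv k hk l hl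
    have h2 : k * a = a * k := aic_centralizer_comm h hPne (hKP hk) (hKP ha')
    rw [mul_assoc, ← h2, ← mul_assoc, ← h1, mul_assoc]
  -- odd elements of the centralizer of `P` are in the kernel
  have key2 : ∀ c ∈ centralizer ((P : Subgroup G) : Set G), Odd (orderOf c) → c ∈ aicP11Ker G := by
    intro c hcc hodd
    obtain ⟨x, hx, hxa⟩ := key1 c hcc
    have hxc : x ∈ centralizer ((P : Subgroup G) : Set G) := by
      rw [mem_centralizer_iff]
      intro y hy
      exact aic_sylow_comm h P hy hx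
    have hcomm : Commute c (x⁻¹ * c)⁻¹ := by
      have := aic_centralizer_comm h hPne hcc (hKP ((aicP11Ker G).inv_mem hxa))
      exact this
    have hxe : x = c * (x⁻¹ * c)⁻¹ := by group
    have hpow : x ^ orderOf c = ((x⁻¹ * c)⁻¹) ^ orderOf c := by
      conv_lhs => rw [hxe]
      rw [hcomm.mul_pow, pow_orderOf_eq_one, one_mul]
    have hxk : x ^ orderOf c ∈ aicP11Ker G := by
      rw [hpow]; exact (aicP11Ker G).pow_mem ((aicP11Ker G).inv_mem hxa) _
    have hx2 : (x ^ orderOf c) ^ 2 = 1 := ha P _ (P.1.pow_mem hx _)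
    have hx1 : x ^ orderOf c = 1 := aicP11_sq_odd_eq_one hx2 (hKodd _ hxk)
    have hxx : x = 1 := by
      obtain ⟨m, hm⟩ := hodd
      have hsq : x ^ 2 = 1 := ha P x hx
      rw [hm, pow_succ, pow_mul, hsq, one_pow, one_mul] at hx1
      exact hx1
    rw [hxx] at hxa
    simpa using hxa
  refine ⟨ha, ?_, ?_, ?_, ?_⟩
  · intro t x ht hcomm hodd
    obtain ⟨R, hR⟩ := aicP11_inv_mem_sylow ht
    obtain ⟨g, rfl⟩ := MulAction.exists_smul_eq G P R
    have htP : g⁻¹ * t * g ∈ P := aic_mem_smul.mp hR
    have hto : orderOf (g⁻¹ * t * g) = 2 := by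
      have := aic_orderOf_conj g⁻¹ t
      rw [inv_inv] at this; rw [this]; exact ht
    have hxo : Odd (orderOf (g⁻¹ * x * g)) := by
      have := aic_orderOf_conj g⁻¹ x
      rw [inv_inv] at this; rw [this]; exact hodd
    have hcm : (g⁻¹ * x * g) * (g⁻¹ * t * g) = (g⁻¹ * t * g) * (g⁻¹ * x * g) := by
      have h1 : (g⁻¹ * x * g) * (g⁻¹ * t * g) = g⁻¹ * (x * t) * g := by group
      have h2 : (g⁻¹ * t * g) * (g⁻¹ * x * g) = g⁻¹ * (t * x) * g := by group
      rw [h1, h2, hcomm.eq]
    have hxc := aic_mem_centralizer_of_comm h hto htP hcm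
    have hxK := hKcen (key2 _ hxc hxo)
    rw [mem_center_iff] at hxK
    have hxe : g⁻¹ * x * g = x := by
      have h1 := hxK g⁻¹
      have h3 : g * ((g⁻¹ * x * g) * g⁻¹) = x := by group
      calc g⁻¹ * x * g = g * (g⁻¹ * (g⁻¹ * x * g)) := by group
        _ = g * ((g⁻¹ * x * g) * g⁻¹) := by rw [h1]
        _ = x := h3
    rw [← hxe, mem_center_iff]; exact hxK
  · rw [eq_bot_iff]
    intro x hx
    rw [mem_bot]
    apply hc x
    · have hle : invClosure G ≤ closure {t : G | orderOf t = 2 ∧ t ∈ L} := by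
        unfold invClosure
        apply Subgroup.closure_mono
        intro t ht
        obtain ⟨R, hR⟩ := aicP11_inv_mem_sylow (show orderOf t = 2 from ht)
        exact ⟨ht, hRL R hR⟩
      exact hle hx.1
    · intro k _
      have := Subgroup.mem_center_iff.mp hx.2
      exact (this k).symm
  · rw [eq_top_iff]
    intro g _
    obtain ⟨l, hl, a, ha', rfl⟩ := hfac g
    exact Subgroup.mul_mem_sup hl (hKcen ha')
  · intro P'
    rw [hcard, Sylow.card_eq_multiplicity P, Sylow.card_eq_multiplicity P']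

end Cfsg.Agent.Helper4
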