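import Mathlib
import Cfsg.Agent.Helper32.JorDefs

set_option autoImplicit false

namespace Cfsg.Agent.Helper4.JorNB

open Equiv Cfsg.Agent.Helper32.Jor

variable {Ω : Type*} [Fintype Ω] [DecidableEq Ω]

/-- Core of PIECE NB, with `lemmaZ` and `block_hstar` (for this `G`, `T`, `α`) as hypotheses. -/
theorem no_jordan_in_block_core (G : Subgroup (Perm Ω)) (T : Finset Ω) (α : Ω)
    (hαT : α ∉ T)
    (hZ : ∀ Y : Finset Ω, Disjoint Y T → 2 ≤ Y.card → α ∉ Y →
      (∀ g ∈ G, (∀ x ∈ T, g x = x) → α ∉ mv g Y → ¬ Disjoint (mv g Y) Y → mv g Y = Y) →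
      Fintype.card Ω + 1 ≤ 2 * Y.card + T.card)
    (hNB1 : ∀ M' : Finset Ω, IsJ G M' → Disjoint M' T → α ∉ M' →
      (∀ g ∈ G, (∀ x ∈ T, g x = x) → g α = α → ¬ Disjoint (mv g M') M' → mv g M' = M') →
      ∀ k ∈ G, (∀ x ∈ T, k x = x) → α ∉ mv k M' → ¬ Disjoint (mv k M') M' → mv k M' = M')
    (R : Finset Ω) (hRT : Disjoint R T) (hαR : α ∉ R)
    (hblk : ∀ g ∈ G, (∀ x ∈ T, g x = x) → g α = α → mv g R = R ∨ Disjoint (mv g R) R)
    (hR : 2 * R.card + T.card + 1 ≤ Fintype.card Ω)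
    (J' : Finset Ω) (hJ' : IsJ G J') (hJ'R : J' ⊆ R) (hJ'2 : 2 ≤ J'.card) : False := by
  classical
  -- a Jordan set `M'` with `J' ⊆ M' ⊆ R` of maximal card
  obtain ⟨M', hM'mem, hM'max⟩ := Finset.exists_max_image
    (Finset.univ.filter (fun M : Finset Ω => IsJ G M ∧ J' ⊆ M ∧ M ⊆ R)) Finset.card
    ⟨J', by simp only [Finset.mem_filter, Finset.mem_univ, true_and]
            exact ⟨hJ', Finset.Subset.refl _, hJ'R⟩⟩
  simp only [Finset.mem_filter, Finset.mem_univ, true_and] at hM'mem hM'max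
  obtain ⟨hM', hJM, hMR⟩ := hM'mem
  have hMT : Disjoint M' T := Finset.disjoint_of_subset_left hMR hRT
  have hαM : α ∉ M' := fun h => hαR (hMR h)
  have hM2 : 2 ≤ M'.card := le_trans hJ'2 (Finset.card_le_card hJM)
  -- `M'` is a block
  have hblkM : ∀ g ∈ G, (∀ x ∈ T, g x = x) → g α = α → ¬ Disjoint (mv g M') M' →
      mv g M' = M' := by
    intro g hg hgT hgα hnd
    have hgR : mv g R = R := by
      rcases hblk g hg hgT hgα with h | h
      · exact h
      · exact absurd (Finset.disjoint_of_subset_left (mv_subset_mv.mpr hMR)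
          (Finset.disjoint_of_subset_right hMR h)) hnd
    have hgMR : mv g M' ⊆ R := by
      rw [← hgR]; exact mv_subset_mv.mpr hMR
    have hU : IsJ G (M' ∪ mv g M') := IsJ.union hM' (IsJ.mv hM' hg) (fun h => hnd h.symm)
    have hcard : (M' ∪ mv g M').card ≤ M'.card :=
      hM'max (M' ∪ mv g M') ⟨hU, fun x hx => Finset.mem_union_left _ (hJM hx),
        Finset.union_subset hMR hgMR⟩
    have hUeq : M' = M' ∪ mv g M' :=
      Finset.eq_of_subset_of_card_le Finset.subset_union_left hcard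
    have hsub : mv g M' ⊆ M' := by
      intro x hx
      rw [hUeq]; exact Finset.mem_union_right _ hx
    exact Finset.eq_of_subset_of_card_le hsub (by rw [card_mv])
  have hstar := hNB1 M' hM' hMT hαM hblkM
  have hfin := hZ M' hMT hM2 hαM hstar
  have hc : M'.card ≤ R.card := Finset.card_le_card hMR
  omega

end Cfsg.Agent.Helper4.JorNB
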