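import Mathlib
import Cfsg.Agent.Helper32.JorDefs
import Cfsg.Agent.Helper29.JorNB1
import Cfsg.Agent.Helper81.JorZ
import Cfsg.Agent.Helper4.JorNBCore

set_option autoImplicit false

namespace Cfsg.Agent.Helper4.JorNB

open Equiv Cfsg.Agent.Helper32.Jor Cfsg.Agent.Helper29.JorNB1 Cfsg.Agent.Helper81.JorZ

variable {Ω : Type*} [Fintype Ω] [DecidableEq Ω]

/-- PIECE NB (uses NB1, Z). A small block `R` of the stabiliser of `α` contains no Jordan set
with more than one point. -/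
theorem no_jordan_in_block (G : Subgroup (Perm Ω)) (T : Finset Ω) (h2 : Rel2 G T) (α : Ω)
    (hαT : α ∉ T) (R : Finset Ω) (hRT : Disjoint R T) (hαR : α ∉ R)
    (hblk : ∀ g ∈ G, (∀ x ∈ T, g x = x) → g α = α → mv g R = R ∨ Disjoint (mv g R) R)
    (hR : 2 * R.card + T.card + 1 ≤ Fintype.card Ω)
    (J' : Finset Ω) (hJ' : IsJ G J') (hJ'R : J' ⊆ R) (hJ'2 : 2 ≤ J'.card) : False :=
  no_jordan_in_block_core G T α hαT
    (fun Y hYT hY hαY hstar => lemmaZ G T h2 Y hYT hY α hαT hαY hstar)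
    (fun M' hM' hM'T hαM' hb => block_hstar G T h2 α hαT M' hM' hM'T hαM' hb)
    R hRT hαR hblk hR J' hJ' hJ'R hJ'2

end Cfsg.Agent.Helper4.JorNB
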