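import Mathlib
import Cfsg.Agent.Helper32.JorDefs

set_option autoImplicit false

namespace Cfsg.Agent.Helper4.JorFb

open Equiv Cfsg.Agent.Helper32.Jor

variable {Ω : Type*} [Fintype Ω] [DecidableEq Ω]

/-- Core of Tits' inequality: for a `t`-set `X₀` with block `Γ X₀` and a point `q` off the block,
the `t` blocks through `insert q (X₀.erase x)` give `t (k - t)` new points. -/
theorem tits_core (t k : ℕ) (ht : 2 ≤ t) (Γ : Finset Ω → Finset Ω)
    (h1 : ∀ X : Finset Ω, X.card = t → X ⊆ Γ X ∧ (Γ X).card = k)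
    (h2 : ∀ X X' : Finset Ω, X.card = t → X'.card = t → X' ⊆ Γ X → Γ X' = Γ X)
    (X₀ : Finset Ω) (hX₀ : X₀.card = t) (q : Ω) (hq : q ∉ Γ X₀) :
    ∃ U : Finset Ω, U.card = t * (k - t) ∧ Disjoint U (insert q (Γ X₀)) ∧
      ∀ y ∈ U, ∃ x ∈ X₀, y ∈ Γ (insert q (X₀.erase x)) := by
  have hqX : q ∉ X₀ := fun h => hq ((h1 X₀ hX₀).1 h)
  have hXx : ∀ x ∈ X₀, (insert q (X₀.erase x)).card = t := by
    intro x hx
    rw [Finset.card_insert_of_notMem (fun h => hqX (Finset.mem_of_mem_erase h)),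
      Finset.card_erase_of_mem hx, hX₀]
    omega
  -- (c) a block `B x` meets `B₀` only in `X₀.erase x`
  have hc : ∀ x ∈ X₀, ∀ y, y ∈ Γ (insert q (X₀.erase x)) → y ∈ Γ X₀ → y ∈ X₀.erase x := by
    intro x hx y hy1 hy2
    by_contra hy
    have hcard : (insert y (X₀.erase x)).card = t := by
      rw [Finset.card_insert_of_notMem hy, Finset.card_erase_of_mem hx, hX₀]
      omega
    have hsub1 : insert y (X₀.erase x) ⊆ Γ (insert q (X₀.erase x)) := by
      intro z hz
      rcases Finset.mem_insert.mp hz with rfl | hz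
      · exact hy1
      · exact (h1 _ (hXx x hx)).1 (Finset.mem_insert_of_mem hz)
    have hsub2 : insert y (X₀.erase x) ⊆ Γ X₀ := by
      intro z hz
      rcases Finset.mem_insert.mp hz with rfl | hz
      · exact hy2
      · exact (h1 X₀ hX₀).1 (Finset.mem_of_mem_erase hz)
    have e1 := h2 _ _ (hXx x hx) hcard hsub1
    have e2 := h2 _ _ hX₀ hcard hsub2
    have : q ∈ Γ X₀ := by
      rw [← e2, e1]
      exact (h1 _ (hXx x hx)).1 (Finset.mem_insert_self _ _)
    exact hq this
  -- (d) two different blocks `B x`, `B x'` meet only inside `insert q (X₀.erase x)`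
  have hd : ∀ x ∈ X₀, ∀ x' ∈ X₀, x ≠ x' → ∀ y, y ∈ Γ (insert q (X₀.erase x)) →
      y ∈ Γ (insert q (X₀.erase x')) → y ∈ insert q (X₀.erase x) := by
    intro x hx x' hx' hxx' y hy1 hy2
    by_contra hy
    have hx'mem : x' ∈ X₀.erase x := Finset.mem_erase.mpr ⟨fun h => hxx' h.symm, hx'⟩
    have hq2 : q ∉ (X₀.erase x).erase x' :=
      fun h => hqX (Finset.mem_of_mem_erase (Finset.mem_of_mem_erase h))
    have hy' : y ∉ insert q ((X₀.erase x).erase x') := by
      intro h
      rcases Finset.mem_insert.mp h with rfl | h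
      · exact hy (Finset.mem_insert_self _ _)
      · exact hy (Finset.mem_insert_of_mem (Finset.mem_of_mem_erase h))
    have hcard : (insert y (insert q ((X₀.erase x).erase x'))).card = t := by
      rw [Finset.card_insert_of_notMem hy', Finset.card_insert_of_notMem hq2,
        Finset.card_erase_of_mem hx'mem, Finset.card_erase_of_mem hx, hX₀]
      omega
    have hsub1 : insert y (insert q ((X₀.erase x).erase x')) ⊆ Γ (insert q (X₀.erase x)) := by
      intro z hz
      rcases Finset.mem_insert.mp hz with rfl | hz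
      · exact hy1
      · rcases Finset.mem_insert.mp hz with rfl | hz
        · exact (h1 _ (hXx x hx)).1 (Finset.mem_insert_self _ _)
        · exact (h1 _ (hXx x hx)).1 (Finset.mem_insert_of_mem (Finset.mem_of_mem_erase hz))
    have hsub2 : insert y (insert q ((X₀.erase x).erase x')) ⊆ Γ (insert q (X₀.erase x')) := by
      intro z hz
      rcases Finset.mem_insert.mp hz with rfl | hz
      · exact hy2
      · rcases Finset.mem_insert.mp hz with rfl | hz
        · exact (h1 _ (hXx x' hx')).1 (Finset.mem_insert_self _ _)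
        · refine (h1 _ (hXx x' hx')).1 (Finset.mem_insert_of_mem ?_)
          have hz1 := Finset.mem_erase.mp hz
          exact Finset.mem_erase.mpr ⟨hz1.1, Finset.mem_of_mem_erase hz1.2⟩
    have e1 := h2 _ _ (hXx x hx) hcard hsub1
    have e2 := h2 _ _ (hXx x' hx') hcard hsub2
    have hx'B : x' ∈ Γ (insert q (X₀.erase x')) := by
      rw [← e2, e1]
      exact (h1 _ (hXx x hx)).1 (Finset.mem_insert_of_mem hx'mem)
    have := hc x' hx' x' hx'B ((h1 X₀ hX₀).1 hx')
    exact (Finset.mem_erase.mp this).1 rfl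
  refine ⟨X₀.biUnion (fun x => Γ (insert q (X₀.erase x)) \ insert q (X₀.erase x)), ?_, ?_, ?_⟩
  · rw [Finset.card_biUnion]
    · rw [Finset.sum_congr rfl (fun x hx => ?_), Finset.sum_const, hX₀, smul_eq_mul]
      rw [Finset.card_sdiff_of_subset (h1 _ (hXx x hx)).1, (h1 _ (hXx x hx)).2, hXx x hx]
    · intro x hx x' hx' hxx'
      show Disjoint (Γ (insert q (X₀.erase x)) \ insert q (X₀.erase x))
        (Γ (insert q (X₀.erase x')) \ insert q (X₀.erase x'))
      rw [Finset.disjoint_left]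
      intro y hy hy'
      rw [Finset.mem_sdiff] at hy hy'
      exact hy.2 (hd x (Finset.mem_coe.mp hx) x' (Finset.mem_coe.mp hx') hxx' y hy.1 hy'.1)
  · rw [Finset.disjoint_left]
    intro y hy hy'
    rw [Finset.mem_biUnion] at hy
    obtain ⟨x, hx, hy⟩ := hy
    rw [Finset.mem_sdiff] at hy
    rcases Finset.mem_insert.mp hy' with rfl | hy'
    · exact hy.2 (Finset.mem_insert_self _ _)
    · exact hy.2 (Finset.mem_insert_of_mem (hc x hx y hy.1 hy'))
  · intro y hy
    rw [Finset.mem_biUnion] at hy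
    obtain ⟨x, hx, hy⟩ := hy
    exact ⟨x, hx, (Finset.mem_sdiff.mp hy).1⟩

/-- PIECE Fb (Tits' inequality). -/
theorem design_tits (t k : ℕ) (ht : 2 ≤ t) (hk : t + 1 ≤ k) (Γ : Finset Ω → Finset Ω)
    (h1 : ∀ X : Finset Ω, X.card = t → X ⊆ Γ X ∧ (Γ X).card = k)
    (h2 : ∀ X X' : Finset Ω, X.card = t → X'.card = t → X' ⊆ Γ X → Γ X' = Γ X)
    (S : Finset Ω) (hS : ∀ X : Finset Ω, X.card = t → X ⊆ S → Γ X ⊆ S)
    (hSt : t ≤ S.card) (hSne : S ≠ Finset.univ) :
    t * (k - t) + 1 + k ≤ S.card ∨ (S.card = k ∧ t * (k - t) + 1 ≤ Sᶜ.card) := by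
  obtain ⟨X₀, hX₀S, hX₀⟩ := Finset.exists_subset_card_eq hSt
  have hB₀S : Γ X₀ ⊆ S := hS X₀ hX₀ hX₀S
  have hqX : ∀ q, q ∉ Γ X₀ → q ∉ X₀ := fun q hq h => hq ((h1 X₀ hX₀).1 h)
  have hXx : ∀ q, q ∉ Γ X₀ → ∀ x ∈ X₀, (insert q (X₀.erase x)).card = t := by
    intro q hq x hx
    rw [Finset.card_insert_of_notMem (fun h => hqX q hq (Finset.mem_of_mem_erase h)),
      Finset.card_erase_of_mem hx, hX₀]
    omega
  by_cases h : ∃ q ∈ S, q ∉ Γ X₀
  · left
    obtain ⟨q, hqS, hq⟩ := h
    obtain ⟨U, hUc, hUd, hUm⟩ := tits_core t k ht Γ h1 h2 X₀ hX₀ q hq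
    have hsub : U ∪ insert q (Γ X₀) ⊆ S := by
      intro y hy
      rcases Finset.mem_union.mp hy with hy | hy
      · obtain ⟨x, hx, hyx⟩ := hUm y hy
        refine hS _ (hXx q hq x hx) ?_ hyx
        intro z hz
        rcases Finset.mem_insert.mp hz with rfl | hz
        · exact hqS
        · exact hX₀S (Finset.mem_of_mem_erase hz)
      · rcases Finset.mem_insert.mp hy with rfl | hy
        · exact hqS
        · exact hB₀S hy
    have hcard := Finset.card_le_card hsub
    rw [Finset.card_union_of_disjoint hUd, hUc, Finset.card_insert_of_notMem hq,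
      (h1 X₀ hX₀).2] at hcard
    omega
  · right
    push_neg at h
    have hSeq : S = Γ X₀ := Finset.Subset.antisymm h hB₀S
    have hSk : S.card = k := by rw [hSeq]; exact (h1 X₀ hX₀).2
    refine ⟨hSk, ?_⟩
    obtain ⟨q, hqS⟩ : ∃ q, q ∉ S := by
      by_contra hcon
      push_neg at hcon
      exact hSne (Finset.eq_univ_of_forall hcon)
    have hq : q ∉ Γ X₀ := by rw [← hSeq]; exact hqS
    obtain ⟨U, hUc, hUd, hUm⟩ := tits_core t k ht Γ h1 h2 X₀ hX₀ q hq
    have hqU : q ∉ U := fun h' => (Finset.disjoint_left.mp hUd h') (Finset.mem_insert_self _ _)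
    have hsub : insert q U ⊆ Sᶜ := by
      intro y hy
      rw [Finset.mem_compl]
      rcases Finset.mem_insert.mp hy with rfl | hy
      · exact hqS
      · intro hyS
        rw [hSeq] at hyS
        exact (Finset.disjoint_left.mp hUd hy) (Finset.mem_insert_of_mem hyS)
    have hcard := Finset.card_le_card hsub
    rw [Finset.card_insert_of_notMem hqU, hUc] at hcard
    omega

end Cfsg.Agent.Helper4.JorFb
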