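import Mathlib
import Cfsg.Prelude.Def_Characters
import Cfsg.Agent.Helper4.FullyRam
import Cfsg.Agent.Helper15.CharInner
import Cfsg.Agent.Helper15.ProjExtCyclic
import Cfsg.Agent.Helper79.Basic
import Cfsg.Agent.Helper79.Quotient
import Cfsg.Agent.Helper81.CharBasic

/-!
# Fully ramified characters and cyclic quotients (helper4)

For a character `χ` of `H` fully ramified over `Z` (with `θ`):

* `frc_sylow` (DeMeyer–Janusz): if `Z ≤ S` with `[S:Z]` coprime to `[H:S]`, then `S` has an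
  irreducible character `ξ` fully ramified over `Z`, and `χ|_S = c ξ`.
* `frcAct`: the conjugation action of `N_H(Q)` on functions on `Q`.
* `frc_stab_le`: if `Z ≤ Q ≤ S ≤ N_H(Q)`, all sections `A/Q` (`Q ≤ A ≤ S`) cyclic, `ξ` as
  above and `μ` an irreducible constituent of `ξ|_Q`, then the stabilizer of `μ` in `S` is `Q`.
* `frc_orbit_card`: then the `N_H(Q)`-orbit of `μ` has exactly `[S:Q]` elements, provided some
  `N_H(Q)`-invariant function `F` on `Q` is a nonzero multiple of `ξ|_Q`.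
-/

set_option autoImplicit false

namespace Cfsg.Agent.Helper4

open Cfsg
open scoped ComplexConjugate

section FRCyc

variable {H : Type*} [Group H]

/-- A sum over a subgroup of a function vanishing off a smaller subgroup. -/
theorem frc_sum_sub {U Z : Subgroup H} [Fintype U] [Fintype Z] (hZU : Z ≤ U) (F : U → ℂ)
    (hF : ∀ u : U, (u : H) ∉ Z → F u = 0) :
    ∑ u : U, F u = ∑ z : Z, F ⟨z, hZU z.2⟩ := by
  symm
  apply Fintype.sum_of_injective (fun z : Z => (⟨z, hZU z.2⟩ : U))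
  · intro a b h
    apply Subtype.ext
    have := congrArg (fun u : U => (u : H)) h
    exact this
  · intro u hu
    apply hF
    intro hz
    exact hu ⟨⟨u, hz⟩, rfl⟩
  · intro z
    rfl

theorem frc_card_mul_relIndex {Z U : Subgroup H} [Finite H] (hZU : Z ≤ U) :
    Nat.card Z * Z.relIndex U = Nat.card U := by
  have h := Subgroup.relIndex_mul_relIndex (⊥ : Subgroup H) Z U bot_le hZU
  rwa [Subgroup.relIndex_bot_left, Subgroup.relIndex_bot_left] at h

/-- The inner product of two functions on `U`, the first vanishing off `Z`. -/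
theorem frc_inner_sub {U Z : Subgroup H} [Fintype U] [Fintype Z] (hZU : Z ≤ U) (f g : U → ℂ)
    (hf : ∀ u : U, (u : H) ∉ Z → f u = 0) :
    (Nat.card U : ℂ) * classInner f g = ∑ z : Z, f ⟨z, hZU z.2⟩ * conj (g ⟨z, hZU z.2⟩) := by
  have hU0 : (Nat.card U : ℂ) ≠ 0 := by exact_mod_cast Nat.card_pos.ne'
  unfold classInner
  rw [← mul_assoc, mul_inv_cancel₀ hU0, one_mul]
  exact frc_sum_sub hZU (fun u => f u * conj (g u)) (fun u hu => by simp [hf u hu])

theorem frc_sum_mul_conj {K : Type*} [Group K] [Fintype K] (f g : K → ℂ) :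
    ∑ x : K, f x * conj (g x) = (Nat.card K : ℂ) * classInner f g := by
  have hK0 : (Nat.card K : ℂ) ≠ 0 := by exact_mod_cast Nat.card_pos.ne'
  unfold classInner
  rw [← mul_assoc, mul_inv_cancel₀ hK0, one_mul]

/-- DeMeyer–Janusz: a character fully ramified over `Z` stays fully ramified on a subgroup
`S ⊇ Z` with `[S:Z]` coprime to `[H:S]`. -/
theorem frc_sylow [Fintype H] {Z : Subgroup H} [Fintype Z] (χ : H → ℂ) (hχ : IsIrrCharacter H χ)
    (θ : Z → ℂ) (hθ : IsIrrCharacter Z θ) (e : ℕ) (he : e ^ 2 = Z.index)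
    (hres : ∀ z : Z, χ z = (e : ℂ) * θ z)
    (S : Subgroup H) [Fintype S] (hZS : Z ≤ S) (hcop : Nat.Coprime (Z.relIndex S) S.index) :
    ∃ (ξ : S → ℂ) (a c : ℕ), IsIrrCharacter S ξ ∧ a ^ 2 = Z.relIndex S ∧ c ≠ 0 ∧
      (∀ s : S, (s : H) ∉ Z → ξ s = 0) ∧ (∀ z : Z, ξ ⟨z, hZS z.2⟩ = (a : ℂ) * θ z) ∧
      (∀ s : S, χ s = (c : ℂ) * ξ s) := by
  classical
  have : Fintype (IrrCharacter Z) := Fintype.ofFinite _
  have hvan := fullyRam_vanish Z χ hχ θ hθ e he hres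
  have hχc : IsCharacter H χ := Helper79.isCharacter_of_irr hχ
  have hχS : IsCharacter S (fun s : S => χ s) := Helper79.isCharacter_restrict hχc S
  have hχ1 : χ 1 ≠ 0 := Helper81.irr_one_ne_zero ⟨χ, hχ⟩
  have hχS0 : (fun s : S => χ s) ≠ 0 := by
    intro h0
    apply hχ1
    have := congrFun h0 1
    simpa using this
  obtain ⟨ξ₀, hξ₀⟩ := Helper15.exists_constituent (Helper15.isClassFunction_of_isChar hχS) hχS0
  obtain ⟨n₀, hn₀⟩ := Helper15.inner_nat hχS (Helper15.isChar_of_irr ξ₀.2)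
  have hn₀0 : n₀ ≠ 0 := by
    intro h; apply hξ₀; rw [hn₀, h]; simp
  obtain ⟨ξZ, hξZdef⟩ : ∃ ξZ : Z → ℂ, ξZ = fun z : Z => (ξ₀ : S → ℂ) ⟨z, hZS z.2⟩ := ⟨_, rfl⟩
  have hξZ : IsCharacter Z ξZ := by
    rw [hξZdef]
    exact Helper79.isCharacter_comp (Helper15.isChar_of_irr ξ₀.2) (Subgroup.inclusion hZS)
  obtain ⟨m, hm⟩ : ∃ m : IrrCharacter Z → ℕ, ∀ ψ : IrrCharacter Z,
      classInner ξZ (ψ : Z → ℂ) = (m ψ : ℂ) := by
    choose m hm using fun ψ : IrrCharacter Z => Helper15.inner_nat hξZ (Helper15.isChar_of_irr ψ.2)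
    exact ⟨m, hm⟩
  obtain ⟨a, ha⟩ : ∃ a : ℕ, a = m ⟨θ, hθ⟩ := ⟨_, rfl⟩
  have hmθ : classInner ξZ θ = (a : ℂ) := by rw [ha]; exact hm ⟨θ, hθ⟩
  have hZpos : 0 < Nat.card Z := Nat.card_pos
  have hcard : Nat.card Z * Z.relIndex S = Nat.card S := frc_card_mul_relIndex hZS
  have hidx : Z.relIndex S * S.index = Z.index := Subgroup.relIndex_mul_index hZS
  have hq0 : Z.relIndex S ≠ 0 := by
    intro h
    rw [h, Nat.mul_zero] at hcard
    exact (Nat.card_pos (α := S)).ne' hcard.symm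
  have hE1 : (n₀ : ℂ) * (Nat.card S : ℂ) = (e : ℂ) * (a : ℂ) * (Nat.card Z : ℂ) := by
    have h1 := frc_inner_sub hZS (fun s : S => χ s) (ξ₀ : S → ℂ) (fun u hu => hvan u hu)
    rw [hn₀] at h1
    have h2 : ∑ z : Z, (fun s : S => χ s) ⟨z, hZS z.2⟩ * conj ((ξ₀ : S → ℂ) ⟨z, hZS z.2⟩)
        = (e : ℂ) * ∑ z : Z, θ z * conj (ξZ z) := by
      rw [Finset.mul_sum]
      apply Finset.sum_congr rfl
      intro z _
      show χ z * _ = _
      rw [hres z, hξZdef]; ring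
    rw [h2, frc_sum_mul_conj, Helper15.classInner_conj_symm, hmθ, Complex.conj_natCast] at h1
    rw [mul_comm, h1]; ring
  have hE1n : n₀ * Nat.card S = e * a * Nat.card Z := by exact_mod_cast hE1
  have hE2 : n₀ * Z.relIndex S = e * a := by
    rw [← hcard] at hE1n
    apply Nat.eq_of_mul_eq_mul_left hZpos
    calc Nat.card Z * (n₀ * Z.relIndex S) = n₀ * (Nat.card Z * Z.relIndex S) := by ring
      _ = e * a * Nat.card Z := hE1n
      _ = Nat.card Z * (e * a) := by ring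
  have ha0 : a ≠ 0 := by
    intro h
    rw [h, Nat.mul_zero] at hE2
    rcases Nat.mul_eq_zero.mp hE2 with h' | h'
    · exact hn₀0 h'
    · exact hq0 h'
  have hdvd : Z.relIndex S ∣ a ^ 2 := by
    have h3 : n₀ ^ 2 * Z.relIndex S = S.index * a ^ 2 := by
      apply Nat.eq_of_mul_eq_mul_left (Nat.pos_of_ne_zero hq0)
      calc Z.relIndex S * (n₀ ^ 2 * Z.relIndex S) = (n₀ * Z.relIndex S) ^ 2 := by ring
        _ = (e * a) ^ 2 := by rw [hE2]
        _ = e ^ 2 * a ^ 2 := by ring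
        _ = Z.relIndex S * S.index * a ^ 2 := by rw [he, hidx]
        _ = Z.relIndex S * (S.index * a ^ 2) := by ring
    exact Nat.Coprime.dvd_of_dvd_mul_left hcop ⟨n₀ ^ 2, by rw [← h3]; ring⟩
  have hle1 : Z.relIndex S ≤ a ^ 2 := Nat.le_of_dvd (by positivity) hdvd
  -- Parseval on Z
  have hP : classInner ξZ ξZ = ((∑ ψ : IrrCharacter Z, m ψ ^ 2 : ℕ) : ℂ) := by
    rw [Helper15.classInner_eq_sum (Helper15.isClassFunction_of_isChar hξZ)]
    push_cast
    apply Finset.sum_congr rfl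
    intro ψ _
    rw [hm ψ, Complex.conj_natCast]; ring
  -- norm comparison
  have hsumZ : (∑ z : Z, Complex.normSq (ξZ z) : ℝ)
      = (Nat.card Z : ℝ) * ((∑ ψ : IrrCharacter Z, m ψ ^ 2 : ℕ) : ℝ) := by
    have h1 := frc_sum_mul_conj ξZ ξZ
    rw [hP] at h1
    have h2 : ((∑ z : Z, Complex.normSq (ξZ z) : ℝ) : ℂ)
        = (((Nat.card Z : ℝ) * ((∑ ψ : IrrCharacter Z, m ψ ^ 2 : ℕ) : ℝ) : ℝ) : ℂ) := by
      push_cast at h1 ⊢
      rw [← h1]
      apply Finset.sum_congr rfl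
      intro z _
      rw [Complex.mul_conj]
    exact_mod_cast h2
  have hsumS := sum_normSq_of_irr ξ₀.2
  have hinj : Function.Injective (fun z : Z => (⟨z, hZS z.2⟩ : S)) := by
    intro x y h
    apply Subtype.ext
    exact congrArg (fun u : S => (u : H)) h
  have hsumZ' : (∑ z : Z, Complex.normSq (ξZ z) : ℝ)
      = ∑ s : S, (if (s : H) ∈ Z then Complex.normSq ((ξ₀ : S → ℂ) s) else 0) := by
    apply Fintype.sum_of_injective (fun z : Z => (⟨z, hZS z.2⟩ : S)) hinj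
    · intro s hs
      rw [if_neg]
      intro hz
      exact hs ⟨⟨s, hz⟩, rfl⟩
    · intro z
      rw [if_pos z.2, hξZdef]
  have hterm : ∀ s : S, (if (s : H) ∈ Z then Complex.normSq ((ξ₀ : S → ℂ) s) else 0)
      ≤ Complex.normSq ((ξ₀ : S → ℂ) s) := by
    intro s
    split_ifs
    · exact le_rfl
    · exact Complex.normSq_nonneg _
  have hle2r : (Nat.card Z : ℝ) * ((∑ ψ : IrrCharacter Z, m ψ ^ 2 : ℕ) : ℝ) ≤ (Nat.card S : ℝ) := by
    rw [← hsumZ, hsumZ', ← hsumS]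
    exact Finset.sum_le_sum (fun s _ => hterm s)
  have hle2 : ∑ ψ : IrrCharacter Z, m ψ ^ 2 ≤ Z.relIndex S := by
    have h1 : Nat.card Z * (∑ ψ : IrrCharacter Z, m ψ ^ 2) ≤ Nat.card S := by exact_mod_cast hle2r
    rw [← hcard] at h1
    exact Nat.le_of_mul_le_mul_left h1 hZpos
  have hle3 : a ^ 2 ≤ ∑ ψ : IrrCharacter Z, m ψ ^ 2 := by
    rw [ha]
    exact Finset.single_le_sum (f := fun ψ : IrrCharacter Z => m ψ ^ 2)
      (fun i _ => Nat.zero_le _) (Finset.mem_univ (⟨θ, hθ⟩ : IrrCharacter Z))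
  have haq : a ^ 2 = Z.relIndex S := le_antisymm (hle3.trans hle2) hle1
  have hMa : ∑ ψ : IrrCharacter Z, m ψ ^ 2 = a ^ 2 := le_antisymm (hle2.trans hle1) hle3
  have hm0 : ∀ ψ : IrrCharacter Z, ψ ≠ ⟨θ, hθ⟩ → m ψ = 0 := by
    intro ψ hψ
    have h1 := Finset.add_sum_erase Finset.univ (fun ψ : IrrCharacter Z => m ψ ^ 2)
      (Finset.mem_univ (⟨θ, hθ⟩ : IrrCharacter Z))
    rw [hMa, ← ha] at h1
    have h2 : ∑ x ∈ Finset.univ.erase (⟨θ, hθ⟩ : IrrCharacter Z), m x ^ 2 = 0 := by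
      have : a ^ 2 + ∑ x ∈ Finset.univ.erase (⟨θ, hθ⟩ : IrrCharacter Z), m x ^ 2 = a ^ 2 := h1
      omega
    have h3 := (Finset.sum_eq_zero_iff.mp h2) ψ (Finset.mem_erase.mpr ⟨hψ, Finset.mem_univ _⟩)
    exact pow_eq_zero_iff (two_ne_zero) |>.mp h3
  have hξZeq : ∀ z : Z, ξZ z = (a : ℂ) * θ z := by
    have h1 := Helper15.classFun_eq_sum (Helper15.isClassFunction_of_isChar hξZ)
    have h2 : ∑ ψ : IrrCharacter Z, classInner ξZ (ψ : Z → ℂ) • (ψ : Z → ℂ) = (a : ℂ) • θ := by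
      rw [Finset.sum_eq_single (⟨θ, hθ⟩ : IrrCharacter Z)]
      · rw [hm, ← ha]
      · intro ψ _ hψ
        rw [hm, hm0 ψ hψ]; simp
      · intro h; exact absurd (Finset.mem_univ _) h
    rw [h2] at h1
    intro z
    have := congrFun h1 z
    simpa using this
  have hvanS : ∀ s : S, (s : H) ∉ Z → (ξ₀ : S → ℂ) s = 0 := by
    intro s hs
    have heq : ∑ s : S, (Complex.normSq ((ξ₀ : S → ℂ) s)
        - (if (s : H) ∈ Z then Complex.normSq ((ξ₀ : S → ℂ) s) else 0)) = 0 := by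
      rw [Finset.sum_sub_distrib, hsumS, ← hsumZ', hsumZ, hMa, haq]
      have : (Nat.card Z : ℝ) * ((Z.relIndex S : ℕ) : ℝ) = (Nat.card S : ℝ) := by exact_mod_cast hcard
      rw [this]; ring
    have h1 := (Finset.sum_eq_zero_iff_of_nonneg (fun s _ => sub_nonneg.mpr (hterm s))).mp heq s
      (Finset.mem_univ s)
    rw [if_neg hs, sub_zero] at h1
    exact Complex.normSq_eq_zero.mp h1
  have hen : e = n₀ * a := by
    rw [← haq] at hE2
    apply Nat.eq_of_mul_eq_mul_right (Nat.pos_of_ne_zero ha0)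
    calc e * a = n₀ * a ^ 2 := hE2.symm
      _ = n₀ * a * a := by ring
  refine ⟨ξ₀, a, n₀, ξ₀.2, haq, hn₀0, hvanS, ?_, ?_⟩
  · intro z
    have := hξZeq z
    rw [hξZdef] at this
    exact this
  · intro s
    by_cases hs : (s : H) ∈ Z
    · have h1 := hres ⟨s, hs⟩
      have h2 := hξZeq ⟨s, hs⟩
      rw [hξZdef] at h2
      have h3 : (ξ₀ : S → ℂ) s = (a : ℂ) * θ ⟨s, hs⟩ := h2
      rw [h3]
      have h4 : χ s = (e : ℂ) * θ ⟨s, hs⟩ := h1
      rw [h4, hen]; push_cast; ring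
    · rw [hvan s hs, hvanS s hs, mul_zero]

/-- The norm of the restriction to `Q` of a character fully ramified over `Z`. -/
theorem frc_norm_Q [Finite H] {Z Q S : Subgroup H} [Fintype Z] [Fintype Q] [Fintype S]
    (hZQ : Z ≤ Q) (hQS : Q ≤ S) (θ : Z → ℂ) (hθ : IsIrrCharacter Z θ)
    (ξ : S → ℂ) (a : ℕ) (ha : a ^ 2 = Z.relIndex S)
    (hξv : ∀ s : S, (s : H) ∉ Z → ξ s = 0)
    (hξZ : ∀ z : Z, ξ ⟨z, hQS (hZQ z.2)⟩ = (a : ℂ) * θ z) :
    classInner (fun q : Q => ξ ⟨q, hQS q.2⟩) (fun q : Q => ξ ⟨q, hQS q.2⟩)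
      = (Q.relIndex S : ℂ) := by
  have h1 := frc_inner_sub hZQ (fun q : Q => ξ ⟨q, hQS q.2⟩) (fun q : Q => ξ ⟨q, hQS q.2⟩)
    (fun u hu => hξv _ hu)
  have h2 : ∑ z : Z, (fun q : Q => ξ ⟨q, hQS q.2⟩) ⟨z, hZQ z.2⟩ *
      conj ((fun q : Q => ξ ⟨q, hQS q.2⟩) ⟨z, hZQ z.2⟩)
      = (a : ℂ) ^ 2 * ∑ z : Z, θ z * conj (θ z) := by
    rw [Finset.mul_sum]
    apply Finset.sum_congr rfl
    intro z _
    show ξ ⟨z, _⟩ * conj (ξ ⟨z, _⟩) = _
    rw [hξZ z, map_mul, Complex.conj_natCast]; ring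
  rw [h2, frc_sum_mul_conj, Helper15.irr_inner_self hθ, mul_one] at h1
  have hc1 : Nat.card Z * Z.relIndex S = Nat.card S := frc_card_mul_relIndex (hZQ.trans hQS)
  have hc2 : Nat.card Q * Q.relIndex S = Nat.card S := frc_card_mul_relIndex hQS
  have hQ0 : (Nat.card Q : ℂ) ≠ 0 := by exact_mod_cast Nat.card_pos.ne'
  have h3 : (a : ℂ) ^ 2 * (Nat.card Z : ℂ) = (Nat.card Q : ℂ) * (Q.relIndex S : ℂ) := by
    have : a ^ 2 * Nat.card Z = Nat.card Q * Q.relIndex S := by rw [ha, hc2, mul_comm, hc1]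
    exact_mod_cast this
  rw [h3] at h1
  exact mul_left_cancel₀ hQ0 h1

/-- If `μ` (on `Q`) extends to a character of `A`, then `[A:Q]` divides the multiplicity of
`μ` in the restriction to `Q` of a character of `S` vanishing off `Z`. -/
theorem frc_ext_dvd [Finite H] {Z Q A S : Subgroup H} [Fintype Z] [Fintype Q] [Fintype A]
    [Fintype S] (hZQ : Z ≤ Q) (hQA : Q ≤ A) (hAS : A ≤ S)
    (ξ : S → ℂ) (hξ : IsCharacter S ξ) (hξv : ∀ s : S, (s : H) ∉ Z → ξ s = 0)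
    (μ : Q → ℂ) (μh : A → ℂ) (hμh : IsCharacter A μh) (hext : ∀ q : Q, μh ⟨q, hQA q.2⟩ = μ q) :
    ∃ r : ℕ, classInner (fun q : Q => ξ ⟨q, hAS (hQA q.2)⟩) μ
      = (r : ℂ) * (Q.relIndex A : ℂ) := by
  have hξA : IsCharacter A (fun x : A => ξ ⟨x, hAS x.2⟩) :=
    Helper79.isCharacter_comp hξ (Subgroup.inclusion hAS)
  obtain ⟨r, hr⟩ := Helper15.inner_nat hξA hμh
  refine ⟨r, ?_⟩
  have h1 := frc_inner_sub (hZQ.trans hQA) (fun x : A => ξ ⟨x, hAS x.2⟩) μh
    (fun u hu => hξv _ hu)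
  have h2 := frc_inner_sub hZQ (fun q : Q => ξ ⟨q, hAS (hQA q.2)⟩) μ (fun u hu => hξv _ hu)
  have h3 : ∑ z : Z, (fun x : A => ξ ⟨x, hAS x.2⟩) ⟨z, (hZQ.trans hQA) z.2⟩ *
      conj (μh ⟨z, (hZQ.trans hQA) z.2⟩)
      = ∑ z : Z, (fun q : Q => ξ ⟨q, hAS (hQA q.2)⟩) ⟨z, hZQ z.2⟩ * conj (μ ⟨z, hZQ z.2⟩) := by
    apply Finset.sum_congr rfl
    intro z _
    rw [← hext ⟨z, hZQ z.2⟩]
  rw [h3, ← h2, hr] at h1
  have hc : Nat.card Q * Q.relIndex A = Nat.card A := frc_card_mul_relIndex hQA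
  have hQ0 : (Nat.card Q : ℂ) ≠ 0 := by exact_mod_cast Nat.card_pos.ne'
  apply mul_left_cancel₀ hQ0
  rw [← h1, ← hc]; push_cast; ring

/-- An invariant irreducible character of `Q` extends to `A` when `A/Q` is cyclic. -/
theorem frc_exists_ext [Finite H] {Q A : Subgroup H} (hQA : Q ≤ A)
    [hn : (Q.subgroupOf A).Normal] (hcyc : IsCyclic (A ⧸ Q.subgroupOf A))
    (μ : Q → ℂ) (hμ : IsIrrCharacter Q μ)
    (hinv : ∀ (a : A) (q : Q) (h : (a : H) * q * (a : H)⁻¹ ∈ Q),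
      μ ⟨(a : H) * q * (a : H)⁻¹, h⟩ = μ q) :
    ∃ μh : A → ℂ, IsCharacter A μh ∧ ∀ q : Q, μh ⟨q, hQA q.2⟩ = μ q := by
  obtain ⟨e, he⟩ : ∃ e : Q.subgroupOf A ≃* Q,
      ∀ x : Q.subgroupOf A, ((e x : Q) : H) = ((x : A) : H) :=
    ⟨Subgroup.subgroupOfEquivOfLe hQA, fun x => rfl⟩
  have hθ' : IsIrrCharacter (Q.subgroupOf A) (fun x => μ (e x)) :=
    (Helper79.isIrrCharacter_mulEquiv e).mpr hμ
  obtain ⟨d, τ, hτirr, hτ⟩ := hθ'
  obtain ⟨ρ, hρ⟩ := Helper15.exists_rep_extension_of_cyclic τ hcyc hτirr (by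
    intro g n
    rw [hτ]
    show μ (e (Helper15.conjN g n)) = μ (e n)
    have hcoe : ((e (Helper15.conjN g n) : Q) : H)
        = ((g : A) : H) * ((e n : Q) : H) * ((g : A) : H)⁻¹ := by
      rw [he, he]; rfl
    have hmem : ((g : A) : H) * ((e n : Q) : H) * ((g : A) : H)⁻¹ ∈ Q := by
      rw [← hcoe]; exact (e (Helper15.conjN g n)).2
    rw [← hinv g (e n) hmem]
    congr 1
    exact Subtype.ext hcoe)
  obtain ⟨χ', hχ', hχ'N⟩ := Helper15.exists_irr_extension_of_rep τ hτirr hτ ρ hρ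
  refine ⟨χ', Helper15.isChar_of_irr hχ', fun q => ?_⟩
  have h1 := hχ'N (e.symm q)
  have h2 : μ (e (e.symm q)) = μ q := by rw [MulEquiv.apply_symm_apply]
  rw [← h2, ← h1]
  congr 1
  apply Subtype.ext
  have h3 := he (e.symm q)
  rw [MulEquiv.apply_symm_apply] at h3
  exact h3

/-- Conjugation of elements of `Q` by elements of its normalizer. -/
theorem frc_conj_mem (Q : Subgroup H) (g : Subgroup.normalizer (Q : Set H)) (q : Q) :
    (g : H)⁻¹ * q * g ∈ Q :=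
  (Subgroup.mem_normalizer_iff''.mp g.2 (q : H)).mp q.2

/-- The function `q ↦ f (g⁻¹ q g)`. -/
def frcSmul (Q : Subgroup H) (g : Subgroup.normalizer (Q : Set H)) (f : Q → ℂ) : Q → ℂ :=
  fun q => f ⟨(g : H)⁻¹ * q * g, frc_conj_mem Q g q⟩

theorem frcSmul_apply (Q : Subgroup H) (g : Subgroup.normalizer (Q : Set H)) (f : Q → ℂ) (q : Q) :
    frcSmul Q g f q = f ⟨(g : H)⁻¹ * q * g, frc_conj_mem Q g q⟩ := rfl

theorem frcSmul_one (Q : Subgroup H) (f : Q → ℂ) : frcSmul Q 1 f = f := by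
  funext q
  rw [frcSmul_apply]
  congr 1
  apply Subtype.ext
  simp

theorem frcSmul_mul (Q : Subgroup H) (g h : Subgroup.normalizer (Q : Set H)) (f : Q → ℂ) :
    frcSmul Q (g * h) f = frcSmul Q g (frcSmul Q h f) := by
  funext q
  rw [frcSmul_apply, frcSmul_apply, frcSmul_apply]
  congr 1
  apply Subtype.ext
  simp [mul_assoc]

/-- The conjugation action of the normalizer of `Q` on functions on `Q`. -/
@[reducible] def frcAct (Q : Subgroup H) : MulAction (Subgroup.normalizer (Q : Set H)) (Q → ℂ) where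
  smul := frcSmul Q
  one_smul f := frcSmul_one Q f
  mul_smul g h f := frcSmul_mul Q g h f

/-- The automorphism `q ↦ g⁻¹ q g` of `Q`. -/
def frcHom (Q : Subgroup H) (g : Subgroup.normalizer (Q : Set H)) : Q →* Q where
  toFun q := ⟨(g : H)⁻¹ * q * g, frc_conj_mem Q g q⟩
  map_one' := by apply Subtype.ext; simp
  map_mul' x y := by apply Subtype.ext; simp [mul_assoc]

theorem frcHom_bijective (Q : Subgroup H) (g : Subgroup.normalizer (Q : Set H)) :
    Function.Bijective (frcHom Q g) := by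
  constructor
  · intro x y h
    have h1 : ((frcHom Q g x : Q) : H) = ((frcHom Q g y : Q) : H) := congrArg _ h
    have h2 : (g : H)⁻¹ * x * g = (g : H)⁻¹ * y * g := h1
    apply Subtype.ext
    simpa using h2
  · intro y
    refine ⟨frcHom Q g⁻¹ y, ?_⟩
    apply Subtype.ext
    show (g : H)⁻¹ * (((g⁻¹ : Subgroup.normalizer (Q : Set H)) : H)⁻¹ * y * ((g⁻¹ : Subgroup.normalizer (Q : Set H)) : H)) * g = y
    simp [mul_assoc]

theorem frcSmul_irr (Q : Subgroup H) (g : Subgroup.normalizer (Q : Set H)) {f : Q → ℂ} (hf : IsIrrCharacter Q f) :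
    IsIrrCharacter Q (frcSmul Q g f) :=
  Helper79.isIrrCharacter_comp (frcHom Q g) (frcHom_bijective Q g).2 hf

theorem frc_inner_smul (Q : Subgroup H) [Fintype Q] (g : Subgroup.normalizer (Q : Set H)) (F f : Q → ℂ) :
    classInner (frcSmul Q g F) (frcSmul Q g f) = classInner F f := by
  unfold classInner
  congr 1
  exact Function.Bijective.sum_comp (frcHom_bijective Q g) (fun q => F q * conj (f q))

/-- Inner automorphisms fix class functions. -/
theorem frcSmul_self (Q : Subgroup H) {f : Q → ℂ} (hf : IsCharacter Q f) (q : H) (hq : q ∈ Q) :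
    frcSmul Q ⟨q, Subgroup.le_normalizer hq⟩ f = f := by
  funext x
  rw [frcSmul_apply]
  have h := Helper79.isCharacter_conj_eq hf x (⟨q, hq⟩⁻¹ : Q)
  rw [← h]
  congr 1
  apply Subtype.ext
  simp

/-- Conjugation by elements of `S` fixes restrictions of characters of `S`. -/
theorem frcSmul_restrict (Q : Subgroup H) {S : Subgroup H} (hQS : Q ≤ S) (hSN : S ≤ Subgroup.normalizer (Q : Set H))
    {ξ : S → ℂ} (hξ : IsCharacter S ξ) (x : H) (hx : x ∈ S) :
    frcSmul Q ⟨x, hSN hx⟩ (fun q : Q => ξ ⟨q, hQS q.2⟩) = fun q : Q => ξ ⟨q, hQS q.2⟩ := by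
  funext q
  rw [frcSmul_apply]
  have h := Helper79.isCharacter_conj_eq hξ (⟨q, hQS q.2⟩ : S) (⟨x, hx⟩⁻¹ : S)
  rw [← h]
  congr 1
  apply Subtype.ext
  simp

/-- The stabilizer in `S` of an irreducible constituent `μ` of `ξ|_Q` is `Q`, when all
sections `A/Q` (`Q ≤ A ≤ S`) are cyclic and `ξ` is fully ramified over `Z ≤ Q`. -/
theorem frc_stab_le [Finite H] {Z Q S : Subgroup H} [Fintype Z] [Fintype Q] [Fintype S]
    (hZQ : Z ≤ Q) (hQS : Q ≤ S) (hSN : S ≤ Subgroup.normalizer (Q : Set H))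
    (hcyc : ∀ (A : Subgroup H), Q ≤ A → A ≤ S → ∀ (_hn : (Q.subgroupOf A).Normal),
      IsCyclic (A ⧸ Q.subgroupOf A))
    (ξ : S → ℂ) (hξ : IsCharacter S ξ)
    (hξv : ∀ s : S, (s : H) ∉ Z → ξ s = 0)
    (hξn : classInner (fun q : Q => ξ ⟨q, hQS q.2⟩) (fun q : Q => ξ ⟨q, hQS q.2⟩)
      = (Q.relIndex S : ℂ))
    (μ : Q → ℂ) (hμ : IsIrrCharacter Q μ)
    (hμξ : classInner (fun q : Q => ξ ⟨q, hQS q.2⟩) μ ≠ 0)
    (s : H) (hs : s ∈ S) (hfix : frcSmul Q ⟨s, hSN hs⟩ μ = μ) : s ∈ Q := by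
  classical
  have : Fintype (IrrCharacter Q) := Fintype.ofFinite _
  obtain ⟨A, hA⟩ : ∃ A : Subgroup H, ∀ a, a ∈ A ↔ ∃ h : a ∈ S, frcSmul Q ⟨a, hSN h⟩ μ = μ := by
    refine ⟨{ carrier := {a | ∃ h : a ∈ S, frcSmul Q ⟨a, hSN h⟩ μ = μ}
              one_mem' := ⟨S.one_mem, frcSmul_one Q μ⟩
              mul_mem' := ?_
              inv_mem' := ?_ }, fun a => Iff.rfl⟩
    · rintro a b ⟨ha, ha'⟩ ⟨hb, hb'⟩
      refine ⟨S.mul_mem ha hb, ?_⟩
      have h1 : (⟨a * b, hSN (S.mul_mem ha hb)⟩ : Subgroup.normalizer (Q : Set H))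
          = ⟨a, hSN ha⟩ * ⟨b, hSN hb⟩ := rfl
      rw [h1, frcSmul_mul, hb', ha']
    · rintro a ⟨ha, ha'⟩
      refine ⟨S.inv_mem ha, ?_⟩
      have h1 : (⟨a⁻¹, hSN (S.inv_mem ha)⟩ : Subgroup.normalizer (Q : Set H))
          = (⟨a, hSN ha⟩ : Subgroup.normalizer (Q : Set H))⁻¹ := rfl
      rw [h1]
      conv_lhs => rw [← ha']
      rw [← frcSmul_mul, inv_mul_cancel, frcSmul_one]
  have hμc : IsCharacter Q μ := Helper15.isChar_of_irr hμ
  have hQA : Q ≤ A := by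
    intro q hq
    rw [hA]
    exact ⟨hQS hq, frcSmul_self Q hμc q hq⟩
  have hAS : A ≤ S := by
    intro a ha
    obtain ⟨h, -⟩ := (hA a).mp ha
    exact h
  have hn : (Q.subgroupOf A).Normal :=
    Subgroup.normal_subgroupOf_of_le_normalizer (hAS.trans hSN)
  have : Fintype A := Fintype.ofFinite _
  have hinv : ∀ (a : A) (q : Q) (h : (a : H) * q * (a : H)⁻¹ ∈ Q),
      μ ⟨(a : H) * q * (a : H)⁻¹, h⟩ = μ q := by
    intro a q h
    obtain ⟨haS, hafix⟩ := (hA a).mp a.2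
    have h1 := congrFun hafix ⟨(a : H) * q * (a : H)⁻¹, h⟩
    rw [← h1, frcSmul_apply]
    congr 1
    apply Subtype.ext
    simp [mul_assoc]
  obtain ⟨μh, hμh, hext⟩ := frc_exists_ext hQA (hcyc A hQA hAS hn) μ hμ hinv
  obtain ⟨r, hr⟩ := frc_ext_dvd hZQ hQA hAS ξ hξ hξv μ μh hμh hext
  obtain ⟨ξQ, hξQdef⟩ : ∃ ξQ : Q → ℂ, ξQ = fun q : Q => ξ ⟨q, hQS q.2⟩ := ⟨_, rfl⟩
  have hr' : classInner ξQ μ = ((r * Q.relIndex A : ℕ) : ℂ) := by
    rw [hξQdef]; push_cast; exact hr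
  have hμξ' : classInner ξQ μ ≠ 0 := by rw [hξQdef]; exact hμξ
  have hξn' : classInner ξQ ξQ = (Q.relIndex S : ℂ) := by rw [hξQdef]; exact hξn
  have hr0 : r ≠ 0 := by
    intro h; apply hμξ'; rw [hr', h]; simp
  have hξQc : IsCharacter Q ξQ := by
    rw [hξQdef]; exact Helper79.isCharacter_comp hξ (Subgroup.inclusion hQS)
  have hξQinv : ∀ (x : H) (hx : x ∈ S), frcSmul Q ⟨x, hSN hx⟩ ξQ = ξQ := by
    intro x hx
    rw [hξQdef]
    exact frcSmul_restrict Q hQS hSN hξ x hx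
  obtain ⟨n, hn'⟩ : ∃ n : IrrCharacter Q → ℕ, ∀ ψ : IrrCharacter Q,
      classInner ξQ (ψ : Q → ℂ) = (n ψ : ℂ) := by
    choose n hn' using fun ψ : IrrCharacter Q => Helper15.inner_nat hξQc (Helper15.isChar_of_irr ψ.2)
    exact ⟨n, hn'⟩
  have hP : Q.relIndex S = ∑ ψ : IrrCharacter Q, n ψ ^ 2 := by
    have h1 : classInner ξQ ξQ = ((∑ ψ : IrrCharacter Q, n ψ ^ 2 : ℕ) : ℂ) := by
      rw [Helper15.classInner_eq_sum (Helper15.isClassFunction_of_isChar hξQc)]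
      push_cast
      apply Finset.sum_congr rfl
      intro ψ _
      rw [hn' ψ, Complex.conj_natCast]; ring
    rw [hξn'] at h1
    exact_mod_cast h1
  obtain ⟨Φ, hΦ⟩ : ∃ Φ : S → IrrCharacter Q,
      ∀ x : S, (Φ x : Q → ℂ) = frcSmul Q ⟨x, hSN x.2⟩ μ :=
    ⟨fun x => ⟨frcSmul Q ⟨x, hSN x.2⟩ μ, frcSmul_irr Q _ hμ⟩, fun x => rfl⟩
  have hΦn : ∀ x : S, n (Φ x) = r * Q.relIndex A := by
    intro x
    have h1 : classInner ξQ (Φ x : Q → ℂ) = classInner ξQ μ := by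
      rw [hΦ x]
      conv_lhs => rw [← hξQinv x x.2]
      exact frc_inner_smul Q _ ξQ μ
    rw [hn', hr'] at h1
    exact_mod_cast h1
  have hI : (Finset.univ.image Φ).card * (r * Q.relIndex A) ^ 2 ≤ Q.relIndex S := by
    rw [hP]
    calc (Finset.univ.image Φ).card * (r * Q.relIndex A) ^ 2
        = ∑ ψ ∈ Finset.univ.image Φ, n ψ ^ 2 := by
          rw [Finset.sum_congr rfl (g := fun _ => (r * Q.relIndex A) ^ 2), Finset.sum_const,
            smul_eq_mul]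
          intro ψ hψ
          obtain ⟨x, -, rfl⟩ := Finset.mem_image.mp hψ
          rw [hΦn x]
      _ ≤ ∑ ψ : IrrCharacter Q, n ψ ^ 2 :=
          Finset.sum_le_sum_of_subset (Finset.subset_univ _)
  have hfib : Fintype.card S ≤ Fintype.card A * (Finset.univ.image Φ).card := by
    have h1 := Finset.card_le_mul_card_image (f := Φ) (Finset.univ : Finset S) (Fintype.card A)
      (by
        intro ψ hψ
        obtain ⟨x₀, -, rfl⟩ := Finset.mem_image.mp hψ
        have h2 : (Finset.univ.filter (fun x : S => Φ x = Φ x₀)).card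
            ≤ ((Finset.univ : Finset A).image (fun a : A => (a : H))).card := by
          apply Finset.card_le_card_of_injOn (fun x : S => (x₀ : H)⁻¹ * (x : H))
          · intro x hx
            have hx' : Φ x = Φ x₀ := (Finset.mem_filter.mp hx).2
            have hmem : (x₀ : H)⁻¹ * (x : H) ∈ A := by
              rw [hA]
              refine ⟨S.mul_mem (S.inv_mem x₀.2) x.2, ?_⟩
              have h3 : (⟨(x₀ : H)⁻¹ * (x : H), hSN (S.mul_mem (S.inv_mem x₀.2) x.2)⟩ :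
                  Subgroup.normalizer (Q : Set H))
                  = (⟨x₀, hSN x₀.2⟩ : Subgroup.normalizer (Q : Set H))⁻¹ * ⟨x, hSN x.2⟩ := rfl
              have h4 : frcSmul Q ⟨x, hSN x.2⟩ μ = frcSmul Q ⟨x₀, hSN x₀.2⟩ μ := by
                rw [← hΦ x, ← hΦ x₀, hx']
              rw [h3, frcSmul_mul, h4, ← frcSmul_mul, inv_mul_cancel, frcSmul_one]
            exact Finset.mem_coe.mpr (Finset.mem_image.mpr ⟨⟨_, hmem⟩, Finset.mem_univ _, rfl⟩)
          · intro x _ y _ hxy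
            have h5 : (x₀ : H)⁻¹ * (x : H) = (x₀ : H)⁻¹ * (y : H) := hxy
            exact Subtype.ext (mul_left_cancel h5)
        refine h2.trans ?_
        exact Finset.card_image_le.trans (by rw [Finset.card_univ]))
    rwa [Finset.card_univ] at h1
  have hcA : Nat.card Q * Q.relIndex A = Nat.card A := frc_card_mul_relIndex hQA
  have hcS : Nat.card Q * Q.relIndex S = Nat.card S := frc_card_mul_relIndex hQS
  have hQpos : 0 < Nat.card Q := Nat.card_pos
  have htpos : 0 < Q.relIndex A := by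
    rcases Nat.eq_zero_or_pos (Q.relIndex A) with h | h
    · rw [h, Nat.mul_zero] at hcA
      exact absurd hcA.symm (Nat.card_pos (α := A)).ne'
    · exact h
  have hipos : 0 < (Finset.univ.image Φ).card :=
    Finset.card_pos.mpr ⟨Φ 1, Finset.mem_image.mpr ⟨1, Finset.mem_univ _, rfl⟩⟩
  have hu : Q.relIndex S ≤ Q.relIndex A * (Finset.univ.image Φ).card := by
    rw [← Nat.card_eq_fintype_card, ← Nat.card_eq_fintype_card, ← hcA, ← hcS] at hfib
    apply Nat.le_of_mul_le_mul_left _ hQpos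
    calc Nat.card Q * Q.relIndex S ≤ Nat.card Q * Q.relIndex A * (Finset.univ.image Φ).card := hfib
      _ = Nat.card Q * (Q.relIndex A * (Finset.univ.image Φ).card) := by ring
  have ht1 : Q.relIndex A = 1 := by
    obtain ⟨t, ht⟩ : ∃ t, t = Q.relIndex A := ⟨_, rfl⟩
    obtain ⟨i, hi⟩ : ∃ i, i = (Finset.univ.image Φ).card := ⟨_, rfl⟩
    rw [← ht, ← hi] at hI hu
    rw [← ht] at htpos
    rw [← hi] at hipos
    rw [← ht]
    have h1 : i * (r * t) ^ 2 ≤ t * i := hI.trans hu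
    have hr1 : 1 ≤ r := Nat.one_le_iff_ne_zero.mpr hr0
    have h2 : i * (t * t) ≤ i * (r * t) ^ 2 := by
      apply Nat.mul_le_mul_left
      have : t ≤ r * t := Nat.le_mul_of_pos_left t hr1
      calc t * t ≤ (r * t) * (r * t) := Nat.mul_le_mul this this
        _ = (r * t) ^ 2 := by ring
    have h3 : i * (t * t) ≤ i * t := by
      calc i * (t * t) ≤ i * (r * t) ^ 2 := h2
        _ ≤ t * i := h1
        _ = i * t := by ring
    have h4 : t * t ≤ t := Nat.le_of_mul_le_mul_left h3 hipos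
    have h5 : t * t ≤ t * 1 := by rw [Nat.mul_one]; exact h4
    have h6 : t ≤ 1 := Nat.le_of_mul_le_mul_left h5 htpos
    omega
  have hAQ : A ≤ Q := Subgroup.relIndex_eq_one.mp ht1
  exact hAQ ((hA s).mpr ⟨hs, hfix⟩)

/-- The `N_H(Q)`-orbit of an irreducible constituent `μ` of `ξ|_Q` has exactly `[S:Q]`
elements, when some `N_H(Q)`-invariant function `F` on `Q` is a nonzero multiple of `ξ|_Q`. -/
theorem frc_orbit_card [Finite H] {Z Q S : Subgroup H} [Fintype Z] [Fintype Q] [Fintype S]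
    (hZQ : Z ≤ Q) (hQS : Q ≤ S) (hSN : S ≤ Subgroup.normalizer (Q : Set H))
    (hcyc : ∀ (A : Subgroup H), Q ≤ A → A ≤ S → ∀ (_hn : (Q.subgroupOf A).Normal),
      IsCyclic (A ⧸ Q.subgroupOf A))
    (ξ : S → ℂ) (hξ : IsCharacter S ξ)
    (hξv : ∀ s : S, (s : H) ∉ Z → ξ s = 0)
    (hξn : classInner (fun q : Q => ξ ⟨q, hQS q.2⟩) (fun q : Q => ξ ⟨q, hQS q.2⟩)
      = (Q.relIndex S : ℂ))
    (μ : Q → ℂ) (hμ : IsIrrCharacter Q μ)
    (hμξ : classInner (fun q : Q => ξ ⟨q, hQS q.2⟩) μ ≠ 0)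
    (F : Q → ℂ) (c : ℕ) (hc : c ≠ 0) (hF : ∀ q : Q, F q = (c : ℂ) * ξ ⟨q, hQS q.2⟩)
    (hFinv : ∀ g : Subgroup.normalizer (Q : Set H), frcSmul Q g F = F) :
    (@MulAction.orbit (Subgroup.normalizer (Q : Set H)) (Q → ℂ) (frcAct Q).toSMul μ).ncard
      = Q.relIndex S := by
  classical
  have : Fintype (IrrCharacter Q) := Fintype.ofFinite _
  obtain ⟨ξQ, hξQdef⟩ : ∃ ξQ : Q → ℂ, ξQ = fun q : Q => ξ ⟨q, hQS q.2⟩ := ⟨_, rfl⟩
  have hμξ' : classInner ξQ μ ≠ 0 := by rw [hξQdef]; exact hμξ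
  have hξn' : classInner ξQ ξQ = (Q.relIndex S : ℂ) := by rw [hξQdef]; exact hξn
  have hξQc : IsCharacter Q ξQ := by
    rw [hξQdef]; exact Helper79.isCharacter_comp hξ (Subgroup.inclusion hQS)
  obtain ⟨n, hn'⟩ : ∃ n : IrrCharacter Q → ℕ, ∀ ψ : IrrCharacter Q,
      classInner ξQ (ψ : Q → ℂ) = (n ψ : ℂ) := by
    choose n hn' using fun ψ : IrrCharacter Q => Helper15.inner_nat hξQc (Helper15.isChar_of_irr ψ.2)
    exact ⟨n, hn'⟩
  have hP : Q.relIndex S = ∑ ψ : IrrCharacter Q, n ψ ^ 2 := by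
    have h1 : classInner ξQ ξQ = ((∑ ψ : IrrCharacter Q, n ψ ^ 2 : ℕ) : ℂ) := by
      rw [Helper15.classInner_eq_sum (Helper15.isClassFunction_of_isChar hξQc)]
      push_cast
      apply Finset.sum_congr rfl
      intro ψ _
      rw [hn' ψ, Complex.conj_natCast]; ring
    rw [hξn'] at h1
    exact_mod_cast h1
  have hFeq : F = (c : ℂ) • ξQ := by
    funext q
    rw [hξQdef, hF q]
    rfl
  obtain ⟨O, hO⟩ : ∃ O : Set (Q → ℂ),
      O = @MulAction.orbit (Subgroup.normalizer (Q : Set H)) (Q → ℂ) (frcAct Q).toSMul μ := ⟨_, rfl⟩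
  rw [← hO]
  have hOmem : ∀ y ∈ O, ∃ g : Subgroup.normalizer (Q : Set H), frcSmul Q g μ = y := by
    intro y hy
    rw [hO] at hy
    obtain ⟨g, hg⟩ := hy
    exact ⟨g, hg⟩
  have hmemO : ∀ g : Subgroup.normalizer (Q : Set H), frcSmul Q g μ ∈ O := by
    intro g
    rw [hO]
    exact ⟨g, rfl⟩
  have hOfin : O.Finite := by
    rw [hO]
    exact Set.finite_range _
  have horb : ∀ y ∈ O, ∃ ψ : IrrCharacter Q, (ψ : Q → ℂ) = y ∧ n ψ ≠ 0 := by
    intro y hy
    obtain ⟨g, hg'⟩ := hOmem y hy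
    have hyirr : IsIrrCharacter Q y := by rw [← hg']; exact frcSmul_irr Q g hμ
    refine ⟨⟨y, hyirr⟩, rfl, ?_⟩
    intro h0
    have h1 : classInner ξQ y = 0 := by
      have := hn' ⟨y, hyirr⟩
      rw [h0] at this
      simpa using this
    have h2 : classInner F (frcSmul Q g μ) = classInner F μ := by
      conv_lhs => rw [← hFinv g]
      exact frc_inner_smul Q g F μ
    rw [hFeq, Helper15.classInner_smul_left, Helper15.classInner_smul_left, hg', h1, mul_zero]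
      at h2
    have h3 : (c : ℂ) * classInner ξQ μ ≠ 0 := mul_ne_zero (by exact_mod_cast hc) hμξ'
    exact h3 h2.symm
  apply le_antisymm
  · have hsub : O ⊆ (fun ψ : IrrCharacter Q => (ψ : Q → ℂ)) ''
        ((Finset.univ.filter (fun ψ : IrrCharacter Q => n ψ ≠ 0) : Finset (IrrCharacter Q)) :
          Set (IrrCharacter Q)) := by
      intro y hy
      obtain ⟨ψ, hψ, hnψ⟩ := horb y hy
      exact ⟨ψ, Finset.mem_coe.mpr (Finset.mem_filter.mpr ⟨Finset.mem_univ _, hnψ⟩), hψ⟩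
    calc O.ncard ≤ ((fun ψ : IrrCharacter Q => (ψ : Q → ℂ)) ''
          ((Finset.univ.filter (fun ψ : IrrCharacter Q => n ψ ≠ 0) : Finset (IrrCharacter Q)) :
            Set (IrrCharacter Q))).ncard :=
          Set.ncard_le_ncard hsub ((Finset.finite_toSet _).image _)
      _ ≤ ((Finset.univ.filter (fun ψ : IrrCharacter Q => n ψ ≠ 0) : Finset (IrrCharacter Q)) :
            Set (IrrCharacter Q)).ncard := Set.ncard_image_le (Finset.finite_toSet _)
      _ = (Finset.univ.filter (fun ψ : IrrCharacter Q => n ψ ≠ 0)).card := Set.ncard_coe_finset _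
      _ ≤ ∑ ψ : IrrCharacter Q, n ψ ^ 2 := by
          rw [Finset.card_eq_sum_ones]
          calc ∑ ψ ∈ Finset.univ.filter (fun ψ : IrrCharacter Q => n ψ ≠ 0), 1
              ≤ ∑ ψ ∈ Finset.univ.filter (fun ψ : IrrCharacter Q => n ψ ≠ 0), n ψ ^ 2 :=
                Finset.sum_le_sum (fun ψ hψ =>
                  Nat.one_le_pow _ _ (Nat.pos_of_ne_zero (Finset.mem_filter.mp hψ).2))
            _ ≤ ∑ ψ : IrrCharacter Q, n ψ ^ 2 :=
                Finset.sum_le_sum_of_subset (Finset.subset_univ _)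
      _ = Q.relIndex S := hP.symm
  · obtain ⟨Φ, hΦ⟩ : ∃ Φ : S → (Q → ℂ), ∀ x : S, Φ x = frcSmul Q ⟨x, hSN x.2⟩ μ :=
      ⟨fun x => frcSmul Q ⟨x, hSN x.2⟩ μ, fun x => rfl⟩
    have hfib : Fintype.card S ≤ Fintype.card Q * (Finset.univ.image Φ).card := by
      have h1 := Finset.card_le_mul_card_image (f := Φ) (Finset.univ : Finset S) (Fintype.card Q)
        (by
          intro ψ hψ
          obtain ⟨x₀, -, rfl⟩ := Finset.mem_image.mp hψ
          have h2 : (Finset.univ.filter (fun x : S => Φ x = Φ x₀)).card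
              ≤ ((Finset.univ : Finset Q).image (fun a : Q => (a : H))).card := by
            apply Finset.card_le_card_of_injOn (fun x : S => (x₀ : H)⁻¹ * (x : H))
            · intro x hx
              have hx' : Φ x = Φ x₀ := (Finset.mem_filter.mp hx).2
              have hmemS : (x₀ : H)⁻¹ * (x : H) ∈ S := S.mul_mem (S.inv_mem x₀.2) x.2
              have hmem : (x₀ : H)⁻¹ * (x : H) ∈ Q := by
                apply frc_stab_le hZQ hQS hSN hcyc ξ hξ hξv hξn μ hμ hμξ _ hmemS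
                have h3 : (⟨(x₀ : H)⁻¹ * (x : H), hSN hmemS⟩ :
                    Subgroup.normalizer (Q : Set H))
                    = (⟨x₀, hSN x₀.2⟩ : Subgroup.normalizer (Q : Set H))⁻¹ * ⟨x, hSN x.2⟩ := rfl
                have h4 : frcSmul Q ⟨x, hSN x.2⟩ μ = frcSmul Q ⟨x₀, hSN x₀.2⟩ μ := by
                  rw [← hΦ x, ← hΦ x₀, hx']
                rw [h3, frcSmul_mul, h4, ← frcSmul_mul, inv_mul_cancel, frcSmul_one]
              exact Finset.mem_coe.mpr (Finset.mem_image.mpr ⟨⟨_, hmem⟩, Finset.mem_univ _, rfl⟩)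
            · intro x _ y _ hxy
              have h5 : (x₀ : H)⁻¹ * (x : H) = (x₀ : H)⁻¹ * (y : H) := hxy
              exact Subtype.ext (mul_left_cancel h5)
          refine h2.trans ?_
          exact Finset.card_image_le.trans (by rw [Finset.card_univ]))
      rwa [Finset.card_univ] at h1
    have hcS : Nat.card Q * Q.relIndex S = Nat.card S := frc_card_mul_relIndex hQS
    have hQpos : 0 < Nat.card Q := Nat.card_pos
    have hu : Q.relIndex S ≤ (Finset.univ.image Φ).card := by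
      rw [← Nat.card_eq_fintype_card, ← Nat.card_eq_fintype_card, ← hcS] at hfib
      exact Nat.le_of_mul_le_mul_left hfib hQpos
    have hsub : ((Finset.univ.image Φ : Finset (Q → ℂ)) : Set (Q → ℂ)) ⊆ O := by
      intro y hy
      obtain ⟨x, -, rfl⟩ := Finset.mem_image.mp (Finset.mem_coe.mp hy)
      rw [hΦ x]
      exact hmemO _
    calc Q.relIndex S ≤ (Finset.univ.image Φ).card := hu
      _ = ((Finset.univ.image Φ : Finset (Q → ℂ)) : Set (Q → ℂ)).ncard :=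
          (Set.ncard_coe_finset _).symm
      _ ≤ O.ncard := Set.ncard_le_ncard hsub hOfin

end FRCyc

end Cfsg.Agent.Helper4
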