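import Mathlib

/-!
# Group-theoretic setup for fully ramified sections with a cyclic Sylow quotient (helper4)

* `frg_relIndex_sup`: `[BT : T] = [B : B ∩ T]` for `B` normal.
* `frg_setup`: for `Z ≤ K` normal in `H` and a prime `p` there are `St ⊇ Z` (a Sylow
  `p`-subgroup times `Z`) and `Q = St ∩ K` with `St ≤ N_H(Q)`, `N_H(Q) K = H`, `[St:Z]` coprime
  to `[H:St]`, `St K / K` a Sylow `p`-subgroup of `H/K` and `p ∤ [K:Q]`.
-/

set_option autoImplicit false

namespace Cfsg.Agent.Helper4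

open scoped Pointwise

section FRGroup

variable {G : Type*} [Group G]

theorem frg_card_mul_relIndex [Finite G] {Z U : Subgroup G} (hZU : Z ≤ U) :
    Nat.card Z * Z.relIndex U = Nat.card U := by
  have h := Subgroup.relIndex_mul_relIndex (⊥ : Subgroup G) Z U bot_le hZU
  rwa [Subgroup.relIndex_bot_left, Subgroup.relIndex_bot_left] at h

/-- `[BT : T] = [B : B ∩ T]` for a normal subgroup `B`. -/
theorem frg_relIndex_sup [Finite G] (T B : Subgroup G) [B.Normal] :
    T.relIndex (B ⊔ T) = T.relIndex B := by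
  have c1 : Nat.card T * T.relIndex (B ⊔ T) = Nat.card (B ⊔ T : Subgroup G) :=
    frg_card_mul_relIndex le_sup_right
  have c2 : Nat.card B * B.relIndex (B ⊔ T) = Nat.card (B ⊔ T : Subgroup G) :=
    frg_card_mul_relIndex le_sup_left
  have c3 : B.relIndex (B ⊔ T) = B.relIndex T := Subgroup.relIndex_sup_left T B
  have c4 : Nat.card (B ⊓ T : Subgroup G) * B.relIndex T = Nat.card T := by
    have := frg_card_mul_relIndex (inf_le_right : B ⊓ T ≤ T)
    rwa [Subgroup.inf_relIndex_right] at this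
  have c5 : Nat.card (B ⊓ T : Subgroup G) * T.relIndex B = Nat.card B := by
    have := frg_card_mul_relIndex (inf_le_left : B ⊓ T ≤ B)
    rwa [Subgroup.inf_relIndex_left] at this
  have hpos1 : 0 < Nat.card (B ⊓ T : Subgroup G) := Nat.card_pos
  have hpos2 : 0 < B.relIndex T := by
    rcases Nat.eq_zero_or_pos (B.relIndex T) with h | h
    · rw [h, Nat.mul_zero] at c4
      exact absurd c4.symm (Nat.card_pos (α := T)).ne'
    · exact h
  rw [c3] at c2
  have h1 : Nat.card (B ⊓ T : Subgroup G) * B.relIndex T * T.relIndex (B ⊔ T)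
      = Nat.card (B ⊓ T : Subgroup G) * B.relIndex T * T.relIndex B := by
    calc Nat.card (B ⊓ T : Subgroup G) * B.relIndex T * T.relIndex (B ⊔ T)
        = Nat.card T * T.relIndex (B ⊔ T) := by rw [c4]
      _ = Nat.card B * B.relIndex T := by rw [c1, c2]
      _ = Nat.card (B ⊓ T : Subgroup G) * T.relIndex B * B.relIndex T := by rw [c5]
      _ = Nat.card (B ⊓ T : Subgroup G) * B.relIndex T * T.relIndex B := by ring
  exact Nat.eq_of_mul_eq_mul_left (Nat.mul_pos hpos1 hpos2) h1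

/-- The setup. -/
theorem frg_setup [Finite G] (Z K : Subgroup G) [Z.Normal] [K.Normal] (hZK : Z ≤ K)
    (p : ℕ) [Fact p.Prime] :
    ∃ (St Q : Subgroup G) (P₁ : Sylow p (G ⧸ K)), Z ≤ Q ∧ Q = St ⊓ K ∧
      St ≤ Subgroup.normalizer (Q : Set G) ∧ Subgroup.normalizer (Q : Set G) ⊔ K = ⊤ ∧
      Nat.Coprime (Z.relIndex St) St.index ∧ St.map (QuotientGroup.mk' K) = P₁ ∧
      ¬ p ∣ Q.relIndex K := by
  have hp : p.Prime := Fact.out
  obtain ⟨PK⟩ : Nonempty (Sylow p K) := inferInstance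
  obtain ⟨R, hR⟩ : ∃ R : Subgroup G, R = (PK : Subgroup K).map K.subtype := ⟨_, rfl⟩
  have hRp : IsPGroup p R := by rw [hR]; exact PK.isPGroup'.map K.subtype
  have hRK : R ≤ K := by rw [hR]; exact Subgroup.map_subtype_le _
  obtain ⟨S, hRS⟩ := hRp.exists_le_sylow
  have hSK : (S : Subgroup G) ⊓ K ≤ R := by
    intro x hx
    have hxS : x ∈ (S : Subgroup G) := hx.1
    have hxK : x ∈ K := hx.2
    have h1 : IsPGroup p (((S : Subgroup G) ⊓ K).subgroupOf K) := by
      have := (S.isPGroup'.to_le (inf_le_left : (S : Subgroup G) ⊓ K ≤ S)).comap_subtype (K := K)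
      rwa [Subgroup.comap_subtype] at this
    have h2 : (PK : Subgroup K) ≤ ((S : Subgroup G) ⊓ K).subgroupOf K := by
      intro y hy
      rw [Subgroup.mem_subgroupOf]
      refine ⟨hRS ?_, y.2⟩
      rw [hR]
      exact Subgroup.mem_map.mpr ⟨y, hy, rfl⟩
    have h3 := PK.is_maximal' h1 h2
    have h4 : (⟨x, hxK⟩ : K) ∈ ((S : Subgroup G) ⊓ K).subgroupOf K := by
      rw [Subgroup.mem_subgroupOf]
      exact ⟨hxS, hxK⟩
    rw [h3] at h4
    rw [hR]
    exact Subgroup.mem_map.mpr ⟨⟨x, hxK⟩, h4, rfl⟩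
  obtain ⟨St, hSt⟩ : ∃ St : Subgroup G, St = (S : Subgroup G) ⊔ Z := ⟨_, rfl⟩
  obtain ⟨Q, hQ⟩ : ∃ Q : Subgroup G, Q = St ⊓ K := ⟨_, rfl⟩
  have hSSt : (S : Subgroup G) ≤ St := by rw [hSt]; exact le_sup_left
  have hZSt : Z ≤ St := by rw [hSt]; exact le_sup_right
  have hQeq : Q = R ⊔ Z := by
    apply le_antisymm
    · intro x hx
      rw [hQ] at hx
      have hxSt : x ∈ St := hx.1
      have hxK : x ∈ K := hx.2
      rw [hSt] at hxSt
      have h1 : x ∈ ((S : Subgroup G) : Set G) * (Z : Set G) := by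
        rw [← Subgroup.mul_normal]; exact hxSt
      obtain ⟨s, hs, z, hz, rfl⟩ := Set.mem_mul.mp h1
      have hsK : s ∈ K := (K.mul_mem_cancel_right (hZK hz)).mp hxK
      exact Subgroup.mul_mem_sup (hSK ⟨hs, hsK⟩) hz
    · rw [hQ]
      exact sup_le (le_inf (hRS.trans hSSt) hRK) (le_inf hZSt hZK)
  have hKn : ∀ (g x : G), x ∈ K ↔ g * x * g⁻¹ ∈ K := by
    intro g x
    constructor
    · intro hx
      exact ‹K.Normal›.conj_mem x hx g
    · intro hx
      have := ‹K.Normal›.conj_mem _ hx g⁻¹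
      simpa [mul_assoc] using this
  have hStN : St ≤ Subgroup.normalizer (Q : Set G) := by
    intro g hg
    rw [Subgroup.mem_normalizer_iff]
    intro x
    rw [hQ, Subgroup.mem_inf, Subgroup.mem_inf, ← hKn g x]
    constructor
    · rintro ⟨h1, h2⟩
      exact ⟨St.mul_mem (St.mul_mem hg h1) (St.inv_mem hg), h2⟩
    · rintro ⟨h1, h2⟩
      refine ⟨?_, h2⟩
      have := St.mul_mem (St.mul_mem (St.inv_mem hg) h1) hg
      simpa [mul_assoc] using this
  have hRN : Subgroup.normalizer (R : Set G) ≤ Subgroup.normalizer (Q : Set G) := by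
    have key : ∀ g ∈ Subgroup.normalizer (R : Set G), ∀ x ∈ Q, g * x * g⁻¹ ∈ Q := by
      intro g hg x hx
      rw [hQeq] at hx ⊢
      have h1 : x ∈ (R : Set G) * (Z : Set G) := by
        rw [← Subgroup.mul_normal]; exact hx
      obtain ⟨r, hr, z, hz, rfl⟩ := Set.mem_mul.mp h1
      have h2 : g * (r * z) * g⁻¹ = (g * r * g⁻¹) * (g * z * g⁻¹) := by group
      rw [h2]
      exact Subgroup.mul_mem_sup ((Subgroup.mem_normalizer_iff.mp hg r).mp hr)
        (‹Z.Normal›.conj_mem z hz g)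
    intro g hg
    rw [Subgroup.mem_normalizer_iff]
    intro x
    constructor
    · exact key g hg x
    · intro hx
      have := key g⁻¹ ((Subgroup.normalizer (R : Set G)).inv_mem hg) _ hx
      simpa [mul_assoc] using this
  have hFr : Subgroup.normalizer (Q : Set G) ⊔ K = ⊤ := by
    have h1 := Sylow.normalizer_sup_eq_top PK
    rw [← hR] at h1
    exact top_le_iff.mp (h1 ▸ sup_le_sup_right hRN K)
  have hSidx : ¬ p ∣ (S : Subgroup G).index := S.not_dvd_index
  have hStidx : ¬ p ∣ St.index := fun h => hSidx (h.trans (Subgroup.index_dvd_of_le hSSt))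
  have hcop : Nat.Coprime (Z.relIndex St) St.index := by
    have h1 : Z.relIndex St = Z.relIndex (S : Subgroup G) := by
      rw [hSt]; exact Subgroup.relIndex_sup_right (S : Subgroup G) Z
    have h2 : Z.relIndex (S : Subgroup G) ∣ Nat.card (S : Subgroup G) := Subgroup.relIndex_dvd_card _ _
    obtain ⟨n, hn⟩ := IsPGroup.iff_card.mp S.isPGroup'
    rw [hn] at h2
    obtain ⟨j, -, hj⟩ := (Nat.dvd_prime_pow hp).mp h2
    rw [h1, hj]
    exact Nat.Coprime.pow_left j ((Nat.Prime.coprime_iff_not_dvd hp).mpr hStidx)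
  have hmap : St.map (QuotientGroup.mk' K)
      = (S.mapSurjective (QuotientGroup.mk'_surjective K) : Subgroup (G ⧸ K)) := by
    rw [Sylow.coe_mapSurjective, hSt, Subgroup.map_sup]
    have h1 : Z.map (QuotientGroup.mk' K) = ⊥ := by
      rw [Subgroup.map_eq_bot_iff, QuotientGroup.ker_mk']
      exact hZK
    rw [h1, sup_bot_eq]
  have hpQK : ¬ p ∣ Q.relIndex K := by
    have h1 : Q.relIndex K = St.relIndex K := by
      rw [hQ]; exact Subgroup.inf_relIndex_right St K
    have h2 : St.relIndex K = St.relIndex (K ⊔ St) := (frg_relIndex_sup St K).symm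
    have h3 : St.relIndex (K ⊔ St) ∣ St.index := Subgroup.relIndex_dvd_index_of_le le_sup_right
    rw [h1, h2]
    exact fun h => hStidx (h.trans h3)
  exact ⟨St, Q, S.mapSurjective (QuotientGroup.mk'_surjective K), by rw [hQeq]; exact le_sup_right,
    hQ, hStN, hFr, hcop, hmap, hpQK⟩

end FRGroup

end Cfsg.Agent.Helper4
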