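import Mathlib
import Cfsg.Prelude.Def_Characters
import Cfsg.Agent.Helper4.FRCyc
import Cfsg.Agent.Helper4.FRGroup
import Cfsg.Agent.Helper4.IndNormal

/-!
# Fully ramified characters induced from a normal subgroup (helper4)

* `frc_sum_dvd_left`: a sum over a finite group of a function invariant under left
  multiplication by a subgroup `A` is divisible by `|A|`.
* `frc_stab_le'`, `frc_orbit_card'`: versions of `frc_stab_le`, `frc_orbit_card` with the
  cyclicity hypothesis replaced by a divisibility hypothesis.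
* `frc_ind_dvd`: for `χ = Ind_K^H φ`, `Q ≤ K` and `A ≤ N_H(Q)` fixing `μ ∈ Irr(Q)`:
  `|A|` divides `|K| ⟨χ|_Q, μ⟩`.
* `frc_endgame`: from the orbit count to a subgroup of `H/K` of index the order of a Sylow
  `p`-subgroup.
-/

set_option autoImplicit false

namespace Cfsg.Agent.Helper4

open Cfsg
open scoped ComplexConjugate Pointwise

section FRInd

variable {H : Type*} [Group H]

/-- A sum of a function invariant under left multiplication by `A` is divisible by `|A|`. -/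
theorem frc_sum_dvd_left [Fintype H] (A : Subgroup H) (w : H → ℕ)
    (hw : ∀ a ∈ A, ∀ x, w (a * x) = w x) : Nat.card A ∣ ∑ x, w x := by
  classical
  obtain ⟨T, hT, -⟩ := Subgroup.exists_isComplement_right A (1 : H)
  have : Fintype ↥T := Fintype.ofFinite _
  have : Fintype ↥(A : Set H) := Fintype.ofFinite _
  have h1 : ∑ x, w x = ∑ y : ↥(A : Set H) × ↥T, w ((y.1 : H) * (y.2 : H)) :=
    (Function.Bijective.sum_comp hT (fun x => w x)).symm
  rw [h1, Fintype.sum_prod_type]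
  have h2 : ∀ a : ↥(A : Set H), ∑ t : ↥T, w ((a : H) * (t : H)) = ∑ t : ↥T, w (t : H) :=
    fun a => Finset.sum_congr rfl (fun t _ => hw a a.2 t)
  have hc : Fintype.card ↥(A : Set H) = Nat.card A := by
    rw [← Nat.card_eq_fintype_card]; rfl
  rw [Finset.sum_congr rfl (fun a _ => h2 a), Finset.sum_const, Finset.card_univ, smul_eq_mul,
    hc]
  exact dvd_mul_right _ _

/-- The stabilizer in `S` of an irreducible constituent `μ` of `ξ|_Q` is `Q`, provided the
multiplicity of `μ` is divisible by `[A:Q]` for every `Q ≤ A ≤ S` fixing `μ`. -/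
theorem frc_stab_le' [Finite H] {Q S : Subgroup H} [Fintype Q] [Fintype S]
    (hQS : Q ≤ S) (hSN : S ≤ Subgroup.normalizer (Q : Set H))
    (ξ : S → ℂ) (hξ : IsCharacter S ξ)
    (hξn : classInner (fun q : Q => ξ ⟨q, hQS q.2⟩) (fun q : Q => ξ ⟨q, hQS q.2⟩)
      = (Q.relIndex S : ℂ))
    (μ : Q → ℂ) (hμ : IsIrrCharacter Q μ)
    (hμξ : classInner (fun q : Q => ξ ⟨q, hQS q.2⟩) μ ≠ 0)
    (hdiv : ∀ (A : Subgroup H), Q ≤ A → ∀ (hAS : A ≤ S),
      (∀ (a : H) (ha : a ∈ A), frcSmul Q ⟨a, hSN (hAS ha)⟩ μ = μ) →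
      ∃ r : ℕ, classInner (fun q : Q => ξ ⟨q, hQS q.2⟩) μ = (r : ℂ) * (Q.relIndex A : ℂ))
    (s : H) (hs : s ∈ S) (hfix : frcSmul Q ⟨s, hSN hs⟩ μ = μ) : s ∈ Q := by
  classical
  have : Fintype (IrrCharacter Q) := Fintype.ofFinite _
  obtain ⟨A, hA⟩ : ∃ A : Subgroup H, ∀ a, a ∈ A ↔ ∃ h : a ∈ S, frcSmul Q ⟨a, hSN h⟩ μ = μ := by
    refine ⟨{ carrier := {a | ∃ h : a ∈ S, frcSmul Q ⟨a, hSN h⟩ μ = μ}
              one_mem' := ⟨S.one_mem, frcSmul_one Q μ⟩
              mul_mem' := ?_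
              inv_mem' := ?_ }, fun a => Iff.rfl⟩
    · rintro a b ⟨ha, ha'⟩ ⟨hb, hb'⟩
      refine ⟨S.mul_mem ha hb, ?_⟩
      have h1 : (⟨a * b, hSN (S.mul_mem ha hb)⟩ : Subgroup.normalizer (Q : Set H))
          = ⟨a, hSN ha⟩ * ⟨b, hSN hb⟩ := rfl
      rw [h1, frcSmul_mul, hb', ha']
    · rintro a ⟨ha, ha'⟩
      refine ⟨S.inv_mem ha, ?_⟩
      have h1 : (⟨a⁻¹, hSN (S.inv_mem ha)⟩ : Subgroup.normalizer (Q : Set H))
          = (⟨a, hSN ha⟩ : Subgroup.normalizer (Q : Set H))⁻¹ := rfl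
      rw [h1]
      conv_lhs => rw [← ha']
      rw [← frcSmul_mul, inv_mul_cancel, frcSmul_one]
  have hμc : IsCharacter Q μ := Helper15.isChar_of_irr hμ
  have hQA : Q ≤ A := by
    intro q hq
    rw [hA]
    exact ⟨hQS hq, frcSmul_self Q hμc q hq⟩
  have hAS : A ≤ S := by
    intro a ha
    obtain ⟨h, -⟩ := (hA a).mp ha
    exact h
  have : Fintype A := Fintype.ofFinite _
  obtain ⟨r, hr⟩ := hdiv A hQA hAS (fun a ha => by
    obtain ⟨h, hfix'⟩ := (hA a).mp ha
    exact hfix')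
  obtain ⟨ξQ, hξQdef⟩ : ∃ ξQ : Q → ℂ, ξQ = fun q : Q => ξ ⟨q, hQS q.2⟩ := ⟨_, rfl⟩
  have hr' : classInner ξQ μ = ((r * Q.relIndex A : ℕ) : ℂ) := by
    rw [hξQdef]; push_cast; exact hr
  have hμξ' : classInner ξQ μ ≠ 0 := by rw [hξQdef]; exact hμξ
  have hξn' : classInner ξQ ξQ = (Q.relIndex S : ℂ) := by rw [hξQdef]; exact hξn
  have hr0 : r ≠ 0 := by
    intro h; apply hμξ'; rw [hr', h]; simp
  have hξQc : IsCharacter Q ξQ := by
    rw [hξQdef]; exact Helper79.isCharacter_comp hξ (Subgroup.inclusion hQS)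
  have hξQinv : ∀ (x : H) (hx : x ∈ S), frcSmul Q ⟨x, hSN hx⟩ ξQ = ξQ := by
    intro x hx
    rw [hξQdef]
    exact frcSmul_restrict Q hQS hSN hξ x hx
  obtain ⟨n, hn'⟩ : ∃ n : IrrCharacter Q → ℕ, ∀ ψ : IrrCharacter Q,
      classInner ξQ (ψ : Q → ℂ) = (n ψ : ℂ) := by
    choose n hn' using fun ψ : IrrCharacter Q => Helper15.inner_nat hξQc (Helper15.isChar_of_irr ψ.2)
    exact ⟨n, hn'⟩
  have hP : Q.relIndex S = ∑ ψ : IrrCharacter Q, n ψ ^ 2 := by
    have h1 : classInner ξQ ξQ = ((∑ ψ : IrrCharacter Q, n ψ ^ 2 : ℕ) : ℂ) := by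
      rw [Helper15.classInner_eq_sum (Helper15.isClassFunction_of_isChar hξQc)]
      push_cast
      apply Finset.sum_congr rfl
      intro ψ _
      rw [hn' ψ, Complex.conj_natCast]; ring
    rw [hξn'] at h1
    exact_mod_cast h1
  obtain ⟨Φ, hΦ⟩ : ∃ Φ : S → IrrCharacter Q,
      ∀ x : S, (Φ x : Q → ℂ) = frcSmul Q ⟨x, hSN x.2⟩ μ :=
    ⟨fun x => ⟨frcSmul Q ⟨x, hSN x.2⟩ μ, frcSmul_irr Q _ hμ⟩, fun x => rfl⟩
  have hΦn : ∀ x : S, n (Φ x) = r * Q.relIndex A := by
    intro x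
    have h1 : classInner ξQ (Φ x : Q → ℂ) = classInner ξQ μ := by
      rw [hΦ x]
      conv_lhs => rw [← hξQinv x x.2]
      exact frc_inner_smul Q _ ξQ μ
    rw [hn', hr'] at h1
    exact_mod_cast h1
  have hI : (Finset.univ.image Φ).card * (r * Q.relIndex A) ^ 2 ≤ Q.relIndex S := by
    rw [hP]
    calc (Finset.univ.image Φ).card * (r * Q.relIndex A) ^ 2
        = ∑ ψ ∈ Finset.univ.image Φ, n ψ ^ 2 := by
          rw [Finset.sum_congr rfl (g := fun _ => (r * Q.relIndex A) ^ 2), Finset.sum_const,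
            smul_eq_mul]
          intro ψ hψ
          obtain ⟨x, -, rfl⟩ := Finset.mem_image.mp hψ
          rw [hΦn x]
      _ ≤ ∑ ψ : IrrCharacter Q, n ψ ^ 2 :=
          Finset.sum_le_sum_of_subset (Finset.subset_univ _)
  have hfib : Fintype.card S ≤ Fintype.card A * (Finset.univ.image Φ).card := by
    have h1 := Finset.card_le_mul_card_image (f := Φ) (Finset.univ : Finset S) (Fintype.card A)
      (by
        intro ψ hψ
        obtain ⟨x₀, -, rfl⟩ := Finset.mem_image.mp hψ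
        have h2 : (Finset.univ.filter (fun x : S => Φ x = Φ x₀)).card
            ≤ ((Finset.univ : Finset A).image (fun a : A => (a : H))).card := by
          apply Finset.card_le_card_of_injOn (fun x : S => (x₀ : H)⁻¹ * (x : H))
          · intro x hx
            have hx' : Φ x = Φ x₀ := (Finset.mem_filter.mp hx).2
            have hmem : (x₀ : H)⁻¹ * (x : H) ∈ A := by
              rw [hA]
              refine ⟨S.mul_mem (S.inv_mem x₀.2) x.2, ?_⟩
              have h3 : (⟨(x₀ : H)⁻¹ * (x : H), hSN (S.mul_mem (S.inv_mem x₀.2) x.2)⟩ :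
                  Subgroup.normalizer (Q : Set H))
                  = (⟨x₀, hSN x₀.2⟩ : Subgroup.normalizer (Q : Set H))⁻¹ * ⟨x, hSN x.2⟩ := rfl
              have h4 : frcSmul Q ⟨x, hSN x.2⟩ μ = frcSmul Q ⟨x₀, hSN x₀.2⟩ μ := by
                rw [← hΦ x, ← hΦ x₀, hx']
              rw [h3, frcSmul_mul, h4, ← frcSmul_mul, inv_mul_cancel, frcSmul_one]
            exact Finset.mem_coe.mpr (Finset.mem_image.mpr ⟨⟨_, hmem⟩, Finset.mem_univ _, rfl⟩)
          · intro x _ y _ hxy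
            have h5 : (x₀ : H)⁻¹ * (x : H) = (x₀ : H)⁻¹ * (y : H) := hxy
            exact Subtype.ext (mul_left_cancel h5)
        refine h2.trans ?_
        exact Finset.card_image_le.trans (by rw [Finset.card_univ]))
    rwa [Finset.card_univ] at h1
  have hcA : Nat.card Q * Q.relIndex A = Nat.card A := frc_card_mul_relIndex hQA
  have hcS : Nat.card Q * Q.relIndex S = Nat.card S := frc_card_mul_relIndex hQS
  have hQpos : 0 < Nat.card Q := Nat.card_pos
  have htpos : 0 < Q.relIndex A := by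
    rcases Nat.eq_zero_or_pos (Q.relIndex A) with h | h
    · rw [h, Nat.mul_zero] at hcA
      exact absurd hcA.symm (Nat.card_pos (α := A)).ne'
    · exact h
  have hipos : 0 < (Finset.univ.image Φ).card :=
    Finset.card_pos.mpr ⟨Φ 1, Finset.mem_image.mpr ⟨1, Finset.mem_univ _, rfl⟩⟩
  have hu : Q.relIndex S ≤ Q.relIndex A * (Finset.univ.image Φ).card := by
    rw [← Nat.card_eq_fintype_card, ← Nat.card_eq_fintype_card, ← hcA, ← hcS] at hfib
    apply Nat.le_of_mul_le_mul_left _ hQpos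
    calc Nat.card Q * Q.relIndex S ≤ Nat.card Q * Q.relIndex A * (Finset.univ.image Φ).card := hfib
      _ = Nat.card Q * (Q.relIndex A * (Finset.univ.image Φ).card) := by ring
  have ht1 : Q.relIndex A = 1 := by
    obtain ⟨t, ht⟩ : ∃ t, t = Q.relIndex A := ⟨_, rfl⟩
    obtain ⟨i, hi⟩ : ∃ i, i = (Finset.univ.image Φ).card := ⟨_, rfl⟩
    rw [← ht, ← hi] at hI hu
    rw [← ht] at htpos
    rw [← hi] at hipos
    rw [← ht]
    have h1 : i * (r * t) ^ 2 ≤ t * i := hI.trans hu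
    have hr1 : 1 ≤ r := Nat.one_le_iff_ne_zero.mpr hr0
    have h2 : i * (t * t) ≤ i * (r * t) ^ 2 := by
      apply Nat.mul_le_mul_left
      have : t ≤ r * t := Nat.le_mul_of_pos_left t hr1
      calc t * t ≤ (r * t) * (r * t) := Nat.mul_le_mul this this
        _ = (r * t) ^ 2 := by ring
    have h3 : i * (t * t) ≤ i * t := by
      calc i * (t * t) ≤ i * (r * t) ^ 2 := h2
        _ ≤ t * i := h1
        _ = i * t := by ring
    have h4 : t * t ≤ t := Nat.le_of_mul_le_mul_left h3 hipos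
    have h5 : t * t ≤ t * 1 := by rw [Nat.mul_one]; exact h4
    have h6 : t ≤ 1 := Nat.le_of_mul_le_mul_left h5 htpos
    omega
  have hAQ : A ≤ Q := Subgroup.relIndex_eq_one.mp ht1
  exact hAQ ((hA s).mpr ⟨hs, hfix⟩)

/-- The `N_H(Q)`-orbit of an irreducible constituent `μ` of `ξ|_Q` has exactly `[S:Q]`
elements, when the stabilizer of `μ` in `S` is `Q` and some `N_H(Q)`-invariant function `F` on
`Q` is a nonzero multiple of `ξ|_Q`. -/
theorem frc_orbit_card' [Finite H] {Q S : Subgroup H} [Fintype Q] [Fintype S]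
    (hQS : Q ≤ S) (hSN : S ≤ Subgroup.normalizer (Q : Set H))
    (ξ : S → ℂ) (hξ : IsCharacter S ξ)
    (hξn : classInner (fun q : Q => ξ ⟨q, hQS q.2⟩) (fun q : Q => ξ ⟨q, hQS q.2⟩)
      = (Q.relIndex S : ℂ))
    (μ : Q → ℂ) (hμ : IsIrrCharacter Q μ)
    (hμξ : classInner (fun q : Q => ξ ⟨q, hQS q.2⟩) μ ≠ 0)
    (hstab : ∀ (s : H) (hs : s ∈ S), frcSmul Q ⟨s, hSN hs⟩ μ = μ → s ∈ Q)
    (F : Q → ℂ) (c : ℕ) (hc : c ≠ 0) (hF : ∀ q : Q, F q = (c : ℂ) * ξ ⟨q, hQS q.2⟩)
    (hFinv : ∀ g : Subgroup.normalizer (Q : Set H), frcSmul Q g F = F) :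
    (@MulAction.orbit (Subgroup.normalizer (Q : Set H)) (Q → ℂ) (frcAct Q).toSMul μ).ncard
      = Q.relIndex S := by
  classical
  have : Fintype (IrrCharacter Q) := Fintype.ofFinite _
  obtain ⟨ξQ, hξQdef⟩ : ∃ ξQ : Q → ℂ, ξQ = fun q : Q => ξ ⟨q, hQS q.2⟩ := ⟨_, rfl⟩
  have hμξ' : classInner ξQ μ ≠ 0 := by rw [hξQdef]; exact hμξ
  have hξn' : classInner ξQ ξQ = (Q.relIndex S : ℂ) := by rw [hξQdef]; exact hξn
  have hξQc : IsCharacter Q ξQ := by
    rw [hξQdef]; exact Helper79.isCharacter_comp hξ (Subgroup.inclusion hQS)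
  obtain ⟨n, hn'⟩ : ∃ n : IrrCharacter Q → ℕ, ∀ ψ : IrrCharacter Q,
      classInner ξQ (ψ : Q → ℂ) = (n ψ : ℂ) := by
    choose n hn' using fun ψ : IrrCharacter Q => Helper15.inner_nat hξQc (Helper15.isChar_of_irr ψ.2)
    exact ⟨n, hn'⟩
  have hP : Q.relIndex S = ∑ ψ : IrrCharacter Q, n ψ ^ 2 := by
    have h1 : classInner ξQ ξQ = ((∑ ψ : IrrCharacter Q, n ψ ^ 2 : ℕ) : ℂ) := by
      rw [Helper15.classInner_eq_sum (Helper15.isClassFunction_of_isChar hξQc)]
      push_cast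
      apply Finset.sum_congr rfl
      intro ψ _
      rw [hn' ψ, Complex.conj_natCast]; ring
    rw [hξn'] at h1
    exact_mod_cast h1
  have hFeq : F = (c : ℂ) • ξQ := by
    funext q
    rw [hξQdef, hF q]
    rfl
  obtain ⟨O, hO⟩ : ∃ O : Set (Q → ℂ),
      O = @MulAction.orbit (Subgroup.normalizer (Q : Set H)) (Q → ℂ) (frcAct Q).toSMul μ := ⟨_, rfl⟩
  rw [← hO]
  have hOmem : ∀ y ∈ O, ∃ g : Subgroup.normalizer (Q : Set H), frcSmul Q g μ = y := by
    intro y hy
    rw [hO] at hy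
    obtain ⟨g, hg⟩ := hy
    exact ⟨g, hg⟩
  have hmemO : ∀ g : Subgroup.normalizer (Q : Set H), frcSmul Q g μ ∈ O := by
    intro g
    rw [hO]
    exact ⟨g, rfl⟩
  have hOfin : O.Finite := by
    rw [hO]
    exact Set.finite_range _
  have horb : ∀ y ∈ O, ∃ ψ : IrrCharacter Q, (ψ : Q → ℂ) = y ∧ n ψ ≠ 0 := by
    intro y hy
    obtain ⟨g, hg'⟩ := hOmem y hy
    have hyirr : IsIrrCharacter Q y := by rw [← hg']; exact frcSmul_irr Q g hμ
    refine ⟨⟨y, hyirr⟩, rfl, ?_⟩
    intro h0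
    have h1 : classInner ξQ y = 0 := by
      have := hn' ⟨y, hyirr⟩
      rw [h0] at this
      simpa using this
    have h2 : classInner F (frcSmul Q g μ) = classInner F μ := by
      conv_lhs => rw [← hFinv g]
      exact frc_inner_smul Q g F μ
    rw [hFeq, Helper15.classInner_smul_left, Helper15.classInner_smul_left, hg', h1, mul_zero]
      at h2
    have h3 : (c : ℂ) * classInner ξQ μ ≠ 0 := mul_ne_zero (by exact_mod_cast hc) hμξ'
    exact h3 h2.symm
  apply le_antisymm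
  · have hsub : O ⊆ (fun ψ : IrrCharacter Q => (ψ : Q → ℂ)) ''
        ((Finset.univ.filter (fun ψ : IrrCharacter Q => n ψ ≠ 0) : Finset (IrrCharacter Q)) :
          Set (IrrCharacter Q)) := by
      intro y hy
      obtain ⟨ψ, hψ, hnψ⟩ := horb y hy
      exact ⟨ψ, Finset.mem_coe.mpr (Finset.mem_filter.mpr ⟨Finset.mem_univ _, hnψ⟩), hψ⟩
    calc O.ncard ≤ ((fun ψ : IrrCharacter Q => (ψ : Q → ℂ)) ''
          ((Finset.univ.filter (fun ψ : IrrCharacter Q => n ψ ≠ 0) : Finset (IrrCharacter Q)) :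
            Set (IrrCharacter Q))).ncard :=
          Set.ncard_le_ncard hsub ((Finset.finite_toSet _).image _)
      _ ≤ ((Finset.univ.filter (fun ψ : IrrCharacter Q => n ψ ≠ 0) : Finset (IrrCharacter Q)) :
            Set (IrrCharacter Q)).ncard := Set.ncard_image_le (Finset.finite_toSet _)
      _ = (Finset.univ.filter (fun ψ : IrrCharacter Q => n ψ ≠ 0)).card := Set.ncard_coe_finset _
      _ ≤ ∑ ψ : IrrCharacter Q, n ψ ^ 2 := by
          rw [Finset.card_eq_sum_ones]
          calc ∑ ψ ∈ Finset.univ.filter (fun ψ : IrrCharacter Q => n ψ ≠ 0), 1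
              ≤ ∑ ψ ∈ Finset.univ.filter (fun ψ : IrrCharacter Q => n ψ ≠ 0), n ψ ^ 2 :=
                Finset.sum_le_sum (fun ψ hψ =>
                  Nat.one_le_pow _ _ (Nat.pos_of_ne_zero (Finset.mem_filter.mp hψ).2))
            _ ≤ ∑ ψ : IrrCharacter Q, n ψ ^ 2 :=
                Finset.sum_le_sum_of_subset (Finset.subset_univ _)
      _ = Q.relIndex S := hP.symm
  · obtain ⟨Φ, hΦ⟩ : ∃ Φ : S → (Q → ℂ), ∀ x : S, Φ x = frcSmul Q ⟨x, hSN x.2⟩ μ :=
      ⟨fun x => frcSmul Q ⟨x, hSN x.2⟩ μ, fun x => rfl⟩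
    have hfib : Fintype.card S ≤ Fintype.card Q * (Finset.univ.image Φ).card := by
      have h1 := Finset.card_le_mul_card_image (f := Φ) (Finset.univ : Finset S) (Fintype.card Q)
        (by
          intro ψ hψ
          obtain ⟨x₀, -, rfl⟩ := Finset.mem_image.mp hψ
          have h2 : (Finset.univ.filter (fun x : S => Φ x = Φ x₀)).card
              ≤ ((Finset.univ : Finset Q).image (fun a : Q => (a : H))).card := by
            apply Finset.card_le_card_of_injOn (fun x : S => (x₀ : H)⁻¹ * (x : H))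
            · intro x hx
              have hx' : Φ x = Φ x₀ := (Finset.mem_filter.mp hx).2
              have hmemS : (x₀ : H)⁻¹ * (x : H) ∈ S := S.mul_mem (S.inv_mem x₀.2) x.2
              have hmem : (x₀ : H)⁻¹ * (x : H) ∈ Q := by
                apply hstab _ hmemS
                have h3 : (⟨(x₀ : H)⁻¹ * (x : H), hSN hmemS⟩ :
                    Subgroup.normalizer (Q : Set H))
                    = (⟨x₀, hSN x₀.2⟩ : Subgroup.normalizer (Q : Set H))⁻¹ * ⟨x, hSN x.2⟩ := rfl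
                have h4 : frcSmul Q ⟨x, hSN x.2⟩ μ = frcSmul Q ⟨x₀, hSN x₀.2⟩ μ := by
                  rw [← hΦ x, ← hΦ x₀, hx']
                rw [h3, frcSmul_mul, h4, ← frcSmul_mul, inv_mul_cancel, frcSmul_one]
              exact Finset.mem_coe.mpr (Finset.mem_image.mpr ⟨⟨_, hmem⟩, Finset.mem_univ _, rfl⟩)
            · intro x _ y _ hxy
              have h5 : (x₀ : H)⁻¹ * (x : H) = (x₀ : H)⁻¹ * (y : H) := hxy
              exact Subtype.ext (mul_left_cancel h5)
          refine h2.trans ?_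
          exact Finset.card_image_le.trans (by rw [Finset.card_univ]))
      rwa [Finset.card_univ] at h1
    have hcS : Nat.card Q * Q.relIndex S = Nat.card S := frc_card_mul_relIndex hQS
    have hQpos : 0 < Nat.card Q := Nat.card_pos
    have hu : Q.relIndex S ≤ (Finset.univ.image Φ).card := by
      rw [← Nat.card_eq_fintype_card, ← Nat.card_eq_fintype_card, ← hcS] at hfib
      exact Nat.le_of_mul_le_mul_left hfib hQpos
    have hsub : ((Finset.univ.image Φ : Finset (Q → ℂ)) : Set (Q → ℂ)) ⊆ O := by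
      intro y hy
      obtain ⟨x, -, rfl⟩ := Finset.mem_image.mp (Finset.mem_coe.mp hy)
      rw [hΦ x]
      exact hmemO _
    calc Q.relIndex S ≤ (Finset.univ.image Φ).card := hu
      _ = ((Finset.univ.image Φ : Finset (Q → ℂ)) : Set (Q → ℂ)).ncard :=
          (Set.ncard_coe_finset _).symm
      _ ≤ O.ncard := Set.ncard_le_ncard hsub hOfin


/-- For `χ = Ind_K^H φ`, `Q ≤ K` and `A ≤ N_H(Q)` fixing `μ`: `|A|` divides `|K| ⟨χ|_Q, μ⟩`. -/
theorem frc_ind_dvd [Fintype H] (K : Subgroup H) [hK : K.Normal] [Fintype K] (φ : K → ℂ)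
    (hφ : IsCharacter K φ) {Q A : Subgroup H} [Fintype Q] (hQK : Q ≤ K)
    (hAN : A ≤ Subgroup.normalizer (Q : Set H)) (μ : Q → ℂ) (hμ : IsCharacter Q μ)
    (hAfix : ∀ (a : H) (ha : a ∈ A), frcSmul Q ⟨a, hAN ha⟩ μ = μ) :
    ∃ W : ℕ, (Nat.card K : ℂ) * classInner (fun q : Q => indFun K φ (q : H)) μ
      = (Nat.card A : ℂ) * (W : ℂ) := by
  classical
  obtain ⟨ψ, hψ⟩ : ∃ ψ : H → Q → ℂ, ∀ x q, ψ x q = conjFun K x φ ⟨q, hQK q.2⟩ :=
    ⟨fun x q => conjFun K x φ ⟨q, hQK q.2⟩, fun _ _ => rfl⟩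
  have hψc : ∀ x, IsCharacter Q (ψ x) := by
    intro x
    have h1 : IsCharacter K (conjFun K x φ) := by
      rw [conjFun_eq_comp]
      exact Helper79.isCharacter_comp hφ (MulAut.conjNormal x⁻¹ : K ≃* K).toMonoidHom
    have h2 := Helper79.isCharacter_comp h1 (Subgroup.inclusion hQK)
    have h3 : ψ x = fun q : Q => conjFun K x φ (Subgroup.inclusion hQK q) := by
      funext q; exact hψ x q
    rw [h3]; exact h2
  choose w hw using fun x => Helper15.inner_nat (hψc x) hμ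
  have hK0 : (Nat.card K : ℂ) ≠ 0 := by exact_mod_cast Nat.card_pos.ne'
  have h1 : (Nat.card K : ℂ) * classInner (fun q : Q => indFun K φ (q : H)) μ
      = ∑ x : H, classInner (ψ x) μ := by
    unfold classInner
    have h2 : ∀ q : Q, indFun K φ (q : H) * conj (μ q)
        = (Nat.card K : ℂ)⁻¹ * ∑ x : H, ψ x q * conj (μ q) := by
      intro q
      have h3 := indFun_coe_normal K φ ⟨q, hQK q.2⟩
      have h4 : indFun K φ (q : H) = (Nat.card K : ℂ)⁻¹ * ∑ x : H, ψ x q := by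
        rw [Finset.sum_congr rfl (fun x _ => hψ x q)]
        exact h3
      rw [h4, mul_assoc, Finset.sum_mul]
    rw [Finset.sum_congr rfl (fun q _ => h2 q), ← Finset.mul_sum, Finset.sum_comm,
      ← Finset.mul_sum, ← mul_assoc, ← mul_assoc, mul_comm (Nat.card K : ℂ), mul_assoc _ _ (_⁻¹),
      mul_inv_cancel₀ hK0, mul_one]
  have hwinv : ∀ a ∈ A, ∀ x, w (a * x) = w x := by
    intro a ha x
    have h2 : ψ (a * x) = frcSmul Q ⟨a, hAN ha⟩ (ψ x) := by
      funext q
      rw [frcSmul_apply, hψ, hψ, conjFun_apply, conjFun_apply]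
      congr 1
      apply Subtype.ext
      simp [mul_assoc]
    have h3 : classInner (ψ (a * x)) μ = classInner (ψ x) μ := by
      rw [h2]
      conv_lhs => rw [← hAfix a ha]
      exact frc_inner_smul Q _ (ψ x) μ
    rw [hw, hw] at h3
    exact_mod_cast h3
  obtain ⟨W, hW⟩ := frc_sum_dvd_left A w hwinv
  refine ⟨W, ?_⟩
  rw [h1, Finset.sum_congr rfl (fun x _ => hw x)]
  have : ((∑ x : H, w x : ℕ) : ℂ) = ((Nat.card A * W : ℕ) : ℂ) := by rw [hW]
  push_cast at this
  exact this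

/-- `[St : Q]` is the order of the Sylow subgroup `St K / K`. -/
theorem frc_relIndex_eq_card {Q St K : Subgroup H} [K.Normal] (p : ℕ) [Fact p.Prime]
    (P₁ : Sylow p (H ⧸ K)) (hQdef : Q = St ⊓ K)
    (hmap : St.map (QuotientGroup.mk' K) = P₁) : Q.relIndex St = Nat.card P₁ := by
  have h1 : Q.relIndex St = K.relIndex St := by
    rw [hQdef]; exact Subgroup.inf_relIndex_left St K
  have h2 : K.relIndex St = Nat.card (St.map (QuotientGroup.mk' K)) := by
    have := Subgroup.relIndex_ker (K := St) (f := QuotientGroup.mk' K)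
    rwa [QuotientGroup.ker_mk'] at this
  rw [h1, h2, hmap]

/-- `p ∤ [H : St]`. -/
theorem frc_not_dvd_index [Finite H] {Q St K : Subgroup H} [K.Normal] (p : ℕ) [Fact p.Prime]
    (P₁ : Sylow p (H ⧸ K)) (hQdef : Q = St ⊓ K)
    (hmap : St.map (QuotientGroup.mk' K) = P₁) (hpQK : ¬ p ∣ Q.relIndex K) :
    ¬ p ∣ St.index := by
  have hp : p.Prime := Fact.out
  have h1 : St.relIndex (K ⊔ St) * (K ⊔ St).index = St.index :=
    Subgroup.relIndex_mul_index le_sup_right
  have h2 : St.relIndex (K ⊔ St) = Q.relIndex K := by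
    rw [frg_relIndex_sup St K, hQdef]
    exact (Subgroup.inf_relIndex_right St K).symm
  have h3 : (K ⊔ St).index = (P₁ : Subgroup (H ⧸ K)).index := by
    rw [← hmap, Subgroup.index_map, QuotientGroup.ker_mk',
      MonoidHom.range_eq_top.mpr (QuotientGroup.mk'_surjective K), Subgroup.index_top, mul_one,
      sup_comm]
  rw [← h1, h2, h3]
  intro h
  rcases (Nat.Prime.dvd_mul hp).mp h with h' | h'
  · exact hpQK h'
  · exact P₁.not_dvd_index h'

/-- From the orbit count to a subgroup of `H/K` whose index is the order of a Sylow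
`p`-subgroup. -/
theorem frc_endgame [Finite H] {Q St K : Subgroup H} [K.Normal] (p : ℕ) [Fact p.Prime]
    (P₁ : Sylow p (H ⧸ K)) (hQdef : Q = St ⊓ K)
    (hFr : Subgroup.normalizer (Q : Set H) ⊔ K = ⊤)
    (hmap : St.map (QuotientGroup.mk' K) = P₁) (hpQK : ¬ p ∣ Q.relIndex K)
    (μ : Q → ℂ) (hμc : IsCharacter Q μ)
    (horb : (@MulAction.orbit (Subgroup.normalizer (Q : Set H)) (Q → ℂ) (frcAct Q).toSMul
      μ).ncard = Q.relIndex St) :
    ∃ M : Subgroup (H ⧸ K), M.index = Nat.card P₁ := by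
  classical
  have hp : p.Prime := Fact.out
  have hQK : Q ≤ K := by rw [hQdef]; exact inf_le_right
  letI act : MulAction (Subgroup.normalizer (Q : Set H)) (Q → ℂ) := frcAct Q
  obtain ⟨T, hT⟩ : ∃ T : Subgroup (Subgroup.normalizer (Q : Set H)),
      T = MulAction.stabilizer (Subgroup.normalizer (Q : Set H)) μ := ⟨_, rfl⟩
  have hTidx : T.index = Q.relIndex St := by
    rw [hT, MulAction.index_stabilizer]; exact horb
  have hTmem : ∀ g : Subgroup.normalizer (Q : Set H), g ∈ T ↔ frcSmul Q g μ = μ := by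
    intro g; rw [hT]; exact MulAction.mem_stabilizer_iff
  obtain ⟨f, hf⟩ : ∃ f : Subgroup.normalizer (Q : Set H) →* H ⧸ K,
      ∀ x, f x = QuotientGroup.mk' K (x : H) :=
    ⟨(QuotientGroup.mk' K).comp (Subgroup.normalizer (Q : Set H)).subtype, fun x => rfl⟩
  have hfsurj : Function.Surjective f := by
    intro y
    obtain ⟨h, rfl⟩ := QuotientGroup.mk'_surjective K y
    have h1 : h ∈ Subgroup.normalizer (Q : Set H) ⊔ K := by rw [hFr]; exact Subgroup.mem_top h
    have h2 : h ∈ ((Subgroup.normalizer (Q : Set H) : Subgroup H) : Set H) * (K : Set H) := by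
      rw [← Subgroup.mul_normal]; exact h1
    obtain ⟨n, hn, k, hk, rfl⟩ := Set.mem_mul.mp h2
    refine ⟨⟨n, hn⟩, ?_⟩
    rw [hf]
    show QuotientGroup.mk' K n = QuotientGroup.mk' K (n * k)
    rw [map_mul]
    have hk1 : QuotientGroup.mk' K k = 1 := (QuotientGroup.eq_one_iff k).mpr hk
    rw [hk1, mul_one]
  have hker : f.ker = K.subgroupOf (Subgroup.normalizer (Q : Set H)) := by
    ext x
    rw [MonoidHom.mem_ker, hf, Subgroup.mem_subgroupOf]
    exact QuotientGroup.eq_one_iff (x : H)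
  have hQT : Q.subgroupOf (Subgroup.normalizer (Q : Set H)) ≤ T := by
    intro x hx
    rw [hTmem]
    exact frcSmul_self Q hμc (x : H) (Subgroup.mem_subgroupOf.mp hx)
  have hrel : Q.relIndex St = Nat.card P₁ := frc_relIndex_eq_card p P₁ hQdef hmap
  have hTpow : ∃ n, T.index = p ^ n := by
    rw [hTidx, hrel]
    exact IsPGroup.iff_card.mp P₁.isPGroup'
  have hBT : K.subgroupOf (Subgroup.normalizer (Q : Set H)) ≤ T := by
    obtain ⟨B, hB⟩ : ∃ B : Subgroup (Subgroup.normalizer (Q : Set H)),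
        B = K.subgroupOf (Subgroup.normalizer (Q : Set H)) := ⟨_, rfl⟩
    haveI : B.Normal := by rw [hB]; infer_instance
    rw [← hB]
    apply Subgroup.relIndex_eq_one.mp
    have h1 : T.relIndex B ∣ T.index := by
      rw [← frg_relIndex_sup T B]
      exact Subgroup.relIndex_dvd_index_of_le le_sup_right
    have h2 : T.relIndex B ∣ Q.relIndex K := by
      have h3 : T.relIndex B ∣ (Q.subgroupOf (Subgroup.normalizer (Q : Set H))).relIndex B :=
        Subgroup.relIndex_dvd_of_le_left B hQT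
      have h4 : (Q.subgroupOf (Subgroup.normalizer (Q : Set H))).relIndex B
          = Q.relIndex (K ⊓ Subgroup.normalizer (Q : Set H)) := by
        rw [hB, ← Subgroup.inf_subgroupOf_right K (Subgroup.normalizer (Q : Set H))]
        exact Subgroup.relIndex_subgroupOf inf_le_right
      have h5 : Q.relIndex (K ⊓ Subgroup.normalizer (Q : Set H)) ∣ Q.relIndex K := by
        have := Subgroup.relIndex_mul_relIndex Q (K ⊓ Subgroup.normalizer (Q : Set H)) K
          (le_inf hQK Subgroup.le_normalizer) inf_le_left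
        exact Dvd.intro _ this
      rw [h4] at h3
      exact h3.trans h5
    obtain ⟨n, hn⟩ := hTpow
    rw [hn] at h1
    obtain ⟨i, -, hi⟩ := (Nat.dvd_prime_pow hp).mp h1
    rw [hi] at h2 ⊢
    rcases Nat.eq_zero_or_pos i with h0 | h0
    · rw [h0, pow_zero]
    · exact absurd ((dvd_pow_self p h0.ne').trans h2) hpQK
  refine ⟨T.map f, ?_⟩
  rw [Subgroup.index_map_eq (H := T) hfsurj (by rw [hker]; exact hBT), hTidx, hrel]

end FRInd

end Cfsg.Agent.Helper4
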