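import Mathlib
import Cfsg.Agent.Helper95.G2SylDefs
import Cfsg.Agent.Helper37.Sp2C
import Cfsg.Agent.Helper97.GSylWN

/-!
# Helper4: piece QSQA of CALL S4632 — squares in a Sylow 2-subgroup of `SL_2(q)`, `q` odd
-/

set_option autoImplicit false

open Matrix Cfsg.Agent.Helper95.G2Syl

namespace Cfsg.Agent.Helper4

variable {F : Type*} [Field F]

/-- the `2 × 2` matrix of a matrix indexed by `Fin 1 ⊕ Fin 1` -/
def g2M2 (M : Matrix (Fin 1 ⊕ Fin 1) (Fin 1 ⊕ Fin 1) F) : Matrix (Fin 2) (Fin 2) F :=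
  !![M (Sum.inl 0) (Sum.inl 0), M (Sum.inl 0) (Sum.inr 0);
      M (Sum.inr 0) (Sum.inl 0), M (Sum.inr 0) (Sum.inr 0)]

theorem g2M2_mul (M N : Matrix (Fin 1 ⊕ Fin 1) (Fin 1 ⊕ Fin 1) F) :
    g2M2 (M * N) = g2M2 M * g2M2 N := by
  ext i j
  fin_cases i <;> fin_cases j <;>
    simp [g2M2, Matrix.mul_apply, Fintype.sum_sum_type, Fin.sum_univ_two]

theorem g2M2_one : g2M2 (1 : Matrix (Fin 1 ⊕ Fin 1) (Fin 1 ⊕ Fin 1) F) = 1 := by
  ext i j
  fin_cases i <;> fin_cases j <;> simp [g2M2]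

theorem g2M2_det (g : Matrix.symplecticGroup (Fin 1) F) : (g2M2 g.1).det = 1 := by
  unfold g2M2
  rw [Matrix.det_fin_two_of]
  have := Cfsg.Agent.Helper37.sp2_det g
  linear_combination this

/-- the identification `Sp_2(F) → SL_2(F)` -/
def g2SpToSL (F : Type*) [Field F] :
    Matrix.symplecticGroup (Fin 1) F →* Matrix.SpecialLinearGroup (Fin 2) F where
  toFun g := ⟨g2M2 g.1, g2M2_det g⟩
  map_one' := Subtype.ext g2M2_one
  map_mul' g h := Subtype.ext (g2M2_mul g.1 h.1)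

theorem g2SpToSL_coe (g : Matrix.symplecticGroup (Fin 1) F) :
    (g2SpToSL F g).1 = !![g.1 (Sum.inl 0) (Sum.inl 0), g.1 (Sum.inl 0) (Sum.inr 0);
      g.1 (Sum.inr 0) (Sum.inl 0), g.1 (Sum.inr 0) (Sum.inr 0)] := rfl

theorem g2SpToSL_injective : Function.Injective (g2SpToSL F) := by
  intro g h hgh
  have h1 : ∀ i j : Fin 2, (g2SpToSL F g).1 i j = (g2SpToSL F h).1 i j := by
    intro i j; rw [hgh]
  simp only [g2SpToSL_coe] at h1
  apply Subtype.ext
  ext i j
  rcases i with i | i <;> rcases j with j | j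
  · have := h1 0 0
    have hi : i = 0 := Subsingleton.elim _ _
    have hj : j = 0 := Subsingleton.elim _ _
    subst hi; subst hj
    simpa using this
  · have := h1 0 1
    have hi : i = 0 := Subsingleton.elim _ _
    have hj : j = 0 := Subsingleton.elim _ _
    subst hi; subst hj
    simpa using this
  · have := h1 1 0
    have hi : i = 0 := Subsingleton.elim _ _
    have hj : j = 0 := Subsingleton.elim _ _
    subst hi; subst hj
    simpa using this
  · have := h1 1 1
    have hi : i = 0 := Subsingleton.elim _ _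
    have hj : j = 0 := Subsingleton.elim _ _
    subst hi; subst hj
    simpa using this

theorem g2SpToSL_surjective : Function.Surjective (g2SpToSL F) := by
  intro A
  have hdet : A.1 0 0 * A.1 1 1 - A.1 1 0 * A.1 0 1 = 1 := by
    have := A.2
    rw [Matrix.det_fin_two] at this
    linear_combination this
  refine ⟨⟨Cfsg.Agent.Helper37.spBlk (n := 1) (fun _ => A.1 0 0) (fun _ => A.1 0 1)
    (fun _ => A.1 1 0) (fun _ => A.1 1 1),
    Cfsg.Agent.Helper37.spBlk_mem _ _ _ _ (fun _ => hdet)⟩, ?_⟩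
  ext i j
  fin_cases i <;> fin_cases j <;> simp [g2SpToSL_coe, Cfsg.Agent.Helper37.spBlk]

-- === PIECE QSQA ===
theorem g2_sl2_sylow_sq [Fintype F] (hF : Odd (Fintype.card F))
    (R : Sylow 2 (Matrix.SpecialLinearGroup (Fin 2) F)) :
    ∀ x ∈ (R : Subgroup (Matrix.SpecialLinearGroup (Fin 2) F)),
      x ^ 2 ∈ ⁅(R : Subgroup (Matrix.SpecialLinearGroup (Fin 2) F)),
        (R : Subgroup (Matrix.SpecialLinearGroup (Fin 2) F))⁆ := by
  classical
  haveI : Fact (Nat.Prime 2) := ⟨Nat.prime_two⟩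
  haveI : Finite (Matrix.symplecticGroup (Fin 1) F) :=
    Finite.of_injective _ (g2SpToSL_injective (F := F))
  obtain R0 : Sylow 2 (Matrix.symplecticGroup (Fin 1) F) := default
  have hsq0 := Cfsg.Agent.Helper37.sp_sylow_sq_mem hF 1 R0
  rw [Cfsg.Agent.Helper37.sq_mem_comm_iff] at hsq0
  have hcard : Nat.card (Matrix.symplecticGroup (Fin 1) F) =
      Nat.card (Matrix.SpecialLinearGroup (Fin 2) F) :=
    Nat.card_congr (Equiv.ofBijective _ ⟨g2SpToSL_injective (F := F), g2SpToSL_surjective⟩)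
  have hc : 2 ^ (Nat.card (Matrix.SpecialLinearGroup (Fin 2) F)).factorization 2 ≤
      Nat.card (R0 : Subgroup (Matrix.symplecticGroup (Fin 1) F)) := by
    rw [Sylow.card_eq_multiplicity, hcard]
  have key := Cfsg.Agent.Helper97.GSylWN.sylow_transfer (g2SpToSL F) g2SpToSL_injective
    (R0 : Subgroup (Matrix.symplecticGroup (Fin 1) F)) R0.isPGroup' hc hsq0 R
  rwa [Cfsg.Agent.Helper37.sq_mem_comm_iff] at key

end Cfsg.Agent.Helper4
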