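import Mathlib
import Cfsg.Agent.Helper95.G2SylDefs
import Cfsg.Agent.Helper37.Sp2C

/-!
# CALL S4632 (helper95), piece SQB (helper4): squares of `hat(D) · phi2(D ∩ SL₂)` lie in the
commutator subgroup
-/

set_option autoImplicit false
open Matrix Cfsg.Agent.Helper95.G2Syl
open scoped commutatorElement

namespace Cfsg.Agent.Helper4

variable {F : Type*} [Field F]

theorem g2s_sq {G : Type*} [Group G] (ι : GL (Fin 2) F →* G)
    (φ : Matrix.SpecialLinearGroup (Fin 2) F →* G)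
    (D : Subgroup (GL (Fin 2) F))
    (hT : ∀ h ∈ D, gdiag 1 (Matrix.GeneralLinearGroup.det h) ∈ D)
    (hdiag : ∀ δ : Fˣ, gdiag 1 δ ∈ D →
      ι (gdiag 1 δ) ^ 2 ∈ ⁅D.map ι ⊔ (D.comap Matrix.SpecialLinearGroup.toGL).map φ,
        D.map ι ⊔ (D.comap Matrix.SpecialLinearGroup.toGL).map φ⁆)
    (hQ : ∀ c ∈ D.comap Matrix.SpecialLinearGroup.toGL,
      c ^ 2 ∈ ⁅D.comap Matrix.SpecialLinearGroup.toGL, D.comap Matrix.SpecialLinearGroup.toGL⁆) :
    ∀ s ∈ D.map ι ⊔ (D.comap Matrix.SpecialLinearGroup.toGL).map φ,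
      s ^ 2 ∈ ⁅D.map ι ⊔ (D.comap Matrix.SpecialLinearGroup.toGL).map φ,
        D.map ι ⊔ (D.comap Matrix.SpecialLinearGroup.toGL).map φ⁆ := by
  classical
  obtain ⟨Q, hQdef⟩ : ∃ Q : Subgroup (Matrix.SpecialLinearGroup (Fin 2) F),
      Q = D.comap Matrix.SpecialLinearGroup.toGL := ⟨_, rfl⟩
  rw [← hQdef] at hdiag hQ ⊢
  obtain ⟨S, hSdef⟩ : ∃ S : Subgroup G, S = D.map ι ⊔ Q.map φ := ⟨_, rfl⟩
  rw [← hSdef] at hdiag ⊢
  have hS : S = Subgroup.closure ((ι '' (D : Set (GL (Fin 2) F))) ∪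
      (φ '' (Q : Set (Matrix.SpecialLinearGroup (Fin 2) F)))) := by
    rw [Subgroup.closure_union, ← Subgroup.coe_map, ← Subgroup.coe_map, Subgroup.closure_eq,
      Subgroup.closure_eq, hSdef]
  have hιS : ∀ h ∈ D, ι h ∈ S := fun h hh => by
    rw [hSdef]; exact Subgroup.mem_sup_left (Subgroup.mem_map_of_mem ι hh)
  have hDS : ⁅D.map ι, D.map ι⁆ ≤ ⁅S, S⁆ := by
    rw [hSdef]; exact Subgroup.commutator_mono le_sup_left le_sup_left
  have hQS : ⁅Q.map φ, Q.map φ⁆ ≤ ⁅S, S⁆ := by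
    rw [hSdef]; exact Subgroup.commutator_mono le_sup_right le_sup_right
  apply Cfsg.Agent.Helper37.sq_mem_comm_of_closure S _ hS
  rintro s (⟨h, hh, rfl⟩ | ⟨c, hc, rfl⟩)
  · have hk := hT h hh
    obtain ⟨k, hkdef⟩ : ∃ k : GL (Fin 2) F, k = gdiag 1 (Matrix.GeneralLinearGroup.det h) :=
      ⟨_, rfl⟩
    rw [← hkdef] at hk
    have hdetk : Matrix.GeneralLinearGroup.det k = Matrix.GeneralLinearGroup.det h := by
      apply Units.ext
      rw [Matrix.GeneralLinearGroup.val_det_apply, hkdef, gdiag_coe, Matrix.det_fin_two]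
      simp
    have hc1D : h * k⁻¹ ∈ D := D.mul_mem hh (D.inv_mem hk)
    have hdet1 : ((h * k⁻¹ : GL (Fin 2) F) : Matrix (Fin 2) (Fin 2) F).det = 1 := by
      rw [← Matrix.GeneralLinearGroup.val_det_apply, map_mul, map_inv, hdetk, mul_inv_cancel,
        Units.val_one]
    obtain ⟨c, hcdef⟩ : ∃ c : Matrix.SpecialLinearGroup (Fin 2) F,
        c = ⟨((h * k⁻¹ : GL (Fin 2) F) : Matrix (Fin 2) (Fin 2) F), hdet1⟩ := ⟨_, rfl⟩
    have hcGL : Matrix.SpecialLinearGroup.toGL c = h * k⁻¹ := by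
      apply Units.ext
      rw [hcdef]
      rfl
    have hcQ : c ∈ Q := by
      rw [hQdef, Subgroup.mem_comap, hcGL]
      exact hc1D
    have hh' : ι h = ι (h * k⁻¹) * ι k := by rw [← map_mul, inv_mul_cancel_right]
    rw [hh']
    have e : (ι (h * k⁻¹) * ι k) ^ 2 =
        ι (h * k⁻¹) ^ 2 * ⁅(ι (h * k⁻¹))⁻¹, ι k⁆ * ι k ^ 2 := by
      rw [commutatorElement_def, pow_two, pow_two, pow_two]; group
    rw [e]
    refine mul_mem (mul_mem ?_ (Subgroup.commutator_mem_commutator (inv_mem (hιS _ hc1D))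
      (hιS _ hk))) (by rw [hkdef]; exact hdiag _ (hkdef ▸ hk))
    apply hDS
    rw [← Subgroup.map_commutator, ← map_pow]
    apply Subgroup.mem_map_of_mem
    have h1 : Matrix.SpecialLinearGroup.toGL (c ^ 2) ∈
        ⁅Q.map Matrix.SpecialLinearGroup.toGL, Q.map Matrix.SpecialLinearGroup.toGL⁆ := by
      rw [← Subgroup.map_commutator]
      exact Subgroup.mem_map_of_mem _ (hQ c hcQ)
    rw [map_pow, hcGL] at h1
    have hle : Q.map Matrix.SpecialLinearGroup.toGL ≤ D := by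
      rw [hQdef]; exact Subgroup.map_comap_le _ _
    exact Subgroup.commutator_mono hle hle h1
  · apply hQS
    rw [← Subgroup.map_commutator, ← map_pow]
    exact Subgroup.mem_map_of_mem φ (hQ c hc)

end Cfsg.Agent.Helper4
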