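import Mathlib
import Cfsg.Agent.Helper35.Glauberman

/-!
# Glauberman's lemma for conjugacy classes (helper4)

`A` normalises `K`, coprime orders, `A` or `K` solvable (all inside a finite group `G`).

* `exists_fixed_in_class`: an `A`-invariant `K`-class contains an `A`-fixed element.
* `conj_in_centralizer`: two `A`-fixed elements that are `K`-conjugate are `C_K(A)`-conjugate.
-/

set_option autoImplicit false

namespace Cfsg.Agent.Helper4

open Cfsg.Agent.Helper35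

/-- Conjugation action of a group on itself (as an explicit structure, not an instance). -/
@[instance_reducible] def conjSelf (L : Type*) [Group L] : MulAction L L where
  smul g y := g * y * g⁻¹
  one_smul y := by change 1 * y * 1⁻¹ = y; simp
  mul_smul g h y := by change g * h * y * (g * h)⁻¹ = g * (h * y * h⁻¹) * g⁻¹; group

theorem exists_fixed_in_class {G : Type*} [Group G] [Finite G] {A K : Subgroup G}
    (hAK : A ≤ Subgroup.normalizer (K : Set G)) (hcop : (Nat.card A).Coprime (Nat.card K))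
    (hsolv : Group.IsSolvable A ∨ Group.IsSolvable K) (k₀ : G)
    (hinv : ∀ a ∈ A, ∃ k ∈ K, a * k₀ * a⁻¹ = k * k₀ * k⁻¹) :
    ∃ k ∈ K, ∀ a ∈ A, a * (k * k₀ * k⁻¹) * a⁻¹ = k * k₀ * k⁻¹ := by
  have hnorm : ∀ a ∈ A, ∀ k ∈ K, a * k * a⁻¹ ∈ K := fun a ha k hk =>
    (Subgroup.mem_normalizer_iff.1 (hAK ha) k).1 hk
  obtain ⟨s, ⟨k, hk, rfl⟩, hfix⟩ := @glauberman G _ _ G (conjSelf G) _ _ hAK hcop hsolv
    {y : G | ∃ k ∈ K, y = k * k₀ * k⁻¹} ⟨k₀, 1, K.one_mem, by simp⟩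
    (fun a ha s hs => by
      change a * s * a⁻¹ ∈ _
      obtain ⟨k, hk, rfl⟩ := hs
      obtain ⟨k', hk', hk'e⟩ := hinv a ha
      refine ⟨(a * k * a⁻¹) * k', K.mul_mem (hnorm a ha k hk) hk', ?_⟩
      calc a * (k * k₀ * k⁻¹) * a⁻¹ = (a * k * a⁻¹) * (a * k₀ * a⁻¹) * (a * k * a⁻¹)⁻¹ := by group
        _ = (a * k * a⁻¹) * (k' * k₀ * k'⁻¹) * (a * k * a⁻¹)⁻¹ := by rw [hk'e]
        _ = _ := by group)
    (fun k hk s hs => by
      change k * s * k⁻¹ ∈ _
      obtain ⟨k', hk', rfl⟩ := hs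
      exact ⟨k * k', K.mul_mem hk hk', by group⟩)
    (fun s hs t ht => by
      obtain ⟨k, hk, rfl⟩ := hs
      obtain ⟨k', hk', rfl⟩ := ht
      refine ⟨k' * k⁻¹, K.mul_mem hk' (K.inv_mem hk), ?_⟩
      change (k' * k⁻¹) * (k * k₀ * k⁻¹) * (k' * k⁻¹)⁻¹ = _
      group)
  exact ⟨k, hk, fun a ha => hfix a ha⟩

theorem conj_in_centralizer {G : Type*} [Group G] [Finite G] {A K : Subgroup G}
    (hAK : A ≤ Subgroup.normalizer (K : Set G)) (hcop : (Nat.card A).Coprime (Nat.card K))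
    (hsolv : Group.IsSolvable A ∨ Group.IsSolvable K) {s t : G}
    (hs : ∀ a ∈ A, a * s * a⁻¹ = s) (ht : ∀ a ∈ A, a * t * a⁻¹ = t) {k : G} (hk : k ∈ K)
    (hks : k * s * k⁻¹ = t) :
    ∃ c ∈ K ⊓ Subgroup.centralizer (A : Set G), c * s * c⁻¹ = t :=
  @glauberman_conj G _ _ G (conjSelf G) _ _ hAK hcop hsolv s t hs ht k hk hks

end Cfsg.Agent.Helper4
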