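import Mathlib
import Cfsg.Agent.Helper4.GlaubClasses

/-!
# Real invariant classes under a coprime action (helper4)

`A` normalises `K`, coprime orders, `A` or `K` solvable, `C = C_K(A)`.

* `isConj_subgroup_iff`, `isConj_inv_of_isConj`.
* `exists_fixed_of_class_inv`: an `A`-invariant class of `K` contains an `A`-fixed element.
* `card_real_classes_fixed`: the real classes of `C` correspond to the real `A`-invariant classes
  of `K`.
-/

set_option autoImplicit false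

namespace Cfsg.Agent.Helper4

theorem isConj_subgroup_iff {G : Type*} [Group G] (K : Subgroup G) (a b : K) :
    IsConj a b ↔ ∃ c ∈ K, c * (a : G) * c⁻¹ = (b : G) := by
  rw [isConj_iff]
  constructor
  · rintro ⟨c, hc⟩
    exact ⟨c, c.2, by rw [← hc]; simp⟩
  · rintro ⟨c, hc, hcc⟩
    exact ⟨⟨c, hc⟩, Subtype.ext (by simpa using hcc)⟩

theorem isConj_inv_of_isConj {α : Type*} [Group α] {a b : α} (h : IsConj a b)
    (ha : IsConj a a⁻¹) : IsConj b b⁻¹ := by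
  obtain ⟨c, hc⟩ := isConj_iff.1 h
  obtain ⟨d, hd⟩ := isConj_iff.1 ha
  rw [isConj_iff]
  refine ⟨c * d * c⁻¹, ?_⟩
  rw [← hc]
  have : (c * a * c⁻¹)⁻¹ = c * a⁻¹ * c⁻¹ := by group
  rw [this, ← hd]
  group

section

variable {G : Type*} [Group G] [Finite G] {A K : Subgroup G}

omit [Finite G] in
theorem conj_mem_of_le_normalizer (hAK : A ≤ Subgroup.normalizer (K : Set G)) {x : G} (hx : x ∈ A)
    {k : G} (hk : k ∈ K) : x * k * x⁻¹ ∈ K :=
  (Subgroup.mem_normalizer_iff.1 (hAK hx) k).1 hk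

theorem exists_fixed_of_class_inv (hAK : A ≤ Subgroup.normalizer (K : Set G))
    (hcop : (Nat.card A).Coprime (Nat.card K))
    (hsolv : Group.IsSolvable A ∨ Group.IsSolvable K) (k : K)
    (hinv : ∀ x ∈ A, ∀ k' : K, (k' : G) = x * (k : G) * x⁻¹ →
      ConjClasses.mk k' = ConjClasses.mk k) :
    ∃ k' : K, IsConj k k' ∧ ∀ x ∈ A, x * (k' : G) * x⁻¹ = (k' : G) := by
  obtain ⟨b, hb, hfix⟩ := exists_fixed_in_class hAK hcop hsolv (k : G) (by
    intro a ha
    have h1 := hinv a ha ⟨a * (k : G) * a⁻¹, conj_mem_of_le_normalizer hAK ha k.2⟩ rfl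
    obtain ⟨c, hc, hcc⟩ := (isConj_subgroup_iff K _ _).1 (ConjClasses.mk_eq_mk_iff_isConj.1 h1)
    refine ⟨c⁻¹, K.inv_mem hc, ?_⟩
    have hcc' : c * (a * (k : G) * a⁻¹) * c⁻¹ = (k : G) := hcc
    calc a * (k : G) * a⁻¹ = c⁻¹ * (c * (a * (k : G) * a⁻¹) * c⁻¹) * (c⁻¹)⁻¹ := by group
      _ = c⁻¹ * (k : G) * (c⁻¹)⁻¹ := by rw [hcc'])
  refine ⟨⟨b * (k : G) * b⁻¹, K.mul_mem (K.mul_mem hb k.2) (K.inv_mem hb)⟩, ?_, hfix⟩
  exact (isConj_subgroup_iff K _ _).2 ⟨b, hb, rfl⟩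

theorem card_real_classes_fixed (hAK : A ≤ Subgroup.normalizer (K : Set G))
    (hcop : (Nat.card A).Coprime (Nat.card K))
    (hsolv : Group.IsSolvable A ∨ Group.IsSolvable K) (C : Subgroup G)
    (hC : C = K ⊓ Subgroup.centralizer (A : Set G)) (hCK : C ≤ K) :
    Nat.card {D : ConjClasses C // ∀ c : C, ConjClasses.mk c = D → IsConj c c⁻¹}
      = Nat.card {Cl : ConjClasses K // (∀ k : K, ConjClasses.mk k = Cl → IsConj k k⁻¹) ∧
          ∀ k : K, ConjClasses.mk k = Cl → ∀ x ∈ A, ∀ k' : K, (k' : G) = x * (k : G) * x⁻¹ →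
            ConjClasses.mk k' = Cl} := by
  have hfixC : ∀ c : C, ∀ a ∈ A, a * (c : G) * a⁻¹ = (c : G) := by
    intro c a ha
    have hc : (c : G) ∈ K ⊓ Subgroup.centralizer (A : Set G) := by rw [← hC]; exact c.2
    have h1 := (Subgroup.mem_centralizer_iff.1 hc.2) a ha
    rw [h1]
    group
  have hmemC : ∀ s : G, s ∈ K → (∀ a ∈ A, a * s * a⁻¹ = s) → s ∈ C := by
    intro s hs hfix
    rw [hC]
    refine ⟨hs, ?_⟩
    show s ∈ Subgroup.centralizer (A : Set G)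
    rw [Subgroup.mem_centralizer_iff]
    intro a ha
    have h1 := hfix a ha
    calc a * s = a * s * a⁻¹ * a := by group
      _ = s * a := by rw [h1]
  -- the map
  have hreal : ∀ c : C, IsConj c c⁻¹ →
      ∀ k : K, ConjClasses.mk k = ConjClasses.mk (Subgroup.inclusion hCK c) → IsConj k k⁻¹ := by
    intro c hc k hk
    have h1 : IsConj (Subgroup.inclusion hCK c) k := (ConjClasses.mk_eq_mk_iff_isConj.1 hk).symm
    apply isConj_inv_of_isConj h1
    obtain ⟨u, hu, huc⟩ := (isConj_subgroup_iff C _ _).1 hc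
    exact (isConj_subgroup_iff K _ _).2 ⟨u, hCK hu, huc⟩
  have hinvc : ∀ c : C, ∀ k : K, ConjClasses.mk k = ConjClasses.mk (Subgroup.inclusion hCK c) →
      ∀ x ∈ A, ∀ k' : K, (k' : G) = x * (k : G) * x⁻¹ →
        ConjClasses.mk k' = ConjClasses.mk (Subgroup.inclusion hCK c) := by
    intro c k hk x hx k' hk'
    obtain ⟨a, ha, hac⟩ := (isConj_subgroup_iff K _ _).1 (ConjClasses.mk_eq_mk_iff_isConj.1 hk)
    have hac' : a * (k : G) * a⁻¹ = (c : G) := hac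
    rw [ConjClasses.mk_eq_mk_iff_isConj, isConj_subgroup_iff]
    refine ⟨x * a * x⁻¹, conj_mem_of_le_normalizer hAK hx ha, ?_⟩
    show x * a * x⁻¹ * (k' : G) * (x * a * x⁻¹)⁻¹ = (c : G)
    rw [hk']
    calc x * a * x⁻¹ * (x * (k : G) * x⁻¹) * (x * a * x⁻¹)⁻¹
        = x * (a * (k : G) * a⁻¹) * x⁻¹ := by group
      _ = (c : G) := by rw [hac', hfixC c x hx]
  let F : {D : ConjClasses C // ∀ c : C, ConjClasses.mk c = D → IsConj c c⁻¹} →
      {Cl : ConjClasses K // (∀ k : K, ConjClasses.mk k = Cl → IsConj k k⁻¹) ∧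
          ∀ k : K, ConjClasses.mk k = Cl → ∀ x ∈ A, ∀ k' : K, (k' : G) = x * (k : G) * x⁻¹ →
            ConjClasses.mk k' = Cl} := fun D =>
    ⟨ConjClasses.map (Subgroup.inclusion hCK) D.1, by
      obtain ⟨D, hD⟩ := D
      obtain ⟨c, rfl⟩ := ConjClasses.mk_surjective D
      exact ⟨hreal c (hD c rfl), hinvc c⟩⟩
  apply Nat.card_eq_of_bijective F
  constructor
  · rintro ⟨D, hD⟩ ⟨D', hD'⟩ hFF
    obtain ⟨c, rfl⟩ := ConjClasses.mk_surjective D
    obtain ⟨c', rfl⟩ := ConjClasses.mk_surjective D'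
    apply Subtype.ext
    have h1 : ConjClasses.mk (Subgroup.inclusion hCK c) = ConjClasses.mk (Subgroup.inclusion hCK c') :=
      congrArg Subtype.val hFF
    obtain ⟨k, hk, hkc⟩ := (isConj_subgroup_iff K _ _).1 (ConjClasses.mk_eq_mk_iff_isConj.1 h1)
    have hkc' : k * (c : G) * k⁻¹ = (c' : G) := hkc
    obtain ⟨u, hu, huc⟩ := conj_in_centralizer hAK hcop hsolv (hfixC c) (hfixC c') hk hkc'
    show ConjClasses.mk c = ConjClasses.mk c'
    rw [ConjClasses.mk_eq_mk_iff_isConj, isConj_subgroup_iff]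
    exact ⟨u, by rw [hC]; exact hu, huc⟩
  · rintro ⟨Cl, hClr, hCli⟩
    obtain ⟨k₀, rfl⟩ := ConjClasses.mk_surjective Cl
    obtain ⟨k', hk', hfix⟩ := exists_fixed_of_class_inv hAK hcop hsolv k₀ (hCli k₀ rfl)
    have hsC : (k' : G) ∈ C := hmemC _ k'.2 hfix
    have hk'cl : ConjClasses.mk k' = ConjClasses.mk k₀ := (ConjClasses.mk_eq_mk_iff_isConj.2 hk').symm
    have hk'inv : IsConj k' k'⁻¹ := hClr k' hk'cl
    have hrealC : IsConj (⟨(k' : G), hsC⟩ : C) (⟨(k' : G), hsC⟩ : C)⁻¹ := by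
      obtain ⟨b, hb, hbc⟩ := (isConj_subgroup_iff K _ _).1 hk'inv
      have hbc' : b * (k' : G) * b⁻¹ = (k' : G)⁻¹ := hbc
      have hfix' : ∀ a ∈ A, a * (k' : G)⁻¹ * a⁻¹ = (k' : G)⁻¹ := by
        intro a ha
        have h1 := hfix a ha
        calc a * (k' : G)⁻¹ * a⁻¹ = (a * (k' : G) * a⁻¹)⁻¹ := by group
          _ = (k' : G)⁻¹ := by rw [h1]
      obtain ⟨u, hu, huc⟩ := conj_in_centralizer hAK hcop hsolv hfix hfix' hb hbc'
      rw [isConj_subgroup_iff]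
      exact ⟨u, by rw [hC]; exact hu, huc⟩
    refine ⟨⟨ConjClasses.mk (⟨(k' : G), hsC⟩ : C), ?_⟩, ?_⟩
    · intro c hc
      exact isConj_inv_of_isConj (ConjClasses.mk_eq_mk_iff_isConj.1 hc).symm hrealC
    · apply Subtype.ext
      show ConjClasses.mk (Subgroup.inclusion hCK (⟨(k' : G), hsC⟩ : C)) = ConjClasses.mk k₀
      rw [← hk'cl]
      rfl

end

end Cfsg.Agent.Helper4
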