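import Mathlib

set_option autoImplicit false

namespace Cfsg.Agent.Helper4

/-- PIG (pigeonhole: 7 cosets of size ≥ 2 in a set of 8). -/
theorem jr_pigeonhole {G : Type*} [Group G] (S : Subgroup G) [Finite S] (h8 : Nat.card S = 8)
    (hexp : ∀ s ∈ S, s * s = 1)
    (c : G → Set G) (hc1 : ∀ τ ∈ S, τ ≠ 1 → ∃ v ∈ S, v ∈ c τ)
    (hc2 : ∀ τ ∈ S, τ ≠ 1 → ∀ v ∈ c τ, v * τ ∈ c τ) :
    ∃ τ₁ ∈ S, ∃ τ₂ ∈ S, τ₁ ≠ 1 ∧ τ₂ ≠ 1 ∧ τ₁ ≠ τ₂ ∧ ∃ v ∈ S, v ∈ c τ₁ ∧ v ∈ c τ₂ := by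
  classical
  haveI : Fintype S := Fintype.ofFinite S
  have h8' : Fintype.card S = 8 := by rw [← Nat.card_eq_fintype_card]; exact h8
  have hne : ∀ τ : {τ : S // τ ≠ 1}, ((τ.1 : S) : G) ≠ 1 := fun τ h => τ.2 (Subtype.ext h)
  have hch : ∀ τ : {τ : S // τ ≠ 1}, ∃ v : S, (v : G) ∈ c ((τ.1 : S) : G) := by
    intro τ
    obtain ⟨v, hvS, hv⟩ := hc1 τ.1 τ.1.2 (hne τ)
    exact ⟨⟨v, hvS⟩, hv⟩
  choose f hf using hch
  let g : {τ : S // τ ≠ 1} × Bool → S := fun x => if x.2 then f x.1 else f x.1 * x.1.1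
  have hgc : ∀ x, ((g x : S) : G) ∈ c ((x.1.1 : S) : G) := by
    rintro ⟨τ, b⟩
    cases b
    · simpa [g] using hc2 τ.1 τ.1.2 (hne τ) _ (hf τ)
    · simpa [g] using hf τ
  have hcard : Fintype.card S < Fintype.card ({τ : S // τ ≠ 1} × Bool) := by
    have h7 : Fintype.card {τ : S // τ ≠ 1} = 7 := by
      rw [Fintype.card_subtype_compl, Fintype.card_subtype_eq, h8']
    rw [Fintype.card_prod, Fintype.card_bool, h7, h8']
    norm_num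
  obtain ⟨x, y, hxy, hg⟩ := Fintype.exists_ne_map_eq_of_card_lt g hcard
  have hτ : x.1 ≠ y.1 := by
    intro h
    obtain ⟨τ, b⟩ := x
    obtain ⟨τ', b'⟩ := y
    simp only at h
    subst h
    have hbb : b ≠ b' := fun h => hxy (by rw [h])
    have h1 : f τ * τ.1 ≠ f τ := by
      intro h
      exact τ.2 (by simpa using h)
    cases b <;> cases b' <;> simp [g] at hg hbb
    · exact τ.2 hg
    · exact τ.2 hg
  refine ⟨x.1.1, x.1.1.2, y.1.1, y.1.1.2, hne x.1, hne y.1, ?_, (g x : S), (g x).2, hgc x, ?_⟩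
  · intro h
    exact hτ (Subtype.ext (Subtype.ext h))
  · rw [hg]; exact hgc y

end Cfsg.Agent.Helper4
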