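import Mathlib
import Cfsg.Agent.Helper90.MDDefs

set_option autoImplicit false

namespace Cfsg.Agent.Helper4

open Cfsg.Agent.Helper90.MD

section
variable {G : Type*} [Group G] {V : Type*} [AddCommGroup V] [Module ℂ V]

/-- `y ↦ y g y⁻¹ g⁻¹` is multiplicative on the abelian subgroup `A` normalised by `g`. -/
theorem md_comm_mul (A : Subgroup G) (hA : ∀ x ∈ A, ∀ y ∈ A, x * y = y * x) (g : G)
    (hg : NormBy g A) (u v : G) (hu : u ∈ A) (hv : v ∈ A) :
    u * v * g * (u * v)⁻¹ * g⁻¹ = u * g * u⁻¹ * g⁻¹ * (v * g * v⁻¹ * g⁻¹) := by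
  have h1 : g * u⁻¹ * g⁻¹ ∈ A := hg.1 _ (A.inv_mem hu)
  have h2 : g * v⁻¹ * g⁻¹ ∈ A := hg.1 _ (A.inv_mem hv)
  have h3 := hA _ h1 _ (A.mul_mem hv h2)
  symm
  calc u * g * u⁻¹ * g⁻¹ * (v * g * v⁻¹ * g⁻¹)
      = u * ((g * u⁻¹ * g⁻¹) * (v * (g * v⁻¹ * g⁻¹))) := by group
    _ = u * ((v * (g * v⁻¹ * g⁻¹)) * (g * u⁻¹ * g⁻¹)) := by rw [h3]
    _ = u * v * g * (u * v)⁻¹ * g⁻¹ := by group

theorem md_comm_mem (A : Subgroup G) (g : G) (hg : NormBy g A) (u : G) (hu : u ∈ A) :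
    u * g * u⁻¹ * g⁻¹ ∈ A := by
  have h1 : g * u⁻¹ * g⁻¹ ∈ A := hg.1 _ (A.inv_mem hu)
  have : u * g * u⁻¹ * g⁻¹ = u * (g * u⁻¹ * g⁻¹) := by group
  rw [this]
  exact A.mul_mem hu h1

/-- Every element of `bsub A g` is a commutator `y g y⁻¹ g⁻¹` with `y ∈ A`. -/
theorem md_bsub_mem (A : Subgroup G) (hA : ∀ x ∈ A, ∀ y ∈ A, x * y = y * x) (g : G)
    (hg : NormBy g A) (b : G) (hb : b ∈ bsub A g) : ∃ y ∈ A, b = y * g * y⁻¹ * g⁻¹ := by
  unfold bsub at hb
  induction hb using Subgroup.closure_induction with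
  | mem x hx => exact hx
  | one => exact ⟨1, A.one_mem, by group⟩
  | mul x y _ _ hx hy =>
    obtain ⟨u, hu, rfl⟩ := hx
    obtain ⟨v, hv, rfl⟩ := hy
    exact ⟨u * v, A.mul_mem hu hv, (md_comm_mul A hA g hg u v hu hv).symm⟩
  | inv x _ hx =>
    obtain ⟨u, hu, rfl⟩ := hx
    refine ⟨u⁻¹, A.inv_mem hu, ?_⟩
    have h1 : g * u * g⁻¹ ∈ A := hg.1 _ hu
    have h3 := hA _ h1 _ (A.inv_mem hu)
    calc (u * g * u⁻¹ * g⁻¹)⁻¹ = (g * u * g⁻¹) * u⁻¹ := by group
      _ = u⁻¹ * (g * u * g⁻¹) := h3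
      _ = u⁻¹ * g * u⁻¹⁻¹ * g⁻¹ := by group

theorem md_bsub_le (A : Subgroup G) (hA : ∀ x ∈ A, ∀ y ∈ A, x * y = y * x) (g : G)
    (hg : NormBy g A) : bsub A g ≤ A := by
  intro b hb
  obtain ⟨y, hy, rfl⟩ := md_bsub_mem A hA g hg b hb
  exact md_comm_mem A g hg y hy

/-- `|A| = |[A, g]| * |C_A(g)|`. -/
theorem md_card_bsub [Finite G] (A : Subgroup G) (hA : ∀ x ∈ A, ∀ y ∈ A, x * y = y * x) (g : G)
    (hg : NormBy g A) : Nat.card A = Nat.card (bsub A g) * cent A g := by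
  let φ : ↥A →* ↥A := MonoidHom.mk'
    (fun y => ⟨(y : G) * g * (y : G)⁻¹ * g⁻¹, md_comm_mem A g hg y y.2⟩)
    (by
      intro u v
      apply Subtype.ext
      exact md_comm_mul A hA g hg u v u.2 v.2)
  have hφ : ∀ y : ↥A, ((φ y : ↥A) : G) = (y : G) * g * (y : G)⁻¹ * g⁻¹ := fun y => rfl
  have h1 := Subgroup.card_mul_index φ.ker
  rw [Subgroup.index_ker] at h1
  have hker : Nat.card φ.ker = cent A g := by
    unfold cent
    apply Nat.card_congr
    refine ⟨fun y => ⟨(y.1 : G), y.1.2, ?_⟩, fun x => ⟨⟨x.1, x.2.1⟩, ?_⟩, ?_, ?_⟩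
    · have hy := y.2
      rw [MonoidHom.mem_ker] at hy
      have hy' := congrArg (fun z : ↥A => (z : G)) hy
      simp only [hφ, Subgroup.coe_one] at hy'
      have : (y.1 : G) * g = g * (y.1 : G) := by
        have h := congrArg (fun z => z * g * (y.1 : G)) hy'
        simpa [mul_assoc] using h
      exact this.symm
    · rw [MonoidHom.mem_ker]
      apply Subtype.ext
      rw [hφ]
      show x.1 * g * x.1⁻¹ * g⁻¹ = 1
      rw [← x.2.2]
      group
    · intro y; rfl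
    · intro x; rfl
  have hrange : Nat.card φ.range = Nat.card (bsub A g) := by
    apply Nat.card_congr
    refine ⟨fun z => ⟨(z.1 : G), ?_⟩, fun b => ⟨⟨b.1, md_bsub_le A hA g hg b.2⟩, ?_⟩, ?_, ?_⟩
    · obtain ⟨y, hy⟩ := z.2
      rw [← hy, hφ]
      exact Subgroup.subset_closure ⟨y.1, y.2, rfl⟩
    · obtain ⟨y, hy, hby⟩ := md_bsub_mem A hA g hg b.1 b.2
      refine ⟨⟨y, hy⟩, ?_⟩
      apply Subtype.ext
      rw [hφ]
      exact hby.symm
    · intro z; rfl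
    · intro b; rfl
  rw [hker, hrange] at h1
  rw [← h1, mul_comm]

/-- The relative character is invariant under conjugation by elements of `N`. -/
theorem md_ptr_conj (ρ : Representation ℂ G V) (N : Subgroup G) (P : V →ₗ[ℂ] V)
    (hP : IsProjFor ρ N P) (y : G) (hy : y ∈ N) (g : G) :
    ptr ρ P (y * g * y⁻¹) = ptr ρ P g := by
  unfold ptr
  rw [map_mul, map_mul]
  have h1 : (ρ y * ρ g * ρ y⁻¹) ∘ₗ P = ρ y * (ρ g * (ρ y⁻¹ * P)) := rfl
  rw [h1, LinearMap.trace_mul_comm]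
  have h2 : ρ g * (ρ y⁻¹ * P) * ρ y = ρ g ∘ₗ (ρ y⁻¹ ∘ₗ (P ∘ₗ ρ y)) := rfl
  rw [h2, ← hP.2 y hy]
  have h3 : ρ y⁻¹ ∘ₗ (ρ y ∘ₗ P) = (ρ y⁻¹ * ρ y) ∘ₗ P := rfl
  rw [h3, ← map_mul, inv_mul_cancel, map_one]
  rfl

/-- Core of PIECE E, with the instances of `core`, `ptr_avg`, `ptr_avg_one` as hypotheses. -/
theorem lemE_core [Finite G] (ρ : Representation ℂ G V) (N A : Subgroup G)
    (P : V →ₗ[ℂ] V) (hP : IsProjFor ρ N P) (hAN : A ≤ N)
    (hA : ∀ x ∈ A, ∀ y ∈ A, x * y = y * x) (τ : ℂ) (hm : MultOne ρ P A τ)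
    (g : G) (hg : NormBy g A) (hBC : bsub A g ≤ csub A g)
    (he : ∀ x ∈ csub A g, x ∉ bsub A g → ptr ρ P (x * g) = ptr ρ P g - (cent A g : ℂ))
    (hcore : ρ g ∘ₗ (P ∘ₗ (avg ρ (csub A g) - avg ρ A)) = P ∘ₗ (avg ρ (csub A g) - avg ρ A))
    (havgC : ptr ρ (P ∘ₗ avg ρ (csub A g)) g * (Nat.card (csub A g) : ℂ) =
      ∑ᶠ x : csub A g, ptr ρ P (g * (x : G)))
    (havgC1 : ptr ρ (P ∘ₗ avg ρ (csub A g)) 1 * (Nat.card (csub A g) : ℂ) =
      ptr ρ P 1 + ((Nat.card (csub A g) : ℂ) - 1) * τ)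
    (havgA1 : ptr ρ (P ∘ₗ avg ρ A) 1 * (Nat.card A : ℂ) =
      ptr ρ P 1 + ((Nat.card A : ℂ) - 1) * τ) :
    ptr ρ (P ∘ₗ avg ρ A) g = ptr ρ P g + 1 - (cent A g : ℂ) := by
  classical
  haveI : Fintype G := Fintype.ofFinite G
  have hcentC : Nat.card (csub A g) = cent A g := rfl
  have hcard := md_card_bsub A hA g hg
  have hXpos : 0 < cent A g := by rw [← hcentC]; exact Nat.card_pos
  have hApos : 0 < Nat.card A := Nat.card_pos
  -- values of the relative character on `C`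
  have hvalB : ∀ x ∈ bsub A g, ptr ρ P (g * x) = ptr ρ P g := by
    intro x hx
    obtain ⟨y, hy, rfl⟩ := md_bsub_mem A hA g hg x hx
    have hxC := (mem_csub.mp (hBC hx)).2
    rw [hxC]
    have : y * g * y⁻¹ * g⁻¹ * g = y * g * y⁻¹ := by group
    rw [this]
    exact md_ptr_conj ρ N P hP y (hAN hy) g
  have hvalC : ∀ x ∈ csub A g, x ∉ bsub A g → ptr ρ P (g * x) = ptr ρ P g - (cent A g : ℂ) := by
    intro x hx hxB
    rw [(mem_csub.mp hx).2]
    exact he x hx hxB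
  -- the sum over `C`
  have hsum : ∑ᶠ x : csub A g, ptr ρ P (g * (x : G)) =
      (cent A g : ℂ) * ptr ρ P g -
        ((cent A g : ℂ) - (Nat.card (bsub A g) : ℂ)) * (cent A g : ℂ) := by
    haveI : Fintype (csub A g) := Fintype.ofFinite _
    haveI : Fintype (bsub A g) := Fintype.ofFinite _
    rw [finsum_eq_sum_of_fintype]
    have e1 : ∑ x : csub A g, ptr ρ P (g * (x : G)) =
        ∑ x ∈ Finset.univ.filter (fun x : G => x ∈ csub A g), ptr ρ P (g * x) :=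
      (Finset.sum_subtype (Finset.univ.filter (fun x : G => x ∈ csub A g))
        (fun x => by simp) (fun x => ptr ρ P (g * x))).symm
    rw [e1]
    have hsub : Finset.univ.filter (fun x : G => x ∈ bsub A g) ⊆
        Finset.univ.filter (fun x : G => x ∈ csub A g) := by
      intro x hx
      simp only [Finset.mem_filter, Finset.mem_univ, true_and] at hx ⊢
      exact hBC hx
    rw [← Finset.sum_sdiff hsub]
    have e2 : ∑ x ∈ Finset.univ.filter (fun x : G => x ∈ bsub A g), ptr ρ P (g * x) =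
        ((Finset.univ.filter (fun x : G => x ∈ bsub A g)).card : ℂ) * ptr ρ P g := by
      rw [Finset.sum_congr rfl (fun x hx => hvalB x (by simpa using hx)), Finset.sum_const,
        nsmul_eq_mul]
    have e3 : ∑ x ∈ Finset.univ.filter (fun x : G => x ∈ csub A g) \
          Finset.univ.filter (fun x : G => x ∈ bsub A g), ptr ρ P (g * x) =
        (((Finset.univ.filter (fun x : G => x ∈ csub A g)) \
          (Finset.univ.filter (fun x : G => x ∈ bsub A g))).card : ℂ) *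
          (ptr ρ P g - (cent A g : ℂ)) := by
      rw [Finset.sum_congr rfl (fun x hx => ?_), Finset.sum_const, nsmul_eq_mul]
      simp only [Finset.mem_sdiff, Finset.mem_filter, Finset.mem_univ, true_and] at hx
      exact hvalC x hx.1 hx.2
    have cC : (Finset.univ.filter (fun x : G => x ∈ csub A g)).card = cent A g := by
      rw [← hcentC, Nat.card_eq_fintype_card, Fintype.card_subtype]
    have cB : (Finset.univ.filter (fun x : G => x ∈ bsub A g)).card = Nat.card (bsub A g) := by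
      rw [Nat.card_eq_fintype_card, Fintype.card_subtype]
    have hle := Finset.card_le_card hsub
    rw [e2, e3, Finset.card_sdiff_of_subset hsub, Nat.cast_sub hle, cC, cB]
    ring
  -- the trace identity from `core`
  have htr : ptr ρ (P ∘ₗ avg ρ (csub A g)) g - ptr ρ (P ∘ₗ avg ρ A) g =
      ptr ρ (P ∘ₗ avg ρ (csub A g)) 1 - ptr ρ (P ∘ₗ avg ρ A) 1 := by
    have h := congrArg (LinearMap.trace ℂ V) hcore
    rw [LinearMap.comp_sub, LinearMap.comp_sub, map_sub, map_sub] at h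
    unfold ptr
    rw [map_one]
    exact h
  -- arithmetic
  have hab : (Nat.card A : ℂ) = (Nat.card (bsub A g) : ℂ) * (cent A g : ℂ) := by
    rw [hcard]; push_cast; ring
  have hX0 : (cent A g : ℂ) ≠ 0 := by exact_mod_cast hXpos.ne'
  have ha0 : (Nat.card A : ℂ) ≠ 0 := by exact_mod_cast hApos.ne'
  have h1 := hm.2
  rw [hcentC] at havgC havgC1
  rw [hsum] at havgC
  have hu : ptr ρ (P ∘ₗ avg ρ (csub A g)) g =
      ptr ρ P g - ((cent A g : ℂ) - (Nat.card (bsub A g) : ℂ)) := by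
    apply mul_right_cancel₀ hX0
    rw [havgC]; ring
  have hv : ptr ρ (P ∘ₗ avg ρ (csub A g)) 1 = (Nat.card (bsub A g) : ℂ) + τ := by
    apply mul_right_cancel₀ hX0
    rw [havgC1]
    linear_combination h1 + hab
  have hw : ptr ρ (P ∘ₗ avg ρ A) 1 = 1 + τ := by
    apply mul_right_cancel₀ ha0
    rw [havgA1]
    linear_combination h1
  linear_combination hu - htr - hv + hw

end

end Cfsg.Agent.Helper4
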