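import Mathlib
import Cfsg.Agent.Helper90.MDDefs
import Cfsg.Agent.Helper91.MDAVG
import Cfsg.Agent.Helper58.MDCORE
import Cfsg.Agent.Helper4.MDECore

set_option autoImplicit false

namespace Cfsg.Agent.Helper4

open Cfsg.Agent.Helper90.MD

section
variable {G : Type*} [Group G] {V : Type*} [AddCommGroup V] [Module ℂ V]

/-- PIECE E. -/
theorem lemE [Finite G] [FiniteDimensional ℂ V] (ρ : Representation ℂ G V) (N A : Subgroup G)
    (P : V →ₗ[ℂ] V) (hP : IsProjFor ρ N P) (hAN : A ≤ N)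
    (hA : ∀ x ∈ A, ∀ y ∈ A, x * y = y * x) (τ : ℂ) (hm : MultOne ρ P A τ)
    (g : G) (hgN : g ∈ N) (hg : NormBy g A) (hBC : bsub A g ≤ csub A g)
    (hT : PropT N A (csub A g) g)
    (he : ∀ x ∈ csub A g, x ∉ bsub A g → ptr ρ P (x * g) = ptr ρ P g - (cent A g : ℂ)) :
    ptr ρ (P ∘ₗ avg ρ A) g = ptr ρ P g + 1 - (cent A g : ℂ) := by
  have hCA : csub A g ≤ A := fun x hx => (mem_csub.mp hx).1
  exact lemE_core ρ N A P hP hAN hA τ hm g hg hBC he
    (Cfsg.Agent.Helper58.MDCore.core ρ N A P hP hAN hA τ hm g hgN hg (csub A g) hBC hCA hT)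
    (Cfsg.Agent.Helper91.ptr_avg ρ N (csub A g) P hP (hCA.trans hAN) g)
    (Cfsg.Agent.Helper91.ptr_avg_one ρ N (csub A g) P hP (hCA.trans hAN) τ
      (fun x hx hx1 => hm.1 x (hCA hx) hx1))
    (Cfsg.Agent.Helper91.ptr_avg_one ρ N A P hP hAN τ hm.1)

end

end Cfsg.Agent.Helper4
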