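import Mathlib
import Cfsg.Prelude.Def_SporadicB

/-!
# Helper4: piece NSD (`nonsplit_double_cover_of_hom`) of CALL S2132
-/

set_option autoImplicit false

namespace Cfsg.Agent.Helper4

/-- PIECE NSD -/
theorem nonsplit_double_cover_of_hom {C : Type*} [Group C] (z : C) (hz : z ≠ 1)
    (hzc : ∀ g : C, g * z = z * g) (φ : C →* ↥(alternatingGroup (Fin 8)))
    (hφ : Function.Surjective φ) (hker : ∀ g : C, φ g = 1 ↔ g = 1 ∨ g = z) (x : C)
    (hx : x * x = z) : Cfsg.IsNonsplitDoubleCover C ↥(alternatingGroup (Fin 8)) := by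
  have hK : Subgroup.center ↥(alternatingGroup (Fin 8)) = ⊥ :=
    alternatingGroup.center_eq_bot (by simp)
  have hzz : z * z = 1 := by
    have h1 : φ (z * z) = 1 := by
      rw [map_mul, (hker z).mpr (Or.inr rfl), mul_one]
    rcases (hker (z * z)).mp h1 with h2 | h2
    · exact h2
    · exact absurd (mul_eq_left.mp h2) hz
  have hkerz : φ.ker = Subgroup.zpowers z := by
    apply le_antisymm
    · intro g hg
      rcases (hker g).mp (MonoidHom.mem_ker.mp hg) with h | h
      · rw [h]; exact Subgroup.one_mem _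
      · rw [h]; exact Subgroup.mem_zpowers z
    · rw [Subgroup.zpowers_le, MonoidHom.mem_ker]
      exact (hker z).mpr (Or.inr rfl)
  have hcen : Subgroup.center C = φ.ker := by
    apply le_antisymm
    · intro g hg
      rw [MonoidHom.mem_ker]
      have h1 : φ g ∈ Subgroup.center ↥(alternatingGroup (Fin 8)) := by
        rw [Subgroup.mem_center_iff]
        intro k
        obtain ⟨c, rfl⟩ := hφ k
        rw [← map_mul, ← map_mul, Subgroup.mem_center_iff.mp hg c]
      rw [hK] at h1
      exact Subgroup.mem_bot.mp h1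
    · rw [hkerz, Subgroup.zpowers_le, Subgroup.mem_center_iff]
      exact hzc
  have hzmem : z ∈ Subgroup.center C := by
    rw [hcen, hkerz]; exact Subgroup.mem_zpowers z
  refine ⟨?_, ?_, ?_⟩
  · rw [hcen, hkerz, Nat.card_zpowers]
    exact orderOf_eq_prime (by rw [pow_two]; exact hzz) hz
  · have e1 : C ⧸ Subgroup.center C ≃* C ⧸ φ.ker := QuotientGroup.quotientMulEquivOfEq hcen
    exact ⟨e1.trans (QuotientGroup.quotientKerEquivOfSurjective φ hφ)⟩
  · intro L hL
    obtain ⟨⟨⟨a, ha⟩, ⟨b, hb⟩⟩, hab⟩ := hL.2 x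
    simp only at hab
    have hca : ∀ w : C, a * w = w * a := fun w => (Subgroup.mem_center_iff.mp ha w).symm
    have haa : a * a = 1 := by
      have h1 : a ∈ φ.ker := hcen ▸ ha
      rcases (hker a).mp (MonoidHom.mem_ker.mp h1) with h | h
      · rw [h, mul_one]
      · rw [h]; exact hzz
    have hbb : b * b = z := by
      rw [← hx, ← hab]
      calc b * b = (a * a) * (b * b) := by rw [haa, one_mul]
        _ = a * (a * b) * b := by group
        _ = a * (b * a) * b := by rw [hca b]
        _ = a * b * (a * b) := by group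
    have hzL : z ∈ L := hbb ▸ L.mul_mem hb hb
    have hd := hL.disjoint
    have hbot : z ∈ (⊥ : Subgroup C) := by
      rw [← disjoint_iff.mp hd]
      exact ⟨hzmem, hzL⟩
    exact hz (Subgroup.mem_bot.mp hbot)

end Cfsg.Agent.Helper4
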