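import Cfsg.Prelude.Def_Transfer
import Cfsg.Prelude.Def_Solvable
import Cfsg.Agent.Helper63.N15Defs

/-!
# CALL S4415 (helper63), piece `a1` (helper4): an element of order prime to `6` centralized by
`q₁` and inverted by `q₂` is trivial.
-/

set_option autoImplicit false

namespace Cfsg.Agent.Helper4.N15

open Cfsg.Agent.Helper63.N15

variable {G : Type*} [Group G] [Finite G] {V : Type*} [AddCommGroup V] [Module (ZMod 3) V]
  [Finite V] {ρ : Representation (ZMod 3) G V} {R : Subgroup G} {b q₁ q₂ q₃ : G} {v₁ v₂ v₃ : V}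

omit [Finite V] in
/-- characteristic `3` -/
theorem a1_three (w : V) : w + w + w = 0 := by
  have h : (3 : ZMod 3) • w = w + w + w := by
    rw [show (3 : ZMod 3) = 1 + 1 + 1 by norm_num, add_smul, add_smul, one_smul]
  rw [← h, show (3 : ZMod 3) = 0 from rfl, zero_smul]

omit [Finite V] in
theorem a1_two (w : V) (h : w + w = 0) : w = 0 := by
  have h3 := a1_three w
  rw [h, zero_add] at h3
  exact h3

omit [Finite V] in
theorem a1_neg (w : V) : -w = w + w := by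
  calc -w = -w + (w + w + w) := by rw [a1_three w, add_zero]
    _ = w + w := by abel

omit [Finite G] [Finite V] in
/-- the `+1`-eigenspace of `q₁` is `C ⊕ ⟨v₁⟩` -/
theorem a1_decP (c : Cfg ρ R b q₁ q₂ q₃ v₁ v₂ v₃) (v : V) (hv : ρ q₁ v = v) :
    ∃ (u : V) (c₁ : ZMod 3), v = u + c₁ • v₁ ∧ ρ q₂ u = u := by
  obtain ⟨u, c₁, c₂, c₃, hdec, hu1, hu2, -, -⟩ := c.dec v
  refine ⟨u, c₁, ?_, hu2⟩
  have h1 : ρ q₁ v = u + c₁ • v₁ + -(c₂ • v₂) + -(c₃ • v₃) := by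
    rw [hdec, map_add, map_add, map_add, map_smul, map_smul, map_smul, hu1, c.s11, c.s12, c.s13,
      smul_neg, smul_neg]
  rw [hv] at h1
  have h2 : (c₂ • v₂ + c₃ • v₃) + (c₂ • v₂ + c₃ • v₃) = 0 := by
    have h3 : u + c₁ • v₁ + c₂ • v₂ + c₃ • v₃ = u + c₁ • v₁ + -(c₂ • v₂) + -(c₃ • v₃) := by
      rw [← hdec]; exact h1
    have h4 : (c₂ • v₂ + c₃ • v₃) + (c₂ • v₂ + c₃ • v₃)
        = (u + c₁ • v₁ + c₂ • v₂ + c₃ • v₃) - (u + c₁ • v₁ + -(c₂ • v₂) + -(c₃ • v₃)) := by abel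
    rw [h4, h3, sub_self]
  have h5 := a1_two _ h2
  rw [hdec, add_assoc (u + c₁ • v₁), h5, add_zero]

omit [Finite G] [Finite V] in
/-- the `-1`-eigenspace of `q₁` is `⟨v₂, v₃⟩` -/
theorem a1_decM (c : Cfg ρ R b q₁ q₂ q₃ v₁ v₂ v₃) (v : V) (hv : ρ q₁ v = -v) :
    ∃ c₂ c₃ : ZMod 3, v = c₂ • v₂ + c₃ • v₃ := by
  obtain ⟨u, c₁, c₂, c₃, hdec, hu1, -, -, -⟩ := c.dec v
  refine ⟨c₂, c₃, ?_⟩
  have h1 : ρ q₁ v = u + c₁ • v₁ + -(c₂ • v₂) + -(c₃ • v₃) := by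
    rw [hdec, map_add, map_add, map_add, map_smul, map_smul, map_smul, hu1, c.s11, c.s12, c.s13,
      smul_neg, smul_neg]
  rw [hv] at h1
  have h2 : (u + c₁ • v₁) + (u + c₁ • v₁) = 0 := by
    have h3 : -(u + c₁ • v₁ + c₂ • v₂ + c₃ • v₃) = u + c₁ • v₁ + -(c₂ • v₂) + -(c₃ • v₃) := by
      rw [← hdec]; exact h1
    have h4 : (u + c₁ • v₁) + (u + c₁ • v₁)
        = (u + c₁ • v₁ + -(c₂ • v₂) + -(c₃ • v₃)) - -(u + c₁ • v₁ + c₂ • v₂ + c₃ • v₃) := by abel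
    rw [h4, h3, sub_self]
  have h5 := a1_two _ h2
  rw [hdec, h5, zero_add]

/-- A1. An element `x` of order prime to `6` centralized by `q₁` and inverted by `q₂` is
trivial. -/
theorem a1 (c : Cfg ρ R b q₁ q₂ q₃ v₁ v₂ v₃)
    (hsm : ∀ (y : G) (m : ℕ), y ^ m = 1 → m.Coprime 6 → ∀ W : Submodule (ZMod 3) V,
      (∀ w ∈ W, ρ y w ∈ W) → Nat.card W ≤ 9 → ∀ w ∈ W, ρ y w = w)
    (x : G) (m : ℕ) (hx : x ^ m = 1) (hm : m.Coprime 6) (h1 : q₁ * x = x * q₁)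
    (h2 : q₂ * x * q₂⁻¹ = x⁻¹) : x = 1 := by
  have hmul : ∀ (g h : G) (v : V), ρ (g * h) v = ρ g (ρ h v) := by
    intro g h v
    rw [map_mul]
    rfl
  have hq₂inv : q₂⁻¹ = q₂ := inv_eq_of_mul_eq_one_left c.q22
  -- `q₁` commutes with `x` and `x⁻¹`
  have hq₁x : ∀ v, ρ q₁ (ρ x v) = ρ x (ρ q₁ v) := by
    intro v
    rw [← hmul, ← hmul, h1]
  have h1' : q₁ * x⁻¹ = x⁻¹ * q₁ := by
    calc q₁ * x⁻¹ = x⁻¹ * (x * q₁) * x⁻¹ := by group
      _ = x⁻¹ * (q₁ * x) * x⁻¹ := by rw [h1]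
      _ = x⁻¹ * q₁ := by group
  have hq₁xi : ∀ v, ρ q₁ (ρ x⁻¹ v) = ρ x⁻¹ (ρ q₁ v) := by
    intro v
    rw [← hmul, ← hmul, h1']
  have hxxi : ∀ v, ρ x (ρ x⁻¹ v) = v := by
    intro v
    rw [← hmul, mul_inv_cancel, map_one]
    rfl
  -- step 1: `x` is trivial on the `-1`-eigenspace of `q₁`
  have hW : ∀ w ∈ LinearMap.ker (ρ q₁ + 1), ρ x w = w := by
    apply hsm x m hx hm
    · intro w hw
      rw [LinearMap.mem_ker, LinearMap.add_apply, Module.End.one_apply] at hw ⊢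
      rw [hq₁x, ← map_add, hw, map_zero]
    · have hsurj : Function.Surjective
          (fun p : ZMod 3 × ZMod 3 =>
            (⟨p.1 • v₂ + p.2 • v₃, by
              rw [LinearMap.mem_ker, LinearMap.add_apply, Module.End.one_apply, map_add,
                map_smul, map_smul, c.s12, c.s13]
              module⟩ : LinearMap.ker (ρ q₁ + 1))) := by
        rintro ⟨w, hw⟩
        rw [LinearMap.mem_ker, LinearMap.add_apply, Module.End.one_apply] at hw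
        obtain ⟨c₂, c₃, hc⟩ := a1_decM c w (eq_neg_of_add_eq_zero_left hw)
        exact ⟨(c₂, c₃), Subtype.ext hc.symm⟩
      have := Nat.card_le_card_of_surjective _ hsurj
      simpa [Nat.card_prod] using this
  have hmemW : ∀ w, ρ q₁ w = -w → w ∈ LinearMap.ker (ρ q₁ + 1) := by
    intro w hw
    rw [LinearMap.mem_ker, LinearMap.add_apply, Module.End.one_apply, hw, neg_add_cancel]
  have hxv₂ : ρ x v₂ = v₂ := hW v₂ (hmemW v₂ c.s12)
  have hxv₃ : ρ x v₃ = v₃ := hW v₃ (hmemW v₃ c.s13)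
  -- `y = x * x = x q₂ x⁻¹ q₂`
  have hy : x * x = x * q₂ * x⁻¹ * q₂ := by
    have h3 : q₂ * x⁻¹ * q₂⁻¹ = x := by
      calc q₂ * x⁻¹ * q₂⁻¹ = (q₂ * x * q₂⁻¹)⁻¹ := by group
        _ = x := by rw [h2, inv_inv]
    rw [hq₂inv] at h3
    calc x * x = x * (q₂ * x⁻¹ * q₂) := by rw [h3]
      _ = x * q₂ * x⁻¹ * q₂ := by group
  have hyv : ∀ v, ρ (x * x) v = ρ x (ρ q₂ (ρ x⁻¹ (ρ q₂ v))) := by
    intro v
    rw [hy, hmul, hmul, hmul]
  -- `q₂` on the `+1`-eigenspace of `q₁`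
  have hF2 : ∀ v, ρ q₁ v = v → ∃ a : ZMod 3, ρ q₂ v = v + a • v₁ := by
    intro v hv
    obtain ⟨u, c₁, hdec, hu⟩ := a1_decP c v hv
    refine ⟨c₁, ?_⟩
    rw [hdec, map_add, map_smul, hu, c.s21, smul_neg, a1_neg (c₁ • v₁)]
    abel
  -- `(y - 1) V' ⊆ ⟨v₁, x v₁⟩`
  have hF4 : ∀ v, ρ q₁ v = v →
      ρ (x * x) v - v ∈ Submodule.span (ZMod 3) ({v₁, ρ x v₁} : Set V) := by
    intro v hv
    obtain ⟨a, ha⟩ := hF2 v hv
    obtain ⟨a', ha'⟩ := hF2 (ρ x⁻¹ v) (by rw [hq₁xi, hv])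
    obtain ⟨a'', ha''⟩ := hF2 (ρ x⁻¹ v₁) (by rw [hq₁xi, c.s11])
    rw [Submodule.mem_span_pair]
    refine ⟨a, a' + a * a'', ?_⟩
    rw [hyv, ha, map_add, map_smul, map_add, map_smul, ha', ha'', map_add, map_add, map_smul,
      map_smul, map_add, map_smul, hxxi, hxxi]
    module
  have hv₁Y : v₁ ∈ Submodule.span (ZMod 3) ({v₁, ρ x v₁} : Set V) :=
    Submodule.subset_span (by simp)
  have hxv₁Y : ρ x v₁ ∈ Submodule.span (ZMod 3) ({v₁, ρ x v₁} : Set V) :=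
    Submodule.subset_span (by simp)
  have hym : (x * x) ^ m = 1 := by
    rw [← pow_two, ← pow_mul, mul_comm, pow_mul, hx, one_pow]
  -- `y` is trivial on `Y`
  have hF7 : ∀ w ∈ Submodule.span (ZMod 3) ({v₁, ρ x v₁} : Set V), ρ (x * x) w = w := by
    apply hsm (x * x) m hym hm
    · intro w hw
      rw [Submodule.mem_span_pair] at hw
      obtain ⟨a, d, rfl⟩ := hw
      rw [map_add, map_smul, map_smul]
      have e1 : ρ (x * x) v₁ ∈ Submodule.span (ZMod 3) ({v₁, ρ x v₁} : Set V) := by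
        have := Submodule.add_mem _ (hF4 v₁ c.s11) hv₁Y
        simpa using this
      have e2 : ρ (x * x) (ρ x v₁) ∈ Submodule.span (ZMod 3) ({v₁, ρ x v₁} : Set V) := by
        have := Submodule.add_mem _ (hF4 (ρ x v₁) (by rw [hq₁x, c.s11])) hxv₁Y
        simpa using this
      exact Submodule.add_mem _ (Submodule.smul_mem _ _ e1) (Submodule.smul_mem _ _ e2)
    · have hsurj : Function.Surjective
          (fun p : ZMod 3 × ZMod 3 =>
            (⟨p.1 • v₁ + p.2 • ρ x v₁, Submodule.add_mem _ (Submodule.smul_mem _ _ hv₁Y)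
              (Submodule.smul_mem _ _ hxv₁Y)⟩ :
              Submodule.span (ZMod 3) ({v₁, ρ x v₁} : Set V))) := by
        rintro ⟨w, hw⟩
        rw [Submodule.mem_span_pair] at hw
        obtain ⟨a, d, hw⟩ := hw
        exact ⟨(a, d), Subtype.ext hw⟩
      have := Nat.card_le_card_of_surjective _ hsurj
      simpa [Nat.card_prod] using this
  -- `(ρ y - 1)² = 0`
  have hAA : ∀ v, ρ (x * x) (ρ (x * x) v) = ρ (x * x) v + ρ (x * x) v - v := by
    intro v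
    obtain ⟨u, c₁, c₂, c₃, hdec, hu1, -, -, -⟩ := c.dec v
    have hv' : ρ q₁ (u + c₁ • v₁) = u + c₁ • v₁ := by
      rw [map_add, map_smul, hu1, c.s11]
    have hn := hF7 _ (hF4 _ hv')
    have hw : ρ (x * x) (c₂ • v₂ + c₃ • v₃) = c₂ • v₂ + c₃ • v₃ := by
      rw [map_add, map_smul, map_smul, hmul x x v₂, hmul x x v₃, hxv₂, hxv₂, hxv₃, hxv₃]
    have e1 : v = (u + c₁ • v₁) + (c₂ • v₂ + c₃ • v₃) := by rw [hdec]; abel
    have e2 : ρ (x * x) v = (u + c₁ • v₁) + (ρ (x * x) (u + c₁ • v₁) - (u + c₁ • v₁))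
        + (c₂ • v₂ + c₃ • v₃) := by
      rw [e1, map_add, hw]
      abel
    have e3 : ρ (x * x) (ρ (x * x) v) = ρ (x * x) (u + c₁ • v₁)
        + (ρ (x * x) (u + c₁ • v₁) - (u + c₁ • v₁)) + (c₂ • v₂ + c₃ • v₃) := by
      rw [e2, map_add, map_add, hn, hw]
    rw [e3, e2, e1]
    abel
  have hy3 : (x * x) * (x * x) * (x * x) = 1 := by
    apply c.faith
    intro v
    rw [hmul, hmul, hAA, hAA]
    have h3 := a1_three (ρ (x * x) v)
    have h3' := a1_three v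
    have e : ρ (x * x) v + ρ (x * x) v - v + (ρ (x * x) v + ρ (x * x) v - v) - ρ (x * x) v
        = (ρ (x * x) v + ρ (x * x) v + ρ (x * x) v) - (v + v + v) + v := by abel
    rw [e, h3, h3', sub_zero, zero_add]
  have hy3' : (x * x) ^ 3 = 1 := by
    rw [pow_succ, pow_two]
    exact hy3
  -- `y = 1`
  have hm3 : Nat.gcd m 3 = 1 := by
    have : Nat.Coprime m 3 := Nat.Coprime.coprime_dvd_right (by norm_num : 3 ∣ 6) hm
    exact this
  have hyone : x * x = 1 := by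
    have : (x * x) ^ Nat.gcd m 3 = 1 := pow_gcd_eq_one.mpr ⟨hym, hy3'⟩
    rwa [hm3, pow_one] at this
  have hm2 : Nat.gcd m 2 = 1 := by
    have : Nat.Coprime m 2 := Nat.Coprime.coprime_dvd_right (by norm_num : 2 ∣ 6) hm
    exact this
  have hx2 : x ^ 2 = 1 := by rw [pow_two]; exact hyone
  have : x ^ Nat.gcd m 2 = 1 := pow_gcd_eq_one.mpr ⟨hx, hx2⟩
  rwa [hm2, pow_one] at this

end Cfsg.Agent.Helper4.N15
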