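import Cfsg.Prelude.Def_Transfer
import Cfsg.Prelude.Def_Solvable
import Cfsg.Agent.Helper63.N15Defs

/-!
# CALL S4415 (helper63), piece `c3` (helper4): `T2 R` is extraspecial modulo `Z`
(P. Hall type lemma, from `PairStmt` and `PcenStmt`).
-/

set_option autoImplicit false

namespace Cfsg.Agent.Helper4.N15

open Cfsg.Agent.Helper63.N15

variable {G : Type*} [Group G] [Finite G] {V : Type*} [AddCommGroup V] [Module (ZMod 3) V]
  [Finite V] {ρ : Representation (ZMod 3) G V} {R : Subgroup G} {b q₁ q₂ q₃ : G} {v₁ v₂ v₃ : V}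

omit [Finite G] [Finite V] in
/-- faithfulness: equal actions give equal elements -/
theorem c3_faith_inj (hf : ∀ g : G, (∀ v : V, ρ g v = v) → g = 1) (x y : G)
    (h : ∀ v, ρ x v = ρ y v) : x = y := by
  have h1 : x * y⁻¹ = 1 := by
    apply hf
    intro v
    rw [map_mul, Module.End.mul_apply, h, ← Module.End.mul_apply, ← map_mul, mul_inv_cancel,
      map_one, Module.End.one_apply]
  exact mul_inv_eq_one.mp h1

omit [Finite G] [Finite V] in
/-- the element `z` of `T` with `Z ∩ T = {1, z}` -/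
theorem c3_z (hf : ∀ g : G, (∀ v : V, ρ g v = v) → g = 1) (T : Subgroup G) :
    ∃ z ∈ T, IsZ ρ z ∧ z * z = 1 ∧ (∀ g : G, z * g = g * z) ∧
      ∀ x ∈ T, IsZ ρ x → x = 1 ∨ x = z := by
  by_cases h : ∃ z ∈ T, ∀ v : V, ρ z v = -v
  · obtain ⟨z, hzT, hz⟩ := h
    refine ⟨z, hzT, Or.inr hz, ?_, ?_, ?_⟩
    · apply hf
      intro v
      rw [map_mul, Module.End.mul_apply, hz, hz, neg_neg]
    · intro g
      apply c3_faith_inj hf
      intro v
      rw [map_mul, map_mul, Module.End.mul_apply, Module.End.mul_apply, hz, hz, map_neg]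
    · intro x _ hx
      rcases hx with hx | hx
      · left; exact hx
      · right
        apply c3_faith_inj hf
        intro v
        rw [hx, hz]
  · refine ⟨1, T.one_mem, Or.inl rfl, by simp, by simp, ?_⟩
    intro x hxT hx
    rcases hx with hx | hx
    · left; exact hx
    · exact absurd ⟨x, hxT, hx⟩ h

/-- the subgroup `{1, z}` -/
def c3Zs (z : G) (hz2 : z * z = 1) : Subgroup G where
  carrier := {x | x = 1 ∨ x = z}
  mul_mem' := by
    rintro x y (rfl | rfl) (rfl | rfl)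
    · left; simp
    · right; simp
    · right; simp
    · left; exact hz2
  one_mem' := Or.inl rfl
  inv_mem' := by
    rintro x (rfl | rfl)
    · left; simp
    · right; exact inv_eq_of_mul_eq_one_left hz2

omit [Finite G] in
theorem c3_Zs_comm {z : G} {hz2 : z * z = 1} (hzc : ∀ g : G, z * g = g * z) {u : G}
    (hu : u ∈ c3Zs z hz2) (g : G) : u * g = g * u := by
  rcases hu with rfl | rfl
  · simp
  · exact hzc g

omit [Finite G] in
theorem c3_Zs_conj {z : G} {hz2 : z * z = 1} (hzc : ∀ g : G, z * g = g * z) {u : G}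
    (hu : u ∈ c3Zs z hz2) (g : G) : g * u * g⁻¹ = u := by
  rw [← c3_Zs_comm hzc hu g]
  group

/-- the subgroup `Y` of elements of `T` that are central of order `≤ 2` modulo `{1, z}` -/
def c3Y (T : Subgroup G) (z : G) (hz2 : z * z = 1) (hzc : ∀ g : G, z * g = g * z) :
    Subgroup G where
  carrier := {y | y ∈ T ∧ y * y ∈ c3Zs z hz2 ∧ ∀ t ∈ T, y * t * y⁻¹ * t⁻¹ ∈ c3Zs z hz2}
  mul_mem' := by
    rintro x y ⟨hxT, hx2, hxc⟩ ⟨hyT, hy2, hyc⟩
    refine ⟨T.mul_mem hxT hyT, ?_, ?_⟩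
    · have hu := c3_Zs_comm hzc (hyc x hxT) x
      have e : x * y * (x * y) = (y * x * y⁻¹ * x⁻¹) * (x * x) * (y * y) := by
        calc x * y * (x * y) = x * (y * x * y⁻¹ * x⁻¹) * x * y * y := by group
          _ = (y * x * y⁻¹ * x⁻¹) * x * x * y * y := by rw [← hu]
          _ = (y * x * y⁻¹ * x⁻¹) * (x * x) * (y * y) := by group
      rw [e]
      exact (c3Zs z hz2).mul_mem ((c3Zs z hz2).mul_mem (hyc x hxT) hx2) hy2
    · intro t ht
      have hw := c3_Zs_conj hzc (hyc t ht) x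
      have e : x * y * t * (x * y)⁻¹ * t⁻¹
          = (x * (y * t * y⁻¹ * t⁻¹) * x⁻¹) * (x * t * x⁻¹ * t⁻¹) := by group
      rw [e, hw]
      exact (c3Zs z hz2).mul_mem (hyc t ht) (hxc t ht)
  one_mem' := by
    refine ⟨T.one_mem, ?_, ?_⟩
    · left; simp
    · intro t _; left; simp
  inv_mem' := by
    rintro x ⟨hxT, hx2, hxc⟩
    refine ⟨T.inv_mem hxT, ?_, ?_⟩
    · have e : x⁻¹ * x⁻¹ = (x * x)⁻¹ := by group
      rw [e]
      exact (c3Zs z hz2).inv_mem hx2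
    · intro t ht
      have hw := c3_Zs_conj hzc ((c3Zs z hz2).inv_mem (hxc t ht)) x⁻¹
      have e : x⁻¹ * t * x⁻¹⁻¹ * t⁻¹ = x⁻¹ * (x * t * x⁻¹ * t⁻¹)⁻¹ * x⁻¹⁻¹ := by group
      rw [e, hw]
      exact (c3Zs z hz2).inv_mem (hxc t ht)

omit [Finite G] in
theorem c3Y_normal (T : Subgroup G) (hTn : T.Normal) (z : G) (hz2 : z * z = 1)
    (hzc : ∀ g : G, z * g = g * z) : (c3Y T z hz2 hzc).Normal := by
  refine ⟨?_⟩
  rintro y ⟨hyT, hy2, hyc⟩ g
  refine ⟨hTn.conj_mem y hyT g, ?_, ?_⟩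
  · have e : g * y * g⁻¹ * (g * y * g⁻¹) = g * (y * y) * g⁻¹ := by group
    rw [e, c3_Zs_conj hzc hy2 g]
    exact hy2
  · intro t ht
    have ht' : g⁻¹ * t * g ∈ T := by
      have := hTn.conj_mem t ht g⁻¹
      simpa using this
    have e : g * y * g⁻¹ * t * (g * y * g⁻¹)⁻¹ * t⁻¹
        = g * (y * (g⁻¹ * t * g) * y⁻¹ * (g⁻¹ * t * g)⁻¹) * g⁻¹ := by group
    rw [e, c3_Zs_conj hzc (hyc _ ht') g]
    exact hyc _ ht'

/-- C3 (P. Hall type lemma). -/
theorem c3 (c : Cfg ρ R b q₁ q₂ q₃ v₁ v₂ v₃)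
    (hc1 : ∀ A : Subgroup G, A.Normal → A ≤ R → (∀ x ∈ A, ∀ y ∈ A, x * y = y * x) →
      ∀ x ∈ A, IsZ ρ x)
    (htp : TProps R (T2 R)) (hpair : PairStmt G) (hpcen : PcenStmt G) : ZProps ρ (T2 R) := by
  obtain ⟨hTn, hTR, hT2, -⟩ := htp
  set T : Subgroup G := T2 R with hT
  obtain ⟨z, hzT, hzZ, hz2, hzc, hzu⟩ := c3_z (ρ := ρ) c.faith T
  set Zs : Subgroup G := c3Zs z hz2 with hZs
  have hZsZ : ∀ x ∈ Zs, IsZ ρ x := by
    rintro x (rfl | rfl)
    · exact Or.inl rfl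
    · exact hzZ
  have hZsT : Zs ≤ T := by
    rintro x (rfl | rfl)
    · exact T.one_mem
    · exact hzT
  have hZsn : Zs.Normal := ⟨fun u hu g => by rw [c3_Zs_conj hzc hu g]; exact hu⟩
  set Y : Subgroup G := c3Y T z hz2 hzc with hY
  haveI hYn : Y.Normal := c3Y_normal T hTn z hz2 hzc
  have hYT : Y ≤ T := fun y hy => hy.1
  have hZsY : Zs ≤ Y := by
    intro u hu
    refine ⟨hZsT hu, ?_, ?_⟩
    · exact Zs.mul_mem hu hu
    · intro t _
      rw [c3_Zs_comm hzc hu t]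
      left
      group
  -- the centre of `Y` lies in `Zs`
  have hcenY : ∀ y ∈ Y, (∀ s ∈ Y, y * s = s * y) → y ∈ Zs := by
    intro y hy hys
    have hA : ∀ x ∈ Y ⊓ Subgroup.centralizer (Y : Set G), IsZ ρ x := by
      apply hc1 _ inferInstance (le_trans inf_le_left (le_trans hYT hTR))
      intro x hx y' hy'
      exact ((Subgroup.mem_centralizer_iff.mp hx.2) y' hy'.1).symm
    have hyA : y ∈ Y ⊓ Subgroup.centralizer (Y : Set G) := by
      refine ⟨hy, ?_⟩
      show y ∈ Subgroup.centralizer (Y : Set G)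
      rw [Subgroup.mem_centralizer_iff]
      intro s hs
      exact (hys s hs).symm
    exact hzu y (hYT hy) (hA y hyA)
  -- `C_T(Y)` lies in `Zs`
  have hC : T ⊓ Subgroup.centralizer (Y : Set G) ≤ Zs := by
    by_contra hnot
    haveI := hTn
    haveI := hZsn
    have hKlt : (T ⊓ Subgroup.centralizer (Y : Set G)) ⊓ Zs
        < T ⊓ Subgroup.centralizer (Y : Set G) := by
      refine lt_of_le_of_ne inf_le_left ?_
      intro heq
      exact hnot (heq ▸ inf_le_right)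
    obtain ⟨x, hxC, hxK, hx2, hxc⟩ := hpcen T (T ⊓ Subgroup.centralizer (Y : Set G))
      ((T ⊓ Subgroup.centralizer (Y : Set G)) ⊓ Zs) hT2 hTn inferInstance inf_le_left
      inferInstance hKlt
    have hxY : x ∈ Y := ⟨hxC.1, hx2.2, fun t ht => (hxc t ht).2⟩
    have hxZ : x ∈ Zs := by
      apply hcenY x hxY
      intro s hs
      exact ((Subgroup.mem_centralizer_iff.mp hxC.2) s hs).symm
    exact hxK ⟨hxC, hxZ⟩
  -- `T ≤ Y` by PAIR
  have hTY : T ≤ Y := by
    intro t ht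
    obtain ⟨t₀, ht₀, hcomm⟩ := hpair Y z (hZsY (Or.inr rfl)) hz2 (fun y _ => hzc y)
      (fun y hy => hy.2.1) (fun s hs y hy => hs.2.2 y (hYT hy)) hcenY t
      (by
        intro y hy
        have e : t * y * t⁻¹ * y⁻¹ = (y * t * y⁻¹ * t⁻¹)⁻¹ := by group
        rw [e]
        exact Zs.inv_mem (hy.2.2 t ht))
    have hcC : t₀⁻¹ * t ∈ T ⊓ Subgroup.centralizer (Y : Set G) := by
      refine ⟨T.mul_mem (T.inv_mem (hYT ht₀)) ht, ?_⟩
      show t₀⁻¹ * t ∈ Subgroup.centralizer (Y : Set G)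
      rw [Subgroup.mem_centralizer_iff]
      intro y hy
      exact (hcomm y hy).symm
    have h1 : t₀⁻¹ * t ∈ Y := hZsY (hC hcC)
    have e : t = t₀ * (t₀⁻¹ * t) := by group
    rw [e]
    exact Y.mul_mem ht₀ h1
  refine ⟨?_, ?_, ?_⟩
  · intro t ht
    exact hZsZ _ (hTY ht).2.1
  · intro s hs t ht
    exact hZsZ _ ((hTY hs).2.2 t ht)
  · intro t ht hts
    exact hZsZ _ (hcenY t (hTY ht) (fun s hs => hts s (hYT hs)))

end Cfsg.Agent.Helper4.N15
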