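import Cfsg.Prelude.Def_Transfer
import Cfsg.Prelude.Def_Solvable
import Cfsg.Agent.Helper63.N15Defs

/-!
# CALL S4415 (helper63), piece `c5` (helper4): trace argument, `|T| ≤ 32` when `|V| = 81`.
-/

set_option autoImplicit false

namespace Cfsg.Agent.Helper4.N15

open Cfsg.Agent.Helper63.N15

variable {G : Type*} [Group G] [Finite G] {V : Type*} [AddCommGroup V] [Module (ZMod 3) V]
  [Finite V] {ρ : Representation (ZMod 3) G V} {R : Subgroup G} {b q₁ q₂ q₃ : G} {v₁ v₂ v₃ : V}

omit [Finite G] [Finite V] in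
/-- faithfulness: equal actions give equal elements -/
theorem c5_faith_inj (hf : ∀ g : G, (∀ v : V, ρ g v = v) → g = 1) (x y : G)
    (h : ∀ v, ρ x v = ρ y v) : x = y := by
  have h1 : x * y⁻¹ = 1 := by
    apply hf
    intro v
    rw [map_mul, Module.End.mul_apply, h, ← Module.End.mul_apply, ← map_mul, mul_inv_cancel,
      map_one, Module.End.one_apply]
  exact mul_inv_eq_one.mp h1

omit [Finite G] [Finite V] in
/-- the element `z` of `T` with `Z ∩ T = {1, z}` -/
theorem c5_z (hf : ∀ g : G, (∀ v : V, ρ g v = v) → g = 1) (T : Subgroup G) :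
    ∃ z ∈ T, z * z = 1 ∧ ∀ x ∈ T, IsZ ρ x → x = 1 ∨ x = z := by
  by_cases h : ∃ z ∈ T, ∀ v : V, ρ z v = -v
  · obtain ⟨z, hzT, hz⟩ := h
    refine ⟨z, hzT, ?_, ?_⟩
    · apply hf
      intro v
      rw [map_mul, Module.End.mul_apply, hz, hz, neg_neg]
    · intro x _ hx
      rcases hx with hx | hx
      · left; exact hx
      · right
        apply c5_faith_inj hf
        intro v
        rw [hx, hz]
  · refine ⟨1, T.one_mem, by simp, ?_⟩
    intro x hxT hx
    rcases hx with hx | hx
    · left; exact hx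
    · exact absurd ⟨x, hxT, hx⟩ h

/-- the subgroup `{1, z}` -/
def c5Zs (z : G) (hz2 : z * z = 1) : Subgroup G where
  carrier := {x | x = 1 ∨ x = z}
  mul_mem' := by
    rintro x y (rfl | rfl) (rfl | rfl)
    · left; simp
    · right; simp
    · right; simp
    · left; exact hz2
  one_mem' := Or.inl rfl
  inv_mem' := by
    rintro x (rfl | rfl)
    · left; simp
    · right; exact inv_eq_of_mul_eq_one_left hz2

omit [Finite G] in
/-- elements of `T` outside `Z` have trace `0` -/
theorem c5_trace (T : Subgroup G) (hz : ZProps ρ T) (t : G) (ht : t ∈ T) (hnz : ¬ IsZ ρ t) :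
    LinearMap.trace (ZMod 3) V (ρ t) = 0 := by
  have hnc : ¬ ∀ s ∈ T, t * s = s * t := fun h => hnz (hz.2.2 t ht h)
  push Not at hnc
  obtain ⟨s, hs, hst⟩ := hnc
  rcases hz.2.1 s hs t ht with h1 | h1
  · exfalso
    apply hst
    have h2 : s * t * s⁻¹ = t := mul_inv_eq_one.mp h1
    calc t * s = (s * t * s⁻¹) * s := by rw [h2]
      _ = s * t := by group
  · have e1 : ρ (s * t * s⁻¹) = - ρ t := by
      ext v
      have h2 := h1 (ρ t v)
      rw [← Module.End.mul_apply, ← map_mul] at h2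
      have e : s * t * s⁻¹ * t⁻¹ * t = s * t * s⁻¹ := by group
      rw [e] at h2
      rw [h2]
      rfl
    have e2 : LinearMap.trace (ZMod 3) V (ρ (s * t * s⁻¹)) = LinearMap.trace (ZMod 3) V (ρ t) := by
      rw [map_mul ρ, map_mul ρ, LinearMap.trace_mul_comm, ← mul_assoc, ← map_mul ρ, inv_mul_cancel,
        map_one ρ, one_mul]
    rw [e1, map_neg] at e2
    have h3 : (2 : ZMod 3) * LinearMap.trace (ZMod 3) V (ρ t) = 0 := by
      linear_combination (-1 : ZMod 3) * e2
    rcases mul_eq_zero.mp h3 with h | h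
    · exact absurd h (by decide)
    · exact h

/-- C5 (trace argument). -/
theorem c5 (c : Cfg ρ R b q₁ q₂ q₃ v₁ v₂ v₃) (T : Subgroup G) (hz : ZProps ρ T)
    (hV : Nat.card V = 81) : Nat.card T ≤ 32 := by
  classical
  obtain ⟨z, hzT, hz2, hzu⟩ := c5_z (ρ := ρ) c.faith T
  have hfr : Module.finrank (ZMod 3) V = 4 := by
    have h1 := Module.natCard_eq_pow_finrank (K := ZMod 3) (V := V)
    rw [hV, Nat.card_zmod] at h1
    have h2 : (3 : ℕ) ^ 4 = 3 ^ Module.finrank (ZMod 3) V := by rw [← h1]; norm_num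
    exact (Nat.pow_right_injective (by norm_num : 2 ≤ 3) h2).symm
  have htr1 : LinearMap.trace (ZMod 3) V (1 : Module.End (ZMod 3) V) = 1 := by
    rw [LinearMap.trace_one, hfr]
    decide
  set Zs : Subgroup G := c5Zs z hz2 with hZs
  haveI : Fintype (↥T ⧸ Zs.subgroupOf T) := Fintype.ofFinite _
  have hli : LinearIndependent (ZMod 3)
      (fun q : ↥T ⧸ Zs.subgroupOf T => (ρ ((q.out : ↥T) : G) : Module.End (ZMod 3) V)) := by
    rw [Fintype.linearIndependent_iff]
    intro g hg j
    have h1 := congrArg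
      (fun A : Module.End (ZMod 3) V =>
        LinearMap.trace (ZMod 3) V (ρ (((j.out : ↥T) : G)⁻¹) * A)) hg
    simp only [Finset.mul_sum, mul_smul_comm, map_sum, map_smul, mul_zero, map_zero] at h1
    rw [Finset.sum_eq_single j] at h1
    · rw [← map_mul ρ, inv_mul_cancel, map_one ρ, htr1, smul_eq_mul, mul_one] at h1
      exact h1
    · intro q _ hqj
      have hx : ((j.out : ↥T) : G)⁻¹ * ((q.out : ↥T) : G) ∈ T :=
        T.mul_mem (T.inv_mem (j.out : ↥T).2) (q.out : ↥T).2
      have hnz : ¬ IsZ ρ (((j.out : ↥T) : G)⁻¹ * ((q.out : ↥T) : G)) := by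
        intro hZ
        apply hqj
        have h2 : ((j.out : ↥T))⁻¹ * (q.out : ↥T) ∈ Zs.subgroupOf T := by
          rw [Subgroup.mem_subgroupOf]
          exact hzu _ hx hZ
        have h3 : ((j.out : ↥T) : ↥T ⧸ Zs.subgroupOf T) = ((q.out : ↥T) : ↥T ⧸ Zs.subgroupOf T) :=
          QuotientGroup.eq.mpr h2
        rw [QuotientGroup.out_eq', QuotientGroup.out_eq'] at h3
        exact h3.symm
      rw [← map_mul ρ, c5_trace T hz _ hx hnz, smul_zero]
    · intro h
      exact absurd (Finset.mem_univ j) h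
  have hcardQ : Fintype.card (↥T ⧸ Zs.subgroupOf T) ≤ 16 := by
    have h1 := hli.fintype_card_le_finrank
    rwa [Module.finrank_linearMap, hfr] at h1
  have hcardZ : Nat.card (Zs.subgroupOf T) ≤ 2 := by
    have hinj : Function.Injective
        (fun x : Zs.subgroupOf T => decide (((x : ↥T) : G) = 1)) := by
      intro x y hxy
      have hx : ((x : ↥T) : G) = 1 ∨ ((x : ↥T) : G) = z := Subgroup.mem_subgroupOf.mp x.2
      have hy : ((y : ↥T) : G) = 1 ∨ ((y : ↥T) : G) = z := Subgroup.mem_subgroupOf.mp y.2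
      have hxy' : (((x : ↥T) : G) = 1) ↔ (((y : ↥T) : G) = 1) := by
        simpa using hxy
      apply Subtype.ext
      apply Subtype.ext
      rcases hx with hx | hx <;> rcases hy with hy | hy
      · rw [hx, hy]
      · rw [hx, hxy'.mp hx]
      · rw [hy, hxy'.mpr hy]
      · rw [hx, hy]
    have := Nat.card_le_card_of_injective _ hinj
    simpa using this
  have hidx : (Zs.subgroupOf T).index * Nat.card (Zs.subgroupOf T) = Nat.card T :=
    Subgroup.index_mul_card _
  have hidx2 : (Zs.subgroupOf T).index ≤ 16 := by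
    rw [Subgroup.index_eq_card, Nat.card_eq_fintype_card]
    exact hcardQ
  calc Nat.card T = (Zs.subgroupOf T).index * Nat.card (Zs.subgroupOf T) := hidx.symm
    _ ≤ 16 * 2 := Nat.mul_le_mul hidx2 hcardZ
    _ = 32 := by norm_num

end Cfsg.Agent.Helper4.N15
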