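import Cfsg.Prelude.Def_Transfer
import Cfsg.Prelude.Def_Solvable
import Cfsg.Agent.Helper63.N15Defs

/-!
# CALL S4415 (helper63), piece `m3` (helper4): in dimension `3` (monomial frame `e₁, e₂, e₃`),
`R` is elementary abelian of order `4`.
-/

set_option autoImplicit false

namespace Cfsg.Agent.Helper4.N15

open Cfsg.Agent.Helper63.N15

variable {G : Type*} [Group G] [Finite G] {V : Type*} [AddCommGroup V] [Module (ZMod 3) V]
  [Finite V] {ρ : Representation (ZMod 3) G V} {R : Subgroup G} {b q₁ q₂ q₃ : G} {v₁ v₂ v₃ : V}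

/-- a permutation of three points of order prime to `3` whose product with its conjugate under
the `3`-cycle also has order prime to `3` is trivial -/
theorem m3_perm : ∀ (c p : Equiv.Perm (Fin 3)), c 0 = 1 → c 1 = 2 → c 2 = 0 → p ^ 2 = 1 →
    (p * (c * p * c⁻¹)) ^ 2 = 1 → p = 1 := by decide +kernel

theorem m3_perm6 : ∀ (p : Equiv.Perm (Fin 3)), p ^ 6 = 1 := by decide +kernel

theorem m3_sign : ∀ ε : ZMod 3, ε = 1 ∨ ε = -1 → ε * ε = 1 ∧ ε ≠ 0 := by decide

omit [Finite V] in
theorem m3_two (w : V) (h : w + w = 0) : w = 0 := by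
  have h3 : (3 : ZMod 3) • w = w + w + w := by
    rw [show (3 : ZMod 3) = 1 + 1 + 1 by norm_num, add_smul, add_smul, one_smul]
  rw [show (3 : ZMod 3) = 0 from rfl, zero_smul, h, zero_add] at h3
  exact h3.symm

open scoped commutatorElement in
/-- the core: the frame as a family `E : Fin 3 → V` -/
theorem m3_core (c : Cfg ρ R b q₁ q₂ q₃ v₁ v₂ v₃) (E : Fin 3 → V)
    (hli : LinearIndependent (ZMod 3) E)
    (hext : ∀ f g : V →ₗ[ZMod 3] V, (∀ i, f (E i) = g (E i)) → ∀ v, f v = g v)
    (hact : ∀ (g : G) (i : Fin 3), ∃ (j : Fin 3) (ε : ZMod 3), (ε = 1 ∨ ε = -1) ∧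
      ρ g (E i) = ε • E j)
    (hb0 : ρ b (E 0) = E 1) (hb1 : ρ b (E 1) = E 2) (hb2 : ρ b (E 2) = E 0) : IsV4 R := by
  classical
  choose σ s hs hσ using hact
  have hmul : ∀ (g h : G) (v : V), ρ (g * h) v = ρ g (ρ h v) := by
    intro g h v
    rw [map_mul]
    rfl
  have huniq : ∀ (i j : Fin 3) (ε ε' : ZMod 3), ε ≠ 0 → ε • E i = ε' • E j → i = j ∧ ε = ε' := by
    intro i j ε ε' hε h
    have h1 : Finsupp.linearCombination (ZMod 3) E (Finsupp.single i ε)
        = Finsupp.linearCombination (ZMod 3) E (Finsupp.single j ε') := by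
      rw [Finsupp.linearCombination_single, Finsupp.linearCombination_single]
      exact h
    have h2 := hli h1
    rcases (Finsupp.single_eq_single_iff _ _ _ _).mp h2 with h3 | h3
    · exact h3
    · exact absurd h3.1 hε
  have hs1 : ∀ g i, s g i * s g i = 1 := fun g i => (m3_sign _ (hs g i)).1
  have hs0 : ∀ g i, s g i ≠ 0 := fun g i => (m3_sign _ (hs g i)).2
  have hσmul : ∀ g h i, σ (g * h) i = σ g (σ h i) ∧ s (g * h) i = s h i * s g (σ h i) := by
    intro g h i
    have h1 : s (g * h) i • E (σ (g * h) i) = (s h i * s g (σ h i)) • E (σ g (σ h i)) := by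
      rw [← hσ, hmul, hσ h i, map_smul, hσ g, smul_smul]
    exact huniq _ _ _ _ (hs0 _ _) h1
  have hσone : ∀ i, σ 1 i = i ∧ s 1 i = 1 := by
    intro i
    have h1 : s 1 i • E (σ 1 i) = (1 : ZMod 3) • E i := by
      rw [← hσ, map_one, one_smul]
      rfl
    exact huniq _ _ _ _ (hs0 _ _) h1
  -- the permutation representation on the three lines
  have hleft : ∀ g i, σ g⁻¹ (σ g i) = i := by
    intro g i
    rw [← (hσmul g⁻¹ g i).1, inv_mul_cancel]
    exact (hσone i).1
  have hright : ∀ g i, σ g (σ g⁻¹ i) = i := by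
    intro g i
    rw [← (hσmul g g⁻¹ i).1, mul_inv_cancel]
    exact (hσone i).1
  set π : G →* Equiv.Perm (Fin 3) := MonoidHom.mk'
    (fun g => (⟨σ g, σ g⁻¹, hleft g, hright g⟩ : Equiv.Perm (Fin 3)))
    (by
      intro g h
      ext i
      simp only [Equiv.coe_fn_mk, Equiv.Perm.coe_mul, Function.comp_apply]
      rw [(hσmul g h i).1]) with hπ
  have hπapp : ∀ g i, π g i = σ g i := fun g i => rfl
  have hπb0 : π b 0 = 1 := by
    rw [hπapp]
    have h1 : s b 0 • E (σ b 0) = (1 : ZMod 3) • E 1 := by rw [← hσ, hb0, one_smul]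
    exact (huniq _ _ _ _ (hs0 _ _) h1).1
  have hπb1 : π b 1 = 2 := by
    rw [hπapp]
    have h1 : s b 1 • E (σ b 1) = (1 : ZMod 3) • E 2 := by rw [← hσ, hb1, one_smul]
    exact (huniq _ _ _ _ (hs0 _ _) h1).1
  have hπb2 : π b 2 = 0 := by
    rw [hπapp]
    have h1 : s b 2 • E (σ b 2) = (1 : ZMod 3) • E 0 := by rw [← hσ, hb2, one_smul]
    exact (huniq _ _ _ _ (hs0 _ _) h1).1
  haveI hRn : R.Normal := c.Rn
  -- elements of `R` induce permutations of order dividing `2`
  have hgcd : Nat.gcd (Nat.card R) 6 ∣ 2 := by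
    have h1 : Nat.gcd (Nat.card R) 6 ∣ 2 * 3 := Nat.gcd_dvd_right _ 6
    have h2 : Nat.Coprime (Nat.gcd (Nat.card R) 6) 3 :=
      Nat.Coprime.coprime_dvd_left (Nat.gcd_dvd_left _ 6) c.R3
    exact (Nat.Coprime.dvd_mul_right h2).mp h1
  have hord : ∀ r ∈ R, (π r) ^ 2 = 1 := by
    intro r hr
    have h1 : (π r) ^ Nat.card R = 1 := by
      rw [← map_pow]
      have h2 : (⟨r, hr⟩ : R) ^ Nat.card R = 1 := pow_card_eq_one'
      have h3 : r ^ Nat.card R = 1 := by
        have h5 := congrArg Subtype.val h2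
        rw [Subgroup.coe_pow] at h5
        exact h5
      rw [h3, map_one]
    have h4 : (π r) ^ Nat.gcd (Nat.card R) 6 = 1 := pow_gcd_eq_one.mpr ⟨h1, m3_perm6 _⟩
    obtain ⟨k, hk⟩ := hgcd
    rw [hk, pow_mul, h4, one_pow]
  have hπR : ∀ r ∈ R, π r = 1 := by
    intro r hr
    apply m3_perm (π b) (π r) hπb0 hπb1 hπb2 (hord r hr)
    have h1 : r * (b * r * b⁻¹) ∈ R := R.mul_mem hr (hRn.conj_mem r hr b)
    have h2 := hord _ h1
    rw [map_mul, map_mul, map_mul, map_inv] at h2
    exact h2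
  have hσR : ∀ r ∈ R, ∀ i, σ r i = i := by
    intro r hr i
    rw [← hπapp, hπR r hr]
    rfl
  have hsR : ∀ r ∈ R, ∀ r' ∈ R, ∀ i, s (r * r') i = s r' i * s r i := by
    intro r _ r' hr' i
    rw [(hσmul r r' i).2, hσR r' hr']
  -- faithfulness on the frame
  have hfaith : ∀ x y : G, (∀ i, ρ x (E i) = ρ y (E i)) → x = y := by
    intro x y h
    have h1 : x * y⁻¹ = 1 := by
      apply c.faith
      intro v
      have h2 := hext (ρ x) (ρ y) h (ρ y⁻¹ v)
      rw [hmul, h2, ← hmul, mul_inv_cancel, map_one]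
      rfl
    exact mul_inv_eq_one.mp h1
  have hdiag : ∀ r ∈ R, ∀ i, ρ r (E i) = s r i • E i := by
    intro r hr i
    rw [hσ r i, hσR r hr]
  -- `χ = 1` on `R`
  have hsinv : ∀ r ∈ R, ∀ i, s r⁻¹ i = s r i := by
    intro r hr i
    have h1 := hsR r hr r⁻¹ (R.inv_mem hr) i
    rw [mul_inv_cancel, (hσone i).2] at h1
    calc s r⁻¹ i = s r⁻¹ i * (s r i * s r i) := by rw [hs1, mul_one]
      _ = (s r⁻¹ i * s r i) * s r i := by ring
      _ = s r i := by rw [← h1, one_mul]
  have hχ : ∀ r ∈ R, s r 0 * s r 1 * s r 2 = 1 := by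
    have hK : R ≤ ({ carrier := {g | g ∈ R ∧ s g 0 * s g 1 * s g 2 = 1}
                     mul_mem' := by
                       rintro x y ⟨hx, hx1⟩ ⟨hy, hy1⟩
                       refine ⟨R.mul_mem hx hy, ?_⟩
                       rw [hsR x hx y hy, hsR x hx y hy, hsR x hx y hy]
                       calc s y 0 * s x 0 * (s y 1 * s x 1) * (s y 2 * s x 2)
                           = (s x 0 * s x 1 * s x 2) * (s y 0 * s y 1 * s y 2) := by ring
                         _ = 1 := by rw [hx1, hy1, mul_one]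
                     one_mem' := by
                       refine ⟨R.one_mem, ?_⟩
                       rw [(hσone 0).2, (hσone 1).2, (hσone 2).2]
                       ring
                     inv_mem' := by
                       rintro x ⟨hx, hx1⟩
                       refine ⟨R.inv_mem hx, ?_⟩
                       rw [hsinv x hx, hsinv x hx, hsinv x hx]
                       exact hx1 } : Subgroup G) := by
      conv_lhs => rw [← c.comm]
      rw [Subgroup.commutator_le]
      intro g₁ hg₁ g₂ _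
      have hw : g₂ * g₁⁻¹ * g₂⁻¹ ∈ R := hRn.conj_mem _ (R.inv_mem hg₁) g₂
      have e : ⁅g₁, g₂⁆ = g₁ * (g₂ * g₁⁻¹ * g₂⁻¹) := by
        rw [commutatorElement_def]
        group
      refine ⟨by rw [e]; exact R.mul_mem hg₁ hw, ?_⟩
      show s ⁅g₁, g₂⁆ 0 * s ⁅g₁, g₂⁆ 1 * s ⁅g₁, g₂⁆ 2 = 1
      -- the signs of the conjugate
      have hsw : ∀ i, s (g₂ * g₁⁻¹ * g₂⁻¹) i = s g₁ (σ g₂⁻¹ i) := by
        intro i
        have h1 := (hσmul (g₂ * g₁⁻¹) g₂⁻¹ i).2
        have h2 := (hσmul g₂ g₁⁻¹ (σ g₂⁻¹ i)).2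
        have h3 := (hσmul g₂ g₂⁻¹ i).2
        rw [mul_inv_cancel, (hσone i).2] at h3
        rw [h1, h2, hσR g₁⁻¹ (R.inv_mem hg₁), hsinv g₁ hg₁]
        calc s g₂⁻¹ i * (s g₁ (σ g₂⁻¹ i) * s g₂ (σ g₂⁻¹ i))
            = (s g₂⁻¹ i * s g₂ (σ g₂⁻¹ i)) * s g₁ (σ g₂⁻¹ i) := by ring
          _ = s g₁ (σ g₂⁻¹ i) := by rw [← h3, one_mul]
      have hprod : s g₁ (σ g₂⁻¹ 0) * s g₁ (σ g₂⁻¹ 1) * s g₁ (σ g₂⁻¹ 2)
          = s g₁ 0 * s g₁ 1 * s g₁ 2 := by
        have h1 := Equiv.prod_comp (π g₂⁻¹) (fun i => s g₁ i)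
        rw [Fin.prod_univ_three, Fin.prod_univ_three] at h1
        exact h1
      rw [e, hsR g₁ hg₁ _ hw, hsR g₁ hg₁ _ hw, hsR g₁ hg₁ _ hw, hsw, hsw, hsw]
      calc s g₁ (σ g₂⁻¹ 0) * s g₁ 0 * (s g₁ (σ g₂⁻¹ 1) * s g₁ 1) * (s g₁ (σ g₂⁻¹ 2) * s g₁ 2)
          = (s g₁ (σ g₂⁻¹ 0) * s g₁ (σ g₂⁻¹ 1) * s g₁ (σ g₂⁻¹ 2))
            * (s g₁ 0 * s g₁ 1 * s g₁ 2) := by ring
        _ = (s g₁ 0 * s g₁ 0) * (s g₁ 1 * s g₁ 1) * (s g₁ 2 * s g₁ 2) := by rw [hprod]; ring
        _ = 1 := by rw [hs1, hs1, hs1]; ring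
    intro r hr
    exact (hK hr).2
  refine ⟨?_, ?_, ?_⟩
  · -- abelian
    intro x hx y hy
    apply hfaith
    intro i
    rw [hdiag _ (R.mul_mem hx hy), hdiag _ (R.mul_mem hy hx), hsR x hx y hy, hsR y hy x hx,
      mul_comm]
  · -- exponent 2
    intro x hx
    rw [pow_two]
    apply hfaith
    intro i
    rw [hdiag _ (R.mul_mem hx hx), hsR x hx x hx, hs1, map_one, one_smul]
    rfl
  · -- order 4
    apply le_antisymm
    · have hinj : Function.Injective
          (fun r : R => (decide (s (r : G) 0 = 1), decide (s (r : G) 1 = 1))) := by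
        intro x y hxy
        simp only [Prod.mk.injEq, decide_eq_decide] at hxy
        have h0 : s (x : G) 0 = s (y : G) 0 := by
          rcases hs (x : G) 0 with h | h
          · rw [h, hxy.1.mp h]
          · rcases hs (y : G) 0 with h' | h'
            · rw [hxy.1.mpr h'] at h
              exact absurd h (by decide)
            · rw [h, h']
        have h1 : s (x : G) 1 = s (y : G) 1 := by
          rcases hs (x : G) 1 with h | h
          · rw [h, hxy.2.mp h]
          · rcases hs (y : G) 1 with h' | h'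
            · rw [hxy.2.mpr h'] at h
              exact absurd h (by decide)
            · rw [h, h']
        have h2 : s (x : G) 2 = s (y : G) 2 := by
          have hx := hχ x x.2
          have hy := hχ y y.2
          rw [h0, h1] at hx
          have h3 : s (y : G) 0 * s (y : G) 1 ≠ 0 := mul_ne_zero (hs0 _ _) (hs0 _ _)
          exact mul_left_cancel₀ h3 (hx.trans hy.symm)
        apply Subtype.ext
        apply hfaith
        intro i
        rw [hdiag _ x.2, hdiag _ y.2]
        fin_cases i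
        · exact congrArg (· • E 0) h0
        · exact congrArg (· • E 1) h1
        · exact congrArg (· • E 2) h2
      have := Nat.card_le_card_of_injective _ hinj
      simpa [Nat.card_prod] using this
    · -- `1, q₁, q₂, q₃` are distinct
      have hb1' : ∀ v, ρ b⁻¹ (ρ b v) = v := by
        intro v
        rw [← hmul, inv_mul_cancel, map_one]
        rfl
      have hv2 : v₂ ≠ 0 := by
        intro h
        have h1 := hb1' v₁
        rw [c.bv1, h, map_zero] at h1
        exact c.v1 h1.symm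
      have hneg : ∀ v : V, v ≠ 0 → -v ≠ v := by
        intro v hv h
        apply hv
        apply m3_two
        nth_rewrite 1 [← h]
        exact neg_add_cancel v
      have h1q1 : (1 : G) ≠ q₁ := by
        intro h
        have h1 := c.s12
        rw [← h, map_one] at h1
        exact hneg v₂ hv2 h1.symm
      have h1q2 : (1 : G) ≠ q₂ := by
        intro h
        have h1 := c.s21
        rw [← h, map_one] at h1
        exact hneg v₁ c.v1 h1.symm
      have h1q3 : (1 : G) ≠ q₃ := by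
        intro h
        have h1 := c.s31
        rw [← h, map_one] at h1
        exact hneg v₁ c.v1 h1.symm
      have hq12 : q₁ ≠ q₂ := by
        intro h
        have h1 := c.s11
        rw [h, c.s21] at h1
        exact hneg v₁ c.v1 h1
      have hq13 : q₁ ≠ q₃ := by
        intro h
        have h1 := c.s11
        rw [h, c.s31] at h1
        exact hneg v₁ c.v1 h1
      have hq23 : q₂ ≠ q₃ := by
        intro h
        have h1 := c.s22
        rw [h, c.s32] at h1
        exact hneg v₂ hv2 h1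
      have hsub : ({1, q₁, q₂, q₃} : Set G) ⊆ (R : Set G) := by
        intro x hx
        rcases hx with rfl | rfl | rfl | rfl
        · exact R.one_mem
        · exact c.q1R
        · exact c.q2R
        · exact c.q3R
      have hcard : ({1, q₁, q₂, q₃} : Set G).ncard = 4 := by
        rw [Set.ncard_insert_of_notMem (by simp [h1q1, h1q2, h1q3]),
          Set.ncard_insert_of_notMem (by simp [hq12, hq13]),
          Set.ncard_insert_of_notMem (by simp [hq23]), Set.ncard_singleton]
      have h4 := Set.ncard_le_ncard hsub (Set.toFinite _)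
      rw [hcard] at h4
      rw [← Nat.card_coe_set_eq] at h4
      exact h4

/-- M3. In dimension `3`, `R` is elementary abelian of order `4`. -/
theorem m3 (c : Cfg ρ R b q₁ q₂ q₃ v₁ v₂ v₃) (e₁ e₂ e₃ : V) (h : Mono3 ρ b e₁ e₂ e₃) :
    IsV4 R := by
  obtain ⟨hspan, hind, hact, hb1, hb2, hb3⟩ := h
  refine m3_core c ![e₁, e₂, e₃] ?_ ?_ ?_ hb1 hb2 hb3
  · rw [Fintype.linearIndependent_iff]
    intro g hg i
    rw [Fin.sum_univ_three] at hg
    have h1 := hind (g 0) (g 1) (g 2) hg
    fin_cases i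
    · exact h1.1
    · exact h1.2.1
    · exact h1.2.2
  · intro f g hfg v
    obtain ⟨c₁, c₂, c₃, rfl⟩ := hspan v
    have h0 : f e₁ = g e₁ := hfg 0
    have h1 : f e₂ = g e₂ := hfg 1
    have h2 : f e₃ = g e₃ := hfg 2
    simp only [map_add, map_smul]
    rw [h0, h1, h2]
  · intro g i
    have hmem : ![e₁, e₂, e₃] i ∈ ({e₁, e₂, e₃} : Set V) := by
      fin_cases i <;> simp
    obtain ⟨e', he', hge⟩ := hact g _ hmem
    have hj : ∃ j : Fin 3, e' = ![e₁, e₂, e₃] j := by
      rcases he' with rfl | rfl | rfl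
      · exact ⟨0, rfl⟩
      · exact ⟨1, rfl⟩
      · exact ⟨2, rfl⟩
    obtain ⟨j, rfl⟩ := hj
    rcases hge with hge | hge
    · exact ⟨j, 1, Or.inl rfl, by rw [hge, one_smul]⟩
    · exact ⟨j, -1, Or.inr rfl, by rw [hge, neg_one_smul]⟩

end Cfsg.Agent.Helper4.N15
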