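import Cfsg.Prelude.Def_Transfer
import Cfsg.Prelude.Def_Solvable
import Cfsg.Agent.Helper63.N15Defs

/-!
# CALL S4415 (helper63), piece `pair` (helper4): automorphisms of an extraspecial-type `2`-group
that are trivial modulo the centre are inner.
-/

set_option autoImplicit false

namespace Cfsg.Agent.Helper4.N15

open Cfsg.Agent.Helper63.N15

variable {G : Type*} [Group G] [Finite G] {V : Type*} [AddCommGroup V] [Module (ZMod 3) V]
  [Finite V] {ρ : Representation (ZMod 3) G V} {R : Subgroup G} {b q₁ q₂ q₃ : G} {v₁ v₂ v₃ : V}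

omit [Finite G] in
/-- commutator form to conjugation form -/
theorem pair_conj (x s z : G) (h : x * s * x⁻¹ * s⁻¹ = 1 ∨ x * s * x⁻¹ * s⁻¹ = z) :
    x * s * x⁻¹ = s ∨ x * s * x⁻¹ = z * s := by
  rcases h with h | h
  · left
    exact mul_inv_eq_one.mp h
  · right
    exact mul_inv_eq_iff_eq_mul.mp h

omit [Finite G] in
/-- equal conjugates: `h⁻¹ y` centralizes `s` -/
theorem pair_comm (y h s : G) (hc : y * s * y⁻¹ = h * s * h⁻¹) :
    (h⁻¹ * y) * s = s * (h⁻¹ * y) := by
  have h1 : y * s = h * s * h⁻¹ * y := by rw [← hc]; group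
  calc h⁻¹ * y * s = h⁻¹ * (y * s) := by group
    _ = h⁻¹ * (h * s * h⁻¹ * y) := by rw [h1]
    _ = s * (h⁻¹ * y) := by group

omit [Finite G] in
/-- matching the commutators with `s, t` by an element of `{1, s, t, s t}` -/
theorem pair_key (T : Subgroup G) (z s t : G) (hzs : z * s = s * z) (hsT : s ∈ T) (htT : t ∈ T)
    (hst : s * t * s⁻¹ = z * t) (hts : t * s * t⁻¹ = z * s) (y : G)
    (hys : y * s * y⁻¹ = s ∨ y * s * y⁻¹ = z * s)
    (hyt : y * t * y⁻¹ = t ∨ y * t * y⁻¹ = z * t) :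
    ∃ h ∈ T, (h⁻¹ * y) * s = s * (h⁻¹ * y) ∧ (h⁻¹ * y) * t = t * (h⁻¹ * y) ∧
      ∀ c : G, c * s = s * c → c * t = t * c → c * h = h * c := by
  rcases hys with hys | hys <;> rcases hyt with hyt | hyt
  · refine ⟨1, T.one_mem, pair_comm y 1 s (by rw [hys]; group),
      pair_comm y 1 t (by rw [hyt]; group), fun c _ _ => by simp⟩
  · refine ⟨s, hsT, pair_comm y s s (by rw [hys]; group),
      pair_comm y s t (by rw [hyt, hst]), fun c hcs _ => hcs⟩
  · refine ⟨t, htT, pair_comm y t s (by rw [hys, hts]),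
      pair_comm y t t (by rw [hyt]; group), fun c _ hct => hct⟩
  · refine ⟨s * t, T.mul_mem hsT htT, pair_comm y (s * t) s ?_, pair_comm y (s * t) t ?_,
      fun c hcs hct => by rw [← mul_assoc, hcs, mul_assoc, hct, mul_assoc]⟩
    · rw [hys]
      calc z * s = s * z := hzs
        _ = s * (z * s) * s⁻¹ := by group
        _ = s * (t * s * t⁻¹) * s⁻¹ := by rw [hts]
        _ = s * t * s * (s * t)⁻¹ := by group
    · rw [hyt, ← hst]
      group

/-- PAIR, by induction on a bound for `|T|` -/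
theorem pair_aux : ∀ (n : ℕ) (T : Subgroup G) (z : G), Nat.card T ≤ n → z ∈ T → z * z = 1 →
    (∀ t ∈ T, z * t = t * z) →
    (∀ s ∈ T, ∀ t ∈ T, s * t * s⁻¹ * t⁻¹ = 1 ∨ s * t * s⁻¹ * t⁻¹ = z) →
    (∀ t ∈ T, (∀ s ∈ T, t * s = s * t) → t = 1 ∨ t = z) →
    ∀ g : G, (∀ t ∈ T, g * t * g⁻¹ * t⁻¹ = 1 ∨ g * t * g⁻¹ * t⁻¹ = z) →
      ∃ t₀ ∈ T, ∀ t ∈ T, (t₀⁻¹ * g) * t = t * (t₀⁻¹ * g) := by
  intro n
  induction n with
  | zero =>
    intro T z hcard
    exact absurd hcard (by have := Nat.card_pos (α := T); omega)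
  | succ n ih =>
    intro T z hcard hzT hz2 hzc hcomm hcen g hg
    by_cases hab : ∀ s ∈ T, ∀ t ∈ T, s * t * s⁻¹ * t⁻¹ = 1
    · -- `T ⊆ {1, z}`
      refine ⟨1, T.one_mem, ?_⟩
      intro t ht
      have ht' : t = 1 ∨ t = z := by
        apply hcen t ht
        intro s hs
        have := hab t ht s hs
        have h1 : t * s * t⁻¹ = s := mul_inv_eq_one.mp this
        calc t * s = t * s * t⁻¹ * t := by group
          _ = s * t := by rw [h1]
      rcases ht' with rfl | rfl
      · simp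
      · rcases pair_conj g t t (hg t ht) with h | h
        · calc 1⁻¹ * g * t = g * t * g⁻¹ * g := by group
            _ = t * (1⁻¹ * g) := by rw [h]; group
        · -- then `t = 1`
          have h1 : g * t * g⁻¹ = 1 := by rw [h, hz2]
          have h2 : t = 1 := by
            calc t = g⁻¹ * (g * t * g⁻¹) * g := by group
              _ = 1 := by rw [h1]; group
          rw [h2]; simp
    · -- a non-commuting pair `s, t`
      push Not at hab
      obtain ⟨s, hsT, t, htT, hst1⟩ := hab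
      have hstz : s * t * s⁻¹ * t⁻¹ = z := (hcomm s hsT t htT).resolve_left hst1
      have hz1 : z ≠ 1 := fun h => hst1 (by rw [hstz, h])
      have hst : s * t * s⁻¹ = z * t := mul_inv_eq_iff_eq_mul.mp hstz
      have hzs : z * s = s * z := hzc s hsT
      have hzt : z * t = t * z := hzc t htT
      have hts : t * s * t⁻¹ = z * s := by
        have h1 : s * t = z * t * s := by
          calc s * t = s * t * s⁻¹ * s := by group
            _ = z * t * s := by rw [hst]
        have h2 : z * s * t = t * s := by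
          rw [mul_assoc, h1, ← mul_assoc, ← mul_assoc, hz2, one_mul]
        rw [← h2]
        group
      -- the centralizer of `s, t` in `T`
      set C : Subgroup G := T ⊓ Subgroup.centralizer {s, t} with hC
      have hCT : C ≤ T := inf_le_left
      have hCs : ∀ c ∈ C, c * s = s * c := by
        intro c hc
        exact ((Subgroup.mem_centralizer_iff.mp hc.2) s (by simp)).symm
      have hCt : ∀ c ∈ C, c * t = t * c := by
        intro c hc
        exact ((Subgroup.mem_centralizer_iff.mp hc.2) t (by simp)).symm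
      have hCmem : ∀ c ∈ T, c * s = s * c → c * t = t * c → c ∈ C := by
        intro c hc h1 h2
        refine ⟨hc, ?_⟩
        show c ∈ Subgroup.centralizer {s, t}
        rw [Subgroup.mem_centralizer_iff]
        intro x hx
        rcases hx with rfl | rfl
        · exact h1.symm
        · exact h2.symm
      -- every element of `T` is `h c`
      have hdec : ∀ x ∈ T, ∃ h ∈ T, h⁻¹ * x ∈ C ∧
          ∀ c : G, c * s = s * c → c * t = t * c → c * h = h * c := by
        intro x hx
        obtain ⟨h, hhT, h1, h2, h3⟩ := pair_key T z s t hzs hsT htT hst hts x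
          (pair_conj x s z (hcomm x hx s hsT)) (pair_conj x t z (hcomm x hx t htT))
        exact ⟨h, hhT, hCmem _ (T.mul_mem (T.inv_mem hhT) hx) h1 h2, h3⟩
      have hsC : s ∉ C := by
        intro h
        have h1 := hCt s h
        have h2 : s * t * s⁻¹ = t := by rw [h1]; group
        rw [hst] at h2
        exact hz1 (by simpa using h2)
      have hcardC : Nat.card C ≤ n := by
        by_contra hlt
        have h1 : Nat.card T ≤ Nat.card C := by omega
        have h2 : C = T := Subgroup.eq_of_le_of_card_ge hCT h1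
        exact hsC (h2 ▸ hsT)
      have hzC : z ∈ C := hCmem z hzT hzs hzt
      obtain ⟨c₀, hc₀C, hc₀⟩ := ih C z hcardC hzC hz2 (fun c hc => hzc c (hCT hc))
        (fun c hc c' hc' => hcomm c (hCT hc) c' (hCT hc'))
        (by
          intro c hc hcc
          apply hcen c (hCT hc)
          intro x hx
          obtain ⟨h, hhT, hhx, hh⟩ := hdec x hx
          have e1 : x = h * (h⁻¹ * x) := by group
          have e2 := hh c (hCs c hc) (hCt c hc)
          have e3 := hcc _ hhx
          rw [e1, ← mul_assoc, e2, mul_assoc, e3, mul_assoc]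
          group)
        g (fun c hc => hg c (hCT hc))
      have hc₀T : c₀ ∈ T := hCT hc₀C
      -- `g' = c₀⁻¹ g` is still trivial modulo the centre on `s, t`
      have hg' : ∀ x ∈ T, (c₀⁻¹ * g) * x * (c₀⁻¹ * g)⁻¹ = x ∨
          (c₀⁻¹ * g) * x * (c₀⁻¹ * g)⁻¹ = z * x := by
        intro x hx
        have e0 : (c₀⁻¹ * g) * x * (c₀⁻¹ * g)⁻¹ = c₀⁻¹ * (g * x * g⁻¹) * c₀⁻¹⁻¹ := by group
        have hc1 := pair_conj c₀⁻¹ x z (hcomm c₀⁻¹ (T.inv_mem hc₀T) x hx)
        have hzc₀ : c₀⁻¹ * z = z * c₀⁻¹ := (hzc _ (T.inv_mem hc₀T)).symm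
        rw [e0]
        rcases pair_conj g x z (hg x hx) with h | h <;> rcases hc1 with h' | h'
        · left; rw [h, h']
        · right; rw [h, h']
        · right
          rw [h]
          calc c₀⁻¹ * (z * x) * c₀⁻¹⁻¹ = (c₀⁻¹ * z) * x * c₀⁻¹⁻¹ := by group
            _ = z * (c₀⁻¹ * x * c₀⁻¹⁻¹) := by rw [hzc₀]; group
            _ = z * x := by rw [h']
        · left
          rw [h]
          calc c₀⁻¹ * (z * x) * c₀⁻¹⁻¹ = (c₀⁻¹ * z) * x * c₀⁻¹⁻¹ := by group
            _ = z * (c₀⁻¹ * x * c₀⁻¹⁻¹) := by rw [hzc₀]; group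
            _ = z * (z * x) := by rw [h']
            _ = x := by rw [← mul_assoc, hz2, one_mul]
      obtain ⟨h₀, hh₀T, h1, h2, h3⟩ := pair_key T z s t hzs hsT htT hst hts (c₀⁻¹ * g)
        (hg' s hsT) (hg' t htT)
      refine ⟨c₀ * h₀, T.mul_mem hc₀T hh₀T, ?_⟩
      intro x hx
      obtain ⟨h, hhT, hhx, hh⟩ := hdec x hx
      -- `y = h₀⁻¹ c₀⁻¹ g` commutes with `s`, `t` and `C`
      have ey : (c₀ * h₀)⁻¹ * g = h₀⁻¹ * (c₀⁻¹ * g) := by group
      rw [ey]
      have hyC : ∀ c ∈ C, (h₀⁻¹ * (c₀⁻¹ * g)) * c = c * (h₀⁻¹ * (c₀⁻¹ * g)) := by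
        intro c hc
        have e1 := hc₀ c hc
        have e2 : c * h₀ = h₀ * c := h3 c (hCs c hc) (hCt c hc)
        have e3 : h₀⁻¹ * c = c * h₀⁻¹ := by
          calc h₀⁻¹ * c = h₀⁻¹ * (c * h₀) * h₀⁻¹ := by group
            _ = c * h₀⁻¹ := by rw [e2]; group
        calc (h₀⁻¹ * (c₀⁻¹ * g)) * c = h₀⁻¹ * ((c₀⁻¹ * g) * c) := by group
          _ = h₀⁻¹ * (c * (c₀⁻¹ * g)) := by rw [e1]
          _ = (h₀⁻¹ * c) * (c₀⁻¹ * g) := by group
          _ = c * (h₀⁻¹ * (c₀⁻¹ * g)) := by rw [e3]; group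
      have hyh : (h₀⁻¹ * (c₀⁻¹ * g)) * h = h * (h₀⁻¹ * (c₀⁻¹ * g)) :=
        hh _ (by rw [mul_assoc] at h1; rw [mul_assoc]; exact h1)
          (by rw [mul_assoc] at h2; rw [mul_assoc]; exact h2)
      have e1 : x = h * (h⁻¹ * x) := by group
      rw [e1, ← mul_assoc, hyh, mul_assoc, hyC _ hhx, mul_assoc]
      group

/-- PAIR (pure group theory). -/
theorem pair : PairStmt G := by
  intro T z hzT hz2 hzc _ hcomm hcen g hg
  exact pair_aux (Nat.card T) T z le_rfl hzT hz2 hzc hcomm hcen g hg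

end Cfsg.Agent.Helper4.N15
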