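import Cfsg.Agent.Helper55.N9Defs
import Cfsg.Agent.Helper35.CoprimeAbelian

set_option autoImplicit false

namespace Cfsg.Agent.Helper4.N9

open Subgroup Cfsg.Agent.Helper55.N9

variable {G : Type*} [Group G] [Finite G]

-- M5a
theorem n9_min_abelian (K D : Subgroup G) (h : MinCfg K D) (hD : IsPGroup 2 D)
    (hK : Odd (Nat.card K)) (hab : ∀ a ∈ D, ∀ b ∈ D, a * b = b * a) (hN : NoA8 D) :
    IsV4 D := by
  classical
  haveI : Fact (Nat.Prime 2) := ⟨Nat.prime_two⟩
  obtain ⟨n, hn⟩ := IsPGroup.iff_card.mp hD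
  have hcop : (Nat.card K).Coprime (Nat.card D) := by
    rw [hn]
    exact Nat.Coprime.pow_right n (Nat.Coprime.symm
      ((Nat.Prime.coprime_iff_not_dvd Nat.prime_two).mpr hK.not_two_dvd_nat))
  -- conjugation by K stays in D
  have hconj : ∀ k ∈ K, ∀ d ∈ D, k * d * k⁻¹ ∈ D := fun k hk d hd =>
    (mem_normalizer_iff.mp (h.inv hk) d).mp hd
  -- Ω
  let Ω : Subgroup G :=
    { carrier := {d | d ∈ D ∧ d ^ 2 = 1}
      one_mem' := ⟨D.one_mem, one_pow 2⟩
      mul_mem' := by
        rintro a b ⟨ha, ha2⟩ ⟨hb, hb2⟩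
        refine ⟨D.mul_mem ha hb, ?_⟩
        have hc : Commute a b := hab a ha b hb
        rw [hc.mul_pow, ha2, hb2, one_mul]
      inv_mem' := by
        rintro a ⟨ha, ha2⟩
        exact ⟨D.inv_mem ha, by rw [inv_pow, ha2, inv_one]⟩ }
  have hΩD : Ω ≤ D := fun d hd => hd.1
  have hΩK : K ≤ normalizer (Ω : Set G) := by
    intro k hk
    rw [mem_normalizer_iff]
    intro d
    constructor
    · rintro ⟨hd, hd2⟩
      refine ⟨hconj k hk d hd, ?_⟩
      rw [conj_pow, hd2]; group
    · rintro ⟨hd, hd2⟩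
      have hd' : d ∈ D := by
        have := hconj k⁻¹ (K.inv_mem hk) _ hd
        have e : k⁻¹ * (k * d * k⁻¹) * k⁻¹⁻¹ = d := by group
        rwa [e] at this
      refine ⟨hd', ?_⟩
      have : d ^ 2 = k⁻¹ * (k * d * k⁻¹) ^ 2 * k := by rw [conj_pow]; group
      rw [this, hd2]; group
  -- exponent 2
  have hexp : ∀ d ∈ D, d ^ 2 = 1 := by
    by_contra hne
    have hΩne : Ω ≠ D := by
      intro heq
      apply hne
      intro d hd
      have : d ∈ Ω := by rw [heq]; exact hd
      exact this.2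
    have hΩc : Ω ≤ centralizer (K : Set G) := h.min Ω hΩD hΩne hΩK
    have hcomm_ne : (⁅D, K⁆ : Subgroup G) ≠ ⊥ := by
      intro hbot
      exact h.nt (Subgroup.commutator_eq_bot_iff_le_centralizer.mp hbot)
    have hcomm_le : (⁅D, K⁆ : Subgroup G) ≤ D :=
      Cfsg.Agent.Helper35.commutator_le_of_le_normalizer h.inv
    obtain ⟨u, huc, hu1⟩ : ∃ u ∈ (⁅D, K⁆ : Subgroup G), u ≠ 1 := by
      by_contra hcon
      push_neg at hcon
      exact hcomm_ne ((Subgroup.eq_bot_iff_forall _).mpr hcon)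
    have huD : u ∈ D := hcomm_le huc
    obtain ⟨m, hm⟩ := (IsPGroup.iff_orderOf.mp hD) ⟨u, huD⟩
    rw [Subgroup.orderOf_mk] at hm
    have hm0 : m ≠ 0 := by
      rintro rfl
      rw [pow_zero] at hm
      exact hu1 (orderOf_eq_one_iff.mp hm)
    have h2dvd : 2 ∣ orderOf u := by
      rw [hm]; exact dvd_pow_self 2 hm0
    have hupos : orderOf u ≠ 0 := by rw [hm]; positivity
    have hto : orderOf (u ^ (orderOf u / 2)) = 2 := orderOf_pow_orderOf_div hupos h2dvd
    set t := u ^ (orderOf u / 2) with ht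
    have htc : t ∈ (⁅D, K⁆ : Subgroup G) := Subgroup.pow_mem _ huc _
    have ht2 : t ^ 2 = 1 := by rw [← hto]; exact pow_orderOf_eq_one t
    have ht1 : t ≠ 1 := by
      intro h1
      rw [h1, orderOf_one] at hto
      norm_num at hto
    have htΩ : t ∈ Ω := ⟨hcomm_le htc, ht2⟩
    have hbot := Cfsg.Agent.Helper35.commutator_inf_centralizer_eq_bot_of_comm h.inv hcop hab
    have : t ∈ (⁅D, K⁆ : Subgroup G) ⊓ centralizer (K : Set G) := ⟨htc, hΩc htΩ⟩
    rw [hbot] at this
    exact ht1 (Subgroup.mem_bot.mp this)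
  refine ⟨?_, hexp⟩
  -- the order
  have hn2 : n ≤ 2 := by
    by_contra hgt
    push_neg at hgt
    have hdvd : 2 ^ 3 ∣ Nat.card ↥D := by
      rw [hn]; exact pow_dvd_pow 2 hgt
    obtain ⟨A', hA'⟩ := Sylow.exists_subgroup_card_pow_prime 2 hdvd
    apply hN
    refine ⟨A'.map D.subtype, ?_, ?_, ?_, ?_⟩
    · rintro _ ⟨a, -, rfl⟩
      exact a.2
    · refine ⟨⟨?_⟩⟩
      rintro ⟨_, ⟨a, ha, rfl⟩⟩ ⟨_, ⟨b, hb, rfl⟩⟩
      exact Subtype.ext (hab a a.2 b b.2)
    · intro hcyc
      obtain ⟨g, hg⟩ := hcyc.exists_generator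
      have h8 : orderOf g = 8 := by
        rw [orderOf_eq_card_of_forall_mem_zpowers hg,
          Subgroup.card_map_of_injective D.subtype_injective, hA']
        norm_num
      have hgD : (g : G) ∈ D := by
        obtain ⟨a, -, ha⟩ := g.2
        rw [← ha]; exact a.2
      have hg2 : g ^ 2 = 1 := Subtype.ext (by simpa using hexp (g : G) hgD)
      have := orderOf_dvd_of_pow_eq_one hg2
      rw [h8] at this
      norm_num at this
    · rw [Subgroup.card_map_of_injective D.subtype_injective, hA']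
      norm_num
  have hn1 : 2 ≤ n := by
    by_contra hlt
    push_neg at hlt
    apply h.nt
    intro d hd
    rw [mem_centralizer_iff]
    intro k hk
    by_cases hd1 : d = 1
    · subst hd1; simp
    have hcard2 : Nat.card ↥D = 2 := by
      have hn' : n = 0 ∨ n = 1 := by omega
      rcases hn' with rfl | rfl
      · exfalso
        rw [pow_zero] at hn
        have hsub : Subsingleton ↥D := (Nat.card_eq_one_iff_unique.mp hn).1
        exact hd1 (by simpa using congrArg Subtype.val (Subsingleton.elim (⟨d, hd⟩ : ↥D) 1))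
      · rw [hn, pow_one]
    obtain ⟨y, -, hy⟩ := (Nat.card_eq_two_iff' (1 : ↥D)).mp hcard2
    have e1 : (⟨d, hd⟩ : ↥D) = y := hy _ (fun h1 => hd1 (by simpa using congrArg Subtype.val h1))
    have hkd1 : k * d * k⁻¹ ≠ 1 := by
      intro h1
      apply hd1
      have : d = k⁻¹ * (k * d * k⁻¹) * k := by group
      rw [this, h1]; group
    have e2 : (⟨k * d * k⁻¹, hconj k hk d hd⟩ : ↥D) = y :=
      hy _ (fun h1 => hkd1 (by simpa using congrArg Subtype.val h1))
    have e3 : k * d * k⁻¹ = d := by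
      have := congrArg Subtype.val (e2.trans e1.symm)
      simpa using this
    calc k * d = k * d * k⁻¹ * k := by group
      _ = d * k := by rw [e3]
  have : n = 2 := by omega
  rw [hn, this]; norm_num

end Cfsg.Agent.Helper4.N9
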