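import Mathlib
import Cfsg.Agent.Helper9.OrdTools
import Cfsg.Agent.Helper9.OrdTools2
import Cfsg.Agent.Helper8.SylFix

/-!
Piece CR of CALL S0977 (helper52): if a subgroup `M` of index 10 of a group of order 4320
contains exactly four Sylow 3-subgroups, their intersection has order 9 and is normal in `M`.
-/

set_option autoImplicit false

namespace Cfsg.Agent.Helper4

variable {G : Type*} [Group G] [Finite G]

omit [Finite G] in
theorem o4320_mem_smul_sylow {p : ℕ} [Fact p.Prime] (g x : G) (Q : Sylow p G) :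
    x ∈ ((g • Q : Sylow p G) : Subgroup G) ↔ g⁻¹ * x * g ∈ (Q : Subgroup G) := by
  rw [Sylow.coe_subgroup_smul, Subgroup.mem_pointwise_smul_iff_inv_smul_mem]
  simp [MulAut.smul_def]

theorem o4320_core9 (hG : Nat.card G = 4320) (M : Subgroup G) (hM : M.index = 10)
    (h4 : Nat.card {Q : Sylow 3 G // (Q : Subgroup G) ≤ M} = 4) :
    ∃ R : Subgroup G, R ≤ M ∧ Nat.card ↥R = 9 ∧ ∀ g ∈ M, ∀ r ∈ R, g * r * g⁻¹ ∈ R := by
  haveI : Fact (Nat.Prime 3) := ⟨by norm_num⟩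
  have h27 : ∀ Q : Sylow 3 G, Nat.card (Q : Subgroup G) = 27 := fun Q => by
    have := Cfsg.Agent.Helper9.OrdTools.sylow_card (p := 3) 3 160 (by rw [hG]; norm_num)
      (by norm_num) Q
    simpa using this
  obtain ⟨S, hSdef⟩ : ∃ S : Set (Sylow 3 G), S = {Q : Sylow 3 G | (Q : Subgroup G) ≤ M} := ⟨_, rfl⟩
  have hS4 : S.ncard = 4 := by rw [hSdef, ← h4]; rfl
  have hmemS : ∀ Q : Sylow 3 G, Q ∈ S ↔ (Q : Subgroup G) ≤ M := by
    intro Q; rw [hSdef]; rfl
  have hMS : ∀ g ∈ M, ∀ Q ∈ S, g • Q ∈ S := by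
    intro g hg Q hQ
    rw [hmemS] at hQ ⊢
    exact Sylow.smul_le hQ ⟨g, hg⟩
  have hSne : S.Nonempty := by
    rw [← Set.ncard_pos, hS4]; norm_num
  obtain ⟨Q1, hQ1⟩ := hSne
  have hQ1M : (Q1 : Subgroup G) ≤ M := (hmemS Q1).mp hQ1
  have hS3 : (S \ {Q1}).ncard = 3 := by
    rw [Set.ncard_sdiff_singleton_of_mem hQ1, hS4]
  have hI1 : (Q1 : Subgroup G).index = 160 := by
    have e3 := Subgroup.card_mul_index (Q1 : Subgroup G)
    rw [h27 Q1, hG] at e3
    omega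
  have key : ∀ Q ∈ S, Q ≠ Q1 →
      Nat.card ((Q1 : Subgroup G) ⊓ (Q : Subgroup G) : Subgroup G) = 9 ∧
      ∀ Q' ∈ S, Q' ≠ Q1 → ∃ q ∈ (Q1 : Subgroup G), q • Q = Q' := by
    intro Q hQ hne
    have horb : MulAction.orbit (↥(Q1 : Subgroup G)) Q ⊆ S \ {Q1} := by
      rintro _ ⟨q, rfl⟩
      refine ⟨hMS (q : G) (hQ1M q.2) Q hQ, ?_⟩
      intro h
      apply hne
      have h' : (q : G) • Q = Q1 := h
      have h2 : (q : G)⁻¹ • Q1 = Q1 :=
        Sylow.smul_eq_iff_mem_normalizer.mpr (Subgroup.le_normalizer (Subgroup.inv_mem _ q.2))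
      calc Q = (q : G)⁻¹ • ((q : G) • Q) := (inv_smul_smul _ _).symm
        _ = (q : G)⁻¹ • Q1 := by rw [h']
        _ = Q1 := h2
    have hstab : MulAction.stabilizer (↥(Q1 : Subgroup G)) Q
        = (Subgroup.normalizer ((Q : Subgroup G) : Set G)).subgroupOf (Q1 : Subgroup G) := by
      ext q
      rw [MulAction.mem_stabilizer_iff, Subgroup.mem_subgroupOf]
      exact Sylow.smul_eq_iff_mem_normalizer
    have hidx := MulAction.index_stabilizer (↥(Q1 : Subgroup G)) Q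
    rw [hstab] at hidx
    have hidx2 : (Subgroup.normalizer ((Q : Subgroup G) : Set G)).relIndex (Q1 : Subgroup G)
        = (MulAction.orbit (↥(Q1 : Subgroup G)) Q).ncard := hidx
    have hle : (MulAction.orbit (↥(Q1 : Subgroup G)) Q).ncard ≤ 3 :=
      le_of_le_of_eq (Set.ncard_le_ncard horb) hS3
    have hrel : (Subgroup.normalizer ((Q : Subgroup G) : Set G)).relIndex (Q1 : Subgroup G)
        = ((Q1 : Subgroup G) ⊓ (Q : Subgroup G)).relIndex (Q1 : Subgroup G) := by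
      have h := Q1.2.inf_normalizer_sylow Q
      have h' : (Q1 : Subgroup G) ⊓ Subgroup.normalizer ((Q : Subgroup G) : Set G)
          = (Q1 : Subgroup G) ⊓ (Q : Subgroup G) := h
      rw [← Subgroup.inf_relIndex_left (H := (Q1 : Subgroup G)), h']
    rw [hrel] at hidx2
    have e1 := Subgroup.relIndex_mul_index
      (inf_le_left : (Q1 : Subgroup G) ⊓ (Q : Subgroup G) ≤ (Q1 : Subgroup G))
    have e2 := Subgroup.card_mul_index ((Q1 : Subgroup G) ⊓ (Q : Subgroup G))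
    rw [hG] at e2
    rw [hI1] at e1
    have hdvd : Nat.card ((Q1 : Subgroup G) ⊓ (Q : Subgroup G) : Subgroup G) ∣ 3 ^ 3 := by
      have : (3 : ℕ) ^ 3 = 27 := by norm_num
      rw [this, ← h27 Q1]; exact Subgroup.card_dvd_of_le inf_le_left
    have hlt : Nat.card ((Q1 : Subgroup G) ⊓ (Q : Subgroup G) : Subgroup G) ≠ 27 := by
      intro h
      apply hne
      have h3 : (Q1 : Subgroup G) ⊓ (Q : Subgroup G) = (Q1 : Subgroup G) :=
        Subgroup.eq_of_le_of_card_ge inf_le_left (by rw [h, h27 Q1])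
      have hle' : (Q1 : Subgroup G) ≤ (Q : Subgroup G) := by rw [← h3]; exact inf_le_right
      exact Sylow.ext (Q1.3 Q.2 hle')
    have hc : Nat.card ((Q1 : Subgroup G) ⊓ (Q : Subgroup G) : Subgroup G) = 1 ∨
        Nat.card ((Q1 : Subgroup G) ⊓ (Q : Subgroup G) : Subgroup G) = 3 ∨
        Nat.card ((Q1 : Subgroup G) ⊓ (Q : Subgroup G) : Subgroup G) = 9 ∨
        Nat.card ((Q1 : Subgroup G) ⊓ (Q : Subgroup G) : Subgroup G) = 27 := by
      obtain ⟨k, hk, hkD⟩ := (Nat.dvd_prime_pow (by norm_num : Nat.Prime 3)).mp hdvd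
      interval_cases k
      · left; rw [hkD]; norm_num
      · right; left; rw [hkD]; norm_num
      · right; right; left; rw [hkD]; norm_num
      · right; right; right; rw [hkD]; norm_num
    have h9 : Nat.card ((Q1 : Subgroup G) ⊓ (Q : Subgroup G) : Subgroup G) = 9 := by
      rcases hc with h | h | h | h
      · rw [h] at e2; omega
      · rw [h] at e2; omega
      · exact h
      · exact absurd h hlt
    refine ⟨h9, ?_⟩
    intro Q' hQ' hne'
    have horbeq : MulAction.orbit (↥(Q1 : Subgroup G)) Q = S \ {Q1} := by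
      apply Set.eq_of_subset_of_ncard_le horb
      rw [hS3, ← hidx2]
      rw [h9] at e2
      omega
    have hQ'o : Q' ∈ MulAction.orbit (↥(Q1 : Subgroup G)) Q := by
      rw [horbeq]; exact ⟨hQ', hne'⟩
    obtain ⟨q, hq⟩ := hQ'o
    exact ⟨(q : G), q.2, hq⟩
  have hS3ne : (S \ {Q1}).Nonempty := by rw [← Set.ncard_pos, hS3]; norm_num
  obtain ⟨Q2, hQ2, hQ2ne⟩ := hS3ne
  have hQ2ne' : Q2 ≠ Q1 := hQ2ne
  obtain ⟨hD9, htrans⟩ := key Q2 hQ2 hQ2ne'
  have hDn : ∀ q ∈ (Q1 : Subgroup G), ∀ d ∈ (Q1 : Subgroup G) ⊓ (Q2 : Subgroup G),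
      q * d * q⁻¹ ∈ (Q1 : Subgroup G) ⊓ (Q2 : Subgroup G) := by
    have hidx3 : (((Q1 : Subgroup G) ⊓ (Q2 : Subgroup G)).subgroupOf (Q1 : Subgroup G)).index
        = (Nat.card (Q1 : Subgroup G)).minFac := by
      rw [h27 Q1]
      have h3 : (27 : ℕ).minFac = 3 := by norm_num
      rw [h3]
      show ((Q1 : Subgroup G) ⊓ (Q2 : Subgroup G)).relIndex (Q1 : Subgroup G) = 3
      have e1 := Subgroup.relIndex_mul_index
        (inf_le_left : (Q1 : Subgroup G) ⊓ (Q2 : Subgroup G) ≤ (Q1 : Subgroup G))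
      have e2 := Subgroup.card_mul_index ((Q1 : Subgroup G) ⊓ (Q2 : Subgroup G))
      rw [hD9, hG] at e2
      rw [hI1] at e1
      omega
    have hn := Subgroup.normal_of_index_eq_minFac_card hidx3
    intro q hq d hd
    have h5 := hn.conj_mem ⟨d, hd.1⟩ (by rw [Subgroup.mem_subgroupOf]; exact hd) ⟨q, hq⟩
    rw [Subgroup.mem_subgroupOf] at h5
    simpa using h5
  have hDle : ∀ Q' ∈ S, (Q1 : Subgroup G) ⊓ (Q2 : Subgroup G) ≤ (Q' : Subgroup G) := by
    intro Q' hQ'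
    by_cases h : Q' = Q1
    · rw [h]; exact inf_le_left
    · obtain ⟨q, hq, rfl⟩ := htrans Q' hQ' h
      intro d hd
      rw [o4320_mem_smul_sylow]
      have h5 := hDn q⁻¹ (Subgroup.inv_mem _ hq) d hd
      rw [inv_inv] at h5
      exact h5.2
  refine ⟨(Q1 : Subgroup G) ⊓ (Q2 : Subgroup G), inf_le_left.trans hQ1M, hD9, ?_⟩
  intro g hg r hr
  have hginv : g⁻¹ ∈ M := M.inv_mem hg
  have h1 := hDle (g⁻¹ • Q1) (hMS g⁻¹ hginv Q1 hQ1) hr
  have h2 := hDle (g⁻¹ • Q2) (hMS g⁻¹ hginv Q2 hQ2) hr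
  rw [o4320_mem_smul_sylow, inv_inv] at h1 h2
  exact ⟨h1, h2⟩

end Cfsg.Agent.Helper4
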