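import Mathlib
import Cfsg.Agent.Helper9.OrdTools
import Cfsg.Agent.Helper9.OrdTools2
import Cfsg.Agent.Helper8.SylFix
import Cfsg.Agent.Helper4.O4320CR

/-!
Piece AB2 of CALL S0977 (helper52): abelian Sylow 3-subgroups in a group of order 4320 - a
subgroup of order 3 lying in at least 7 Sylow 3-subgroups.
-/

set_option autoImplicit false

namespace Cfsg.Agent.Helper4

variable {G : Type*} [Group G] [Finite G]

omit [Finite G] in
/-- the orbit of a Sylow subgroup `Q'` under conjugation by the Sylow subgroup `Q` -/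
theorem o4320_orbit_ncard {p : ℕ} [Fact p.Prime] (Q Q' : Sylow p G) :
    (MulAction.orbit (↥(Q : Subgroup G)) Q').ncard
      = ((Q : Subgroup G) ⊓ (Q' : Subgroup G)).relIndex (Q : Subgroup G) := by
  have hstab : MulAction.stabilizer (↥(Q : Subgroup G)) Q'
      = (Subgroup.normalizer ((Q' : Subgroup G) : Set G)).subgroupOf (Q : Subgroup G) := by
    ext q
    rw [MulAction.mem_stabilizer_iff, Subgroup.mem_subgroupOf]
    exact Sylow.smul_eq_iff_mem_normalizer
  have hidx := MulAction.index_stabilizer (↥(Q : Subgroup G)) Q'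
  rw [hstab] at hidx
  have hidx2 : (Subgroup.normalizer ((Q' : Subgroup G) : Set G)).relIndex (Q : Subgroup G)
      = (MulAction.orbit (↥(Q : Subgroup G)) Q').ncard := hidx
  have h := Q.2.inf_normalizer_sylow Q'
  have h' : (Q : Subgroup G) ⊓ Subgroup.normalizer ((Q' : Subgroup G) : Set G)
      = (Q : Subgroup G) ⊓ (Q' : Subgroup G) := h
  rw [← hidx2, ← Subgroup.inf_relIndex_left (H := (Q : Subgroup G)), h']

/-- distinct Sylow 3-subgroups of order 27: the orbit has at least three elements -/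
theorem o4320_orbit_ge_three (Q S : Sylow 3 G) (hQ : Nat.card (Q : Subgroup G) = 27)
    (hne : Q ≠ S) : 3 ≤ (MulAction.orbit (↥(Q : Subgroup G)) S).ncard := by
  haveI : Fact (Nat.Prime 3) := ⟨by norm_num⟩
  rw [o4320_orbit_ncard]
  have h1 : ((Q : Subgroup G) ⊓ (S : Subgroup G)).relIndex (Q : Subgroup G) ∣ 3 ^ 3 := by
    have h := Subgroup.relIndex_dvd_card ((Q : Subgroup G) ⊓ (S : Subgroup G)) (Q : Subgroup G)
    rw [hQ] at h
    exact h
  have h2 : ((Q : Subgroup G) ⊓ (S : Subgroup G)).relIndex (Q : Subgroup G) ≠ 1 := by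
    intro h
    rw [Subgroup.relIndex_eq_one] at h
    apply hne
    have hle : (Q : Subgroup G) ≤ (S : Subgroup G) := h.trans inf_le_right
    exact (Sylow.ext (Q.3 S.2 hle)).symm
  obtain ⟨k, hk, hkD⟩ := (Nat.dvd_prime_pow (by norm_num : Nat.Prime 3)).mp h1
  rw [hkD] at h2 ⊢
  interval_cases k
  · exact absurd rfl h2
  · norm_num
  · norm_num
  · norm_num

theorem o4320_abelian_seven (hG : Nat.card G = 4320) (Q Q' : Sylow 3 G)
    (hab : ∀ x ∈ (Q : Subgroup G), ∀ y ∈ (Q : Subgroup G), x * y = y * x)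
    (hQQ' : Q ≠ Q') (h9 : Nat.card ↥((Q : Subgroup G) ⊓ (Q' : Subgroup G)) = 9)
    (hmv : ∃ m ∈ Subgroup.normalizer ((Q : Subgroup G) : Set G),
      ∃ d ∈ (Q : Subgroup G) ⊓ (Q' : Subgroup G),
        m * d * m⁻¹ ∉ (Q : Subgroup G) ⊓ (Q' : Subgroup G)) :
    ∃ T : Subgroup G, Nat.card ↥T = 3 ∧
      7 ≤ Nat.card {S : Sylow 3 G // (S : Subgroup G) ≤ Subgroup.centralizer (T : Set G)} := by
  haveI : Fact (Nat.Prime 3) := ⟨by norm_num⟩
  have h27 : ∀ Q : Sylow 3 G, Nat.card (Q : Subgroup G) = 27 := fun Q => by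
    have := Cfsg.Agent.Helper9.OrdTools.sylow_card (p := 3) 3 160 (by rw [hG]; norm_num)
      (by norm_num) Q
    simpa using this
  -- all Sylow 3-subgroups are abelian
  have habS : ∀ S : Sylow 3 G, ∀ x ∈ (S : Subgroup G), ∀ y ∈ (S : Subgroup G),
      x * y = y * x := by
    intro S x hx y hy
    obtain ⟨g, rfl⟩ := MulAction.exists_smul_eq G Q S
    rw [o4320_mem_smul_sylow] at hx hy
    have h := hab _ hx _ hy
    have e1 : x * y = g * ((g⁻¹ * x * g) * (g⁻¹ * y * g)) * g⁻¹ := by group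
    have e2 : y * x = g * ((g⁻¹ * y * g) * (g⁻¹ * x * g)) * g⁻¹ := by group
    rw [e1, e2, h]
  obtain ⟨m, hm, d, hd, hmd⟩ := hmv
  obtain ⟨D1, hD1⟩ : ∃ D1 : Subgroup G, D1 = (Q : Subgroup G) ⊓ (Q' : Subgroup G) := ⟨_, rfl⟩
  rw [← hD1] at h9 hd hmd
  have hD1Q : D1 ≤ (Q : Subgroup G) := by rw [hD1]; exact inf_le_left
  have hD1Q' : D1 ≤ (Q' : Subgroup G) := by rw [hD1]; exact inf_le_right
  obtain ⟨D2, hD2⟩ : ∃ D2 : Subgroup G, D2 = D1.map (MulAut.conj m).toMonoidHom := ⟨_, rfl⟩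
  have hD2card : Nat.card D2 = 9 := by
    rw [hD2, Subgroup.card_map_of_injective (MulAut.conj m).injective, h9]
  have hD2mem : ∀ x ∈ D1, m * x * m⁻¹ ∈ D2 := by
    intro x hx
    rw [hD2]
    exact ⟨x, hx, by simp⟩
  have hD2Q : D2 ≤ (Q : Subgroup G) := by
    rw [hD2]
    rintro _ ⟨x, hx, rfl⟩
    have := ((Subgroup.mem_normalizer_iff.mp hm) x).mp (hD1Q hx)
    simpa using this
  have hD2Q'' : D2 ≤ ((m • Q' : Sylow 3 G) : Subgroup G) := by
    rw [hD2]
    rintro _ ⟨x, hx, rfl⟩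
    rw [o4320_mem_smul_sylow]
    have : m⁻¹ * (MulAut.conj m).toMonoidHom x * m = x := by simp [mul_assoc]
    rw [this]
    exact hD1Q' hx
  have hD2D1 : ¬ D2 ≤ D1 := fun h => hmd (h (hD2mem d hd))
  have hQ''ne : Q ≠ m • Q' := by
    intro h
    apply hQQ'
    have h1 : m⁻¹ • Q = Q :=
      Sylow.smul_eq_iff_mem_normalizer.mpr (Subgroup.inv_mem _ hm)
    calc Q = m⁻¹ • Q := h1.symm
      _ = m⁻¹ • (m • Q') := by rw [← h]
      _ = Q' := inv_smul_smul _ _
  -- a Sylow subgroup containing `D1` and `D2` is `Q`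
  have hboth : ∀ S : Sylow 3 G, D1 ≤ (S : Subgroup G) → D2 ≤ (S : Subgroup G) → S = Q := by
    intro S h1 h2
    have hle1 : D1 ≤ (S : Subgroup G) ⊓ (Q : Subgroup G) := le_inf h1 hD1Q
    have hle2 : D2 ≤ (S : Subgroup G) ⊓ (Q : Subgroup G) := le_inf h2 hD2Q
    have hdvd : Nat.card ((S : Subgroup G) ⊓ (Q : Subgroup G) : Subgroup G) ∣ 3 ^ 3 := by
      have : (3 : ℕ) ^ 3 = 27 := by norm_num
      rw [this, ← h27 Q]; exact Subgroup.card_dvd_of_le inf_le_right
    have h9dvd : 9 ∣ Nat.card ((S : Subgroup G) ⊓ (Q : Subgroup G) : Subgroup G) := by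
      rw [← h9]; exact Subgroup.card_dvd_of_le hle1
    have hne9 : Nat.card ((S : Subgroup G) ⊓ (Q : Subgroup G) : Subgroup G) ≠ 9 := by
      intro h
      have : D1 = (S : Subgroup G) ⊓ (Q : Subgroup G) :=
        Subgroup.eq_of_le_of_card_ge hle1 (by rw [h, h9])
      exact hD2D1 (this ▸ hle2)
    have hc27 : Nat.card ((S : Subgroup G) ⊓ (Q : Subgroup G) : Subgroup G) = 27 := by
      obtain ⟨k, hk, hkD⟩ := (Nat.dvd_prime_pow (by norm_num : Nat.Prime 3)).mp hdvd
      rw [hkD] at h9dvd hne9 ⊢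
      interval_cases k
      · norm_num at h9dvd
      · norm_num at h9dvd
      · exact absurd (by norm_num) hne9
      · norm_num
    have heq : (S : Subgroup G) ⊓ (Q : Subgroup G) = (Q : Subgroup G) :=
      Subgroup.eq_of_le_of_card_ge inf_le_right (by rw [hc27, h27 Q])
    have hle : (Q : Subgroup G) ≤ (S : Subgroup G) := by rw [← heq]; exact inf_le_left
    exact Sylow.ext (Q.3 S.2 hle)
  -- the orbits
  obtain ⟨O1, hO1⟩ : ∃ O : Set (Sylow 3 G), O = MulAction.orbit (↥(Q : Subgroup G)) Q' :=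
    ⟨_, rfl⟩
  obtain ⟨O2, hO2⟩ : ∃ O : Set (Sylow 3 G),
      O = MulAction.orbit (↥(Q : Subgroup G)) (m • Q') := ⟨_, rfl⟩
  have hO1c : 3 ≤ O1.ncard := by rw [hO1]; exact o4320_orbit_ge_three Q Q' (h27 Q) hQQ'
  have hO2c : 3 ≤ O2.ncard := by rw [hO2]; exact o4320_orbit_ge_three Q (m • Q') (h27 Q) hQ''ne
  have hO1D : ∀ S ∈ O1, D1 ≤ (S : Subgroup G) := by
    rw [hO1]
    rintro _ ⟨q, rfl⟩ x hx
    show x ∈ (((q : G) • Q' : Sylow 3 G) : Subgroup G)
    rw [o4320_mem_smul_sylow]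
    have h1 : (q : G)⁻¹ * x * (q : G) = x := by
      have := hab (q : G) q.2 x (hD1Q hx)
      rw [mul_assoc, ← this]; group
    rw [h1]; exact hD1Q' hx
  have hO2D : ∀ S ∈ O2, D2 ≤ (S : Subgroup G) := by
    rw [hO2]
    rintro _ ⟨q, rfl⟩ x hx
    show x ∈ (((q : G) • (m • Q') : Sylow 3 G) : Subgroup G)
    rw [o4320_mem_smul_sylow]
    have h1 : (q : G)⁻¹ * x * (q : G) = x := by
      have := hab (q : G) q.2 x (hD2Q hx)
      rw [mul_assoc, ← this]; group
    rw [h1]; exact hD2Q'' hx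
  have hQO1 : Q ∉ O1 := by
    rw [hO1]
    rintro ⟨q, hq⟩
    apply hQQ'
    have hq' : (q : G) • Q' = Q := hq
    have h2 : (q : G)⁻¹ • Q = Q :=
      Sylow.smul_eq_iff_mem_normalizer.mpr (Subgroup.le_normalizer (Subgroup.inv_mem _ q.2))
    calc Q = (q : G)⁻¹ • Q := h2.symm
      _ = (q : G)⁻¹ • ((q : G) • Q') := by rw [hq']
      _ = Q' := inv_smul_smul _ _
  have hQO2 : Q ∉ O2 := by
    rw [hO2]
    rintro ⟨q, hq⟩
    apply hQ''ne
    have hq' : (q : G) • (m • Q') = Q := hq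
    have h2 : (q : G)⁻¹ • Q = Q :=
      Sylow.smul_eq_iff_mem_normalizer.mpr (Subgroup.le_normalizer (Subgroup.inv_mem _ q.2))
    calc Q = (q : G)⁻¹ • Q := h2.symm
      _ = (q : G)⁻¹ • ((q : G) • (m • Q')) := by rw [hq']
      _ = m • Q' := inv_smul_smul _ _
  have hdisj12 : Disjoint O1 O2 := by
    rw [Set.disjoint_left]
    intro S h1 h2
    have := hboth S (hO1D S h1) (hO2D S h2)
    rw [this] at h1
    exact hQO1 h1
  have hdisjQ : Disjoint ({Q} : Set (Sylow 3 G)) (O1 ∪ O2) := by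
    rw [Set.disjoint_singleton_left]
    rintro (h | h)
    · exact hQO1 h
    · exact hQO2 h
  have hU : 7 ≤ (({Q} : Set (Sylow 3 G)) ∪ (O1 ∪ O2)).ncard := by
    rw [Set.ncard_union_eq hdisjQ, Set.ncard_union_eq hdisj12, Set.ncard_singleton]
    omega
  -- the subgroup `T`
  have hTD1 : D1 ⊓ D2 ≤ D1 := inf_le_left
  have hTcard : Nat.card (D1 ⊓ D2 : Subgroup G) = 3 := by
    have hdvd : Nat.card (D1 ⊓ D2 : Subgroup G) ∣ 3 ^ 2 := by
      have : (3 : ℕ) ^ 2 = 9 := by norm_num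
      rw [this, ← h9]; exact Subgroup.card_dvd_of_le hTD1
    have hne9 : Nat.card (D1 ⊓ D2 : Subgroup G) ≠ 9 := by
      intro h
      have h1 : D1 ⊓ D2 = D1 := Subgroup.eq_of_le_of_card_ge hTD1 (by rw [h, h9])
      have h2 : D1 ≤ D2 := by rw [← h1]; exact inf_le_right
      have h3 : D1 = D2 := Subgroup.eq_of_le_of_card_ge h2 (by rw [h9, hD2card])
      exact hD2D1 (h3 ▸ le_rfl)
    have hle := Subgroup.relIndex_inf_le (H := D1) (K := D2) (L := (Q : Subgroup G))
    have hI : (Q : Subgroup G).index = 160 := by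
      have e3 := Subgroup.card_mul_index (Q : Subgroup G)
      rw [h27 Q, hG] at e3
      omega
    have r1 : D1.relIndex (Q : Subgroup G) = 3 := by
      have e1 := Subgroup.relIndex_mul_index hD1Q
      have e2 := Subgroup.card_mul_index D1
      rw [h9, hG] at e2
      rw [hI] at e1
      omega
    have r2 : D2.relIndex (Q : Subgroup G) = 3 := by
      have e1 := Subgroup.relIndex_mul_index hD2Q
      have e2 := Subgroup.card_mul_index D2
      rw [hD2card, hG] at e2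
      rw [hI] at e1
      omega
    rw [r1, r2] at hle
    have e1 := Subgroup.relIndex_mul_index (hTD1.trans hD1Q)
    have e2 := Subgroup.card_mul_index (D1 ⊓ D2 : Subgroup G)
    rw [hG] at e2
    rw [hI] at e1
    obtain ⟨k, hk, hkD⟩ := (Nat.dvd_prime_pow (by norm_num : Nat.Prime 3)).mp hdvd
    rw [hkD] at hne9 e2 ⊢
    interval_cases k
    · exfalso; omega
    · norm_num
    · exact absurd (by norm_num) hne9
  refine ⟨D1 ⊓ D2, hTcard, ?_⟩
  have hsub : (({Q} : Set (Sylow 3 G)) ∪ (O1 ∪ O2))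
      ⊆ {S : Sylow 3 G | (S : Subgroup G) ≤ Subgroup.centralizer ((D1 ⊓ D2 : Subgroup G) : Set G)} := by
    intro S hS
    have hTS : D1 ⊓ D2 ≤ (S : Subgroup G) := by
      rcases hS with h | h | h
      · rw [Set.mem_singleton_iff.mp h]; exact hTD1.trans hD1Q
      · exact hTD1.trans (hO1D S h)
      · exact inf_le_right.trans (hO2D S h)
    show (S : Subgroup G) ≤ Subgroup.centralizer ((D1 ⊓ D2 : Subgroup G) : Set G)
    intro x hx
    rw [Subgroup.mem_centralizer_iff]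
    intro t ht
    exact habS S t (hTS ht) x hx
  exact le_trans hU (Set.ncard_le_ncard hsub)

end Cfsg.Agent.Helper4
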