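import Mathlib
import Cfsg.Agent.Helper9.OrdTools
import Cfsg.Agent.Helper9.OrdTools2
import Cfsg.Agent.Helper8.SylFix

/-!
Piece N1 of CALL S0977 (helper52): a subgroup `M` of index 10 of a simple group of order 4320
cannot contain a unique Sylow 3-subgroup of `G`.
-/

set_option autoImplicit false

namespace Cfsg.Agent.Helper4

variable {G : Type*} [Group G] [Finite G]

theorem o4320_normal_sylow [IsSimpleGroup G] (hG : Nat.card G = 4320)
    (M : Subgroup G) (hM : M.index = 10)
    (h48 : ∀ a b : G ⧸ M, a ≠ b →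
      Nat.card ↥(MulAction.stabilizer G a ⊓ MulAction.stabilizer G b) = 48)
    (hst : ∀ a b : G ⧸ M, a ≠ b → ∀ T : Subgroup G,
      T ≤ MulAction.stabilizer G a ⊓ MulAction.stabilizer G b → Nat.card ↥T = 3 →
      (∀ g ∈ MulAction.stabilizer G a ⊓ MulAction.stabilizer G b, ∀ t ∈ T, g * t * g⁻¹ ∈ T) →
      False)
    (h1 : Nat.card {Q : Sylow 3 G // (Q : Subgroup G) ≤ M} = 1) : False := by
  haveI : Fact (Nat.Prime 3) := ⟨by norm_num⟩
  obtain ⟨hsub, ⟨⟨Q, hQM⟩⟩⟩ := Nat.card_eq_one_iff_unique.mp h1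
  have hQ27 : Nat.card (Q : Subgroup G) = 27 := by
    have := Cfsg.Agent.Helper9.OrdTools.sylow_card (p := 3) 3 160 (by rw [hG]; norm_num) (by norm_num) Q
    simpa using this
  -- `M` normalizes `Q`
  have hMN : M ≤ Subgroup.normalizer ((Q : Subgroup G) : Set G) := by
    intro g hg
    have h2 : ((g • Q : Sylow 3 G) : Subgroup G) ≤ M := Sylow.smul_le hQM ⟨g, hg⟩
    have h3 : (⟨g • Q, h2⟩ : {Q : Sylow 3 G // (Q : Subgroup G) ≤ M}) = ⟨Q, hQM⟩ :=
      Subsingleton.elim _ _
    have h4 : g • Q = Q := congrArg Subtype.val h3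
    exact Sylow.smul_eq_iff_mem_normalizer.mp h4
  -- the points
  have hstab : MulAction.stabilizer G ((1 : G) : G ⧸ M) = M := MulAction.stabilizer_quotient M
  have hcard : Nat.card (G ⧸ M) = 10 := hM
  haveI : Nontrivial (G ⧸ M) := by
    rw [← Finite.one_lt_card_iff_nontrivial, hcard]; norm_num
  obtain ⟨b, hb⟩ := exists_ne ((1 : G) : G ⧸ M)
  have hK48 := h48 _ b hb.symm
  rw [hstab] at hK48
  have hT := hst _ b hb.symm ((Q : Subgroup G) ⊓ (M ⊓ MulAction.stabilizer G b))
  rw [hstab] at hT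
  apply hT inf_le_right
  · -- the order of `T`
    have hTQ : Nat.card ↥((Q : Subgroup G) ⊓ (M ⊓ MulAction.stabilizer G b)) ∣ 27 := by
      rw [← hQ27]; exact Subgroup.card_dvd_of_le inf_le_left
    have hTK : Nat.card ↥((Q : Subgroup G) ⊓ (M ⊓ MulAction.stabilizer G b)) ∣ 48 := by
      rw [← hK48]; exact Subgroup.card_dvd_of_le inf_le_right
    have hT3 : Nat.card ↥((Q : Subgroup G) ⊓ (M ⊓ MulAction.stabilizer G b)) ∣ 3 :=
      Nat.dvd_gcd hTQ hTK
    have hle := Subgroup.relIndex_inf_le (H := (Q : Subgroup G))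
      (K := M ⊓ MulAction.stabilizer G b) (L := M)
    have hMc : Nat.card M = 432 := by
      have := Subgroup.card_mul_index M
      rw [hM, hG] at this; omega
    have i1 : (Q : Subgroup G).relIndex M = 16 := by
      have e1 := Subgroup.relIndex_mul_index hQM
      have e2 := Subgroup.card_mul_index (Q : Subgroup G)
      rw [hM] at e1; rw [hQ27, hG] at e2
      omega
    have i2 : (M ⊓ MulAction.stabilizer G b).relIndex M = 9 := by
      have e1 := Subgroup.relIndex_mul_index (inf_le_left : M ⊓ MulAction.stabilizer G b ≤ M)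
      have e2 := Subgroup.card_mul_index (M ⊓ MulAction.stabilizer G b)
      rw [hM] at e1; rw [hK48, hG] at e2
      omega
    have e1 := Subgroup.relIndex_mul_index
      ((inf_le_left : (Q : Subgroup G) ⊓ (M ⊓ MulAction.stabilizer G b) ≤ (Q : Subgroup G)).trans
        hQM)
    have e2 := Subgroup.card_mul_index ((Q : Subgroup G) ⊓ (M ⊓ MulAction.stabilizer G b))
    rw [hM] at e1; rw [hG] at e2
    rw [i1, i2] at hle
    rcases (Nat.dvd_prime (by norm_num : Nat.Prime 3)).mp hT3 with h | h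
    · exfalso
      rw [h] at e2
      omega
    · exact h
  · intro g hg t ht
    refine ⟨?_, Subgroup.mul_mem _ (Subgroup.mul_mem _ hg ht.2) (Subgroup.inv_mem _ hg)⟩
    exact ((Subgroup.mem_normalizer_iff.mp (hMN hg.1)) t).mp ht.1

end Cfsg.Agent.Helper4
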