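import Cfsg.Agent.Helper4.O5040E2Core
import Cfsg.Agent.Helper8.O5040INT2
import Cfsg.Agent.Helper19.O5040INV

/-!
# Order 5040, piece E2 of CALL S0978 (helper4)
-/

set_option autoImplicit false
set_option linter.style.haveILetI false
set_option maxHeartbeats 1000000
open Cfsg
open scoped ComplexConjugate

universe u

namespace Cfsg.Agent.Helper4

/-- PIECE E2. -/
theorem o5040_e2 {G : Type u} [Group G] [Finite G] [IsSimpleGroup G]
    (hG : Nat.card G = 5040) (hidx : ∀ H : Subgroup G, H ≠ ⊤ → 9 ≤ H.index) (P : Sylow 7 G)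
    (hq : (Subgroup.centralizer ((P : Subgroup G) : Set G)).relIndex
        (Subgroup.normalizer ((P : Subgroup G) : Set G)) = 2)
    (c : G) (hc : orderOf c = 2) (hcP : c ∈ Subgroup.centralizer ((P : Subgroup G) : Set G)) :
    False := by
  have hcc : c * c = 1 := by rw [← pow_two, ← hc, pow_orderOf_eq_one]
  exact o5040_e2_core hG hidx P hq c hc hcP
    (fun χ x s hxc hxo h =>
      Cfsg.Agent.Helper8.o5040_int2 χ 7 (by norm_num) (by norm_num) x c hxc hxo hc s h)
    (fun hna χ k h => Cfsg.Agent.Helper19.o5040_invol_mod4 hna χ c hcc k h)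

end Cfsg.Agent.Helper4
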