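import Cfsg.Agent.Helper9.BRDefs
import Cfsg.Agent.Helper9.BrauerP
import Cfsg.Agent.Helper9.OrdTools2
import Cfsg.Agent.Helper8.Ord459B
import Cfsg.Agent.Helper8.O5040Tools
import Cfsg.Agent.Helper67.BRK5
import Cfsg.Agent.Helper75.BRNF
import Cfsg.Agent.Helper78.Counting
import Cfsg.Agent.Helper80.CharOrtho

/-!
# Order 5040, piece E2 of CALL S0978 (helper4): the principal 7-block with `|N(P):C(P)| = 2`
and an involution in `C(P)` -- core, with the pieces INT2 and INV as hypotheses.
-/

set_option autoImplicit false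
set_option linter.style.haveILetI false
set_option maxHeartbeats 1000000
open Cfsg
open scoped ComplexConjugate

universe u

namespace Cfsg.Agent.Helper4

open Subgroup Cfsg.Agent.Helper9.OrdTools

theorem o5040_e2_arith1 : ∀ d ≤ 70, 2 ≤ d → d ∣ 5040 → d % 7 = 6 → (d - 1) ∣ 5040 → d = 6 := by
  decide +kernel

theorem o5040_e2_arith2' : ∀ d ≤ 70, (2 ≤ d ∧ d ∣ 5040 ∧ d % 7 = 1 ∧ (d + 1) ∣ 5040) →
    (d = 8 ∨ d = 15) := by
  decide +kernel

theorem o5040_e2_arith2 (d : ℕ) (h70 : d ≤ 70) (h2 : 2 ≤ d) (hd : d ∣ 5040) (h7 : d % 7 = 1)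
    (hd' : (d + 1) ∣ 5040) : d = 8 ∨ d = 15 :=
  o5040_e2_arith2' d h70 ⟨h2, hd, h7, hd'⟩

theorem o5040_e2_bound {G : Type u} [Group G] [Finite G] (χ : Cfsg.IrrCharacter G) (c : G)
    (z : ℤ) (h : (χ : G → ℂ) c = (z : ℂ)) : |z| ≤ (Cfsg.charDegree (χ : G → ℂ) : ℤ) := by
  have h1 := Helper80.isCharacter_norm_le (Helper79.irr_isCharacter χ) c
  rw [h, Complex.norm_intCast] at h1
  exact_mod_cast h1

/-- Core of PIECE E2. -/
theorem o5040_e2_core {G : Type u} [Group G] [Finite G] [IsSimpleGroup G]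
    (hG : Nat.card G = 5040) (hidx : ∀ H : Subgroup G, H ≠ ⊤ → 9 ≤ H.index) (P : Sylow 7 G)
    (hq : (Subgroup.centralizer ((P : Subgroup G) : Set G)).relIndex
        (Subgroup.normalizer ((P : Subgroup G) : Set G)) = 2)
    (c : G) (hc : orderOf c = 2) (hcP : c ∈ Subgroup.centralizer ((P : Subgroup G) : Set G))
    (hINT2 : ∀ (χ : Cfsg.IrrCharacter G) (x : G) (s : ℂ), x * c = c * x → orderOf x = 7 →
      (∀ a b : ℕ, ¬ 7 ∣ a → (χ : G → ℂ) (x ^ a * c ^ b) = s) →
      ∃ n : ℕ, (χ : G → ℂ) 1 + (χ : G → ℂ) c + 2 * (((7 : ℕ) : ℂ) - 1) * s =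
        2 * ((7 : ℕ) : ℂ) * (n : ℂ))
    (hINV : (∃ a b : G, a * b ≠ b * a) → ∀ (χ : Cfsg.IrrCharacter G) (k : ℕ),
      (χ : G → ℂ) c = (χ : G → ℂ) 1 - 2 * (k : ℂ) → Even k) :
    False := by
  classical
  haveI : Fintype G := Fintype.ofFinite G
  haveI : Fact (Nat.Prime 7) := ⟨by norm_num⟩
  have hP : Nat.card (P : Subgroup G) = 7 := by
    have := sylow_card (p := 7) 1 720 (hG.trans (by norm_num)) (by norm_num) P
    simpa using this
  have hna : ∃ a b : G, a * b ≠ b * a :=
    Helper8.Ord459.exists_not_comm' P (by rw [hP]; norm_num) (by rw [hP, hG]; norm_num)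
  obtain ⟨M, hM⟩ := Helper78.exists_isPModular 7 (by norm_num)
  obtain ⟨T⟩ := Helper75.br_tab_exists 7 M hM (by norm_num) P hP 2 hq le_rfl
  have hcard := T.hcard
  have hcardY : T.Y.card = 3 := by rw [T.hcardY]
  have hc1 : c ≠ 1 := by
    intro h
    rw [h, orderOf_one] at hc
    norm_num at hc
  -- an element of order 7 in `P`
  obtain ⟨x, hxP, hx1⟩ : ∃ x ∈ (P : Subgroup G), x ≠ 1 := by
    by_contra hcon
    push Not at hcon
    have hbot : (P : Subgroup G) = ⊥ := (Subgroup.eq_bot_iff_forall _).mpr hcon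
    rw [hbot, Subgroup.card_bot] at hP
    norm_num at hP
  have hxo : orderOf x = 7 := by
    have h1 : orderOf (⟨x, hxP⟩ : (P : Subgroup G)) ∣ Nat.card (P : Subgroup G) :=
      orderOf_dvd_natCard _
    rw [hP] at h1
    have h2 : orderOf (⟨x, hxP⟩ : (P : Subgroup G)) = orderOf x := Subgroup.orderOf_mk x hxP
    rw [h2] at h1
    rcases (Nat.dvd_prime (by norm_num : Nat.Prime 7)).mp h1 with h | h
    · exact absurd (orderOf_eq_one_iff.mp h) hx1
    · exact h
  have hxc : x * c = c * x := hcP x hxP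
  have hxa : ∀ a : ℕ, ¬ 7 ∣ a → x ^ a ∈ (P : Subgroup G) ∧ x ^ a ≠ 1 := by
    intro a ha
    refine ⟨Subgroup.pow_mem _ hxP a, fun h => ha ?_⟩
    rw [← hxo]
    exact orderOf_dvd_of_pow_eq_one h
  have hcb : ∀ b : ℕ, c ^ b ∈ Subgroup.centralizer ((P : Subgroup G) : Set G) ∧
      ¬ 7 ∣ orderOf (c ^ b) := by
    intro b
    refine ⟨Subgroup.pow_mem _ hcP b, fun h => ?_⟩
    have h2 : orderOf (c ^ b) ∣ 2 := by rw [← hc]; exact orderOf_pow_dvd b
    have := Nat.le_of_dvd (by norm_num) (h.trans h2)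
    omega
  have hc7 : ¬ 7 ∣ orderOf c := by rw [hc]; norm_num
  -- an exceptional character
  obtain ⟨θ, hθ⟩ : T.Y.Nonempty := Finset.card_pos.mp (by rw [hcardY]; norm_num)
  have hrel1 := T.hrel θ hθ 1 (by rw [orderOf_one]; norm_num)
  have ht1 := Helper81.irr_one_eq_charDegree θ
  have htpos := Helper81.charDegree_pos θ
  have htdvd := Helper79.irr_charDegree_dvd_card θ
  rw [hG] at htdvd
  have hX : (T.X1.card = 1 ∧ T.X2.card = 0) ∨ (T.X1.card = 0 ∧ T.X2.card = 1) := by omega
  rcases hX with ⟨h1, h2⟩ | ⟨h1, h2⟩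
  · -- `X1 = {χ}`
    obtain ⟨χ, hχ⟩ := Finset.card_eq_one.mp h1
    rw [Finset.card_eq_zero] at h2
    have hχmem : χ ∈ T.X1 := by rw [hχ]; exact Finset.mem_singleton_self χ
    have hχne : χ ≠ Helper81.trivIrr G := fun h => T.h1X1 (h ▸ hχmem)
    obtain ⟨hmod, hval⟩ := T.hX1 χ hχmem
    have hd2 := Helper9.BrauerP.two_le_charDegree hna χ hχne
    have hddvd := Helper79.irr_charDegree_dvd_card χ
    rw [hG] at hddvd
    have hdsq := Helper67.br_deg_sq_lt χ hχne
    rw [hG] at hdsq
    have hd70 : Cfsg.charDegree (χ : G → ℂ) ≤ 70 := by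
      by_contra hcon
      have : 71 ^ 2 ≤ Cfsg.charDegree (χ : G → ℂ) ^ 2 := Nat.pow_le_pow_left (by omega) 2
      omega
    have hd7 : Cfsg.charDegree (χ : G → ℂ) % 7 = 1 := by
      simp only [Int.ModEq] at hmod
      omega
    have hχ1 := Helper81.irr_one_eq_charDegree χ
    rw [hχ, h2] at hrel1
    simp only [Finset.sum_singleton, Finset.sum_empty, sub_zero] at hrel1
    rw [ht1, hχ1] at hrel1
    have hεt : T.ε = 1 ∧ Cfsg.charDegree (θ : G → ℂ) = Cfsg.charDegree (χ : G → ℂ) + 1 := by
      rcases T.hε with he | he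
      · refine ⟨he, ?_⟩
        rw [he] at hrel1
        have : ((Cfsg.charDegree (θ : G → ℂ) : ℕ) : ℂ) =
            ((Cfsg.charDegree (χ : G → ℂ) + 1 : ℕ) : ℂ) := by
          push_cast at hrel1 ⊢
          linear_combination hrel1
        exact_mod_cast this
      · exfalso
        rw [he] at hrel1
        have : ((Cfsg.charDegree (θ : G → ℂ) + Cfsg.charDegree (χ : G → ℂ) + 1 : ℕ) : ℂ) = 0 := by
          push_cast at hrel1 ⊢
          linear_combination -hrel1
        have h0 : Cfsg.charDegree (θ : G → ℂ) + Cfsg.charDegree (χ : G → ℂ) + 1 = 0 := by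
          exact_mod_cast this
        omega
    have hd := o5040_e2_arith2 _ hd70 hd2 hddvd hd7 (by rw [← hεt.2]; exact htdvd)
    obtain ⟨n, hn⟩ := hINT2 χ x 1 hxc hxo
      (fun a b ha => hval (x ^ a) (hxa a ha).1 (hxa a ha).2 (c ^ b) (hcb b).1 (hcb b).2)
    rw [hχ1] at hn
    have hχc : (χ : G → ℂ) c =
        ((14 * (n : ℤ) - 12 - (Cfsg.charDegree (χ : G → ℂ) : ℤ) : ℤ) : ℂ) := by
      push_cast at hn ⊢
      linear_combination hn
    have hb := o5040_e2_bound χ c _ hχc
    rw [abs_le] at hb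
    rcases hd with hd | hd
    · rw [hd] at hb hχc
      push_cast at hb
      have hn12 : n = 1 ∨ n = 2 := by omega
      rcases hn12 with rfl | rfl
      · have := hINV hna χ 7 (by rw [hχc, hχ1, hd]; push_cast; ring)
        exact absurd this (by decide)
      · exact hc1 (Helper8.o5040_ker χ hχne c (by rw [hχc, hχ1, hd]; push_cast; ring))
    · rw [hd] at hb hχc
      push_cast at hb
      have hn123 : n = 1 ∨ n = 2 ∨ n = 3 := by omega
      rcases hn123 with rfl | rfl | rfl
      · -- `χ(c) = -13`, `θ(c) = -12` for the three exceptional characters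
        have hχc' : (χ : G → ℂ) c = -13 := by rw [hχc]; push_cast; ring
        have hθc : ∀ θ' ∈ T.Y, (θ' : G → ℂ) c = -12 := by
          intro θ' hθ'
          have h := T.hrel θ' hθ' c hc7
          rw [hχ, h2, hεt.1] at h
          simp only [Finset.sum_singleton, Finset.sum_empty, sub_zero] at h
          rw [hχc'] at h
          push_cast at h
          linear_combination h
        haveI : Fintype (Cfsg.IrrCharacter G) := Fintype.ofFinite _
        have hcol := Helper80.irr_finsum_column_orthogonality_of_isConj (IsConj.refl c)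
        rw [finsum_eq_sum_of_fintype] at hcol
        have hreal : ∑ ψ : Cfsg.IrrCharacter G, Complex.normSq ((ψ : G → ℂ) c) =
            (Nat.card (Subgroup.centralizer ({c} : Set G)) : ℝ) := by
          have h : ((∑ ψ : Cfsg.IrrCharacter G, Complex.normSq ((ψ : G → ℂ) c) : ℝ) : ℂ) =
              ((Nat.card (Subgroup.centralizer ({c} : Set G)) : ℝ) : ℂ) := by
            rw [Complex.ofReal_sum]
            simp only [← Complex.mul_conj]
            rw [hcol]
            push_cast
            rfl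
          exact_mod_cast h
        have hχY : χ ∉ T.Y := Finset.disjoint_left.mp T.hX1Y hχmem
        have htriv : Helper81.trivIrr G ∉ insert χ T.Y := by
          rw [Finset.mem_insert]
          rintro (h | h)
          · exact hχne h.symm
          · exact T.h1Y h
        have hle : ∑ ψ ∈ insert (Helper81.trivIrr G) (insert χ T.Y),
            Complex.normSq ((ψ : G → ℂ) c) ≤
            ∑ ψ : Cfsg.IrrCharacter G, Complex.normSq ((ψ : G → ℂ) c) :=
          Finset.sum_le_sum_of_subset_of_nonneg (Finset.subset_univ _)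
            (fun _ _ _ => Complex.normSq_nonneg _)
        rw [Finset.sum_insert htriv, Finset.sum_insert hχY, hreal] at hle
        have e1 : Complex.normSq ((Helper81.trivIrr G : G → ℂ) c) = 1 := by
          rw [Helper81.trivIrr_apply]; exact Complex.normSq_one
        have e2 : Complex.normSq ((χ : G → ℂ) c) = 169 := by
          rw [hχc', show (-13 : ℂ) = ((-13 : ℝ) : ℂ) by push_cast; rfl, Complex.normSq_ofReal]
          norm_num
        have e3 : ∑ ψ ∈ T.Y, Complex.normSq ((ψ : G → ℂ) c) = 3 * 144 := by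
          rw [Finset.sum_congr rfl (fun ψ hψ => by
            rw [hθc ψ hψ, show (-12 : ℂ) = ((-12 : ℝ) : ℂ) by push_cast; rfl,
              Complex.normSq_ofReal]), Finset.sum_const, hcardY]
          norm_num
        rw [e1, e2, e3] at hle
        -- the centralizer of `c` is a proper subgroup
        have hcen : Subgroup.centralizer ({c} : Set G) ≠ ⊤ := by
          intro htop
          have hcz : c ∈ Subgroup.center G := by
            rw [Subgroup.mem_center_iff]
            intro g
            have hg : g ∈ Subgroup.centralizer ({c} : Set G) := by rw [htop]; trivial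
            exact (Subgroup.mem_centralizer_iff.mp hg c rfl).symm
          rcases (inferInstance : (Subgroup.center G).Normal).eq_bot_or_eq_top with hb' | ht'
          · rw [hb', Subgroup.mem_bot] at hcz
            exact hc1 hcz
          · obtain ⟨a, b, hab⟩ := hna
            have ha : a ∈ Subgroup.center G := by rw [ht']; trivial
            exact hab ((Subgroup.mem_center_iff.mp ha b).symm)
        have h9 := hidx _ hcen
        have hmul := Subgroup.card_mul_index (Subgroup.centralizer ({c} : Set G))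
        rw [hG] at hmul
        have h602 : (602 : ℝ) ≤ (Nat.card (Subgroup.centralizer ({c} : Set G)) : ℝ) := by
          linarith
        have h602' : 602 ≤ Nat.card (Subgroup.centralizer ({c} : Set G)) := by
          exact_mod_cast h602
        nlinarith
      · have := hINV hna χ 7 (by rw [hχc, hχ1, hd]; push_cast; ring)
        exact absurd this (by decide)
      · exact hc1 (Helper8.o5040_ker χ hχne c (by rw [hχc, hχ1, hd]; push_cast; ring))
  · -- `X2 = {χ}`
    obtain ⟨χ, hχ⟩ := Finset.card_eq_one.mp h2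
    rw [Finset.card_eq_zero] at h1
    have hχmem : χ ∈ T.X2 := by rw [hχ]; exact Finset.mem_singleton_self χ
    have hχne : χ ≠ Helper81.trivIrr G := fun h => T.h1X2 (h ▸ hχmem)
    obtain ⟨hmod, hval⟩ := T.hX2 χ hχmem
    have hd2 := Helper9.BrauerP.two_le_charDegree hna χ hχne
    have hddvd := Helper79.irr_charDegree_dvd_card χ
    rw [hG] at hddvd
    have hdsq := Helper67.br_deg_sq_lt χ hχne
    rw [hG] at hdsq
    have hd70 : Cfsg.charDegree (χ : G → ℂ) ≤ 70 := by
      by_contra hcon
      have : 71 ^ 2 ≤ Cfsg.charDegree (χ : G → ℂ) ^ 2 := Nat.pow_le_pow_left (by omega) 2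
      omega
    have hd7 : Cfsg.charDegree (χ : G → ℂ) % 7 = 6 := by
      simp only [Int.ModEq] at hmod
      omega
    have hχ1 := Helper81.irr_one_eq_charDegree χ
    rw [hχ, h1] at hrel1
    simp only [Finset.sum_singleton, Finset.sum_empty, add_zero] at hrel1
    rw [ht1, hχ1] at hrel1
    have hεt : Cfsg.charDegree (θ : G → ℂ) + 1 = Cfsg.charDegree (χ : G → ℂ) := by
      rcases T.hε with he | he
      · exfalso
        rw [he] at hrel1
        have : ((Cfsg.charDegree (θ : G → ℂ) + Cfsg.charDegree (χ : G → ℂ) : ℕ) : ℂ) =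
            ((1 : ℕ) : ℂ) := by
          push_cast at hrel1 ⊢
          linear_combination hrel1
        have h0 : Cfsg.charDegree (θ : G → ℂ) + Cfsg.charDegree (χ : G → ℂ) = 1 := by
          exact_mod_cast this
        omega
      · rw [he] at hrel1
        have : ((Cfsg.charDegree (θ : G → ℂ) + 1 : ℕ) : ℂ) =
            ((Cfsg.charDegree (χ : G → ℂ) : ℕ) : ℂ) := by
          push_cast at hrel1 ⊢
          linear_combination -hrel1
        exact_mod_cast this
    have hd := o5040_e2_arith1 _ hd70 hd2 hddvd hd7 (by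
      have : Cfsg.charDegree (χ : G → ℂ) - 1 = Cfsg.charDegree (θ : G → ℂ) := by omega
      rw [this]; exact htdvd)
    obtain ⟨n, hn⟩ := hINT2 χ x (-1) hxc hxo
      (fun a b ha => hval (x ^ a) (hxa a ha).1 (hxa a ha).2 (c ^ b) (hcb b).1 (hcb b).2)
    rw [hχ1] at hn
    have hχc : (χ : G → ℂ) c =
        ((14 * (n : ℤ) + 12 - (Cfsg.charDegree (χ : G → ℂ) : ℤ) : ℤ) : ℂ) := by
      push_cast at hn ⊢
      linear_combination hn
    have hb := o5040_e2_bound χ c _ hχc
    rw [abs_le] at hb
    rw [hd] at hb hχc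
    push_cast at hb
    have hn0 : n = 0 := by omega
    subst hn0
    exact hc1 (Helper8.o5040_ker χ hχne c (by rw [hχc, hχ1, hd]; push_cast; ring))

end Cfsg.Agent.Helper4
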