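import Mathlib
import Cfsg.Prelude.Def_Characters
import Cfsg.Agent.Helper4.OddIndexReal
import Cfsg.Agent.Helper75.Galois
import Cfsg.Agent.Helper75.Clifford
import Cfsg.Agent.Helper3.Induced

/-!
# Characters fixed by a power map of 2-power order, over a normal subgroup of odd index (helper4)

`N` normal of odd index in `G`; `k` prime to `|G|` with `g ^ k = g⁻¹` for `g` of odd order
(so `χ ↦ χ (· ^ k)` is a Galois twist acting as complex conjugation on `Irr(G/N)`).

* `powFix_quot_pow`: `q ^ k = q⁻¹` in `G ⧸ N`.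
* `powFix_ker_conj`: `γ (g ^ k) = conj (γ g)` for `γ ∈ Irr(G)` with `N` in its kernel.
* `powFix_irr_unique`: two twist-fixed irreducible characters of `G` over the same `φ ∈ Irr(N)`
  are equal.
* `powFix_mult_odd`: for `χ` over `φ`, `[χ|N, φ]` and `χ(1)/φ(1)` are odd natural numbers.
* `powFix_card_over_odd`: the number of irreducible characters of `G` over `θ` is odd.
* `powFix_exists_fixed`: if `θ` is twist-fixed, some `χ` over `θ` is twist-fixed.
* `powFix_extension_fixed`: if a twist-fixed `θ` extends to `G`, it has a twist-fixed extension.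
-/

set_option autoImplicit false

namespace Cfsg.Agent.Helper4

open Cfsg
open scoped ComplexConjugate

variable {G : Type*} [Group G] [Fintype G]

omit [Fintype G] in
theorem powFix_quot_pow [Finite G] {N : Subgroup G} [hN : N.Normal] (hodd : Odd N.index) (k : ℕ)
    (hk₂ : ∀ g : G, Odd (orderOf g) → g ^ k = g⁻¹) (q : G ⧸ N) : q ^ k = q⁻¹ := by
  obtain ⟨g, rfl⟩ := QuotientGroup.mk_surjective q
  obtain ⟨a, m, hm, hgm⟩ := Nat.exists_eq_two_pow_mul_odd (orderOf_pos g).ne'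
  have hodd_h : Odd (orderOf (g ^ 2 ^ a)) := by
    have : (g ^ 2 ^ a) ^ m = 1 := by rw [← pow_mul, ← hgm, pow_orderOf_eq_one]
    exact Odd.of_dvd_nat hm (orderOf_dvd_of_pow_eq_one this)
  have h1 := hk₂ _ hodd_h
  have h2 : (((g : G ⧸ N)) ^ (k + 1)) ^ 2 ^ a = 1 := by
    have h3 : ((g ^ 2 ^ a) ^ k * g ^ 2 ^ a : G) = 1 := by rw [h1]; simp
    have h4 := congrArg (QuotientGroup.mk (s := N)) h3
    rw [QuotientGroup.mk_mul, QuotientGroup.mk_pow, QuotientGroup.mk_pow, QuotientGroup.mk_one]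
      at h4
    rw [← h4, ← pow_mul, ← pow_mul, ← pow_add]
    congr 1
    ring
  have h4 : orderOf ((g : G ⧸ N) ^ (k + 1)) ∣ 2 ^ a := orderOf_dvd_of_pow_eq_one h2
  have h5 : Odd (orderOf ((g : G ⧸ N) ^ (k + 1))) := by
    have : orderOf ((g : G ⧸ N) ^ (k + 1)) ∣ Nat.card (G ⧸ N) := orderOf_dvd_natCard _
    rw [← Subgroup.index_eq_card] at this
    exact Odd.of_dvd_nat hodd this
  have h6 : orderOf ((g : G ⧸ N) ^ (k + 1)) = 1 := by
    obtain ⟨j, -, hj⟩ := (Nat.dvd_prime_pow Nat.prime_two).1 h4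
    rw [hj] at h5 ⊢
    cases j with
    | zero => rfl
    | succ j =>
      exfalso
      rw [pow_succ] at h5
      exact (Nat.not_even_iff_odd.2 h5) (even_two.mul_left _)
  rw [orderOf_eq_one_iff, pow_succ] at h6
  exact eq_inv_of_mul_eq_one_left h6

theorem powFix_ker_conj {N : Subgroup G} [hN : N.Normal] (hodd : Odd N.index) (k : ℕ)
    (hk₂ : ∀ g : G, Odd (orderOf g) → g ^ k = g⁻¹) {γ : G → ℂ} (hγ : IsIrrCharacter G γ)
    (hker : ∀ x ∈ N, γ x = γ 1) (g : G) : γ (g ^ k) = conj (γ g) := by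
  obtain ⟨ψ, hψ, hψg⟩ := Helper79.exists_irr_deflation N hγ hker
  rw [← hψg, ← hψg, QuotientGroup.mk_pow, powFix_quot_pow hodd k hk₂,
    Helper80.isCharacter_inv (Helper79.isCharacter_of_irr hψ)]

theorem powFix_irr_unique {N : Subgroup G} [hN : N.Normal] [Fintype N] (hodd : Odd N.index)
    (k : ℕ) (hk : Nat.Coprime k (Nat.card G)) (hk₂ : ∀ g : G, Odd (orderOf g) → g ^ k = g⁻¹)
    (χ₁ χ₂ : IrrCharacter G) (hr₁ : ∀ g, (χ₁ : G → ℂ) (g ^ k) = (χ₁ : G → ℂ) g)
    (hr₂ : ∀ g, (χ₂ : G → ℂ) (g ^ k) = (χ₂ : G → ℂ) g)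
    {φ : N → ℂ} (hφ : IsIrrCharacter N φ)
    (hne₁ : classInner (fun n : N => (χ₁ : G → ℂ) n) φ ≠ 0)
    (hne₂ : classInner (fun n : N => (χ₂ : G → ℂ) n) φ ≠ 0) : χ₁ = χ₂ := by
  classical
  letI : Fintype (IrrCharacter G) := Fintype.ofFinite _
  by_contra hne
  obtain ⟨d, hdodd, hD⟩ := oddReal_classInner_restrict_odd hodd χ₁.2 χ₂.2 hφ hne₁ hne₂
  set F : G → ℂ := (χ₁ : G → ℂ) * (Helper3.conjIrr χ₂ : G → ℂ) with hF
  have hFc : IsCharacter G F :=
    Helper79.isCharacter_mul (Helper79.isCharacter_of_irr χ₁.2)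
      (Helper79.isCharacter_of_irr (Helper3.conjIrr χ₂).2)
  obtain ⟨m, hm⟩ := Helper75.exists_nat_mult hFc
  have hsum := Helper75.character_eq_sum_irr hFc
  have hFfix : ∀ g, F (g ^ k) = F g := by
    intro g
    rw [hF, Pi.mul_apply, Pi.mul_apply, Helper3.conjIrr_apply, Helper3.conjIrr_apply, hr₁, hr₂]
  have hD2 : classInner (fun n : N => (χ₁ : G → ℂ) n) (fun n : N => (χ₂ : G → ℂ) n)
      = (Nat.card N : ℂ)⁻¹ * ∑ n : N, F n := by
    unfold classInner
    congr 1
  have hD3 : (Nat.card N : ℂ)⁻¹ * ∑ n : N, F n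
      = ∑ γ : IrrCharacter G, (m γ : ℂ) *
          (if (∀ x ∈ N, (γ : G → ℂ) x = (γ : G → ℂ) 1) then (γ : G → ℂ) 1 else 0) := by
    have h1 : ∀ n : N, F n = ∑ γ : IrrCharacter G, (m γ : ℂ) * (γ : G → ℂ) n := by
      intro n
      have h2 := congrFun hsum (n : G)
      rw [Finset.sum_apply] at h2
      rw [h2]
      apply Finset.sum_congr rfl
      intro γ _
      rw [Pi.smul_apply, smul_eq_mul, hm γ]
    simp_rw [h1]
    rw [Finset.sum_comm, Finset.mul_sum]
    apply Finset.sum_congr rfl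
    intro γ _
    rw [← Finset.mul_sum, ← oddReal_sum_restrict_irr γ]
    ring
  set B : Finset (IrrCharacter G) :=
    Finset.univ.filter (fun γ => ∀ x ∈ N, (γ : G → ℂ) x = (γ : G → ℂ) 1) with hB
  have hnat : d = ∑ γ ∈ B, m γ * charDegree (γ : G → ℂ) := by
    have h1 : (d : ℂ) = ((∑ γ ∈ B, m γ * charDegree (γ : G → ℂ) : ℕ) : ℂ) := by
      rw [← hD, hD2, hD3, hB, Finset.sum_filter, Nat.cast_sum]
      apply Finset.sum_congr rfl
      intro γ _
      split_ifs with h
      · rw [Helper80.irr_one_eq]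
        push_cast
        ring
      · simp
    exact_mod_cast h1
  have htrivB : Helper80.trivIrr G ∈ B := by
    rw [hB, Finset.mem_filter]
    exact ⟨Finset.mem_univ _, fun x _ => rfl⟩
  have hmtriv : m (Helper80.trivIrr G) = 0 := by
    have h1 := hm (Helper80.trivIrr G)
    have h2 : classInner F (Helper80.trivIrr G : G → ℂ)
        = classInner (χ₁ : G → ℂ) (χ₂ : G → ℂ) := by
      unfold classInner
      congr 1
      apply Finset.sum_congr rfl
      intro g _
      rw [Helper80.trivIrr_apply, map_one, mul_one]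
      rfl
    rw [h2, Helper75.classInner_irr χ₁ χ₂, if_neg hne] at h1
    exact_mod_cast h1.symm
  have hmconj : ∀ γ ∈ B, m (Helper3.conjIrr γ) = m γ := by
    intro γ hγ
    have hker := (Finset.mem_filter.1 hγ).2
    have h1 := hm (Helper3.conjIrr γ)
    have h2 : classInner F (Helper3.conjIrr γ : G → ℂ) = classInner F (γ : G → ℂ) := by
      unfold classInner
      congr 1
      rw [← Equiv.sum_comp (powCoprime hk.symm) (fun g : G => F g * conj ((γ : G → ℂ) g))]
      apply Finset.sum_congr rfl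
      intro g _
      show F g * conj ((Helper3.conjIrr γ : G → ℂ) g) = F (g ^ k) * conj ((γ : G → ℂ) (g ^ k))
      rw [hFfix, Helper3.conjIrr_apply, powFix_ker_conj hodd k hk₂ γ.2 hker g]
    rw [h2, hm γ] at h1
    exact_mod_cast h1.symm
  have hdconj : ∀ γ : IrrCharacter G,
      charDegree (Helper3.conjIrr γ : G → ℂ) = charDegree (γ : G → ℂ) := by
    intro γ
    have h1 := Helper80.irr_one_eq (Helper3.conjIrr γ)
    rw [Helper3.conjIrr_apply, Helper80.irr_one_eq γ, Complex.conj_natCast] at h1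
    exact_mod_cast h1.symm
  have hzmod : ((∑ γ ∈ B.erase (Helper80.trivIrr G), m γ * charDegree (γ : G → ℂ) : ℕ) : ZMod 2)
      = 0 := by
    rw [Nat.cast_sum]
    apply Finset.sum_involution (fun γ _ => Helper3.conjIrr γ)
    · intro γ hγ
      rw [hmconj γ (Finset.mem_erase.1 hγ).2, hdconj]
      exact CharTwo.add_self_eq_zero _
    · intro γ hγ _ hfix
      have hγB := Finset.mem_erase.1 hγ
      have hreal : ∀ g, conj ((γ : G → ℂ) g) = (γ : G → ℂ) g :=
        fun g => congrFun (congrArg Subtype.val hfix) g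
      have h1 := oddReal_irr_eq_one_of_real hodd γ hreal ((Finset.mem_filter.1 hγB.2).2)
      exact hγB.1 (Subtype.ext h1)
    · intro γ hγ
      have hγB := Finset.mem_erase.1 hγ
      rw [Finset.mem_erase]
      constructor
      · intro h1
        apply hγB.1
        have h2 := congrArg Helper3.conjIrr h1
        rw [Helper3.conjIrr_conjIrr] at h2
        rw [h2]
        apply Subtype.ext
        funext g
        simp [Helper3.conjIrr_apply]
      · rw [hB, Finset.mem_filter]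
        refine ⟨Finset.mem_univ _, fun x hx => ?_⟩
        rw [Helper3.conjIrr_apply, Helper3.conjIrr_apply, (Finset.mem_filter.1 hγB.2).2 x hx]
    · intro γ _
      exact Helper3.conjIrr_conjIrr γ
  have hd0 : (d : ZMod 2) = 0 := by
    rw [hnat, ← Finset.add_sum_erase B _ htrivB, Nat.cast_add, hzmod, hmtriv]
    simp
  rw [ZMod.natCast_eq_zero_iff_even] at hd0
  exact (Nat.not_even_iff_odd.2 hdodd) hd0

theorem powFix_mult_odd {N : Subgroup G} [hN : N.Normal] [Fintype N]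
    (hodd : Odd N.index) {χ : G → ℂ} (h : IsIrrCharacter G χ)
    {φ : N → ℂ} (hφ : IsIrrCharacter N φ)
    (hne : classInner (fun n : N => χ n) φ ≠ 0) :
    ∃ a c : ℕ, Odd a ∧ Odd c ∧ classInner (fun n : N => χ n) φ = (a : ℂ) ∧
      χ 1 = (c : ℂ) * φ 1 := by
  classical
  have hc := Helper79.isCharacter_restrict (Helper79.isCharacter_of_irr h) N
  obtain ⟨m, hm⟩ := Helper75.exists_nat_mult hc
  have he : classInner (fun n : N => χ n) φ = (m ⟨φ, hφ⟩ : ℂ) := hm ⟨φ, hφ⟩
  obtain ⟨k, hk, hkd⟩ := Helper15.degree_eq_mul_of_constituent N χ h φ hφ hne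
  have hR := oddReal_card_smul_restrict h hφ hne
  set tT : ℕ := Nat.card {g : G // Helper75.conjFun N g φ = φ} with htT
  have hφ1 : φ 1 ≠ 0 := Helper80.irr_one_ne_zero ⟨φ, hφ⟩
  have hconj1 : ∀ x : G, Helper75.conjFun N x φ 1 = φ 1 := by
    intro x
    rw [Helper75.conjFun_apply]
    congr 1
    apply Subtype.ext
    simp
  rw [he] at hR
  have hA : tT * k = m ⟨φ, hφ⟩ * Nat.card G := by
    have h1 := congrFun hR 1
    rw [Pi.smul_apply, Pi.smul_apply, Finset.sum_apply, smul_eq_mul, smul_eq_mul] at h1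
    simp_rw [hconj1] at h1
    rw [Finset.sum_const, Finset.card_univ, nsmul_eq_mul, ← Nat.card_eq_fintype_card] at h1
    have h2 : ((tT * k : ℕ) : ℂ) * φ 1 = ((m ⟨φ, hφ⟩ * Nat.card G : ℕ) : ℂ) * φ 1 := by
      push_cast
      have h3 : χ ((1 : N) : G) = k * φ 1 := hk
      rw [h3] at h1
      linear_combination h1
    exact_mod_cast mul_right_cancel₀ hφ1 h2
  have htT0 : tT ≠ 0 := by
    have : Nonempty {g : G // Helper75.conjFun N g φ = φ} := ⟨⟨1, Helper75.conjFun_one N φ⟩⟩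
    exact Nat.card_pos.ne'
  have hkodd : Odd k := Odd.of_dvd_nat hodd hkd
  have hcard : tT = Nat.card (Helper75.inertia N φ) :=
    Nat.card_congr (Equiv.subtypeEquivRight (fun g => (Helper75.mem_inertia N φ g).symm))
  obtain ⟨c, hc⟩ := Subgroup.card_subgroup_dvd_card (Helper75.inertia N φ)
  rw [← hcard] at hc
  rw [hc] at hA
  have hkeq : k = m ⟨φ, hφ⟩ * c := by
    have : tT * k = tT * (m ⟨φ, hφ⟩ * c) := by rw [hA]; ring
    exact Nat.eq_of_mul_eq_mul_left (Nat.pos_of_ne_zero htT0) this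
  exact ⟨m ⟨φ, hφ⟩, k, Odd.of_dvd_nat hkodd ⟨c, hkeq⟩, hkodd, he, hk⟩

theorem powFix_card_over_odd {N : Subgroup G} [hN : N.Normal] [Fintype N] (hodd : Odd N.index)
    {θ : N → ℂ} (hθ : IsIrrCharacter N θ) :
    Odd (Nat.card {χ : IrrCharacter G // classInner (fun n : N => (χ : G → ℂ) n) θ ≠ 0}) := by
  classical
  letI : Fintype (IrrCharacter G) := Fintype.ofFinite _
  have hInd : IsCharacter G (indFun N θ) :=
    Helper3.isCharacter_indFun N θ (Helper79.isCharacter_of_irr hθ)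
  have hsum := Helper75.character_eq_sum_irr hInd
  have hθ1 : θ 1 ≠ 0 := Helper80.irr_one_ne_zero ⟨θ, hθ⟩
  have hw : ∀ χ : IrrCharacter G, ∃ w : ℕ,
      (classInner (fun n : N => (χ : G → ℂ) n) θ ≠ 0 → Odd w) ∧
      (classInner (fun n : N => (χ : G → ℂ) n) θ = 0 → w = 0) ∧
      classInner (indFun N θ) (χ : G → ℂ) * (χ : G → ℂ) 1 = (w : ℂ) * θ 1 := by
    intro χ
    have hfr := Helper3.frobenius_reciprocity N θ (χ : G → ℂ)
      (Helper75.isCharacter_isClassFunction' (Helper79.isCharacter_of_irr χ.2))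
    rw [Helper75.classInner_conj_symm (fun n : N => (χ : G → ℂ) n) θ] at hfr
    by_cases h0 : classInner (fun n : N => (χ : G → ℂ) n) θ = 0
    · refine ⟨0, fun h => absurd h0 h, fun _ => rfl, ?_⟩
      rw [hfr, h0]
      simp
    · obtain ⟨a, c, ha, hc, hac, hcc⟩ := powFix_mult_odd hodd χ.2 hθ h0
      refine ⟨a * c, fun _ => ha.mul hc, fun h => absurd h h0, ?_⟩
      rw [hfr, hac, hcc, Complex.conj_natCast]
      push_cast
      ring
  choose w hw1 hw2 hw3 using hw
  have hN0 : (Nat.card N : ℂ) ≠ 0 := by exact_mod_cast Nat.card_pos.ne'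
  have h1 : (N.index : ℂ) * θ 1 = ((∑ χ : IrrCharacter G, w χ : ℕ) : ℂ) * θ 1 := by
    have h2 := congrFun hsum 1
    rw [Helper75.indFun_one, Finset.sum_apply] at h2
    have h3 : (Nat.card G : ℂ) = (N.index : ℂ) * (Nat.card N : ℂ) := by
      rw [← Nat.cast_mul, mul_comm, Subgroup.card_mul_index]
    rw [h3, mul_div_assoc, div_self hN0, mul_one] at h2
    rw [h2, Nat.cast_sum, Finset.sum_mul]
    apply Finset.sum_congr rfl
    intro χ _
    rw [Pi.smul_apply, smul_eq_mul, hw3]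
  have h4 : N.index = ∑ χ : IrrCharacter G, w χ := by
    exact_mod_cast mul_right_cancel₀ hθ1 h1
  rw [Nat.card_eq_fintype_card, Fintype.card_subtype]
  have h5 : ((∑ χ : IrrCharacter G, w χ : ℕ) : ZMod 2)
      = ((Finset.univ.filter
          (fun χ : IrrCharacter G => classInner (fun n : N => (χ : G → ℂ) n) θ ≠ 0)).card : ZMod 2) := by
    rw [Nat.cast_sum, Finset.card_eq_sum_ones, Nat.cast_sum, Finset.sum_filter]
    apply Finset.sum_congr rfl
    intro χ _
    split_ifs with h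
    · have := hw1 χ h
      rw [← ZMod.natCast_eq_one_iff_odd] at this
      rw [this]
      simp
    · rw [hw2 χ (not_not.1 h)]
      simp
  rw [← h4] at h5
  rw [← ZMod.natCast_eq_one_iff_odd, ← h5, ZMod.natCast_eq_one_iff_odd]
  exact hodd

theorem powFix_exists_fixed {N : Subgroup G} [hN : N.Normal] [Fintype N] (hodd : Odd N.index)
    (k e : ℕ) (hk : Nat.Coprime k (Nat.card G)) (hke : k ^ (2 ^ e) ≡ 1 [MOD Nat.card G])
    {θ : N → ℂ} (hθ : IsIrrCharacter N θ) (hθk : ∀ n : N, θ (n ^ k) = θ n) :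
    ∃ χ : IrrCharacter G, classInner (fun n : N => (χ : G → ℂ) n) θ ≠ 0 ∧
      ∀ g, (χ : G → ℂ) (g ^ k) = (χ : G → ℂ) g := by
  classical
  letI : Fintype (IrrCharacter G) := Fintype.ofFinite _
  have hkN : Nat.Coprime k (Nat.card N) :=
    Nat.Coprime.coprime_dvd_right (Subgroup.card_subgroup_dvd_card N) hk
  have hinner : ∀ χ : G → ℂ,
      classInner (fun n : N => χ ((n : G) ^ k)) θ = classInner (fun n : N => χ n) θ := by
    intro χ
    unfold classInner
    congr 1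
    rw [← Equiv.sum_comp (powCoprime hkN.symm) (fun n : N => χ n * conj (θ n))]
    apply Finset.sum_congr rfl
    intro n _
    show χ ((n : G) ^ k) * conj (θ n) = χ ((n ^ k : N) : G) * conj (θ (n ^ k))
    rw [Subgroup.coe_pow, hθk]
  let f : Function.End {χ : IrrCharacter G // classInner (fun n : N => (χ : G → ℂ) n) θ ≠ 0} :=
    fun χ => ⟨⟨fun g => (χ.1 : G → ℂ) (g ^ k), Helper75.isIrrCharacter_pow k hk χ.1.2⟩, by
      show classInner (fun n : N => (χ.1 : G → ℂ) ((n : G) ^ k)) θ ≠ 0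
      rw [hinner]
      exact χ.2⟩
  have hfpow : ∀ (j : ℕ)
      (χ : {χ : IrrCharacter G // classInner (fun n : N => (χ : G → ℂ) n) θ ≠ 0}) (g : G),
      (((f ^ j) χ).1 : G → ℂ) g = (χ.1 : G → ℂ) (g ^ (k ^ j)) := by
    intro j
    induction j with
    | zero => intro χ g; rw [pow_zero, pow_zero, pow_one]; rfl
    | succ j ih =>
      intro χ g
      rw [pow_succ]
      show (((f ^ j) (f χ)).1 : G → ℂ) g = _
      rw [ih]
      show (χ.1 : G → ℂ) ((g ^ k ^ j) ^ k) = _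
      rw [← pow_mul, ← pow_succ]
  have hf1 : f ^ 2 ^ e = 1 := by
    funext χ
    apply Subtype.ext
    apply Subtype.ext
    funext g
    rw [hfpow]
    show (χ.1 : G → ℂ) (g ^ k ^ 2 ^ e) = (χ.1 : G → ℂ) g
    have h1 : k ^ 2 ^ e ≡ 1 [MOD orderOf g] := hke.of_dvd (orderOf_dvd_natCard g)
    have h5 : g ^ k ^ 2 ^ e = g := by
      have := (pow_eq_pow_iff_modEq (x := g)).mpr h1
      simpa using this
    rw [h5]
  haveI : Fact (Nat.Prime 2) := ⟨Nat.prime_two⟩
  have hmod := Equiv.Perm.card_fixedPoints_modEq (f := f) (p := 2) (n := e) hf1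
  have hcard := powFix_card_over_odd (G := G) hodd hθ
  have hfix : ∃ χ : {χ : IrrCharacter G // classInner (fun n : N => (χ : G → ℂ) n) θ ≠ 0},
      f χ = χ := by
    by_contra hcon
    push Not at hcon
    have hempty : IsEmpty (Function.fixedPoints f) := ⟨fun x => hcon x.1 x.2⟩
    have h0 : Fintype.card (Function.fixedPoints f) = 0 := Fintype.card_eq_zero
    rw [h0] at hmod
    rw [Nat.card_eq_fintype_card] at hcard
    have h2 := (Nat.modEq_zero_iff_dvd).mp hmod
    exact (Nat.not_even_iff_odd.2 hcard) (even_iff_two_dvd.2 h2)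
  obtain ⟨χ, hχ⟩ := hfix
  refine ⟨χ.1, χ.2, fun g => ?_⟩
  exact congrFun (congrArg (fun z : {χ : IrrCharacter G //
    classInner (fun n : N => (χ : G → ℂ) n) θ ≠ 0} => (z.1 : G → ℂ)) hχ) g

theorem powFix_extension_fixed {N : Subgroup G} [hN : N.Normal] [Fintype N] (hodd : Odd N.index)
    (k : ℕ) (hk : Nat.Coprime k (Nat.card G)) (hk₂ : ∀ g : G, Odd (orderOf g) → g ^ k = g⁻¹)
    {θ : N → ℂ} (hθ : IsIrrCharacter N θ) (hθk : ∀ n : N, θ (n ^ k) = θ n)
    {χ₀ : G → ℂ} (hχ₀ : IsIrrCharacter G χ₀) (hres : ∀ n : N, χ₀ n = θ n) :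
    ∃ χ : G → ℂ, IsIrrCharacter G χ ∧ (∀ n : N, χ n = θ n) ∧ ∀ g, χ (g ^ k) = χ g := by
  classical
  have hχN : IsIrrCharacter N (fun n : N => χ₀ n) := by
    have : (fun n : N => χ₀ n) = θ := funext hres
    rw [this]
    exact hθ
  have hψ : IsIrrCharacter G (fun g => χ₀ (g ^ k)) := Helper75.isIrrCharacter_pow k hk hχ₀
  have hψN : (fun n : N => (fun g => χ₀ (g ^ k)) (n : G)) = fun n : N => χ₀ n := by
    funext n
    show χ₀ ((n : G) ^ k) = χ₀ n
    rw [← Subgroup.coe_pow, hres, hres, hθk]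
  have hG := (Helper15.gallagher_average N χ₀ hχ₀ hχN (fun g => χ₀ (g ^ k)) hψ).1 (by
    rw [hψN, Helper75.classInner_irr_self hχN]
    exact one_ne_zero)
  obtain ⟨hβ, hβker, hβmul⟩ := hG
  set β : G → ℂ := Helper15.avgN N (fun g => (fun g => χ₀ (g ^ k)) g * conj (χ₀ g)) with hβdef
  have hχ1 : χ₀ 1 ≠ 0 := Helper80.irr_one_ne_zero ⟨χ₀, hχ₀⟩
  have hβ1 : β 1 = 1 := by
    have h1 := congrFun hβmul 1
    rw [Pi.mul_apply] at h1
    have h2 : χ₀ ((1 : G) ^ k) = χ₀ 1 := by rw [one_pow]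
    rw [h2] at h1
    have h3 : 1 * χ₀ 1 = β 1 * χ₀ 1 := by rw [one_mul]; exact h1
    exact (mul_right_cancel₀ hχ1 h3).symm
  obtain ⟨b, hb⟩ := Helper79.isCharacter_linear (Helper79.isCharacter_of_irr hβ) hβ1
  have hbN : ∀ x ∈ N, b x = 1 := by
    intro x hx
    have h1 := hβker x hx
    rw [hb, hβ1] at h1
    exact Units.ext h1
  have hbk : ∀ g : G, b g ^ (k + 1) = 1 := by
    intro g
    rw [← map_pow]
    apply hbN
    rw [← QuotientGroup.eq_one_iff, QuotientGroup.mk_pow, pow_succ, powFix_quot_pow hodd k hk₂]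
    exact inv_mul_cancel _
  obtain ⟨i, hi⟩ := hodd
  have hbi : ∀ g : G, b g ^ (2 * i + 1) = 1 := by
    intro g
    rw [← map_pow, ← hi]
    exact hbN _ (Subgroup.pow_index_mem N g)
  refine ⟨fun g => (((b ^ (i + 1) : G →* ℂˣ) g : ℂˣ) : ℂ) * χ₀ g,
    Helper79.isIrrCharacter_twist (b ^ (i + 1)) hχ₀, fun n => ?_, fun g => ?_⟩
  · show (((b ^ (i + 1) : G →* ℂˣ) (n : G) : ℂˣ) : ℂ) * χ₀ n = θ n
    rw [MonoidHom.pow_apply, hbN n n.2, one_pow, Units.val_one, one_mul, hres]
  · have h1 := congrFun hβmul g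
    rw [Pi.mul_apply, hb g] at h1
    show (((b ^ (i + 1) : G →* ℂˣ) (g ^ k) : ℂˣ) : ℂ) * χ₀ (g ^ k) = _
    rw [h1, ← mul_assoc, ← Units.val_mul]
    congr 2
    rw [MonoidHom.pow_apply, MonoidHom.pow_apply, map_pow]
    have huk : b g ^ k = (b g)⁻¹ := by
      have := hbk g
      rw [pow_succ] at this
      exact eq_inv_of_mul_eq_one_left this
    rw [huk, inv_pow, inv_mul_eq_iff_eq_mul, ← pow_add]
    have h2 : i + 1 + (i + 1) = 2 * i + 1 + 1 := by ring
    rw [h2, pow_succ, hbi g, one_mul]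

end Cfsg.Agent.Helper4
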