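import Mathlib
import Cfsg.Prelude.Def_Characters
import Cfsg.Agent.Helper4.PowFix
import Cfsg.Agent.S0886
import Cfsg.Agent.S0888

/-!
# Extension of twist-fixed invariant characters over a normal subgroup of odd index (helper4)

`N` normal of odd index in `G`; `k` prime to `|G|` with `g ^ k = g⁻¹` for `g` of odd order.
An irreducible character `θ` of `N` which is `G`-invariant and fixed by `n ↦ n ^ k` extends to `G`
(`powFix_extends`). No solvability of `G / N` is used: the prime-power case is an induction along a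
central series using the uniqueness of the twist-fixed character over `θ`, and the general case is
the Sylow criterion for extendibility.
-/

set_option autoImplicit false

namespace Cfsg.Agent.Helper4

open Cfsg
open scoped ComplexConjugate

/-- Transport of a function on `N` to `N.subgroupOf M`. -/
def powFix_subFun {G : Type*} [Group G] (N M : Subgroup G) (θ : N → ℂ) : N.subgroupOf M → ℂ :=
  fun x => θ ⟨((x : M) : G), Subgroup.mem_subgroupOf.1 x.2⟩

theorem powFix_subFun_apply {G : Type*} [Group G] (N M : Subgroup G) (θ : N → ℂ)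
    (x : N.subgroupOf M) :
    powFix_subFun N M θ x = θ ⟨((x : M) : G), Subgroup.mem_subgroupOf.1 x.2⟩ := rfl

theorem powFix_sub_package {G : Type*} [Group G] [Finite G] {N M : Subgroup G} [hN : N.Normal]
    (hNM : N ≤ M) (k : ℕ) (hk : Nat.Coprime k (Nat.card G))
    (hk₂ : ∀ g : G, Odd (orderOf g) → g ^ k = g⁻¹) {θ : N → ℂ} (hθ : IsIrrCharacter N θ)
    (hθk : ∀ n : N, θ (n ^ k) = θ n)
    (hinv : ∀ (g : G) (n : N), θ ⟨g * n * g⁻¹, hN.conj_mem (n : G) n.2 g⟩ = θ n) :
    Nat.Coprime k (Nat.card M) ∧ (∀ m : M, Odd (orderOf m) → m ^ k = m⁻¹) ∧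
      IsIrrCharacter (N.subgroupOf M) (powFix_subFun N M θ) ∧
      (∀ n : N.subgroupOf M, powFix_subFun N M θ (n ^ k) = powFix_subFun N M θ n) ∧
      (∀ (g : M) (n : N.subgroupOf M),
        powFix_subFun N M θ ⟨g * n * g⁻¹,
          (inferInstance : (N.subgroupOf M).Normal).conj_mem (n : M) n.2 g⟩
          = powFix_subFun N M θ n) := by
  refine ⟨Nat.Coprime.coprime_dvd_right (Subgroup.card_subgroup_dvd_card M) hk, ?_, ?_, ?_, ?_⟩
  · intro m hm
    apply Subtype.ext
    rw [Subgroup.coe_pow, Subgroup.coe_inv]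
    apply hk₂
    rwa [Subgroup.orderOf_coe]
  · have h1 := (Helper79.isIrrCharacter_mulEquiv (Subgroup.subgroupOfEquivOfLe hNM) (χ := θ)).2 hθ
    exact h1
  · intro n
    rw [powFix_subFun_apply, powFix_subFun_apply]
    have h1 := hθk ⟨((n : M) : G), Subgroup.mem_subgroupOf.1 n.2⟩
    rw [← h1]
    apply congrArg
    apply Subtype.ext
    simp
  · intro g n
    rw [powFix_subFun_apply, powFix_subFun_apply]
    exact hinv (g : G) ⟨((n : M) : G), Subgroup.mem_subgroupOf.1 n.2⟩

theorem powFix_exists_central_step {G : Type*} [Group G] [Finite G] {q : ℕ} [hq : Fact q.Prime]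
    {N : Subgroup G} [hN : N.Normal] {j : ℕ} (hidx : N.index = q ^ (j + 1)) :
    ∃ M : Subgroup G, M.Normal ∧ N ≤ M ∧ M.index = q ^ j ∧ N.relIndex M = q := by
  have hcard : Nat.card (G ⧸ N) = q ^ (j + 1) := by rw [← Subgroup.index_eq_card]; exact hidx
  have hP : IsPGroup q (G ⧸ N) := IsPGroup.of_card hcard
  have hq1 : 1 < q := hq.out.one_lt
  have hnt : Nontrivial (G ⧸ N) := by
    rw [← Finite.one_lt_card_iff_nontrivial, hcard]
    exact Nat.one_lt_pow (Nat.succ_ne_zero j) hq1
  have hcnt : Nontrivial (Subgroup.center (G ⧸ N)) := hP.center_nontrivial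
  have hdvd : q ∣ Nat.card (Subgroup.center (G ⧸ N)) := by
    rcases (hP.to_subgroup (Subgroup.center (G ⧸ N))).card_eq_or_dvd with h | h
    · exact absurd h (Finite.one_lt_card (α := Subgroup.center (G ⧸ N))).ne'
    · exact h
  obtain ⟨z₀, hz₀⟩ := exists_prime_orderOf_dvd_card' q hdvd
  have hz : orderOf (z₀ : G ⧸ N) = q := by rw [Subgroup.orderOf_coe]; exact hz₀
  have hzc : ∀ g : G ⧸ N, g * (z₀ : G ⧸ N) = (z₀ : G ⧸ N) * g :=
    fun g => Subgroup.mem_center_iff.1 z₀.2 g
  have hCle : Subgroup.zpowers (z₀ : G ⧸ N) ≤ Subgroup.center (G ⧸ N) :=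
    Subgroup.zpowers_le.2 z₀.2
  have hCn : (Subgroup.zpowers (z₀ : G ⧸ N)).Normal := by
    refine ⟨fun x hx g => ?_⟩
    have h1 := Subgroup.mem_center_iff.1 (hCle hx) g
    rw [h1, mul_inv_cancel_right]
    exact hx
  have hMn : ((Subgroup.zpowers (z₀ : G ⧸ N)).comap (QuotientGroup.mk' N)).Normal :=
    hCn.comap _
  have hNM : N ≤ (Subgroup.zpowers (z₀ : G ⧸ N)).comap (QuotientGroup.mk' N) := by
    intro n hn
    rw [Subgroup.mem_comap]
    have : QuotientGroup.mk' N n = 1 := (QuotientGroup.eq_one_iff n).2 hn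
    rw [this]
    exact Subgroup.one_mem _
  have hMidx : ((Subgroup.zpowers (z₀ : G ⧸ N)).comap (QuotientGroup.mk' N)).index = q ^ j := by
    rw [Subgroup.index_comap_of_surjective _ (QuotientGroup.mk'_surjective N)]
    have h1 := Subgroup.index_mul_card (Subgroup.zpowers (z₀ : G ⧸ N))
    rw [Nat.card_zpowers, hz, hcard, pow_succ] at h1
    exact Nat.eq_of_mul_eq_mul_right hq.out.pos h1
  refine ⟨_, hMn, hNM, hMidx, ?_⟩
  have h2 := Subgroup.relIndex_mul_index hNM
  rw [hMidx, hidx, pow_succ, mul_comm] at h2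
  exact Nat.eq_of_mul_eq_mul_left (pow_pos hq.out.pos j) h2

theorem powFix_extends_of_prime_pow {G : Type*} [Group G] [Fintype G] {q : ℕ} [hq : Fact q.Prime]
    (hqodd : Odd q) (k : ℕ) (hk : Nat.Coprime k (Nat.card G))
    (hk₂ : ∀ g : G, Odd (orderOf g) → g ^ k = g⁻¹) :
    ∀ (j : ℕ) (N : Subgroup G) [hN : N.Normal], N.index = q ^ j → ∀ θ : N → ℂ,
      IsIrrCharacter N θ → (∀ n : N, θ (n ^ k) = θ n) →
      (∀ (g : G) (n : N), θ ⟨g * n * g⁻¹, hN.conj_mem (n : G) n.2 g⟩ = θ n) →
      ∃ χ : G → ℂ, IsIrrCharacter G χ ∧ ∀ n : N, χ n = θ n := by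
  classical
  intro j
  induction j with
  | zero =>
    intro N hN hidx θ hθ hθk hinv
    have hcard : Nat.card (G ⧸ N) = 1 := by rw [← Subgroup.index_eq_card, hidx, pow_zero]
    have hsub : Subsingleton (G ⧸ N) := (Nat.card_eq_one_iff_unique.1 hcard).1
    have hcyc : IsCyclic (G ⧸ N) := isCyclic_of_subsingleton
    exact Cfsg.Agent.S0886.result N hcyc θ hθ hinv
  | succ j ih =>
    intro N hN hidx θ hθ hθk hinv
    obtain ⟨M, hM, hNM, hMidx, hrel⟩ := powFix_exists_central_step hidx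
    letI : Fintype M := Fintype.ofFinite _
    letI : Fintype (N.subgroupOf M) := Fintype.ofFinite _
    obtain ⟨hk', hk₂', hirr', hθk', hinv'⟩ := powFix_sub_package hNM k hk hk₂ hθ hθk hinv
    have hidx' : (N.subgroupOf M).index = q := hrel
    have hodd' : Odd (N.subgroupOf M).index := by rw [hidx']; exact hqodd
    have hcyc : IsCyclic (M ⧸ N.subgroupOf M) := by
      have : Nat.card (M ⧸ N.subgroupOf M) = q := by rw [← Subgroup.index_eq_card]; exact hidx'
      exact isCyclic_of_prime_card this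
    obtain ⟨ψ₀, hψ₀, hψ₀N⟩ :=
      Cfsg.Agent.S0886.result (N.subgroupOf M) hcyc (powFix_subFun N M θ) hirr' hinv'
    obtain ⟨ψ, hψ, hψN, hψk⟩ :=
      powFix_extension_fixed hodd' k hk' hk₂' hirr' hθk' hψ₀ hψ₀N
    have hne : classInner (fun n : N.subgroupOf M => ψ n) (powFix_subFun N M θ) ≠ 0 := by
      have : (fun n : N.subgroupOf M => ψ n) = powFix_subFun N M θ := funext hψN
      rw [this, Helper75.classInner_irr_self hirr']
      exact one_ne_zero
    have hψinv : ∀ (g : G) (m : M), ψ ⟨g * m * g⁻¹, hM.conj_mem (m : G) m.2 g⟩ = ψ m := by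
      intro g
      have hirrg : IsIrrCharacter M (fun m : M => ψ (MulAut.conjNormal g m)) :=
        (Helper79.isIrrCharacter_mulEquiv (MulAut.conjNormal g : M ≃* M) (χ := ψ)).2 hψ
      have hfixg : ∀ m : M, (fun m : M => ψ (MulAut.conjNormal g m)) (m ^ k)
          = (fun m : M => ψ (MulAut.conjNormal g m)) m := by
        intro m
        show ψ (MulAut.conjNormal g (m ^ k)) = ψ (MulAut.conjNormal g m)
        rw [map_pow, hψk]
      have hneg : classInner (fun n : N.subgroupOf M => (fun m : M => ψ (MulAut.conjNormal g m)) n)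
          (powFix_subFun N M θ) ≠ 0 := by
        have : (fun n : N.subgroupOf M => (fun m : M => ψ (MulAut.conjNormal g m)) n)
            = powFix_subFun N M θ := by
          funext n
          have hmem : (MulAut.conjNormal g (n : M) : M) ∈ N.subgroupOf M := by
            rw [Subgroup.mem_subgroupOf, MulAut.conjNormal_apply]
            exact hN.conj_mem _ (Subgroup.mem_subgroupOf.1 n.2) g
          have h1 := hψN ⟨_, hmem⟩
          show ψ (MulAut.conjNormal g (n : M)) = _
          rw [h1, powFix_subFun_apply, powFix_subFun_apply]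
          have h2 := hinv g ⟨((n : M) : G), Subgroup.mem_subgroupOf.1 n.2⟩
          rw [← h2]
          congr 1
        rw [this, Helper75.classInner_irr_self hirr']
        exact one_ne_zero
      have huniq := powFix_irr_unique hodd' k hk' hk₂'
        ⟨fun m : M => ψ (MulAut.conjNormal g m), hirrg⟩ ⟨ψ, hψ⟩ hfixg hψk hirr' hneg hne
      intro m
      have h3 : ψ (MulAut.conjNormal g m) = ψ m := congrFun (congrArg Subtype.val huniq) m
      refine Eq.trans (congrArg ψ (Subtype.ext ?_)) h3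
      exact (MulAut.conjNormal_apply g m).symm
    obtain ⟨χ, hχ, hχM⟩ := ih M hMidx ψ hψ hψk hψinv
    refine ⟨χ, hχ, fun n => ?_⟩
    have h4 := hχM ⟨(n : G), hNM n.2⟩
    have h5 := hψN ⟨⟨(n : G), hNM n.2⟩, Subgroup.mem_subgroupOf.2 n.2⟩
    rw [powFix_subFun_apply] at h5
    rw [h4]
    exact h5

/-- An invariant irreducible character of a normal subgroup of odd index which is fixed by the
power map `n ↦ n ^ k` (with `k` inverting the elements of odd order) extends to the whole group. -/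
theorem powFix_extends {G : Type*} [Group G] [Fintype G] {N : Subgroup G} [hN : N.Normal]
    (hodd : Odd N.index) (k : ℕ) (hk : Nat.Coprime k (Nat.card G))
    (hk₂ : ∀ g : G, Odd (orderOf g) → g ^ k = g⁻¹) {θ : N → ℂ} (hθ : IsIrrCharacter N θ)
    (hθk : ∀ n : N, θ (n ^ k) = θ n)
    (hinv : ∀ (g : G) (n : N), θ ⟨g * n * g⁻¹, hN.conj_mem (n : G) n.2 g⟩ = θ n) :
    ∃ χ : G → ℂ, IsIrrCharacter G χ ∧ ∀ n : N, χ n = θ n := by
  classical
  apply Cfsg.Agent.S0888.result N θ hθ hinv
  intro p hp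
  haveI : Fact p.Prime := ⟨hp⟩
  obtain ⟨S⟩ : Nonempty (Sylow p (G ⧸ N)) := inferInstance
  have hNP : N ≤ (S : Subgroup (G ⧸ N)).comap (QuotientGroup.mk' N) := by
    intro n hn
    rw [Subgroup.mem_comap]
    have : QuotientGroup.mk' N n = 1 := (QuotientGroup.eq_one_iff n).2 hn
    rw [this]
    exact Subgroup.one_mem _
  have hPidx : ((S : Subgroup (G ⧸ N)).comap (QuotientGroup.mk' N)).index
      = (S : Subgroup (G ⧸ N)).index :=
    Subgroup.index_comap_of_surjective _ (QuotientGroup.mk'_surjective N)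
  have hcop : Nat.Coprime ((S : Subgroup (G ⧸ N)).comap (QuotientGroup.mk' N)).index p := by
    rw [hPidx]
    exact ((Nat.Prime.coprime_iff_not_dvd hp).2 S.not_dvd_index).symm
  obtain ⟨j, hj⟩ := IsPGroup.iff_card.1 S.2
  have h1 := Subgroup.relIndex_mul_index hNP
  have hrel : N.relIndex ((S : Subgroup (G ⧸ N)).comap (QuotientGroup.mk' N)) = p ^ j := by
    have h2 := Subgroup.index_mul_card (S : Subgroup (G ⧸ N))
    have h3 : N.relIndex ((S : Subgroup (G ⧸ N)).comap (QuotientGroup.mk' N))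
        * (S : Subgroup (G ⧸ N)).index = p ^ j * (S : Subgroup (G ⧸ N)).index := by
      rw [← hPidx, h1, Subgroup.index_eq_card, ← h2, hj, hPidx, mul_comm]
    have hpos : 0 < (S : Subgroup (G ⧸ N)).index := Nat.pos_of_ne_zero Subgroup.index_ne_zero_of_finite
    exact Nat.eq_of_mul_eq_mul_right hpos h3
  obtain ⟨q, hqp, hqodd, j', hqj⟩ : ∃ q : ℕ, q.Prime ∧ Odd q ∧ ∃ j' : ℕ,
      N.relIndex ((S : Subgroup (G ⧸ N)).comap (QuotientGroup.mk' N)) = q ^ j' := by
    by_cases h2 : p = 2
    · refine ⟨3, Nat.prime_three, by decide, 0, ?_⟩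
      have hodd' : Odd (N.relIndex ((S : Subgroup (G ⧸ N)).comap (QuotientGroup.mk' N))) :=
        Odd.of_dvd_nat hodd (Dvd.intro _ h1)
      rw [hrel, h2] at hodd' ⊢
      cases j with
      | zero => rfl
      | succ j =>
        exfalso
        rw [pow_succ] at hodd'
        exact (Nat.not_even_iff_odd.2 hodd') (even_two.mul_left _)
    · exact ⟨p, hp, hp.odd_of_ne_two h2, j, hrel⟩
  haveI : Fact q.Prime := ⟨hqp⟩
  letI : Fintype ((S : Subgroup (G ⧸ N)).comap (QuotientGroup.mk' N)) := Fintype.ofFinite _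
  obtain ⟨hk', hk₂', hirr', hθk', hinv'⟩ := powFix_sub_package hNP k hk hk₂ hθ hθk hinv
  obtain ⟨η, hη, hηN⟩ := powFix_extends_of_prime_pow hqodd k hk' hk₂' j'
    (N.subgroupOf ((S : Subgroup (G ⧸ N)).comap (QuotientGroup.mk' N))) hqj
    (powFix_subFun N _ θ) hirr' hθk' hinv'
  refine ⟨_, hNP, η, hcop, ⟨j, hrel⟩, hη, fun n => ?_⟩
  have h5 := hηN ⟨⟨(n : G), hNP n.2⟩, Subgroup.mem_subgroupOf.2 n.2⟩
  rw [powFix_subFun_apply] at h5
  exact h5

end Cfsg.Agent.Helper4
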