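import Mathlib
import Cfsg.Prelude.Def_Characters
import Cfsg.Prelude.Def_DegreeGraph
import Cfsg.Agent.Helper4.GoingDown
import Cfsg.Agent.Helper4.GoingDown2
import Cfsg.Agent.Helper4.CliffordExt
import Cfsg.Agent.Helper80.LinChar
import Cfsg.Agent.Helper79.Linear

/-!
# Normal subgroups of prime index and groups whose character degrees are primes (helper4)

* `primeIdx_inertia`: for `N` normal of prime index and a class function `θ` on `N` that is not
  `G`-invariant, the inertia group of `θ` is `N`.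
* `primeIdx_restrict`: `N` normal of prime index `p`, `χ ∈ Irr(G)`, `θ` a constituent of `χ|_N`:
  either `χ|_N = θ`, or `χ(1) = p θ(1)` and `θ` is not `G`-invariant.
* `primeIdx_induce`: a non-invariant `θ ∈ Irr(N)` induces an irreducible character of degree
  `p θ(1)`.
* `primeIdx_ker_index`: the kernel of a homomorphism `μ : H →* ℂˣ` of prime order `q` has index `q`.
* `primeIdx_exists_hom`: if `commutator G ≠ ⊤` there is a homomorphism `G →* ℂˣ` of prime order.
-/

set_option autoImplicit false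

namespace Cfsg.Agent.Helper4

open Cfsg
open scoped ComplexConjugate

universe u

theorem primeIdx_inertia {G : Type*} [Group G] [Finite G] (N : Subgroup G) [hN : N.Normal]
    {p : ℕ} (hp : p.Prime) (hidx : N.index = p) {θ : N → ℂ} (hθ : IsClassFunction N θ)
    {g₀ : G} (hg₀ : Helper75.conjFun N g₀ θ ≠ θ) :
    ∀ g : G, g ∈ N ↔ Helper75.conjFun N g θ = θ := by
  intro g
  have hNT : N ≤ Helper75.inertia N θ := Helper75.le_inertia N θ hθ
  constructor
  · intro hg
    exact (Helper75.mem_inertia N θ g).1 (hNT hg)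
  · intro hg
    have hgT : g ∈ Helper75.inertia N θ := (Helper75.mem_inertia N θ g).2 hg
    have h1 : (Helper75.inertia N θ).index ∣ p := by
      rw [← hidx]
      exact Subgroup.index_dvd_of_le hNT
    have h2 : (Helper75.inertia N θ).index ≠ 1 := by
      intro h
      rw [Subgroup.index_eq_one] at h
      apply hg₀
      have : g₀ ∈ Helper75.inertia N θ := by rw [h]; trivial
      exact (Helper75.mem_inertia N θ g₀).1 this
    have h3 : (Helper75.inertia N θ).index = p := by
      rcases (Nat.dvd_prime hp).1 h1 with h | h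
      · exact absurd h h2
      · exact h
    have h4 := Subgroup.relIndex_mul_index hNT
    rw [h3, hidx] at h4
    have h5 : N.relIndex (Helper75.inertia N θ) = 1 := by
      have hp0 : 0 < p := hp.pos
      nlinarith [Nat.eq_of_mul_eq_mul_right hp0 (by rw [h4, one_mul] :
        N.relIndex (Helper75.inertia N θ) * p = 1 * p)]
    exact (Subgroup.relIndex_eq_one.1 h5) hgT

theorem primeIdx_card {G : Type*} [Group G] [Finite G] (N : Subgroup G)
    {p : ℕ} (hidx : N.index = p) : (Nat.card G : ℂ) / (Nat.card N : ℂ) = (p : ℂ) := by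
  have h := N.index_mul_card
  rw [hidx] at h
  have hN0 : (Nat.card N : ℂ) ≠ 0 := by exact_mod_cast Nat.card_pos.ne'
  rw [div_eq_iff hN0, ← h]
  push_cast
  ring

theorem primeIdx_induce {G : Type*} [Group G] [Fintype G] (N : Subgroup G) [hN : N.Normal]
    [Fintype N] {p : ℕ} (hp : p.Prime) (hidx : N.index = p) {θ : N → ℂ}
    (hθ : IsIrrCharacter N θ) {g₀ : G} (hg₀ : Helper75.conjFun N g₀ θ ≠ θ) :
    ∃ χ : G → ℂ, IsIrrCharacter G χ ∧ χ 1 = (p : ℂ) * θ 1 := by
  have hcl : IsClassFunction N θ :=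
    Helper75.isCharacter_isClassFunction' (Helper79.isCharacter_of_irr hθ)
  have hT := primeIdx_inertia N hp hidx hcl hg₀
  have hres : Helper75.resTo (le_refl N) θ = θ := by
    funext n
    rfl
  have hf : classInner (Helper75.resTo (le_refl N) θ) θ ≠ 0 := by
    rw [hres, Helper75.classInner_irr_self hθ]
    exact one_ne_zero
  obtain ⟨h1, -⟩ := ind_inertia_irr (le_refl N) hθ hT hθ hf
  refine ⟨_, h1, ?_⟩
  rw [Helper75.indFun_one, primeIdx_card N hidx]

theorem primeIdx_sum_vanish {G : Type*} [Group G] [Fintype G] (N : Subgroup G) [Fintype N]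
    (F : G → ℝ) (hF : ∀ g : G, g ∉ N → F g = 0) : ∑ n : N, F n = ∑ g : G, F g := by
  apply Fintype.sum_of_injective (fun n : N => (n : G)) Subtype.val_injective
  · intro g hg
    apply hF
    intro h
    exact hg ⟨⟨g, h⟩, rfl⟩
  · intro n
    rfl

theorem primeIdx_comm {Q : Type*} [Group Q] {p : ℕ} (hp : p.Prime) (hQ : Nat.card Q = p) :
    ∀ a b : Q, a * b = b * a := by
  haveI : Fact p.Prime := ⟨hp⟩
  haveI : IsCyclic Q := isCyclic_of_prime_card hQ
  obtain ⟨g, hg⟩ := IsCyclic.exists_generator (α := Q)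
  intro a b
  obtain ⟨i, rfl⟩ := Subgroup.mem_zpowers_iff.1 (hg a)
  obtain ⟨j, rfl⟩ := Subgroup.mem_zpowers_iff.1 (hg b)
  exact zpow_mul_comm g i j

theorem primeIdx_hom_ne_one {Q : Type*} [Group Q] {p : ℕ} (hp : p.Prime) (hQ : Nat.card Q = p)
    {μ : Q →* ℂˣ} (hμ : μ ≠ 1) {x : Q} (hx : μ x = 1) : x = 1 := by
  haveI : Fact (Nat.card Q).Prime := ⟨by rw [hQ]; exact hp⟩
  rcases Subgroup.eq_bot_or_eq_top_of_prime_card μ.ker with h | h
  · have : x ∈ μ.ker := hx
    rw [h] at this
    exact this
  · exfalso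
    apply hμ
    ext y
    have : y ∈ μ.ker := by rw [h]; trivial
    have h2 : μ y = 1 := this
    rw [h2]
    rfl

/-- Restriction of an irreducible character to a normal subgroup of prime index. -/
theorem primeIdx_restrict {G : Type*} [Group G] [Fintype G] (N : Subgroup G) [hN : N.Normal]
    [Fintype N] {p : ℕ} (hp : p.Prime) (hidx : N.index = p) {χ : G → ℂ}
    (hχ : IsIrrCharacter G χ) {θ : N → ℂ} (hθ : IsIrrCharacter N θ)
    (hne : classInner (fun n : N => χ n) θ ≠ 0) :
    (∀ n : N, χ n = θ n) ∨ (χ 1 = (p : ℂ) * θ 1 ∧ ∃ g : G, Helper75.conjFun N g θ ≠ θ) := by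
  classical
  have hχc : IsCharacter G χ := Helper79.isCharacter_of_irr hχ
  have hθc : IsCharacter N θ := Helper79.isCharacter_of_irr hθ
  have hcl : IsClassFunction N θ := Helper75.isCharacter_isClassFunction' hθc
  by_cases hinv : ∀ g : G, Helper75.conjFun N g θ = θ
  · left
    have hres := Helper75.clifford_restrict N hχ hθ hne
    have hset : {ψ : N → ℂ | ∃ g : G, ψ = Helper75.conjFun N g θ} = {θ} := by
      ext ψ
      constructor
      · rintro ⟨g, rfl⟩
        exact hinv g
      · intro h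
        exact ⟨1, by rw [Set.mem_singleton_iff.1 h, Helper75.conjFun_one]⟩
    rw [hset, finsum_mem_singleton] at hres
    obtain ⟨m, hm⟩ := Helper3.classInner_isCharacter_nat
      (Helper79.isCharacter_restrict hχc N) hθc
    rw [hm] at hres
    have hm0 : m ≠ 0 := by
      intro h
      apply hne
      rw [hm, h]
      simp
    have hval : ∀ n : N, χ n = (m : ℂ) * θ n := by
      intro n
      have := congrFun hres n
      simpa using this
    have hsumN : ∑ n : N, Complex.normSq (χ n) = (m : ℝ) ^ 2 * (Nat.card N : ℝ) := by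
      rw [← sum_normSq_of_irr hθ, Finset.mul_sum]
      apply Finset.sum_congr rfl
      intro n _
      rw [hval n, Complex.normSq_mul, Complex.normSq_natCast]
      ring
    have hcard : (Nat.card G : ℝ) = (p : ℝ) * (Nat.card N : ℝ) := by
      have h := N.index_mul_card
      rw [hidx] at h
      exact_mod_cast h.symm
    have hN0 : (0 : ℝ) < (Nat.card N : ℝ) := by exact_mod_cast Nat.card_pos
    have hQcard : Nat.card (G ⧸ N) = p := by
      rw [← hidx]
      rfl
    have hm1 : m = 1 := by
      by_cases hfree : ∀ μ : (G ⧸ N) →* ℂˣ,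
          (∀ k : G, ((μ (QuotientGroup.mk k) : ℂˣ) : ℂ) * χ k = χ k) → μ = 1
      · have h1 := twist_count N (primeIdx_comm hp hQcard) χ hχ hfree
        rw [hidx, hsumN, hcard] at h1
        have hp0 : (0 : ℝ) < (p : ℝ) := by exact_mod_cast hp.pos
        have h2 : (m : ℝ) ^ 2 = 1 := by
          have h3 : (p : ℝ) * (Nat.card N : ℝ) * ((m : ℝ) ^ 2 - 1) = 0 := by linarith
          have h4 : (p : ℝ) * (Nat.card N : ℝ) ≠ 0 := (mul_pos hp0 hN0).ne'
          have h5 := (mul_eq_zero.1 h3).resolve_left h4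
          linarith
        have h6 : m ^ 2 = 1 := by exact_mod_cast h2
        have h7 : m * m = 1 := by rw [← h6]; ring
        exact Nat.eq_one_of_mul_eq_one_right h7
      · exfalso
        push_neg at hfree
        obtain ⟨μ, hμ, hμ1⟩ := hfree
        have hvan : ∀ g : G, g ∉ N → Complex.normSq (χ g) = 0 := by
          intro g hg
          have h1 := hμ g
          have h2 : μ (QuotientGroup.mk g) ≠ 1 := by
            intro h
            have := primeIdx_hom_ne_one hp hQcard hμ1 h
            exact hg ((QuotientGroup.eq_one_iff g).1 this)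
          have h3 : ((μ (QuotientGroup.mk g) : ℂˣ) : ℂ) ≠ 1 := by
            intro h
            apply h2
            exact Units.ext h
          have h4 : (((μ (QuotientGroup.mk g) : ℂˣ) : ℂ) - 1) * χ g = 0 := by
            rw [sub_mul, h1, one_mul, sub_self]
          have h5 := (mul_eq_zero.1 h4).resolve_left (sub_ne_zero.2 h3)
          rw [h5]
          simp
        have h1 := primeIdx_sum_vanish N (fun g => Complex.normSq (χ g)) hvan
        rw [hsumN, sum_normSq_of_irr hχ, hcard] at h1
        have h2 : (m : ℝ) ^ 2 = (p : ℝ) := by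
          have h3 : (Nat.card N : ℝ) * ((m : ℝ) ^ 2 - (p : ℝ)) = 0 := by linarith
          have h5 := (mul_eq_zero.1 h3).resolve_left hN0.ne'
          linarith
        have h6 : m ^ 2 = p := by exact_mod_cast h2
        have h7 : m ∣ p := ⟨m, by rw [← h6]; ring⟩
        rcases (Nat.dvd_prime hp).1 h7 with h | h
        · rw [h] at h6
          exact hp.one_lt.ne' (by simpa using h6.symm)
        · rw [h] at h6
          have : p = 1 := by
            have hp0 := hp.pos
            nlinarith
          exact hp.one_lt.ne' this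
    intro n
    rw [hval n, hm1]
    simp
  · right
    push_neg at hinv
    obtain ⟨g₀, hg₀⟩ := hinv
    refine ⟨?_, g₀, hg₀⟩
    have hT := primeIdx_inertia N hp hidx hcl hg₀
    have hres : Helper75.resTo (le_refl N) θ = θ := by
      funext n
      rfl
    have hf : classInner (Helper75.resTo (le_refl N) θ) θ ≠ 0 := by
      rw [hres, Helper75.classInner_irr_self hθ]
      exact one_ne_zero
    obtain ⟨h1, -⟩ := Helper75.clifford_correspondence (le_refl N) hθ hT hθ hχ hf hne
    rw [← h1, Helper75.indFun_one, primeIdx_card N hidx]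

/-- The kernel of a homomorphism to `ℂˣ` of prime order `q` has index `q`. -/
theorem primeIdx_ker_index {H : Type*} [Group H] [Finite H] (μ : H →* ℂˣ) {q : ℕ}
    (hq : q.Prime) (hμ : orderOf μ = q) : μ.ker.index = q := by
  rw [Subgroup.index_ker]
  haveI : Finite μ.range := Finite.of_surjective μ.rangeRestrict μ.rangeRestrict_surjective
  have hexp : Monoid.exponent μ.range ∣ q := by
    apply Monoid.exponent_dvd_of_forall_pow_eq_one
    rintro ⟨y, h, rfl⟩
    apply Subtype.ext
    have h1 : (μ ^ q) h = 1 := by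
      rw [← hμ, pow_orderOf_eq_one]
      rfl
    simpa using h1
  rw [← IsCyclic.exponent_eq_card]
  rcases (Nat.dvd_prime hq).1 hexp with h1 | h1
  · exfalso
    rw [Monoid.exp_eq_one_iff] at h1
    have hμ1 : μ = 1 := by
      ext h
      have := Subsingleton.elim (⟨μ h, h, rfl⟩ : μ.range) 1
      have h2 := congrArg (fun y : μ.range => (y : ℂˣ)) this
      simpa using congrArg (fun y : ℂˣ => (y : ℂ)) h2
    rw [hμ1, orderOf_one] at hμ
    exact hq.one_lt.ne' hμ.symm
  · exact h1

/-- If `commutator G ≠ ⊤` there is a homomorphism `G →* ℂˣ` of prime order. -/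
theorem primeIdx_exists_hom {G : Type*} [Group G] [Finite G] (hc : commutator G ≠ ⊤) :
    ∃ (μ : G →* ℂˣ) (p : ℕ), p.Prime ∧ orderOf μ = p := by
  haveI : Finite (G →* ℂˣ) := Helper80.finite_hom
  have h1 : Nat.card (G →* ℂˣ) ≠ 1 := by
    rw [Helper80.card_hom]
    intro h
    exact hc (Subgroup.index_eq_one.1 h)
  haveI : Fact (Nat.card (G →* ℂˣ)).minFac.Prime := ⟨Nat.minFac_prime h1⟩
  obtain ⟨μ, hμ⟩ := exists_prime_orderOf_dvd_card' (G := G →* ℂˣ)
    (Nat.card (G →* ℂˣ)).minFac (Nat.minFac_dvd _)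
  exact ⟨μ, _, Nat.minFac_prime h1, hμ⟩

theorem primeIdx_deg_mul {K L : Type*} [Group K] [Group L] {χ : K → ℂ} {θ : L → ℂ}
    (hθ : IsCharacter L θ) {p : ℕ}
    (h : χ 1 = (p : ℂ) * θ 1) : charDegree χ = p * charDegree θ := by
  apply Helper75.charDegree_of_one_eq_nat
  rw [h, Helper79.isCharacter_one_eq_charDegree hθ]
  push_cast
  rfl

theorem primeIdx_deg_eq {K L : Type*} [Group K] [Group L] {χ : K → ℂ} {θ : L → ℂ}
    (h : χ 1 = θ 1) : charDegree χ = charDegree θ := by
  unfold charDegree
  rw [h]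

theorem primeIdx_deg_pos {K : Type*} [Group K] [Finite K] {θ : K → ℂ} (hθ : IsIrrCharacter K θ) :
    charDegree θ ≠ 0 := by
  intro h
  have h1 := Helper79.isCharacter_one_eq_charDegree (Helper79.isCharacter_of_irr hθ)
  rw [h] at h1
  exact Helper80.irr_one_ne_zero (⟨θ, hθ⟩ : IrrCharacter K) (by simpa using h1)

/-- The prime-degree hypothesis passes to normal subgroups of prime index. -/
theorem primeIdx_inherit {G : Type*} [Group G] [Fintype G] (N : Subgroup G) [hN : N.Normal]
    [Fintype N] {p : ℕ} (hp : p.Prime) (hidx : N.index = p)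
    (hdeg : ∀ χ : IrrCharacter G, charDegree (χ : G → ℂ) = 1 ∨ (charDegree (χ : G → ℂ)).Prime)
    (θ : IrrCharacter N) :
    charDegree (θ : N → ℂ) = 1 ∨ (charDegree (θ : N → ℂ)).Prime := by
  classical
  have hθc : IsCharacter N (θ : N → ℂ) := Helper79.isCharacter_of_irr θ.2
  have hind : IsCharacter G (indFun N (θ : N → ℂ)) :=
    Helper3.isCharacter_indFun N _ hθc
  have hone : indFun N (θ : N → ℂ) 1 ≠ 0 := by
    rw [Helper75.indFun_one, primeIdx_card N hidx]
    exact mul_ne_zero (by exact_mod_cast hp.ne_zero) (Helper80.irr_one_ne_zero θ)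
  obtain ⟨χ, hχ, hχne⟩ := Helper75.exists_irr_constituent hind hone
  have hχcl : IsClassFunction G χ :=
    Helper75.isCharacter_isClassFunction' (Helper79.isCharacter_of_irr hχ)
  rw [Helper3.frobenius_reciprocity N (θ : N → ℂ) χ hχcl] at hχne
  have hne : classInner (fun n : N => χ n) (θ : N → ℂ) ≠ 0 := by
    rw [Helper15.classInner_conj_symm]
    intro h
    apply hχne
    have := congrArg (starRingEnd ℂ) h
    simpa using this
  rcases primeIdx_restrict N hp hidx hχ θ.2 hne with h | ⟨h, -⟩
  · have h1 : charDegree χ = charDegree (θ : N → ℂ) := primeIdx_deg_eq (by simpa using h 1)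
    rw [← h1]
    exact hdeg ⟨χ, hχ⟩
  · have h1 := primeIdx_deg_mul hθc h
    rcases hdeg ⟨χ, hχ⟩ with h2 | h2
    · left
      have h3 : p * charDegree (θ : N → ℂ) = 1 := by rw [← h1]; exact h2
      exact Nat.eq_one_of_mul_eq_one_left h3
    · left
      have h3 : (p * charDegree (θ : N → ℂ)).Prime := by rw [← h1]; exact h2
      rcases Nat.prime_mul_iff.1 h3 with ⟨-, h4⟩ | ⟨-, h4⟩
      · exact h4
      · exact absurd h4 hp.one_lt.ne'

/-- Key step: if a linear character of the normal subgroup `N` of prime index `p` is not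
`G`-invariant and all irreducible character degrees of `G` are `1` or primes, then there is `q`
with `cd(G) ⊆ {1, p, q}`. -/
theorem primeIdx_degrees {G : Type*} [Group G] [Fintype G] (N : Subgroup G) [hN : N.Normal]
    [Fintype N] {p : ℕ} (hp : p.Prime) (hidx : N.index = p)
    (hdeg : ∀ χ : IrrCharacter G, charDegree (χ : G → ℂ) = 1 ∨ (charDegree (χ : G → ℂ)).Prime)
    (lam : N →* ℂˣ) (g : G)
    (hlam : Helper75.conjFun N g (fun n : N => ((lam n : ℂˣ) : ℂ)) ≠
      fun n : N => ((lam n : ℂˣ) : ℂ)) :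
    ∃ q : ℕ, ∀ χ : IrrCharacter G, charDegree (χ : G → ℂ) = 1 ∨
      charDegree (χ : G → ℂ) = p ∨ charDegree (χ : G → ℂ) = q := by
  classical
  haveI : Finite (N →* ℂˣ) := Helper80.finite_hom
  let c : N →* N := (MulAut.conjNormal g : MulAut N).toMonoidHom
  have hc : ∀ (f : N → ℂ) (n : N), Helper75.conjFun N g f n = f (c n) := by
    intro f n
    rw [Helper75.conjFun_eq_comp]
    rfl
  let lam1 : N →* ℂˣ := (lam.comp c) * lam⁻¹
  have hlam1 : lam1 ≠ 1 := by
    intro h
    apply hlam
    funext n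
    rw [hc]
    have h1 : lam1 n = 1 := by rw [h]; rfl
    have h2 : lam (c n) * (lam n)⁻¹ = 1 := h1
    have h3 : lam (c n) = lam n := by
      rw [mul_inv_eq_one] at h2
      exact h2
    show ((lam (c n) : ℂˣ) : ℂ) = _
    rw [h3]
  set r := orderOf lam1 with hr
  have hr1 : r ≠ 1 := by
    intro h
    exact hlam1 (orderOf_eq_one_iff.1 h)
  have hr0 : r ≠ 0 := (orderOf_pos lam1).ne'
  set q := r.minFac with hq
  have hqp : q.Prime := Nat.minFac_prime hr1
  have hqr : q ∣ r := Nat.minFac_dvd r
  set k := r / q with hk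
  have hkr : k ∣ r := Nat.div_dvd_of_dvd hqr
  have hk0 : k ≠ 0 := by
    intro h
    obtain ⟨t, ht⟩ := hkr
    rw [h, zero_mul] at ht
    exact hr0 ht
  let nu : N →* ℂˣ := lam ^ k
  let nu1 : N →* ℂˣ := (nu.comp c) * nu⁻¹
  have hnu1 : nu1 = lam1 ^ k := by
    ext n
    show ((((lam ^ k) (c n)) * ((lam ^ k) n)⁻¹ : ℂˣ) : ℂ) = (((lam (c n) * (lam n)⁻¹) ^ k : ℂˣ) : ℂ)
    rw [MonoidHom.pow_apply, MonoidHom.pow_apply, mul_pow, inv_pow]
  have hord : orderOf nu1 = q := by
    rw [hnu1, orderOf_pow_of_dvd hk0 hkr, ← hr, hk, Nat.div_div_self hqr hr0]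
  have hnu1_apply : ∀ n : N, nu (c n) = nu1 n * nu n := by
    intro n
    show nu (c n) = (nu (c n) * (nu n)⁻¹) * nu n
    rw [inv_mul_cancel_right]
  let Z1 : Subgroup N := nu1.ker
  have hZidx : Z1.index = q := primeIdx_ker_index nu1 hqp hord
  refine ⟨q, ?_⟩
  intro χ
  have hχc : IsCharacter G (χ : G → ℂ) := Helper79.isCharacter_of_irr χ.2
  have hχcl : IsClassFunction G (χ : G → ℂ) := Helper75.isCharacter_isClassFunction' hχc
  have hres : IsCharacter N (fun n : N => (χ : G → ℂ) n) := Helper79.isCharacter_restrict hχc N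
  have hres1 : (fun n : N => (χ : G → ℂ) n) 1 ≠ 0 := by
    show (χ : G → ℂ) ((1 : N) : G) ≠ 0
    rw [Subgroup.coe_one]
    exact Helper80.irr_one_ne_zero χ
  obtain ⟨θ, hθ, hne⟩ := Helper75.exists_irr_constituent hres hres1
  have hθc : IsCharacter N θ := Helper79.isCharacter_of_irr hθ
  rcases primeIdx_restrict N hp hidx χ.2 hθ hne with hχθ | ⟨h, -⟩
  · -- χ restricts to θ
    have hdegeq : charDegree (χ : G → ℂ) = charDegree θ :=
      primeIdx_deg_eq (by simpa using hχθ 1)
    have hθinv : ∀ n : N, θ (c n) = θ n := by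
      intro n
      rw [← hχθ, ← hχθ]
      show (χ : G → ℂ) (g * (n : G) * g⁻¹) = _
      exact hχcl (n : G) g
    by_cases h1 : ∀ n : N, ((nu1 n : ℂˣ) : ℂ) * θ n = θ n
    · -- θ vanishes off Z1
      right; right
      have hvan : ∀ n : N, n ∉ Z1 → Complex.normSq (θ n) = 0 := by
        intro n hn
        have h2 : nu1 n ≠ 1 := fun h => hn h
        have h3 : ((nu1 n : ℂˣ) : ℂ) ≠ 1 := fun h => h2 (Units.ext h)
        have h4 : (((nu1 n : ℂˣ) : ℂ) - 1) * θ n = 0 := by
          rw [sub_mul, h1 n, one_mul, sub_self]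
        have h5 := (mul_eq_zero.1 h4).resolve_left (sub_ne_zero.2 h3)
        rw [h5]
        simp
      have hsum := primeIdx_sum_vanish Z1 (fun n => Complex.normSq (θ n)) hvan
      rw [sum_normSq_of_irr hθ] at hsum
      have hresZ : IsCharacter Z1 (fun z : Z1 => θ z) := Helper79.isCharacter_restrict hθc Z1
      have hresZ1 : (fun z : Z1 => θ z) 1 ≠ 0 := by
        show θ ((1 : Z1) : N) ≠ 0
        rw [Subgroup.coe_one]
        exact Helper80.irr_one_ne_zero (⟨θ, hθ⟩ : IrrCharacter N)
      obtain ⟨η, hη, hηne⟩ := Helper75.exists_irr_constituent hresZ hresZ1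
      rcases primeIdx_restrict Z1 hqp hZidx hθ hη hηne with h6 | ⟨h6, -⟩
      · exfalso
        have h7 : ∑ z : Z1, Complex.normSq (θ z) = (Nat.card Z1 : ℝ) := by
          rw [← sum_normSq_of_irr hη]
          apply Finset.sum_congr rfl
          intro z _
          rw [h6 z]
        rw [h7] at hsum
        have h8 : Nat.card Z1 = Nat.card N := by exact_mod_cast hsum
        have h9 := Z1.index_mul_card
        rw [hZidx, h8] at h9
        have h10 : q = 1 := by
          have hpos : 0 < Nat.card N := Nat.card_pos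
          exact Nat.eq_of_mul_eq_mul_right hpos (by rw [h9, one_mul])
        exact hqp.one_lt.ne' h10
      · have h7 := primeIdx_deg_mul (Helper79.isCharacter_of_irr hη) h6
        rw [hdegeq, h7]
        rcases hdeg χ with h8 | h8
        · exfalso
          rw [hdegeq, h7] at h8
          exact hqp.one_lt.ne' (Nat.eq_one_of_mul_eq_one_right h8)
        · rw [hdegeq, h7] at h8
          rcases Nat.prime_mul_iff.1 h8 with ⟨-, h9⟩ | ⟨-, h9⟩
          · rw [h9, mul_one]
          · exact absurd h9 hqp.one_lt.ne'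
    · -- twist by nu is not invariant
      left
      push_neg at h1
      obtain ⟨n₀, hn₀⟩ := h1
      have hφ : IsIrrCharacter N (fun n : N => ((nu n : ℂˣ) : ℂ) * θ n) :=
        Helper79.isIrrCharacter_twist nu hθ
      have hφinv : Helper75.conjFun N g (fun n : N => ((nu n : ℂˣ) : ℂ) * θ n) ≠
          fun n : N => ((nu n : ℂˣ) : ℂ) * θ n := by
        intro h
        have h2 := congrFun h n₀
        rw [hc] at h2
        have h3 : ((nu (c n₀) : ℂˣ) : ℂ) * θ (c n₀) = ((nu n₀ : ℂˣ) : ℂ) * θ n₀ := h2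
        rw [hθinv, hnu1_apply] at h3
        apply hn₀
        have h4 : ((nu n₀ : ℂˣ) : ℂ) ≠ 0 := Units.ne_zero _
        apply mul_left_cancel₀ h4
        rw [← h3]
        push_cast
        ring
      obtain ⟨χ', hχ', hχ'1⟩ := primeIdx_induce N hp hidx hφ hφinv
      have h5 : χ' 1 = (p : ℂ) * θ 1 := by
        rw [hχ'1]
        simp
      have h6 := primeIdx_deg_mul hθc h5
      rw [hdegeq]
      rcases hdeg ⟨χ', hχ'⟩ with h7 | h7
      · have h8 : p * charDegree θ = 1 := by rw [← h6]; exact h7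
        exact Nat.eq_one_of_mul_eq_one_left h8
      · have h8 : (p * charDegree θ).Prime := by rw [← h6]; exact h7
        rcases Nat.prime_mul_iff.1 h8 with ⟨-, h9⟩ | ⟨-, h9⟩
        · exact h9
        · exact absurd h9 hp.one_lt.ne'
  · -- χ(1) = p θ(1)
    right; left
    have h6 := primeIdx_deg_mul hθc h
    rcases hdeg χ with h7 | h7
    · exfalso
      rw [h6] at h7
      exact hp.one_lt.ne' (Nat.eq_one_of_mul_eq_one_right h7)
    · rw [h6] at h7
      rcases Nat.prime_mul_iff.1 h7 with ⟨-, h9⟩ | ⟨-, h9⟩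
      · rw [h6, h9, mul_one]
      · exact absurd h9 hp.one_lt.ne'

end Cfsg.Agent.Helper4
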