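import Mathlib
import Cfsg.Prelude.Def_Characters
import Cfsg.Prelude.Def_DegreeGraph
import Cfsg.Agent.Helper4.PrimeDeg
import Cfsg.Agent.Helper79.PrimeDeg

/-!
# Groups whose nonlinear irreducible characters have prime degree (helper4)

`primeDeg_main`: if every irreducible character degree of the finite group `G` is `1` or a prime,
then there are `a b` with `cd(G) ⊆ {1, a, b}` (Isaacs–Passman).
-/

set_option autoImplicit false

namespace Cfsg.Agent.Helper4

open Cfsg

universe u

theorem primeDeg_main : ∀ (n : ℕ) (G : Type u) [Group G] [Finite G], Nat.card G = n →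
    (∀ χ : IrrCharacter G, charDegree (χ : G → ℂ) = 1 ∨ (charDegree (χ : G → ℂ)).Prime) →
    ∃ a b : ℕ, ∀ χ : IrrCharacter G, charDegree (χ : G → ℂ) = 1 ∨
      charDegree (χ : G → ℂ) = a ∨ charDegree (χ : G → ℂ) = b := by
  intro n
  induction n using Nat.strong_induction_on with
  | _ n ih =>
    intro G _ _ hn hdeg
    classical
    letI : Fintype G := Fintype.ofFinite G
    by_cases hall : ∀ χ : IrrCharacter G, charDegree (χ : G → ℂ) = 1
    · exact ⟨1, 1, fun χ => Or.inl (hall χ)⟩
    push_neg at hall
    obtain ⟨χ₀, hχ₀⟩ := hall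
    have hsolv : Group.IsSolvable G :=
      Helper79.pnd_solvable_aux (Nat.card G) G rfl
        (fun χ hχ hne => (hdeg ⟨χ, hχ⟩).resolve_left hne)
    have hc : commutator G ≠ ⊤ := by
      rcases subsingleton_or_nontrivial G with hs | hnt
      · exfalso
        apply hχ₀
        apply Helper79.irr_linear_of_commutator_le_ker
        intro x _
        rw [Subsingleton.elim x 1]
      · exact (Group.IsSolvable.commutator_lt_top_of_nontrivial G).ne
    obtain ⟨μ, p, hp, hμ⟩ := primeIdx_exists_hom hc
    let N : Subgroup G := μ.ker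
    have hidx : N.index = p := primeIdx_ker_index μ hp hμ
    letI : Fintype N := Fintype.ofFinite N
    have hdegN : ∀ θ : IrrCharacter N, charDegree (θ : N → ℂ) = 1 ∨
        (charDegree (θ : N → ℂ)).Prime := primeIdx_inherit N hp hidx hdeg
    have hcard : Nat.card N < n := by
      have h := N.index_mul_card
      rw [hidx, hn] at h
      have h1 : 0 < Nat.card N := Nat.card_pos
      have h2 := hp.two_le
      nlinarith
    obtain ⟨a', b', hN⟩ := ih (Nat.card N) hcard N rfl hdegN
    by_cases hred : ∃ χ : IrrCharacter G, charDegree (χ : G → ℂ) ≠ 1 ∧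
        ¬ IsIrrCharacter N (fun n : N => (χ : G → ℂ) n)
    · obtain ⟨χ, hχ1, hχN⟩ := hred
      have hχc : IsCharacter G (χ : G → ℂ) := Helper79.isCharacter_of_irr χ.2
      have hres : IsCharacter N (fun n : N => (χ : G → ℂ) n) :=
        Helper79.isCharacter_restrict hχc N
      have hres1 : (fun n : N => (χ : G → ℂ) n) 1 ≠ 0 := by
        show (χ : G → ℂ) ((1 : N) : G) ≠ 0
        rw [Subgroup.coe_one]
        exact Helper80.irr_one_ne_zero χ
      obtain ⟨θ, hθ, hne⟩ := Helper75.exists_irr_constituent hres hres1
      have hθc : IsCharacter N θ := Helper79.isCharacter_of_irr hθ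
      rcases primeIdx_restrict N hp hidx χ.2 hθ hne with h | ⟨h, g, hg⟩
      · exfalso
        apply hχN
        have : (fun n : N => (χ : G → ℂ) n) = θ := funext h
        rw [this]
        exact hθ
      · have h1 := primeIdx_deg_mul hθc h
        have h2 : (p * charDegree θ).Prime := by
          rw [← h1]
          exact (hdeg χ).resolve_left hχ1
        have h3 : charDegree θ = 1 := by
          rcases Nat.prime_mul_iff.1 h2 with ⟨-, h4⟩ | ⟨-, h4⟩
          · exact h4
          · exact absurd h4 hp.one_lt.ne'
        obtain ⟨lam, hlam⟩ := Helper80.exists_hom_of_linear (⟨θ, hθ⟩ : IrrCharacter N) h3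
        have hθeq : θ = fun n : N => ((lam n : ℂˣ) : ℂ) := by
          have := congrArg (fun ψ : IrrCharacter N => (ψ : N → ℂ)) hlam
          exact this.symm
        rw [hθeq] at hg
        obtain ⟨q, hq⟩ := primeIdx_degrees N hp hidx hdeg lam g hg
        exact ⟨p, q, hq⟩
    · push_neg at hred
      refine ⟨a', b', ?_⟩
      intro χ
      by_cases h1 : charDegree (χ : G → ℂ) = 1
      · exact Or.inl h1
      · have h2 := hN ⟨_, hred χ h1⟩
        have h3 : charDegree (fun n : N => (χ : G → ℂ) n) = charDegree (χ : G → ℂ) := by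
          apply primeIdx_deg_eq
          show (χ : G → ℂ) ((1 : N) : G) = _
          rw [Subgroup.coe_one]
        rw [h3] at h2
        exact h2

end Cfsg.Agent.Helper4
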