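import Mathlib
import Cfsg.Agent.Helper75.CliffordCorr
import Cfsg.Agent.Helper75.Ito
import Cfsg.Agent.Helper79.Linear
import Cfsg.Agent.Helper79.Quotient
import Cfsg.Agent.Helper15.LinExt
import Cfsg.Agent.Helper80.LinChar

/-!
# Character-theoretic lemmas for groups with two character degrees (Isaacs 12.5)

* `twoDegAct`: the action of `G` on the linear characters of a normal subgroup.
* `twoDeg_exists_irr`: for a linear character `μ` of a normal Hall subgroup `N` with stabilizer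
  `T` and `β ∈ Irr(T/N)` there is `χ ∈ Irr(G)` of degree `[G:T] β(1)`.
* `twoDeg_commutator_le`: if every irreducible character of `H` trivial on `K` is linear, then
  `H/K` is abelian.
-/

set_option autoImplicit false

namespace Cfsg.Agent.Helper4

open Cfsg

open scoped commutatorElement

universe u

/-- The action of `G` on the linear characters of the normal subgroup `N`. -/
@[reducible] noncomputable def twoDegAct {G : Type u} [Group G] (N : Subgroup G) [N.Normal] :
    MulDistribMulAction G (↥N →* ℂˣ) where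
  smul g μ := μ.comp (MulAut.conjNormal g⁻¹ : ↥N ≃* ↥N).toMonoidHom
  one_smul μ := by
    ext n
    show ((μ ((MulAut.conjNormal (1 : G)⁻¹ : ↥N ≃* ↥N) n) : ℂˣ) : ℂ) = μ n
    rw [inv_one, map_one]
    rfl
  mul_smul g h μ := by
    ext n
    show ((μ ((MulAut.conjNormal (g * h)⁻¹ : ↥N ≃* ↥N) n) : ℂˣ) : ℂ) =
      μ ((MulAut.conjNormal h⁻¹ : ↥N ≃* ↥N) ((MulAut.conjNormal g⁻¹ : ↥N ≃* ↥N) n))
    rw [mul_inv_rev, map_mul]
    rfl
  smul_mul g μ ν := rfl
  smul_one g := rfl

theorem twoDegAct_apply {G : Type u} [Group G] (N : Subgroup G) [hN : N.Normal] (g : G)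
    (μ : ↥N →* ℂˣ) (n : ↥N) :
    (letI := twoDegAct N; g • μ) n = μ ⟨g⁻¹ * n * g, by
      have := hN.conj_mem n n.2 g⁻¹
      rwa [inv_inv] at this⟩ := by
  show μ ((MulAut.conjNormal g⁻¹ : ↥N ≃* ↥N) n) = _
  congr 1
  apply Subtype.ext
  show g⁻¹ * (n : G) * g⁻¹⁻¹ = g⁻¹ * n * g
  rw [inv_inv]

/-- The stabilizer of `μ` is the inertia group of the corresponding character. -/
theorem twoDeg_mem_stabilizer_iff {G : Type u} [Group G] (N : Subgroup G) [hN : N.Normal]
    (μ : ↥N →* ℂˣ) (g : G) :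
    (letI := twoDegAct N; g ∈ MulAction.stabilizer G μ) ↔
      Helper75.conjFun N g (fun n => ((μ n : ℂˣ) : ℂ)) = fun n => ((μ n : ℂˣ) : ℂ) := by
  letI := twoDegAct N
  rw [MulAction.mem_stabilizer_iff]
  constructor
  · intro h
    funext n
    rw [Helper75.conjFun_apply]
    have h2 := DFunLike.congr_fun h ⟨g * n * g⁻¹, hN.conj_mem n n.2 g⟩
    rw [twoDegAct_apply] at h2
    rw [← h2]
    congr 2
    apply Subtype.ext
    show g⁻¹ * (g * (n : G) * g⁻¹) * g = n
    group
  · intro h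
    ext n
    rw [twoDegAct_apply]
    have h2 := congrFun h ⟨g⁻¹ * n * g, by
      have := hN.conj_mem n n.2 g⁻¹
      rwa [inv_inv] at this⟩
    rw [Helper75.conjFun_apply] at h2
    rw [← h2]
    congr 2
    apply Subtype.ext
    show g * (g⁻¹ * (n : G) * g) * g⁻¹ = n
    group

/-- Lemma E: characters of `G` of degree `[G : T] β(1)`. -/
theorem twoDeg_exists_irr {G : Type u} [Group G] [Finite G] (N : Subgroup G) [hN : N.Normal]
    (hcop : Nat.Coprime (Nat.card N) N.index)
    (μ : ↥N →* ℂˣ) (T : Subgroup G)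
    (hT : ∀ g : G, g ∈ T ↔
      Helper75.conjFun N g (fun n => ((μ n : ℂˣ) : ℂ)) = fun n => ((μ n : ℂˣ) : ℂ))
    (β : IrrCharacter ↥T)
    (hβ : ∀ t : ↥T, (t : G) ∈ N → (β : ↥T → ℂ) t = (β : ↥T → ℂ) 1) :
    ∃ χ : IrrCharacter G, charDegree (χ : G → ℂ) = T.index * charDegree (β : ↥T → ℂ) := by
  classical
  let _ : Fintype G := Fintype.ofFinite G
  let _ : Fintype N := Fintype.ofFinite N
  let _ : Fintype T := Fintype.ofFinite T
  set θ : ↥N → ℂ := fun n => ((μ n : ℂˣ) : ℂ) with hθdef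
  have hθ : IsIrrCharacter ↥N θ := Helper79.isIrrCharacter_of_hom μ
  have hθcl : IsClassFunction ↥N θ :=
    Helper75.isCharacter_isClassFunction' (Helper80.isCharacter_of_irr hθ)
  have hNT : N ≤ T := by
    intro n hn
    rw [hT]
    exact (Helper75.mem_inertia N θ n).mp (Helper75.le_inertia N θ hθcl hn)
  let N' : Subgroup ↥T := N.subgroupOf T
  have hN' : N'.Normal := Subgroup.normal_subgroupOf
  let f : ↥N' →* ℂˣ := μ.comp (Subgroup.subgroupOfEquivOfLe hNT).toMonoidHom
  have hfval : ∀ x : ↥N', f x = μ ⟨((x : ↥T) : G), x.2⟩ := fun x => rfl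
  have hinv : ∀ (g : ↥T) (n : ↥N'),
      f ⟨g * n * g⁻¹, hN'.conj_mem (n : ↥T) n.2 g⟩ = f n := by
    intro g n
    rw [hfval, hfval]
    have h1 := (hT g.1).mp g.2
    have h2 := congrFun h1 ⟨((n : ↥T) : G), n.2⟩
    rw [Helper75.conjFun_apply] at h2
    exact Units.ext h2
  have hcard : Nat.card ↥N' = Nat.card ↥N :=
    Nat.card_congr (Subgroup.subgroupOfEquivOfLe hNT).toEquiv
  have hord : orderOf f ∣ Nat.card ↥N := by
    apply orderOf_dvd_of_pow_eq_one
    ext x
    rw [MonoidHom.pow_apply, ← map_pow, ← hcard, pow_card_eq_one', map_one]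
    rfl
  have hidx : N'.index ∣ N.index := Subgroup.relIndex_dvd_index_of_normal N T
  have hcop' : Nat.Coprime N'.index (orderOf f) :=
    (hcop.symm.coprime_dvd_left hidx).coprime_dvd_right hord
  obtain ⟨F, hF, -⟩ := Helper15.exists_hom_extension_coprime N' f hinv hcop'
  let ψ : IrrCharacter ↥T := Helper79.irrTwist F β
  have hψdeg : charDegree (ψ : ↥T → ℂ) = charDegree (β : ↥T → ℂ) :=
    Helper79.charDegree_irrTwist F β
  have hψc : IsCharacter ↥T (ψ : ↥T → ℂ) := Helper80.isCharacter_of_irr ψ.2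
  have hΦ : IsCharacter G (indFun T (ψ : ↥T → ℂ)) := Helper3.isCharacter_indFun T _ hψc
  have hΦ1 : indFun T (ψ : ↥T → ℂ) 1 ≠ 0 := by
    rw [Helper79.indFun_apply_one]
    apply mul_ne_zero
    · exact_mod_cast (Subgroup.index_ne_zero_of_finite : T.index ≠ 0)
    · exact Helper80.irr_one_ne_zero ψ
  obtain ⟨χ, hχ, hχΦ⟩ := Helper75.exists_irr_constituent hΦ hΦ1
  have hχcl : IsClassFunction G χ :=
    Helper75.isCharacter_isClassFunction' (Helper80.isCharacter_of_irr hχ)
  rw [Helper3.frobenius_reciprocity T _ _ hχcl] at hχΦ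
  have hc : classInner (fun t : T => χ t) (ψ : ↥T → ℂ) ≠ 0 := by
    rw [Helper79.classInner_conj_symm]
    intro h0
    apply hχΦ
    have := congrArg (starRingEnd ℂ) h0
    rwa [Complex.conj_conj, map_zero] at this
  have hres : Helper75.resTo hNT (ψ : ↥T → ℂ) = ((β : ↥T → ℂ) 1) • θ := by
    funext n
    rw [Helper75.resTo_apply, Pi.smul_apply, smul_eq_mul]
    show ((F ⟨(n : G), hNT n.2⟩ : ℂˣ) : ℂ) * (β : ↥T → ℂ) ⟨(n : G), hNT n.2⟩ = _
    rw [hβ ⟨(n : G), hNT n.2⟩ n.2, mul_comm]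
    congr 2
    have := hF ⟨⟨(n : G), hNT n.2⟩, n.2⟩
    rw [hfval] at this
    exact this
  have hf : classInner (Helper75.resTo hNT (ψ : ↥T → ℂ)) θ ≠ 0 := by
    rw [hres, Helper75.classInner_smul_left, Helper75.classInner_irr_self hθ, mul_one]
    exact Helper80.irr_one_ne_zero β
  have hind := (Helper75.clifford_correspondence hNT hθ hT ψ.2 hχ hf hc).1
  refine ⟨⟨χ, hχ⟩, ?_⟩
  show charDegree χ = _
  rw [← hind, Helper79.charDegree_indFun T hψc, hψdeg]

/-- If every irreducible character of `H` which is trivial on `K` is linear, then `H / K` is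
abelian. -/
theorem twoDeg_commutator_le {H : Type u} [Group H] [Finite H] (K : Subgroup H) [K.Normal]
    (h : ∀ β : IrrCharacter H, (∀ k ∈ K, (β : H → ℂ) k = (β : H → ℂ) 1) →
      charDegree (β : H → ℂ) = 1) :
    ∀ x y : H, x * y * x⁻¹ * y⁻¹ ∈ K := by
  have hc : commutator (H ⧸ K) = ⊥ := by
    by_contra hne
    obtain ⟨ψ, hψ⟩ := Helper79.exists_nonlinear_of_commutator_ne_bot hne
    have hirr := Helper79.isIrrCharacter_comp (QuotientGroup.mk' K)
      (QuotientGroup.mk'_surjective K) ψ.2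
    have h1 := h ⟨_, hirr⟩ (fun k hk => by
      show (ψ : H ⧸ K → ℂ) (k : H ⧸ K) = (ψ : H ⧸ K → ℂ) ((1 : H) : H ⧸ K)
      rw [(QuotientGroup.eq_one_iff k).mpr hk]
      rfl)
    exact hψ h1
  intro x y
  have h1 : ⁅(x : H ⧸ K), (y : H ⧸ K)⁆ ∈ commutator (H ⧸ K) := by
    rw [commutator_def]
    exact Subgroup.commutator_mem_commutator (Subgroup.mem_top _) (Subgroup.mem_top _)
  rw [hc, Subgroup.mem_bot] at h1
  rw [← QuotientGroup.eq_one_iff]
  rw [commutatorElement_def] at h1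
  exact h1

end Cfsg.Agent.Helper4
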