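import Mathlib

/-!
# Group-theoretic lemmas for groups with two character degrees (Isaacs 12.5)

* `twoDeg_comm_of_coprime`: a group `C` with a central subgroup `N` such that `C / N` is abelian of
  exponent dividing `a`, `N` of exponent dividing `b`, `a` and `b` coprime, is abelian.
* `twoDeg_counting`: the orbit counting lemma for a group acting on a finite abelian group with all
  non-trivial orbits of the same length `m`.
-/

set_option autoImplicit false

namespace Cfsg.Agent.Helper4

/-- If `N ≤ Z(C)`, `[C, C] ≤ N`, `x ^ a ∈ N` for `x ∈ C`, `n ^ b = 1` for `n ∈ N` and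
`a`, `b` are coprime, then `C` is abelian. -/
theorem twoDeg_comm_of_coprime {G : Type*} [Group G] (C N : Subgroup G)
    (hNC : ∀ n ∈ N, ∀ c ∈ C, n * c = c * n)
    (hcomm : ∀ x ∈ C, ∀ y ∈ C, x * y * x⁻¹ * y⁻¹ ∈ N)
    (a b : ℕ) (ha : ∀ x ∈ C, x ^ a ∈ N) (hb : ∀ n ∈ N, n ^ b = 1) (hab : Nat.Coprime a b) :
    ∀ x ∈ C, ∀ y ∈ C, x * y = y * x := by
  intro x hx y hy
  set c := x * y * x⁻¹ * y⁻¹ with hc
  have hcN : c ∈ N := hcomm x hx y hy
  have hcx : c * x = x * c := hNC c hcN x hx
  have hpow : ∀ k : ℕ, x ^ k * y * (x ^ k)⁻¹ * y⁻¹ = c ^ k := by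
    intro k
    induction k with
    | zero => simp
    | succ k ih =>
      have hck : c ^ k * x = x * c ^ k := by
        have : Commute (c ^ k) x := (Commute.pow_left (show Commute c x from hcx) k)
        exact this.eq
      calc x ^ (k + 1) * y * (x ^ (k + 1))⁻¹ * y⁻¹
          = x * (x ^ k * y * (x ^ k)⁻¹ * y⁻¹) * y * x⁻¹ * y⁻¹ := by
            rw [pow_succ']; group
        _ = x * c ^ k * y * x⁻¹ * y⁻¹ := by rw [ih]
        _ = c ^ k * (x * y * x⁻¹ * y⁻¹) := by rw [← hck]; group
        _ = c ^ (k + 1) := by rw [← hc, pow_succ]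
  have h1 : c ^ a = 1 := by
    rw [← hpow a]
    have h2 : x ^ a * y = y * x ^ a := hNC _ (ha x hx) y hy
    rw [h2]; group
  have h2 : c ^ b = 1 := hb c hcN
  have h3 : c ^ (a.gcd b) = 1 := pow_gcd_eq_one.mpr ⟨h1, h2⟩
  rw [hab.gcd_eq_one, pow_one] at h3
  have h4 : x * y * x⁻¹ * y⁻¹ = 1 := h3
  calc x * y = (x * y * x⁻¹ * y⁻¹) * (y * x) := by group
    _ = y * x := by rw [h4, one_mul]

/-- Orbit counting: let `G` act on the finite abelian group `V` by automorphisms so that every
stabilizer is `G` or has index `m`, and let `A` act trivially with index coprime to `|V|`.  If `z`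
commutes with the action of `G`, fixes a non-invariant `μ` and moves some `ν`, we have a
contradiction. -/
theorem twoDeg_counting {G V : Type*} [Group G] [Finite G] [CommGroup V] [Finite V]
    [MulDistribMulAction G V] (A : Subgroup G) (hA : ∀ a ∈ A, ∀ v : V, a • v = v)
    (hcop : Nat.Coprime (Nat.card V) A.index) (m : ℕ)
    (hm : ∀ v : V, MulAction.stabilizer G v = ⊤ ∨ (MulAction.stabilizer G v).index = m)
    (z : G) (hz : ∀ (g : G) (v : V), z • g • v = g • z • v)
    (μ ν : V) (hzμ : z • μ = μ) (hμ : MulAction.stabilizer G μ ≠ ⊤) (hzν : z • ν ≠ ν) : False := by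
  classical
  -- the fixed points of `z`
  let W : Subgroup V :=
    { carrier := {v | z • v = v}
      mul_mem' := by
        intro a b ha hb
        show z • (a * b) = a * b
        rw [smul_mul', ha, hb]
      one_mem' := smul_one z
      inv_mem' := by
        intro a ha
        show z • a⁻¹ = a⁻¹
        rw [smul_inv', ha] }
  have hWmem : ∀ v : V, v ∈ W ↔ z • v = v := fun v => Iff.rfl
  have hW : ∀ (g : G) (w : V), w ∈ W → g • w ∈ W := by
    intro g w hw
    rw [hWmem] at hw ⊢
    rw [hz, hw]
  -- the stabilizer of the coset `ν W`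
  let S : Subgroup G :=
    { carrier := {c | c • ν / ν ∈ W}
      mul_mem' := by
        intro c₁ c₂ h₁ h₂
        have h3 : (c₁ * c₂) • ν / ν = c₁ • (c₂ • ν / ν) * (c₁ • ν / ν) := by
          rw [smul_div', mul_smul]
          simp
        show (c₁ * c₂) • ν / ν ∈ W
        rw [h3]
        exact W.mul_mem (hW c₁ _ h₂) h₁
      one_mem' := by
        show (1 : G) • ν / ν ∈ W
        rw [one_smul, div_self']
        exact W.one_mem
      inv_mem' := by
        intro c hc
        have h3 : c⁻¹ • ν / ν = c⁻¹ • (c • ν / ν)⁻¹ := by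
          rw [inv_div, smul_div', inv_smul_smul]
        show c⁻¹ • ν / ν ∈ W
        rw [h3]
        exact hW c⁻¹ _ (W.inv_mem hc) }
  have hSmem : ∀ c : G, c ∈ S ↔ c • ν / ν ∈ W := fun c => Iff.rfl
  have hνW : ν ∉ W := hzν
  have hstab : ∀ w ∈ W, MulAction.stabilizer G (ν * w) ≤ S ∧
      (MulAction.stabilizer G (ν * w)).index = m := by
    intro w hw
    refine ⟨?_, ?_⟩
    · intro c hc
      rw [MulAction.mem_stabilizer_iff, smul_mul'] at hc
      rw [hSmem]
      have : c • ν / ν = w / c • w := by
        rw [div_eq_div_iff_mul_eq_mul, hc, mul_comm]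
      rw [this]
      exact W.div_mem hw (hW c w hw)
    · rcases hm (ν * w) with h | h
      · exfalso
        have hzs : z ∈ MulAction.stabilizer G (ν * w) := by rw [h]; trivial
        rw [MulAction.mem_stabilizer_iff, smul_mul', (hWmem w).mp hw] at hzs
        exact hzν (mul_right_cancel hzs)
      · exact h
  have hSidx : S.index ≠ 0 := Subgroup.index_ne_zero_of_finite
  have hk : ∀ w ∈ W, (MulAction.stabilizer G (ν * w)).relIndex S * S.index = m := by
    intro w hw
    rw [Subgroup.relIndex_mul_index (hstab w hw).1, (hstab w hw).2]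
  have hk1 : ∀ w ∈ W, (MulAction.stabilizer G (ν * w)).relIndex S =
      (MulAction.stabilizer G ν).relIndex S := by
    intro w hw
    have h1 := hk w hw
    have h2 := hk 1 W.one_mem
    rw [mul_one] at h2
    exact Nat.eq_of_mul_eq_mul_right (Nat.pos_of_ne_zero hSidx) (h1.trans h2.symm)
  have hμW : μ ∈ W := hzμ
  have hμm : (MulAction.stabilizer G μ).index = m := (hm μ).resolve_left hμ
  by_cases hk0 : (MulAction.stabilizer G ν).relIndex S = 1
  · -- all stabilizers equal `S`
    have hSle : ∀ w ∈ W, S ≤ MulAction.stabilizer G (ν * w) := by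
      intro w hw
      rw [← Subgroup.relIndex_eq_one, hk1 w hw, hk0]
    have hSμ : S ≤ MulAction.stabilizer G μ := by
      intro c hc
      have h1 := hSle 1 W.one_mem hc
      have h2 := hSle μ hμW hc
      rw [mul_one, MulAction.mem_stabilizer_iff] at h1
      rw [MulAction.mem_stabilizer_iff, smul_mul', h1] at h2
      rw [MulAction.mem_stabilizer_iff]
      exact mul_left_cancel h2
    have hSm : S.index = m := by
      have := hk 1 W.one_mem
      rw [mul_one, hk0, one_mul] at this
      exact this
    have hrel : S.relIndex (MulAction.stabilizer G μ) = 1 := by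
      have h1 := Subgroup.relIndex_mul_index hSμ
      rw [hSm, hμm] at h1
      have hm0 : 0 < m := by
        rw [← hSm]; exact Nat.pos_of_ne_zero hSidx
      have : S.relIndex (MulAction.stabilizer G μ) * m = 1 * m := by rw [h1, one_mul]
      exact Nat.eq_of_mul_eq_mul_right hm0 this
    have hμS : MulAction.stabilizer G μ ≤ S := Subgroup.relIndex_eq_one.mp hrel
    have hzS : z ∈ S := hμS (by rw [MulAction.mem_stabilizer_iff]; exact hzμ)
    have := hSle 1 W.one_mem hzS
    rw [mul_one, MulAction.mem_stabilizer_iff] at this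
    exact hzν this
  · -- a prime divisor of the common orbit length
    have hkne : (MulAction.stabilizer G ν).relIndex S ≠ 0 := by
      intro h0
      have := hk 1 W.one_mem
      rw [mul_one, h0, zero_mul] at this
      have hm0 : m ≠ 0 := by
        rw [← hμm]; exact Subgroup.index_ne_zero_of_finite
      exact hm0 this.symm
    obtain ⟨r, hr, hrk⟩ := Nat.exists_prime_and_dvd hk0
    haveI : Fact r.Prime := ⟨hr⟩
    have hAle : A ≤ MulAction.stabilizer G ν := by
      intro a ha
      rw [MulAction.mem_stabilizer_iff]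
      exact hA a ha ν
    have hAS : A ≤ S := by
      have := (hstab 1 W.one_mem).1
      rw [mul_one] at this
      exact hAle.trans this
    have hrA : r ∣ A.index := by
      have h1 : (MulAction.stabilizer G ν).relIndex S ∣ A.relIndex S :=
        Subgroup.relIndex_dvd_of_le_left S hAle
      exact (hrk.trans h1).trans (Subgroup.relIndex_dvd_index_of_le hAS)
    -- the action of `S` on `W`
    letI act : MulAction ↥S ↥W :=
      { smul := fun c w => ⟨(c.1 • ν / ν) * (c.1 • w.1), W.mul_mem c.2 (hW c.1 w.1 w.2)⟩
        one_smul := by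
          intro w
          apply Subtype.ext
          show ((1 : G) • ν / ν) * ((1 : G) • w.1) = w.1
          rw [one_smul, one_smul, div_self', one_mul]
        mul_smul := by
          intro c₁ c₂ w
          apply Subtype.ext
          show ((c₁.1 * c₂.1) • ν / ν) * ((c₁.1 * c₂.1) • w.1) =
            (c₁.1 • ν / ν) * (c₁.1 • ((c₂.1 • ν / ν) * (c₂.1 • w.1)))
          rw [smul_mul', smul_div', mul_smul, mul_smul]
          simp [div_eq_mul_inv, mul_comm, mul_left_comm, mul_assoc] }
    let R : Sylow r ↥S := default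
    have hmod := R.2.card_modEq_card_fixedPoints ↥W
    have hempty : MulAction.fixedPoints ↥(R : Subgroup ↥S) ↥W = ∅ := by
      apply Set.eq_empty_of_forall_notMem
      intro w hw
      have hRle : (R : Subgroup ↥S) ≤ MulAction.stabilizer ↥S w := by
        intro c hc
        rw [MulAction.mem_stabilizer_iff]
        exact hw ⟨c, hc⟩
      have hst : MulAction.stabilizer ↥S w =
          (MulAction.stabilizer G (ν * w.1)).subgroupOf S := by
        ext c
        rw [MulAction.mem_stabilizer_iff, Subgroup.mem_subgroupOf, MulAction.mem_stabilizer_iff,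
          smul_mul']
        have hiff : c • w = w ↔ (c.1 • ν / ν) * (c.1 • w.1) = w.1 :=
          ⟨fun h => congrArg Subtype.val h, fun h => Subtype.ext h⟩
        rw [hiff]
        constructor
        · intro h
          rw [div_mul_eq_mul_div, div_eq_iff_eq_mul] at h
          rw [h, mul_comm]
        · intro h
          rw [div_mul_eq_mul_div, h]
          simp
      have hidx : (MulAction.stabilizer ↥S w).index = (MulAction.stabilizer G ν).relIndex S := by
        rw [hst]
        exact hk1 w.1 w.2
      have h1 : (MulAction.stabilizer ↥S w).index ∣ (R : Subgroup ↥S).index :=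
        Subgroup.index_dvd_of_le hRle
      have h2 : ¬ r ∣ (R : Subgroup ↥S).index := R.not_dvd_index
      rw [hidx] at h1
      exact h2 (hrk.trans h1)
    rw [hempty] at hmod
    have hrW : r ∣ Nat.card ↥W := by
      have h0 : Nat.card (∅ : Set ↥W) = 0 := by simp
      rw [h0] at hmod
      exact (Nat.modEq_zero_iff_dvd).mp hmod
    have hrV : r ∣ Nat.card V := hrW.trans (Subgroup.card_subgroup_dvd_card W)
    exact (Nat.Prime.not_coprime_iff_dvd.mpr ⟨r, hr, hrV, hrA⟩) hcop

end Cfsg.Agent.Helper4
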