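import Mathlib
import Cfsg.Agent.Helper4.TwoDegGroup
import Cfsg.Agent.Helper4.TwoDegChar
import Cfsg.Agent.Helper3.AbelEigen

/-!
# Groups with two character degrees: the non-nilpotent case (Isaacs 12.5)

`twoDeg_nonnilpotent`: let `cd(G) = {1, m}` and let `N` be an abelian normal Hall subgroup of `G`
with `G / N` nilpotent and `N` not central.  Then `A = C_G(N)` is an abelian normal subgroup of
index `m` and `G / A` is abelian.
-/

set_option autoImplicit false

namespace Cfsg.Agent.Helper4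

open Cfsg

open scoped commutatorElement Pointwise

universe u

/-- Linear characters of a finite abelian subgroup separate its elements from `1`. -/
theorem twoDeg_exists_hom_ne_one {G : Type u} [Group G] [Finite G] (N : Subgroup G)
    (hNab : ∀ a ∈ N, ∀ b ∈ N, a * b = b * a) (n : ↥N) (hn : n ≠ 1) :
    ∃ μ : ↥N →* ℂˣ, μ n ≠ 1 := by
  letI : CommGroup ↥N :=
    { (inferInstance : Group ↥N) with
      mul_comm := fun a b => Subtype.ext (hNab a a.2 b b.2) }
  exact CommGroup.exists_apply_ne_one_of_hasEnoughRootsOfUnity ↥N ℂ hn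

/-- An element outside the centralizer of the abelian normal subgroup `N` moves some linear
character of `N`. -/
theorem twoDeg_exists_moved {G : Type u} [Group G] [Finite G] (N : Subgroup G) [hN : N.Normal]
    (hNab : ∀ a ∈ N, ∀ b ∈ N, a * b = b * a) (z : G)
    (hz : z ∉ Subgroup.centralizer (N : Set G)) :
    ∃ ν : ↥N →* ℂˣ, (letI := twoDegAct N; z • ν) ≠ ν := by
  rw [Subgroup.mem_centralizer_iff] at hz
  push Not at hz
  obtain ⟨n, hn, hne⟩ := hz
  have hn' : z⁻¹ * n * z ∈ N := by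
    have := hN.conj_mem n hn z⁻¹
    rwa [inv_inv] at this
  have hne1 : (⟨z⁻¹ * n * z, hn'⟩ : ↥N) * (⟨n, hn⟩ : ↥N)⁻¹ ≠ 1 := by
    intro h
    have h2 := congrArg Subtype.val h
    apply hne
    have h3 : z⁻¹ * n * z * n⁻¹ = 1 := h2
    calc n * z = z * (z⁻¹ * n * z * n⁻¹) * n := by group
      _ = z * n := by rw [h3, mul_one]
  obtain ⟨ν, hν⟩ := twoDeg_exists_hom_ne_one N hNab _ hne1
  refine ⟨ν, fun h => hν ?_⟩
  have h4 := DFunLike.congr_fun h ⟨n, hn⟩
  rw [twoDegAct_apply] at h4
  have h4' : ν ⟨z⁻¹ * n * z, hn'⟩ = ν ⟨n, hn⟩ := h4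
  rw [map_mul, map_inv, h4', mul_inv_cancel]

/-- The degree of an irreducible character is at most the index of an abelian subgroup. -/
theorem twoDeg_irr_degree_le_index {Q : Type u} [Group Q] [Finite Q] (ψ : IrrCharacter Q)
    (B : Subgroup Q) (hB : ∀ a ∈ B, ∀ b ∈ B, a * b = b * a) :
    charDegree (ψ : Q → ℂ) ≤ B.index := by
  obtain ⟨n, ρ, hρ, hψ⟩ := ψ.2
  have h1 := Helper3.finrank_le_index_of_abelian ρ hρ B hB
  rw [Module.finrank_fin_fun] at h1
  rw [← hψ, Helper80.charDegree_rep_character]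
  exact h1

/-- Isaacs 12.5, the non-nilpotent case. -/
theorem twoDeg_nonnilpotent {G : Type u} [Group G] [Finite G] (m : ℕ)
    (hcd : ∀ χ : IrrCharacter G, charDegree (χ : G → ℂ) = 1 ∨ charDegree (χ : G → ℂ) = m)
    (hm1 : m ≠ 1)
    (N : Subgroup G) [hN : N.Normal] (hNab : ∀ a ∈ N, ∀ b ∈ N, a * b = b * a)
    (hcop : Nat.Coprime (Nat.card N) N.index) (hnil : Group.IsNilpotent (G ⧸ N))
    (hnc : ¬ N ≤ Subgroup.center G) :
    ∃ A : Subgroup G, A.Normal ∧ (∀ a ∈ A, ∀ b ∈ A, a * b = b * a) ∧ A.index = m ∧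
      ∀ x y : G, x * y * x⁻¹ * y⁻¹ ∈ A := by
  classical
  letI act := twoDegAct N
  haveI : Finite (↥N →* ℂˣ) := Helper80.finite_hom
  set A : Subgroup G := Subgroup.centralizer (N : Set G) with hAdef
  have hNA : N ≤ A := fun n hn => Subgroup.mem_centralizer_iff.mpr (fun k hk => hNab k hk n hn)
  haveI hAn : A.Normal := Subgroup.normal_centralizer
  -- `A` acts trivially
  have hAtriv : ∀ a ∈ A, ∀ v : ↥N →* ℂˣ, a • v = v := by
    intro a ha v
    ext n
    rw [twoDegAct_apply]
    congr 2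
    apply Subtype.ext
    show a⁻¹ * (n : G) * a = n
    have := Subgroup.mem_centralizer_iff.mp ha n n.2
    rw [mul_assoc, this, inv_mul_cancel_left]
  have hcopV : Nat.Coprime (Nat.card (↥N →* ℂˣ)) A.index := by
    have h1 : Nat.card (↥N →* ℂˣ) ∣ Nat.card N := by
      rw [Helper80.card_hom]
      exact Subgroup.index_dvd_card _
    have h2 : A.index ∣ N.index := Subgroup.index_dvd_of_le hNA
    exact (hcop.coprime_dvd_left h1).coprime_dvd_right h2
  have htriv1 : charDegree ((Helper80.trivIrr G : IrrCharacter G) : G → ℂ) = 1 :=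
    Helper75.charDegree_of_one_eq_nat (by simp)
  -- stabilizers have index `1` or `m`
  have hstab : ∀ v : ↥N →* ℂˣ,
      MulAction.stabilizer G v = ⊤ ∨ (MulAction.stabilizer G v).index = m := by
    intro v
    obtain ⟨χ, hχ⟩ := twoDeg_exists_irr N hcop v (MulAction.stabilizer G v)
      (fun g => twoDeg_mem_stabilizer_iff N v g) (Helper80.trivIrr _) (fun t _ => rfl)
    have hdeg1 : charDegree ((Helper80.trivIrr ↥(MulAction.stabilizer G v) :
        IrrCharacter ↥(MulAction.stabilizer G v)) : ↥(MulAction.stabilizer G v) → ℂ) = 1 :=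
      Helper75.charDegree_of_one_eq_nat (by simp)
    rw [hdeg1, mul_one] at hχ
    rcases hcd χ with h | h
    · left
      rw [← Subgroup.index_eq_one, ← hχ]
      exact h
    · right
      rw [← hχ]
      exact h
  -- non-invariant characters have stabilizers which are abelian modulo `N`
  have hstabcomm : ∀ v : ↥N →* ℂˣ, MulAction.stabilizer G v ≠ ⊤ →
      ∀ x ∈ MulAction.stabilizer G v, ∀ y ∈ MulAction.stabilizer G v,
        x * y * x⁻¹ * y⁻¹ ∈ N := by
    intro v hv x hx y hy
    have hTm : (MulAction.stabilizer G v).index = m := (hstab v).resolve_left hv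
    have hm0 : 0 < m := by
      rw [← hTm]
      exact Nat.pos_of_ne_zero Subgroup.index_ne_zero_of_finite
    have key := twoDeg_commutator_le (H := ↥(MulAction.stabilizer G v))
      (N.subgroupOf (MulAction.stabilizer G v)) (by
        intro β hβ
        obtain ⟨χ, hχ⟩ := twoDeg_exists_irr N hcop v (MulAction.stabilizer G v)
          (fun g => twoDeg_mem_stabilizer_iff N v g) β
          (fun t ht => hβ t (Subgroup.mem_subgroupOf.mpr ht))
        rw [hTm] at hχ
        rcases hcd χ with h | h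
        · rw [hχ] at h
          exact absurd (Nat.eq_one_of_mul_eq_one_right h) hm1
        · rw [hχ] at h
          exact Nat.eq_of_mul_eq_mul_left hm0 (by rw [h, mul_one])) ⟨x, hx⟩ ⟨y, hy⟩
    exact Subgroup.mem_subgroupOf.mp key
  -- a non-invariant character
  obtain ⟨μ₀, hμ₀⟩ : ∃ μ₀ : ↥N →* ℂˣ, MulAction.stabilizer G μ₀ ≠ ⊤ := by
    have hex : ∃ g : G, g ∉ A := by
      by_contra hcon
      push Not at hcon
      apply hnc
      intro n hn
      rw [Subgroup.mem_center_iff]
      intro g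
      exact (Subgroup.mem_centralizer_iff.mp (hcon g) n hn).symm
    obtain ⟨g, hg⟩ := hex
    obtain ⟨ν, hν⟩ := twoDeg_exists_moved N hNab g hg
    refine ⟨ν, fun h => hν ?_⟩
    have : g ∈ MulAction.stabilizer G ν := by rw [h]; trivial
    exact MulAction.mem_stabilizer_iff.mp this
  have hAT : ∀ v : ↥N →* ℂˣ, A ≤ MulAction.stabilizer G v :=
    fun v a ha => MulAction.mem_stabilizer_iff.mpr (hAtriv a ha v)
  -- `A` is abelian
  have hAab : ∀ a ∈ A, ∀ b ∈ A, a * b = b * a := by
    apply twoDeg_comm_of_coprime A N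
      (fun n hn c hc => Subgroup.mem_centralizer_iff.mp hc n hn)
      (fun x hx y hy => hstabcomm μ₀ hμ₀ x (hAT μ₀ hx) y (hAT μ₀ hy))
      N.index (Nat.card N) (fun x _ => Subgroup.pow_index_mem N x)
      (fun n hn => by
        have := pow_card_eq_one' (G := ↥N) (x := ⟨n, hn⟩)
        exact congrArg Subtype.val this)
      hcop.symm
  -- elements central modulo `A` commute with the action
  have hzcomm : ∀ z : G, (∀ g : G, (g * z)⁻¹ * (z * g) ∈ A) →
      ∀ (g : G) (v : ↥N →* ℂˣ), z • g • v = g • z • v := by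
    intro z hzc g v
    rw [← mul_smul, ← mul_smul]
    have e : z * g = g * z * ((g * z)⁻¹ * (z * g)) := by group
    rw [e, mul_smul (g * z), hAtriv _ (hzc g)]
  -- `G / A` is abelian
  have hQab : ∀ x y : G, x * y * x⁻¹ * y⁻¹ ∈ A := by
    by_contra hcon
    push Not at hcon
    obtain ⟨x0, y0, hxy⟩ := hcon
    haveI : Group.IsNilpotent (G ⧸ A) := by
      haveI := hnil
      exact Group.nilpotent_of_surjective (QuotientGroup.map N A (MonoidHom.id G) hNA)
        (by
          intro q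
          induction q using QuotientGroup.induction_on with
          | H g => exact ⟨(g : G ⧸ N), rfl⟩)
    have hxyq : (x0 : G ⧸ A) * (y0 : G ⧸ A) ≠ (y0 : G ⧸ A) * (x0 : G ⧸ A) := by
      intro h
      apply hxy
      have e : ((x0 * y0 * x0⁻¹ * y0⁻¹ : G) : G ⧸ A) =
          ((x0 : G ⧸ A) * y0) * (x0 : G ⧸ A)⁻¹ * (y0 : G ⧸ A)⁻¹ := rfl
      have h2 : ((x0 * y0 * x0⁻¹ * y0⁻¹ : G) : G ⧸ A) = 1 := by
        rw [e, h]; group
      exact (QuotientGroup.eq_one_iff _).mp h2
    haveI : Nontrivial (G ⧸ A) := ⟨⟨_, _, hxyq⟩⟩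
    obtain ⟨zq, hzq, hzq1⟩ : ∃ zq : G ⧸ A, zq ∈ Subgroup.center (G ⧸ A) ∧ zq ≠ 1 := by
      have hne := Group.IsNilpotent.center_ne_bot (G ⧸ A)
      by_contra hcon2
      push Not at hcon2
      apply hne
      rw [Subgroup.eq_bot_iff_forall]
      exact hcon2
    obtain ⟨z, rfl⟩ := QuotientGroup.mk_surjective zq
    have hzA : z ∉ A := fun h => hzq1 ((QuotientGroup.eq_one_iff z).mpr h)
    have hzc : ∀ g : G, (g * z)⁻¹ * (z * g) ∈ A := by
      intro g
      rw [← QuotientGroup.eq]
      exact Subgroup.mem_center_iff.mp hzq (g : G ⧸ A)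
    have hz := hzcomm z hzc
    obtain ⟨ν, hν⟩ := twoDeg_exists_moved N hNab z hzA
    by_cases hzT : z ∈ MulAction.stabilizer G μ₀
    · exact twoDeg_counting A hAtriv hcopV m hstab z hz μ₀ ν
        (MulAction.mem_stabilizer_iff.mp hzT) hμ₀ hν
    · have hTm : (MulAction.stabilizer G μ₀).index = m := (hstab μ₀).resolve_left hμ₀
      let Tq : Subgroup (G ⧸ A) := (MulAction.stabilizer G μ₀).map (QuotientGroup.mk' A)
      let Y : Subgroup (G ⧸ A) := Tq ⊔ Subgroup.center (G ⧸ A)
      have hTqab : ∀ a ∈ Tq, ∀ b ∈ Tq, a * b = b * a := by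
        rintro _ ⟨t, ht, rfl⟩ _ ⟨s, hs, rfl⟩
        have h1 := hNA (hstabcomm μ₀ hμ₀ t ht s hs)
        have h2 : ((t * s * t⁻¹ * s⁻¹ : G) : G ⧸ A) = 1 := (QuotientGroup.eq_one_iff _).mpr h1
        show (t : G ⧸ A) * (s : G ⧸ A) = (s : G ⧸ A) * (t : G ⧸ A)
        have e : ((t * s * t⁻¹ * s⁻¹ : G) : G ⧸ A) =
            (t : G ⧸ A) * s * (t : G ⧸ A)⁻¹ * (s : G ⧸ A)⁻¹ := rfl
        rw [e] at h2
        calc (t : G ⧸ A) * s
            = ((t : G ⧸ A) * s * (t : G ⧸ A)⁻¹ * (s : G ⧸ A)⁻¹) * (s * t) := by group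
          _ = s * t := by rw [h2, one_mul]
      have hYab : ∀ a ∈ Y, ∀ b ∈ Y, a * b = b * a := by
        intro a ha b hb
        have ha' : a ∈ (Tq : Set (G ⧸ A)) * (Subgroup.center (G ⧸ A) : Set (G ⧸ A)) := by
          rw [← Subgroup.mul_normal]; exact ha
        have hb' : b ∈ (Tq : Set (G ⧸ A)) * (Subgroup.center (G ⧸ A) : Set (G ⧸ A)) := by
          rw [← Subgroup.mul_normal]; exact hb
        obtain ⟨t, ht, c, hc, rfl⟩ := Set.mem_mul.mp ha'
        obtain ⟨s, hs, d, hd, rfl⟩ := Set.mem_mul.mp hb'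
        have hc' := Subgroup.mem_center_iff.mp hc
        have hd' := Subgroup.mem_center_iff.mp hd
        have e1 : c * (s * d) = (s * d) * c := (hc' (s * d)).symm
        calc t * c * (s * d) = t * (c * (s * d)) := mul_assoc _ _ _
          _ = t * ((s * d) * c) := by rw [e1]
          _ = (t * s) * (d * c) := by group
          _ = (s * t) * (d * c) := by rw [hTqab t ht s hs]
          _ = s * ((t * d) * c) := by group
          _ = s * ((d * t) * c) := by rw [hd' t]
          _ = s * d * (t * c) := by group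
      have hzY : (z : G ⧸ A) ∈ Y := (le_sup_right : Subgroup.center (G ⧸ A) ≤ Y) hzq
      have hzTq : (z : G ⧸ A) ∉ Tq := by
        rintro ⟨t, ht, hte⟩
        have h1 : t⁻¹ * z ∈ A := QuotientGroup.eq.mp hte
        have h2 : t * (t⁻¹ * z) ∈ MulAction.stabilizer G μ₀ :=
          Subgroup.mul_mem _ ht (hAT μ₀ h1)
        rw [mul_inv_cancel_left] at h2
        exact hzT h2
      have hlt : Tq < Y := lt_of_le_of_ne le_sup_left (fun h => hzTq (h ▸ hzY))
      have hTqidx : Tq.index = m := by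
        rw [Subgroup.index_map, QuotientGroup.ker_mk', sup_of_le_left (hAT μ₀),
          MonoidHom.range_eq_top.mpr (QuotientGroup.mk'_surjective A), Subgroup.index_top,
          mul_one, hTm]
      have hYlt : Y.index < m := by
        rw [← hTqidx]
        exact Subgroup.index_strictAnti hlt
      have hcomm_ne : commutator (G ⧸ A) ≠ ⊥ := by
        intro h0
        have h1 : ⁅(x0 : G ⧸ A), (y0 : G ⧸ A)⁆ ∈ commutator (G ⧸ A) := by
          rw [commutator_def]
          exact Subgroup.commutator_mem_commutator (Subgroup.mem_top _) (Subgroup.mem_top _)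
        rw [h0, Subgroup.mem_bot, commutatorElement_def] at h1
        apply hxyq
        calc (x0 : G ⧸ A) * y0
            = ((x0 : G ⧸ A) * y0 * (x0 : G ⧸ A)⁻¹ * (y0 : G ⧸ A)⁻¹) * (y0 * x0) := by group
          _ = y0 * x0 := by rw [h1, one_mul]
      obtain ⟨ψ, hψ⟩ := Helper79.exists_nonlinear_of_commutator_ne_bot hcomm_ne
      have hle := twoDeg_irr_degree_le_index ψ Y hYab
      have hirr := Helper79.isIrrCharacter_comp (QuotientGroup.mk' A)
        (QuotientGroup.mk'_surjective A) ψ.2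
      rcases hcd ⟨_, hirr⟩ with h | h
      · exact hψ h
      · have h' : charDegree (ψ : G ⧸ A → ℂ) = m := h
        omega
  -- the stabilizer of `μ₀` is `A`
  have hle : MulAction.stabilizer G μ₀ ≤ A := by
    intro z hzT
    by_contra hzA
    have hzc : ∀ g : G, (g * z)⁻¹ * (z * g) ∈ A := by
      intro g
      have h1 := hQab z⁻¹ g⁻¹
      have e2 : (g * z)⁻¹ * (z * g) = z⁻¹ * g⁻¹ * z⁻¹⁻¹ * g⁻¹⁻¹ := by group
      rw [e2]
      exact h1
    obtain ⟨ν, hν⟩ := twoDeg_exists_moved N hNab z hzA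
    exact twoDeg_counting A hAtriv hcopV m hstab z (hzcomm z hzc) μ₀ ν
      (MulAction.mem_stabilizer_iff.mp hzT) hμ₀ hν
  have heq : MulAction.stabilizer G μ₀ = A := le_antisymm hle (hAT μ₀)
  refine ⟨A, hAn, hAab, ?_, hQab⟩
  rw [← heq]
  exact (hstab μ₀).resolve_left hμ₀

end Cfsg.Agent.Helper4
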